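import Mathlib
import Cfsg.Agent.Lib.Helper91.SO2Wrap
import Cfsg.Agent.Lib.Helper91.SSK1
import Cfsg.Agent.Lib.Helper91.SSBrauer

set_option autoImplicit false

/-!
# No non-abelian simple group of order 3780 = 2^2 * 3^3 * 5 * 7

The Sylow counting (`noSimple_of_cases`, prime `7`) leaves the local configuration
`([N(P) : C(P)], |C(P)|) = (3, 35)`.  Then `C(P)` contains an element of order `5`, rule K1
restricts the non-exceptional characters of the principal `7`-block to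
`(degree, value) ∈ {(15, 1), (20, -1), (27, -1), (30, 2), (36, 1), (54, -2)}` and forces the
exceptional degree to be at least `14`; the degree equation then has no solution.
-/

namespace Cfsg.Agent.Lib.Helper37.Ord3780

open Cfsg Cfsg.Agent.Lib.Helper17 Cfsg.Agent.Lib.Helper93.SO Cfsg.Agent.Lib.Helper91.SO2
  Cfsg.Agent.Lib.Helper91.SS

universe u

/-- candidates `(degree, value on 7-singular elements)` for the non-exceptional characters,
together with the padding entry `(0, 0)` -/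
def pp : List (ℕ × ℤ) := [(0, 0), (15, 1), (20, -1), (27, -1), (30, 2), (36, 1), (54, -2)]

/-- the admissible non-exceptional degrees -/
theorem cand (f : ℕ) (a : ℤ) (hf : f ∣ 3780) (hsq : f ^ 2 ≤ 3780)
    (ha : a ∈ ([-2, -1, 1, 2] : List ℤ)) (hmod : (f : ℤ) % 7 = a % 7) (n T : ℕ) (hT : 2 ≤ T)
    (hn : 6 * a ≤ 7 * (n : ℤ)) (h : (f : ℤ) + 6 * a = 7 * ((n : ℤ) + (T : ℤ))) :
    (f, a) ∈ pp := by
  have hf62 : f ∈ List.range 62 := by
    rw [List.mem_range]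
    nlinarith
  have key : ∀ f ∈ List.range 62, f ∣ 3780 → ∀ a ∈ ([-2, -1, 1, 2] : List ℤ),
      (f : ℤ) % 7 = a % 7 →
      (f, a) ∈ ([(1, 1), (2, 2), (5, -2), (6, -1), (9, 2), (12, -2), (15, 1), (20, -1),
        (27, -1), (30, 2), (36, 1), (54, -2)] : List (ℕ × ℤ)) := by decide +kernel
  have hmem := key f hf62 hf a ha hmod
  simp only [List.mem_cons, List.not_mem_nil, or_false, Prod.mk.injEq] at hmem
  rcases hmem with ⟨rfl, rfl⟩ | ⟨rfl, rfl⟩ | ⟨rfl, rfl⟩ | ⟨rfl, rfl⟩ | ⟨rfl, rfl⟩ | ⟨rfl, rfl⟩ |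
    ⟨rfl, rfl⟩ | ⟨rfl, rfl⟩ | ⟨rfl, rfl⟩ | ⟨rfl, rfl⟩ | ⟨rfl, rfl⟩ | ⟨rfl, rfl⟩
  · exfalso; push_cast at h; omega
  · exfalso; push_cast at h; omega
  · exfalso; push_cast at h; omega
  · exfalso; push_cast at h; omega
  · exfalso; push_cast at h; omega
  · exfalso; push_cast at h; omega
  all_goals decide

/-- a non-exceptional character of the principal `7`-block, in the presence of an element of
order `5` centralizing `P` -/
theorem nonexc {G : Type u} [Group G] [Finite G] [IsSimpleGroup G] (hG : Nat.card G = 3780)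
    (P : Sylow 7 G) (hP : Nat.card (P : Subgroup G) = 7) (c : G)
    (hc : c ∈ Subgroup.centralizer ((P : Subgroup G) : Set G)) (hc5 : orderOf c = 5)
    (χ : IrrCharacter G) (hχ1 : (χ : G → ℂ) 1 ≠ 1) (a : ℤ)
    (ha : a ∈ ([-2, -1, 1, 2] : List ℤ))
    (hval : ∀ z y : G, IsPPart 7 z y → y ∈ (P : Subgroup G) → y ≠ 1 →
      (χ : G → ℂ) z = (a : ℂ)) :
    (Cfsg.charDegree (χ : G → ℂ), a) ∈ pp := by
  have : Fact (Nat.Prime 7) := ⟨by norm_num⟩
  have hGn : ¬ (Nat.card G).Prime := by rw [hG]; norm_num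
  have hirr := χ.2
  obtain ⟨hxd, hxpos, hxdvd⟩ := Cfsg.Agent.Lib.Helper79.irr_charDegree hirr
  have hmod := Cfsg.Agent.Lib.Helper90.BrauerDeg.degree_modEq hirr 7 (P : Subgroup G) hP a
      (fun y hy hy1 => hval y y (isPPart_self (by norm_num) _ hP y hy hy1) hy hy1)
  have hmod' : ((Cfsg.charDegree (χ : G → ℂ) : ℕ) : ℤ) % 7 = a % 7 := by
    have := hmod
    unfold Int.ModEq at this
    exact_mod_cast this
  have hsq := Cfsg.Agent.Lib.Helper80.charDegree_sq_le_card hirr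
  rw [hG] at hsq hxdvd
  obtain ⟨n, T, hT, hn, h⟩ := k1_const hGn 7 (P : Subgroup G) hP χ hχ1 a hval c hc 5
    (by norm_num) (by norm_num) hc5
  refine cand _ a hxdvd hsq ha hmod' n T hT ?_ ?_
  · push_cast at hn
    linarith
  · push_cast at h
    linarith

/-- the finite verification for `[N(P) : C(P)] = 3` -/
theorem key2 : ∀ d ∈ ([-1, 0, 1] : List ℤ), ∀ δ ∈ ([1, -1] : List ℤ),
    ∀ x₁ ∈ pp, ∀ x₂ ∈ pp,
    (d - δ) ^ 2 + (2 - 1) * d ^ 2 + 1 + (x₁.2 ^ 2 + x₂.2 ^ 2) = 3 + 1 →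
    ∀ f₀ ∈ Nat.divisors 3780, 14 ≤ f₀ →
      (2 * d - δ) * (f₀ : ℤ) + 1 + (x₁.2 * (x₁.1 : ℤ) + x₂.2 * (x₂.1 : ℤ)) ≠ 0 := by
  decide +kernel

/-- a sum over `Fin k`, `k ≤ 2`, as a padded sum of two terms -/
theorem pad_sum2 (k : ℕ) (hk : k ≤ 2) (f : Fin k → ℕ) (a : Fin k → ℤ)
    (h : ∀ i, (f i, a i) ∈ pp) :
    ∃ x₁ ∈ pp, ∃ x₂ ∈ pp, ∑ i, a i ^ 2 = x₁.2 ^ 2 + x₂.2 ^ 2 ∧
      ∑ i, a i * (f i : ℤ) = x₁.2 * (x₁.1 : ℤ) + x₂.2 * (x₂.1 : ℤ) := by
  interval_cases k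
  · exact ⟨(0, 0), by decide, (0, 0), by decide, by simp, by simp⟩
  · exact ⟨(f 0, a 0), h 0, (0, 0), by decide, by simp, by simp⟩
  · exact ⟨(f 0, a 0), h 0, (f 1, a 1), h 1, by simp [Fin.sum_univ_two],
      by simp [Fin.sum_univ_two]⟩

/-- The case `[N(P) : C(P)] = 3`, `|C(P)| = 35`. -/
theorem case_3_35 {G : Type u} [Group G] [Finite G] [IsSimpleGroup G] (hG : Nat.card G = 3780)
    (P : Sylow 7 G) (hP : Nat.card (P : Subgroup G) = 7)
    (hr : (Subgroup.centralizer ((P : Subgroup G) : Set G)).relIndex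
      (Subgroup.normalizer ((P : Subgroup G) : Set G)) = 3)
    (c : G) (hc : c ∈ Subgroup.centralizer ((P : Subgroup G) : Set G)) (hc5 : orderOf c = 5) :
    False := by
  classical
  have : Fact (Nat.Prime 7) := ⟨by norm_num⟩
  have hGn : ¬ (Nat.card G).Prime := by rw [hG]; norm_num
  obtain ⟨k, χ, a, η, d, δ, hk, hδ, hχ, hη1, hηP, hnorm, hrel, -, -⟩ :=
    brauer_chars hGn 7 P hP 3 (by norm_num) hr
  have h6 : (7 - 1) / 3 = 2 := rfl
  rw [h6] at hnorm hrel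
  push_cast at hnorm
  have hsum0 : 0 ≤ ∑ i, a i ^ 2 := Finset.sum_nonneg (fun i _ => sq_nonneg (a i))
  have hd2 : d ^ 2 ≤ 3 := by nlinarith [sq_nonneg (d - δ)]
  have hdmem : d ∈ ([-1, 0, 1] : List ℤ) := by
    have h1 : -1 ≤ d := by nlinarith
    have h2 : d ≤ 1 := by nlinarith
    interval_cases d <;> simp
  have hδmem : δ ∈ ([1, -1] : List ℤ) := by
    rcases hδ with rfl | rfl <;> simp
  have hsum3 : ∑ i, a i ^ 2 ≤ 3 := by nlinarith [sq_nonneg (d - δ), sq_nonneg d]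
  have hk2 : k ≤ 2 := by omega
  -- the non-exceptional characters
  have hFmem : ∀ i, (Cfsg.charDegree (χ i : G → ℂ), a i) ∈ pp := by
    intro i
    obtain ⟨ha0, hx1, hxa⟩ := hχ i
    have hai : a i ∈ ([-2, -1, 1, 2] : List ℤ) := by
      have h1 : a i ^ 2 ≤ 3 :=
        le_trans (Finset.single_le_sum (f := fun i => a i ^ 2) (fun j _ => sq_nonneg (a j))
          (Finset.mem_univ i)) hsum3
      have h2 : -1 ≤ a i := by nlinarith
      have h3 : a i ≤ 1 := by nlinarith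
      interval_cases (a i) <;> simp_all
    exact nonexc hG P hP c hc hc5 (χ i) hx1 (a i) hai hxa
  -- the exceptional character
  obtain ⟨hyd, hypos, hydvd⟩ := Cfsg.Agent.Lib.Helper79.irr_charDegree η.2
  have hexc := k1_exc hGn 7 (P : Subgroup G) hP η hη1 hηP c hc 5 (by norm_num) (by norm_num) hc5
  obtain ⟨f0, hf0⟩ : ∃ f0, f0 = Cfsg.charDegree (η : G → ℂ) := ⟨_, rfl⟩
  rw [← hf0] at hyd hypos hydvd hexc
  rw [hG] at hydvd
  have hf0mem : f0 ∈ Nat.divisors 3780 := Nat.mem_divisors.mpr ⟨hydvd, by norm_num⟩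
  have hF1 : ∀ i, (χ i : G → ℂ) 1 = ((Cfsg.charDegree (χ i : G → ℂ) : ℕ) : ℂ) := fun i =>
    (Cfsg.Agent.Lib.Helper79.irr_charDegree (χ i).2).1
  -- the relation at 1
  have hrel1 := hrel 1 (by rw [orderOf_one]; norm_num)
  have hrelZ : (2 * d - δ) * (f0 : ℤ) + 1 +
      ∑ i, a i * (Cfsg.charDegree (χ i : G → ℂ) : ℤ) = 0 := by
    have h : (((2 * d - δ) * (f0 : ℤ) + 1 +
        ∑ i, a i * (Cfsg.charDegree (χ i : G → ℂ) : ℤ) : ℤ) : ℂ) = 0 := by
      push_cast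
      rw [← hrel1, hyd]
      push_cast
      congr 1
      exact Finset.sum_congr rfl (fun i _ => by rw [hF1 i])
    exact_mod_cast h
  obtain ⟨x₁, hx₁, x₂, hx₂, hsq, hlin⟩ :=
    pad_sum2 k hk2 (fun i => Cfsg.charDegree (χ i : G → ℂ)) a hFmem
  rw [hsq] at hnorm
  rw [hlin] at hrelZ
  refine key2 d hdmem δ hδmem x₁ hx₁ x₂ hx₂ ?_ f0 hf0mem (by omega) ?_
  · linarith
  · linarith

/-- No non-abelian simple group has order `3780 = 2^2 * 3^3 * 5 * 7`. -/
theorem noSimple_3780 : NoSimple.{u} 3780 :=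
  noSimple_of_cases 3780 7 2 540 (by norm_num) (by norm_num) (by norm_num) (by norm_num)
    (by norm_num) (by norm_num) (by norm_num) [(3, 35)] (by decide +kernel)
    (by
      intro rc hrc G _ _ _ hG P hP hr hC
      simp only [List.mem_singleton] at hrc
      subst hrc
      have h5 : 5 ∣ Nat.card (Subgroup.centralizer ((P : Subgroup G) : Set G)) := by
        rw [hC]
        decide
      have : Fact (Nat.Prime 5) := ⟨by norm_num⟩
      obtain ⟨c', hc'⟩ := exists_prime_orderOf_dvd_card'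
        (G := Subgroup.centralizer ((P : Subgroup G) : Set G)) 5 h5
      have hc5 : orderOf (c' : G) = 5 := by rw [Subgroup.orderOf_coe]; exact hc'
      exact case_3_35 hG P hP hr (c' : G) c'.2 hc5)

end Cfsg.Agent.Lib.Helper37.Ord3780
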