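import Mathlib
import Cfsg.Agent.Lib.Helper91.SO2Wrap
import Cfsg.Agent.Lib.Helper91.SSK1
import Cfsg.Agent.Lib.Helper91.SSTop
import Cfsg.Agent.Lib.Helper91.SSBrauer

set_option autoImplicit false

/-!
# No non-abelian simple group of order 4536 = 2^3 * 3^4 * 7

The Sylow counting (`noSimple_of_cases`, prime `7`) leaves the local configurations
`([N(P) : C(P)], |C(P)|) ∈ {(2, 63), (3, 42), (6, 21)}`.  In each of them `C(P)` contains an
element of order `3`, and rule K1 forces every non-exceptional character of the principal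
`7`-block to have `(degree, value) ∈ {(36, 1), (27, -1), (54, -2)}`; the degree equation then
has no solution.
-/

namespace Cfsg.Agent.Lib.Helper37.Ord4536

open Cfsg Cfsg.Agent.Lib.Helper17 Cfsg.Agent.Lib.Helper93.SO Cfsg.Agent.Lib.Helper91.SO2
  Cfsg.Agent.Lib.Helper91.SS

universe u

/-- candidates `(degree, value on 7-singular elements)` for the non-exceptional characters,
together with the padding entry `(0, 0)` -/
def pp : List (ℕ × ℤ) := [(0, 0), (36, 1), (27, -1), (54, -2)]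

/-- the admissible non-exceptional degrees -/
theorem cand (f : ℕ) (a : ℤ) (hf : f ∣ 4536) (hsq : f ^ 2 ≤ 4536)
    (ha : a ∈ ([-2, -1, 1, 2] : List ℤ)) (hmod : (f : ℤ) % 7 = a % 7) (n T : ℕ) (hT : 2 ≤ T)
    (hn : 6 * a ≤ 7 * (n : ℤ)) (h : (f : ℤ) + 6 * a = 7 * ((n : ℤ) + (T : ℤ))) :
    (f, a) ∈ ([(36, 1), (27, -1), (54, -2)] : List (ℕ × ℤ)) := by
  have hf68 : f ∈ List.range 68 := by
    rw [List.mem_range]
    nlinarith
  have key : ∀ f ∈ List.range 68, f ∣ 4536 → ∀ a ∈ ([-2, -1, 1, 2] : List ℤ),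
      (f : ℤ) % 7 = a % 7 →
      (f, a) ∈ ([(1, 1), (2, 2), (6, -1), (8, 1), (9, 2), (12, -2), (27, -1), (36, 1),
        (54, -2)] : List (ℕ × ℤ)) := by decide +kernel
  have hmem := key f hf68 hf a ha hmod
  simp only [List.mem_cons, List.not_mem_nil, or_false, Prod.mk.injEq] at hmem
  rcases hmem with ⟨rfl, rfl⟩ | ⟨rfl, rfl⟩ | ⟨rfl, rfl⟩ | ⟨rfl, rfl⟩ | ⟨rfl, rfl⟩ | ⟨rfl, rfl⟩ |
    ⟨rfl, rfl⟩ | ⟨rfl, rfl⟩ | ⟨rfl, rfl⟩
  · exfalso; push_cast at h; omega
  · exfalso; push_cast at h; omega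
  · exfalso; push_cast at h; omega
  · exfalso; push_cast at h; omega
  · exfalso; push_cast at h; omega
  · exfalso; push_cast at h; omega
  all_goals decide

/-- a non-exceptional character of the principal `7`-block, in the presence of an element of
order `3` centralizing `P` -/
theorem nonexc {G : Type u} [Group G] [Finite G] [IsSimpleGroup G] (hG : Nat.card G = 4536)
    (P : Sylow 7 G) (hP : Nat.card (P : Subgroup G) = 7) (c : G)
    (hc : c ∈ Subgroup.centralizer ((P : Subgroup G) : Set G)) (hc3 : orderOf c = 3)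
    (χ : IrrCharacter G) (hχ1 : (χ : G → ℂ) 1 ≠ 1) (a : ℤ)
    (ha : a ∈ ([-2, -1, 1, 2] : List ℤ))
    (hval : ∀ z y : G, IsPPart 7 z y → y ∈ (P : Subgroup G) → y ≠ 1 →
      (χ : G → ℂ) z = (a : ℂ)) :
    (Cfsg.charDegree (χ : G → ℂ), a) ∈ ([(36, 1), (27, -1), (54, -2)] : List (ℕ × ℤ)) := by
  have : Fact (Nat.Prime 7) := ⟨by norm_num⟩
  have hGn : ¬ (Nat.card G).Prime := by rw [hG]; norm_num
  have hirr := χ.2
  obtain ⟨hxd, hxpos, hxdvd⟩ := Cfsg.Agent.Lib.Helper79.irr_charDegree hirr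
  have hmod := Cfsg.Agent.Lib.Helper90.BrauerDeg.degree_modEq hirr 7 (P : Subgroup G) hP a
      (fun y hy hy1 => hval y y (isPPart_self (by norm_num) _ hP y hy hy1) hy hy1)
  have hmod' : ((Cfsg.charDegree (χ : G → ℂ) : ℕ) : ℤ) % 7 = a % 7 := by
    have := hmod
    unfold Int.ModEq at this
    exact_mod_cast this
  have hsq := Cfsg.Agent.Lib.Helper80.charDegree_sq_le_card hirr
  rw [hG] at hsq hxdvd
  obtain ⟨n, T, hT, hn, h⟩ := k1_const hGn 7 (P : Subgroup G) hP χ hχ1 a hval c hc 3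
    (by norm_num) (by norm_num) hc3
  refine cand _ a hxdvd hsq ha hmod' n T hT ?_ ?_
  · push_cast at hn
    linarith
  · push_cast at h
    linarith

/-- The case `[N(P) : C(P)] = 6`. -/
theorem case_top {G : Type u} [Group G] [Finite G] [IsSimpleGroup G] (hG : Nat.card G = 4536)
    (P : Sylow 7 G) (hP : Nat.card (P : Subgroup G) = 7)
    (hr : (Subgroup.centralizer ((P : Subgroup G) : Set G)).relIndex
      (Subgroup.normalizer ((P : Subgroup G) : Set G)) = 6)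
    (c : G) (hc : c ∈ Subgroup.centralizer ((P : Subgroup G) : Set G)) (hc3 : orderOf c = 3) :
    False := by
  classical
  have : Fact (Nat.Prime 7) := ⟨by norm_num⟩
  have hGn : ¬ (Nat.card G).Prime := by rw [hG]; norm_num
  obtain ⟨k, χ, a, -, hχ, hnorm, hrel, -⟩ := brauer_top hGn 7 P hP hr
  have hsum6 : ∑ i, a i ^ 2 = 6 := by
    push_cast at hnorm
    linarith
  have hmem : ∀ i, (Cfsg.charDegree (χ i : G → ℂ), a i) ∈
      ([(36, 1), (27, -1), (54, -2)] : List (ℕ × ℤ)) := by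
    intro i
    obtain ⟨ha0, hx1, hxa⟩ := hχ i
    have hai : a i ∈ ([-2, -1, 1, 2] : List ℤ) := by
      have h1 : a i ^ 2 ≤ 6 :=
        le_trans (Finset.single_le_sum (f := fun i => a i ^ 2) (fun j _ => sq_nonneg (a j))
          (Finset.mem_univ i)) hsum6.le
      have h2 : -2 ≤ a i := by nlinarith
      have h3 : a i ≤ 2 := by nlinarith
      interval_cases (a i) <;> simp_all
    exact nonexc hG P hP c hc hc3 (χ i) hx1 (a i) hai hxa
  have h9 : ∀ i, (9 : ℤ) ∣ a i * (Cfsg.charDegree (χ i : G → ℂ) : ℤ) := by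
    intro i
    have h := hmem i
    simp only [List.mem_cons, List.not_mem_nil, or_false, Prod.mk.injEq] at h
    rcases h with ⟨h1, h2⟩ | ⟨h1, h2⟩ | ⟨h1, h2⟩ <;> rw [h1, h2] <;> norm_num
  have hF1 : ∀ i, (χ i : G → ℂ) 1 = ((Cfsg.charDegree (χ i : G → ℂ) : ℕ) : ℂ) := fun i =>
    (Cfsg.Agent.Lib.Helper79.irr_charDegree (χ i).2).1
  have hrel1 := hrel 1 (by rw [orderOf_one]; norm_num)
  have hrelZ : 1 + ∑ i, a i * (Cfsg.charDegree (χ i : G → ℂ) : ℤ) = 0 := by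
    have h : ((1 + ∑ i, a i * (Cfsg.charDegree (χ i : G → ℂ) : ℤ) : ℤ) : ℂ) = 0 := by
      push_cast
      rw [← hrel1]
      congr 1
      exact Finset.sum_congr rfl (fun i _ => by rw [hF1 i])
    exact_mod_cast h
  have hd : (9 : ℤ) ∣ ∑ i, a i * (Cfsg.charDegree (χ i : G → ℂ) : ℤ) :=
    Finset.dvd_sum (fun i _ => h9 i)
  omega

/-- the finite verification for `[N(P) : C(P)] ∈ {2, 3}` -/
theorem key2 : ∀ m ∈ ([2, 3] : List ℕ), ∀ d ∈ ([-1, 0, 1] : List ℤ), ∀ δ ∈ ([1, -1] : List ℤ),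
    ∀ x₁ ∈ pp, ∀ x₂ ∈ pp,
    (d - δ) ^ 2 + (((6 / m : ℕ) : ℤ) - 1) * d ^ 2 + 1 + (x₁.2 ^ 2 + x₂.2 ^ 2) = (m : ℤ) + 1 →
    ∀ f₀ ∈ Nat.divisors 4536,
      (((6 / m : ℕ) : ℤ) * d - δ) * (f₀ : ℤ) + 1 +
        (x₁.2 * (x₁.1 : ℤ) + x₂.2 * (x₂.1 : ℤ)) ≠ 0 := by
  decide +kernel

/-- a sum over `Fin k`, `k ≤ 2`, as a padded sum of two terms -/
theorem pad_sum2 (k : ℕ) (hk : k ≤ 2) (f : Fin k → ℕ) (a : Fin k → ℤ)
    (h : ∀ i, (f i, a i) ∈ pp) :
    ∃ x₁ ∈ pp, ∃ x₂ ∈ pp, ∑ i, a i ^ 2 = x₁.2 ^ 2 + x₂.2 ^ 2 ∧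
      ∑ i, a i * (f i : ℤ) = x₁.2 * (x₁.1 : ℤ) + x₂.2 * (x₂.1 : ℤ) := by
  interval_cases k
  · exact ⟨(0, 0), by decide, (0, 0), by decide, by simp, by simp⟩
  · exact ⟨(f 0, a 0), h 0, (0, 0), by decide, by simp, by simp⟩
  · exact ⟨(f 0, a 0), h 0, (f 1, a 1), h 1, by simp [Fin.sum_univ_two],
      by simp [Fin.sum_univ_two]⟩

/-- The cases `[N(P) : C(P)] ∈ {2, 3}`. -/
theorem case_small {G : Type u} [Group G] [Finite G] [IsSimpleGroup G] (hG : Nat.card G = 4536)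
    (P : Sylow 7 G) (hP : Nat.card (P : Subgroup G) = 7) (m : ℕ) (hm : m ∈ ([2, 3] : List ℕ))
    (hr : (Subgroup.centralizer ((P : Subgroup G) : Set G)).relIndex
      (Subgroup.normalizer ((P : Subgroup G) : Set G)) = m)
    (c : G) (hc : c ∈ Subgroup.centralizer ((P : Subgroup G) : Set G)) (hc3 : orderOf c = 3) :
    False := by
  classical
  have : Fact (Nat.Prime 7) := ⟨by norm_num⟩
  have hGn : ¬ (Nat.card G).Prime := by rw [hG]; norm_num
  have hm' : m = 2 ∨ m = 3 := by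
    simpa only [List.mem_cons, List.not_mem_nil, or_false] using hm
  obtain ⟨k, χ, a, η, d, δ, hk, hδ, hχ, hη1, -, hnorm, hrel, -, -⟩ :=
    brauer_chars hGn 7 P hP m (by omega) hr
  have h6 : (7 - 1) / m = 6 / m := rfl
  rw [h6] at hnorm hrel
  obtain ⟨T, hTdef⟩ : ∃ T : ℤ, T = ((6 / m : ℕ) : ℤ) := ⟨_, rfl⟩
  have hT2 : 2 ≤ T := by
    rw [hTdef]
    rcases hm' with rfl | rfl <;> norm_num
  have hm3 : (m : ℤ) ≤ 3 := by
    have : m ≤ 3 := by omega
    exact_mod_cast this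
  rw [← hTdef] at hnorm
  have hsum0 : 0 ≤ ∑ i, a i ^ 2 := Finset.sum_nonneg (fun i _ => sq_nonneg (a i))
  have hTd : 0 ≤ (T - 2) * d ^ 2 := mul_nonneg (by linarith) (sq_nonneg d)
  have hd2 : d ^ 2 ≤ 3 := by nlinarith [sq_nonneg (d - δ)]
  have hdmem : d ∈ ([-1, 0, 1] : List ℤ) := by
    have h1 : -1 ≤ d := by nlinarith
    have h2 : d ≤ 1 := by nlinarith
    interval_cases d <;> simp
  have hδmem : δ ∈ ([1, -1] : List ℤ) := by
    rcases hδ with rfl | rfl <;> simp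
  have hsum3 : ∑ i, a i ^ 2 ≤ 3 := by nlinarith [sq_nonneg (d - δ), sq_nonneg d]
  have hk2 : k ≤ 2 := by omega
  -- the non-exceptional characters
  have hFmem : ∀ i, (Cfsg.charDegree (χ i : G → ℂ), a i) ∈ pp := by
    intro i
    obtain ⟨ha0, hx1, hxa⟩ := hχ i
    have hai : a i ∈ ([-2, -1, 1, 2] : List ℤ) := by
      have h1 : a i ^ 2 ≤ 3 :=
        le_trans (Finset.single_le_sum (f := fun i => a i ^ 2) (fun j _ => sq_nonneg (a j))
          (Finset.mem_univ i)) hsum3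
      have h2 : -1 ≤ a i := by nlinarith
      have h3 : a i ≤ 1 := by nlinarith
      interval_cases (a i) <;> simp_all
    have h := nonexc hG P hP c hc hc3 (χ i) hx1 (a i) hai hxa
    unfold pp
    exact List.mem_cons_of_mem _ h
  -- the exceptional character
  obtain ⟨hyd, hypos, hydvd⟩ := Cfsg.Agent.Lib.Helper79.irr_charDegree η.2
  obtain ⟨f0, hf0⟩ : ∃ f0, f0 = Cfsg.charDegree (η : G → ℂ) := ⟨_, rfl⟩
  rw [← hf0] at hyd hypos hydvd
  rw [hG] at hydvd
  have hf0mem : f0 ∈ Nat.divisors 4536 := Nat.mem_divisors.mpr ⟨hydvd, by norm_num⟩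
  have hF1 : ∀ i, (χ i : G → ℂ) 1 = ((Cfsg.charDegree (χ i : G → ℂ) : ℕ) : ℂ) := fun i =>
    (Cfsg.Agent.Lib.Helper79.irr_charDegree (χ i).2).1
  -- the relation at 1
  have hrel1 := hrel 1 (by rw [orderOf_one]; norm_num)
  have hrelZ : (T * d - δ) * (f0 : ℤ) + 1 +
      ∑ i, a i * (Cfsg.charDegree (χ i : G → ℂ) : ℤ) = 0 := by
    have h : (((T * d - δ) * (f0 : ℤ) + 1 +
        ∑ i, a i * (Cfsg.charDegree (χ i : G → ℂ) : ℤ) : ℤ) : ℂ) = 0 := by
      rw [hTdef]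
      push_cast
      rw [← hrel1, hyd]
      congr 1
      exact Finset.sum_congr rfl (fun i _ => by rw [hF1 i])
    exact_mod_cast h
  obtain ⟨x₁, hx₁, x₂, hx₂, hsq, hlin⟩ :=
    pad_sum2 k hk2 (fun i => Cfsg.charDegree (χ i : G → ℂ)) a hFmem
  rw [hsq] at hnorm
  rw [hlin] at hrelZ
  refine key2 m hm d hdmem δ hδmem x₁ hx₁ x₂ hx₂ ?_ f0 hf0mem ?_
  · rw [← hTdef]
    linarith
  · rw [← hTdef]
    linarith

/-- No non-abelian simple group has order `4536 = 2^3 * 3^4 * 7`. -/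
theorem noSimple_4536 : NoSimple.{u} 4536 :=
  noSimple_of_cases 4536 7 2 648 (by norm_num) (by norm_num) (by norm_num) (by norm_num)
    (by norm_num) (by norm_num) (by norm_num) [(2, 63), (3, 42), (6, 21)] (by decide +kernel)
    (by
      intro rc hrc G _ _ _ hG P hP hr hC
      have h3 : 3 ∣ Nat.card (Subgroup.centralizer ((P : Subgroup G) : Set G)) := by
        rw [hC]
        simp only [List.mem_cons, List.not_mem_nil, or_false] at hrc
        rcases hrc with rfl | rfl | rfl <;> decide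
      obtain ⟨c', hc'⟩ := exists_prime_orderOf_dvd_card'
        (G := Subgroup.centralizer ((P : Subgroup G) : Set G)) 3 h3
      have hc3 : orderOf (c' : G) = 3 := by rw [Subgroup.orderOf_coe]; exact hc'
      simp only [List.mem_cons, List.not_mem_nil, or_false] at hrc
      rcases hrc with rfl | rfl | rfl
      · exact case_small hG P hP 2 (by simp) hr (c' : G) c'.2 hc3
      · exact case_small hG P hP 3 (by simp) hr (c' : G) c'.2 hc3
      · exact case_top hG P hP hr (c' : G) c'.2 hc3)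

end Cfsg.Agent.Lib.Helper37.Ord4536
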