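-- helper37: automorphisms of the Suzuki 2-group, part 1: the field-level rigidity lemma
-- (a pair of additive bijections compatible with the norm map is semilinear).
import Mathlib
import Cfsg.Agent.Lib.Helper37.SzTwist

set_option autoImplicit false

namespace Cfsg.Agent.Lib.Helper37

section HuaField

variable {F : Type*} [Field F] {s : ℕ}

/-- the additive map `y ↦ y ^ s + y` -/
def szPsi (h : SzData F s) : F →+ F where
  toFun y := y ^ s + y
  map_zero' := by rw [h.th_zero, add_zero]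
  map_add' x y := by rw [h.add]; ring

theorem szPsi_apply (h : SzData F s) (y : F) : szPsi h y = y ^ s + y := rfl

theorem szPsi_eq_zero_iff (h : SzData F s) (y : F) : szPsi h y = 0 ↔ y = 0 ∨ y = 1 := by
  rw [szPsi_apply]
  constructor
  · intro h1
    have h2 : y ^ s = y := by linear_combination h1 - y * h.two
    have h3 : y ^ 2 = y := by rw [← h.sq y, h2, h2]
    have h4 : y * (y - 1) = 0 := by linear_combination h3
    rcases mul_eq_zero.mp h4 with h5 | h5
    · exact Or.inl h5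
    · exact Or.inr (sub_eq_zero.mp h5)
  · rintro (rfl | rfl)
    · rw [h.th_zero, add_zero]
    · rw [one_pow]; linear_combination h.two

theorem szPsi_card_ker (h : SzData F s) : Nat.card (szPsi h).ker = 2 := by
  rw [Nat.card_eq_two_iff]
  refine ⟨⟨0, (szPsi h).map_zero⟩, ⟨1, (szPsi_eq_zero_iff h 1).mpr (Or.inr rfl)⟩, ?_, ?_⟩
  · intro hc
    have := congrArg Subtype.val hc
    exact zero_ne_one this
  · ext ⟨y, hy⟩
    simp only [Set.mem_insert_iff, Set.mem_singleton_iff, Set.mem_univ, iff_true]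
    rcases (szPsi_eq_zero_iff h y).mp hy with h1 | h1
    · left
      exact Subtype.ext h1
    · right
      exact Subtype.ext h1

theorem szPsi_range_index [Finite F] (h : SzData F s) : (szPsi h).range.index = 2 := by
  have h2 := AddSubgroup.card_mul_index (szPsi h).ker
  rw [AddSubgroup.index_ker, szPsi_card_ker] at h2
  have h3 := AddSubgroup.card_mul_index (szPsi h).range
  have h4 : 0 < Nat.card (szPsi h).range := Nat.card_pos
  have h5 : Nat.card (szPsi h).range * (szPsi h).range.index = Nat.card (szPsi h).range * 2 := by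
    rw [h3, ← h2, mul_comm]
  exact Nat.eq_of_mul_eq_mul_left h4 h5

theorem szPsi_range_ne_top [Finite F] (h : SzData F s) : ∃ w : F, w ∉ (szPsi h).range := by
  by_contra hc
  push Not at hc
  have h1 : (szPsi h).range = ⊤ := by
    ext w
    simp [hc w]
  have h2 := szPsi_range_index h
  rw [h1, AddSubgroup.index_top] at h2
  omega

theorem SzData.pow_succ_inj_fin [Finite F] (h : SzData F s) {x y : F} (hxy : x ^ (s + 1) = y ^ (s + 1)) :
    x = y := by
  have hsurj : Function.Surjective (fun x : F => x ^ (s + 1)) := fun c => h.exists_pow_succ c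
  exact (Finite.injective_iff_surjective.mpr hsurj) hxy

/-- a pair of additive injections of the field compatible with `x ↦ x ^ (s + 1)` -/
structure SzPair (s : ℕ) (A C : F → F) : Prop where
  addA : ∀ x y, A (x + y) = A x + A y
  addC : ∀ x y, C (x + y) = C x + C y
  injA : Function.Injective A
  injC : Function.Injective C
  norm : ∀ x, C (x ^ (s + 1)) = A x ^ (s + 1)

variable {A C : F → F}

theorem SzPair.A_zero (hp : SzPair s A C) : A 0 = 0 := by
  have h1 := hp.addA 0 0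
  rw [add_zero] at h1
  exact left_eq_add.mp h1

theorem SzPair.C_zero (hp : SzPair s A C) : C 0 = 0 := by
  have h1 := hp.addC 0 0
  rw [add_zero] at h1
  exact left_eq_add.mp h1

theorem SzPair.A_ne_zero (hp : SzPair s A C) {a : F} (ha : a ≠ 0) : A a ≠ 0 := by
  intro hc
  rw [← hp.A_zero] at hc
  exact ha (hp.injA hc)

theorem SzPair.C_ne_zero (hp : SzPair s A C) {a : F} (ha : a ≠ 0) : C a ≠ 0 := by
  intro hc
  rw [← hp.C_zero] at hc
  exact ha (hp.injC hc)

theorem SzPair.polar (hp : SzPair s A C) (h : SzData F s) (a c : F) :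
    C (a ^ s * c + c ^ s * a) = A a ^ s * A c + A c ^ s * A a := by
  have h1 := hp.norm (a + c)
  rw [hp.addA] at h1
  have h2 : (a + c) ^ (s + 1) = a ^ (s + 1) + (a ^ s * c + c ^ s * a) + c ^ (s + 1) := by
    rw [pow_succ, h.add]; ring
  have h3 : (A a + A c) ^ (s + 1) = A a ^ (s + 1) + (A a ^ s * A c + A c ^ s * A a) + A c ^ (s + 1) := by
    rw [pow_succ, h.add]; ring
  rw [h2, h3, hp.addC, hp.addC, hp.norm, hp.norm] at h1
  linear_combination h1

theorem SzPair.hyper (hp : SzPair s A C) (h : SzData F s) {u : F} (hu : u ≠ 0) {w : F}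
    (hw : w ∈ (szPsi h).range) : C (u * w) / C u ∈ (szPsi h).range := by
  obtain ⟨a, rfl⟩ := h.exists_pow_succ u
  have ha : a ≠ 0 := by
    rintro rfl
    exact hu (zero_pow (Nat.succ_ne_zero s))
  obtain ⟨y, rfl⟩ := hw
  have hAa := hp.A_ne_zero ha
  have h1 : a ^ (s + 1) * szPsi h y = a ^ s * (a * y) + (a * y) ^ s * a := by
    rw [szPsi_apply]; ring
  rw [h1, hp.polar h, hp.norm]
  refine ⟨A (a * y) / A a, ?_⟩
  rw [szPsi_apply, div_pow]
  field_simp
  ring

theorem SzPair.symm (hp : SzPair s A C) {A' C' : F → F}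
    (hA : ∀ x, A (A' x) = x) (hC : ∀ x, C (C' x) = x) : SzPair s A' C' where
  addA x y := by
    apply hp.injA
    rw [hp.addA, hA, hA, hA]
  addC x y := by
    apply hp.injC
    rw [hp.addC, hC, hC, hC]
  injA x y hxy := by
    rw [← hA x, ← hA y, hxy]
  injC x y hxy := by
    rw [← hC x, ← hC y, hxy]
  norm x := by
    apply hp.injC
    rw [hC, hp.norm, hA]

theorem SzPair.hyper_iff [Finite F] (hp : SzPair s A C) (h : SzData F s) {u : F} (hu : u ≠ 0) (x : F) :
    C x / C u ∈ (szPsi h).range ↔ x / u ∈ (szPsi h).range := by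
  constructor
  · intro hw
    have hAb : Function.Bijective A := ⟨hp.injA, Finite.surjective_of_injective hp.injA⟩
    have hCb : Function.Bijective C := ⟨hp.injC, Finite.surjective_of_injective hp.injC⟩
    obtain ⟨A', hA'⟩ := hAb.surjective.hasRightInverse
    obtain ⟨C', hC'⟩ := hCb.surjective.hasRightInverse
    have hp' : SzPair s A' C' := hp.symm hA' hC'
    have hC'' : ∀ x, C' (C x) = x := fun x => hp.injC (hC' (C x))
    have h1 := hp'.hyper h (hp.C_ne_zero hu) hw
    rw [mul_div_cancel₀ _ (hp.C_ne_zero hu), hC'', hC''] at h1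
    exact h1
  · intro hw
    have h1 := hp.hyper h hu hw
    rw [mul_div_cancel₀ _ hu] at h1
    exact h1

theorem SzPair.prod_iff [Finite F] (hp : SzPair s A C) (h : SzData F s) (x z : F) :
    C x * (C z⁻¹)⁻¹ ∈ (szPsi h).range ↔ x * z ∈ (szPsi h).range := by
  by_cases hz : z = 0
  · subst hz
    rw [inv_zero, hp.C_zero, inv_zero, mul_zero, mul_zero]
  · have h1 := hp.hyper_iff h (inv_ne_zero hz) x
    rw [div_eq_mul_inv, div_eq_mul_inv, inv_inv] at h1
    exact h1

theorem SzPair.D_add [Finite F] (hp : SzPair s A C) (h : SzData F s) (z₁ z₂ : F) :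
    (C (z₁ + z₂)⁻¹)⁻¹ = (C z₁⁻¹)⁻¹ + (C z₂⁻¹)⁻¹ := by
  by_contra hne
  have hδ : (C (z₁ + z₂)⁻¹)⁻¹ + ((C z₁⁻¹)⁻¹ + (C z₂⁻¹)⁻¹) ≠ 0 := by
    intro hc
    apply hne
    linear_combination hc - ((C z₁⁻¹)⁻¹ + (C z₂⁻¹)⁻¹) * h.two
  have hidx := szPsi_range_index h
  have hall : ∀ x : F, C x * ((C (z₁ + z₂)⁻¹)⁻¹ + ((C z₁⁻¹)⁻¹ + (C z₂⁻¹)⁻¹)) ∈ (szPsi h).range := by
    intro x
    rw [mul_add, mul_add, AddSubgroup.add_mem_iff_of_index_two hidx,
      AddSubgroup.add_mem_iff_of_index_two hidx, hp.prod_iff h, hp.prod_iff h, hp.prod_iff h,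
      mul_add, AddSubgroup.add_mem_iff_of_index_two hidx]
  obtain ⟨w, hw⟩ := szPsi_range_ne_top h
  apply hw
  have hCs : Function.Surjective C := Finite.surjective_of_injective hp.injC
  obtain ⟨x, hx⟩ := hCs (w / ((C (z₁ + z₂)⁻¹)⁻¹ + ((C z₁⁻¹)⁻¹ + (C z₂⁻¹)⁻¹)))
  have h1 := hall x
  rw [hx, div_mul_cancel₀ _ hδ] at h1
  exact h1

theorem hua_field_id {K : Type*} [Field K] (X Y : K) (hX : X ≠ 0) (hY : Y ≠ 0) (hYX : Y - X ≠ 0) :
    (X⁻¹ + (Y - X)⁻¹)⁻¹ = X - X ^ 2 * Y⁻¹ := by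
  have e : X⁻¹ + (Y - X)⁻¹ = Y / (X * (Y - X)) := by
    field_simp
    ring
  rw [e, inv_div]
  field_simp

theorem SzPair.C_sub (hp : SzPair s A C) (x y : F) : C (x - y) = C x - C y := by
  have h1 := hp.addC (x - y) y
  rw [sub_add_cancel] at h1
  rw [h1, add_sub_cancel_right]

theorem SzPair.hua_gen [Finite F] (hp : SzPair s A C) (h : SzData F s) (a b : F) :
    C (a ^ 2 * b) = C a ^ 2 * (C b⁻¹)⁻¹ := by
  by_cases ha : a = 0
  · subst ha
    simp [hp.C_zero]
  by_cases hb : b = 0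
  · subst hb
    simp [hp.C_zero]
  by_cases hab : a * b = 1
  · have hb' : b = a⁻¹ := eq_inv_of_mul_eq_one_right hab
    subst hb'
    rw [inv_inv, pow_two, mul_assoc, mul_inv_cancel₀ ha, mul_one, pow_two, mul_assoc,
      mul_inv_cancel₀ (hp.C_ne_zero ha), mul_one]
  have hCa := hp.C_ne_zero ha
  have hbi : b⁻¹ ≠ 0 := inv_ne_zero hb
  have hCb := hp.C_ne_zero hbi
  have hba : b⁻¹ - a ≠ 0 := by
    intro hc
    apply hab
    rw [← sub_eq_zero.mp hc, inv_mul_cancel₀ hb]
  have hCba : C b⁻¹ - C a ≠ 0 := by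
    rw [← hp.C_sub]
    exact hp.C_ne_zero hba
  have h1 : a - a ^ 2 * b = (a⁻¹ + (b⁻¹ - a)⁻¹)⁻¹ := by
    rw [hua_field_id a b⁻¹ ha hbi hba, inv_inv]
  have h2 := hp.D_add h a⁻¹ (b⁻¹ - a)⁻¹
  rw [inv_inv, inv_inv] at h2
  have h3 : C (a - a ^ 2 * b) = ((C a)⁻¹ + (C (b⁻¹ - a))⁻¹)⁻¹ := by rw [h1, ← h2, inv_inv]
  rw [hp.C_sub, hp.C_sub] at h3
  have h4 : ((C a)⁻¹ + (C b⁻¹ - C a)⁻¹)⁻¹ = C a - C a ^ 2 * (C b⁻¹)⁻¹ :=
    hua_field_id (C a) (C b⁻¹) hCa hCb hCba
  rw [h4] at h3
  linear_combination -h3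

/-- the rigidity lemma: the first map of a compatible pair is semilinear -/
theorem SzPair.semilinear [Finite F] (hp : SzPair s A C) (h : SzData F s) :
    ∃ (l : F) (σ : F ≃+* F), l ≠ 0 ∧ ∀ x, A x = l * σ x := by
  have hc0 : C 1 ≠ 0 := hp.C_ne_zero one_ne_zero
  have hD : ∀ y, (C y⁻¹)⁻¹ = (C 1 ^ 2)⁻¹ * C y := by
    intro y
    have h1 := hp.hua_gen h 1 y
    rw [one_pow, one_mul] at h1
    rw [h1]
    field_simp
  have hmul : ∀ x y, (C 1)⁻¹ * C (x * y) = (C 1)⁻¹ * C x * ((C 1)⁻¹ * C y) := by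
    intro x y
    obtain ⟨a, rfl⟩ := h.exists_sqrt x
    have h1 := hp.hua_gen h a y
    have h2 := hp.hua_gen h a 1
    rw [mul_one, inv_one] at h2
    rw [h1, h2, hD]
    field_simp
  let σ₀ : F →+* F :=
    { toFun := fun x => (C 1)⁻¹ * C x
      map_one' := inv_mul_cancel₀ hc0
      map_mul' := hmul
      map_zero' := by rw [hp.C_zero, mul_zero]
      map_add' := fun x y => by rw [hp.addC, mul_add] }
  have hσi : Function.Injective σ₀ := by
    intro x y hxy
    apply hp.injC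
    exact mul_left_cancel₀ (inv_ne_zero hc0) hxy
  have hσb : Function.Bijective σ₀ := ⟨hσi, Finite.surjective_of_injective hσi⟩
  obtain ⟨l, hl⟩ := h.exists_pow_succ (C 1)
  refine ⟨l, RingEquiv.ofBijective σ₀ hσb, ?_, ?_⟩
  · rintro rfl
    apply hc0
    rw [← hl, zero_pow (Nat.succ_ne_zero s)]
  · intro x
    apply h.pow_succ_inj_fin
    rw [← hp.norm, mul_pow, hl]
    have h1 : (RingEquiv.ofBijective σ₀ hσb) x ^ (s + 1) = (C 1)⁻¹ * C (x ^ (s + 1)) := by
      rw [← map_pow]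
      rfl
    rw [h1]
    field_simp

end HuaField

end Cfsg.Agent.Lib.Helper37
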