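-- helper37: automorphisms of the Suzuki 2-group, part 2: coordinates of an automorphism,
-- the induced compatible pair, and construction of automorphisms from coordinate maps.
import Mathlib
import Cfsg.Agent.Lib.Helper37.SzAutA

set_option autoImplicit false

namespace Cfsg.Agent.Lib.Helper37

section AutCoord

variable {F : Type*} [Field F] {s : ℕ} {S : Type*} [Group S] {t : F → F → S}

/-- first coordinate of an element of the twisted group -/
noncomputable def SzTw.fst (ht : SzTw s t) (x : S) : F := (ht.surj x).choose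

/-- second coordinate of an element of the twisted group -/
noncomputable def SzTw.snd (ht : SzTw s t) (x : S) : F := (ht.surj x).choose_spec.choose

theorem SzTw.eq_t (ht : SzTw s t) (x : S) : x = t (ht.fst x) (ht.snd x) :=
  (ht.surj x).choose_spec.choose_spec

theorem SzTw.fst_t (ht : SzTw s t) (a b : F) : ht.fst (t a b) = a :=
  (ht.inj _ _ _ _ (ht.eq_t (t a b))).1.symm

theorem SzTw.snd_t (ht : SzTw s t) (a b : F) : ht.snd (t a b) = b :=
  (ht.inj _ _ _ _ (ht.eq_t (t a b))).2.symm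

theorem SzTw.fst_mul (ht : SzTw s t) (x y : S) : ht.fst (x * y) = ht.fst x + ht.fst y := by
  conv_lhs => rw [ht.eq_t x, ht.eq_t y, ht.mul]
  rw [ht.fst_t]

/-- the map induced on the quotient by the centre -/
noncomputable def szAutA (ht : SzTw s t) (φ : MulAut S) (a : F) : F := ht.fst (φ (t a 0))

/-- the map induced on the centre -/
noncomputable def szAutC (ht : SzTw s t) (φ : MulAut S) (b : F) : F := ht.snd (φ (t 0 b))

/-- the cocycle part -/
noncomputable def szAutf (ht : SzTw s t) (φ : MulAut S) (a : F) : F := ht.snd (φ (t a 0))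

theorem SzTw.aut_central (ht : SzTw s t) (h : SzData F s) (φ : MulAut S) (b : F) :
    φ (t 0 b) = t 0 (szAutC ht φ b) := by
  have h1 : φ (t 0 b) ∈ Subgroup.center S := by
    rw [Subgroup.mem_center_iff]
    intro g
    have h2 : t 0 b ∈ Subgroup.center S := (ht.mem_center_iff h 0 b).mpr rfl
    rw [Subgroup.mem_center_iff] at h2
    have h3 := h2 (φ⁻¹ g)
    have h4 := congrArg φ h3
    rw [map_mul, map_mul, MulAut.apply_inv_self] at h4
    exact h4
  rw [ht.eq_t (φ (t 0 b)), ht.mem_center_iff h] at h1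
  conv_lhs => rw [ht.eq_t (φ (t 0 b)), h1]
  rfl

theorem SzTw.aut_apply (ht : SzTw s t) (h : SzData F s) (φ : MulAut S) (a b : F) :
    φ (t a b) = t (szAutA ht φ a) (szAutf ht φ a + szAutC ht φ b) := by
  have h1 : t a b = t a 0 * t 0 b := by
    rw [ht.mul_central h, zero_add]
  rw [h1, map_mul, ht.aut_central h, ht.eq_t (φ (t a 0)), ht.mul_central h]
  rfl

theorem szAutA_fst (ht : SzTw s t) (h : SzData F s) (φ : MulAut S) (x : S) :
    ht.fst (φ x) = szAutA ht φ (ht.fst x) := by
  conv_lhs => rw [ht.eq_t x, ht.aut_apply h, ht.fst_t]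

theorem szAutA_one (ht : SzTw s t) (a : F) : szAutA ht (1 : MulAut S) a = a := by
  unfold szAutA
  rw [MulAut.one_apply, ht.fst_t]

theorem szAutA_mul (ht : SzTw s t) (h : SzData F s) (φ ψ : MulAut S) (a : F) :
    szAutA ht (φ * ψ) a = szAutA ht φ (szAutA ht ψ a) := by
  unfold szAutA
  rw [MulAut.mul_apply, szAutA_fst ht h]
  rfl

theorem szAutA_inv_apply (ht : SzTw s t) (h : SzData F s) (φ : MulAut S) (a : F) :
    szAutA ht φ⁻¹ (szAutA ht φ a) = a := by
  rw [← szAutA_mul ht h, inv_mul_cancel, szAutA_one]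

theorem szAutA_apply_inv (ht : SzTw s t) (h : SzData F s) (φ : MulAut S) (a : F) :
    szAutA ht φ (szAutA ht φ⁻¹ a) = a := by
  rw [← szAutA_mul ht h, mul_inv_cancel, szAutA_one]

theorem szAutC_inv_apply (ht : SzTw s t) (h : SzData F s) (φ : MulAut S) (b : F) :
    szAutC ht φ⁻¹ (szAutC ht φ b) = b := by
  have h1 : φ⁻¹ (φ (t 0 b)) = t 0 b := MulAut.inv_apply_self _ _ _
  rw [ht.aut_central h, ht.aut_central h] at h1
  exact (ht.inj _ _ _ _ h1).2

theorem szAutA_add (ht : SzTw s t) (h : SzData F s) (φ : MulAut S) (a c : F) :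
    szAutA ht φ (a + c) = szAutA ht φ a + szAutA ht φ c := by
  have h1 : φ (t a 0 * t c 0) = φ (t a 0) * φ (t c 0) := map_mul _ _ _
  rw [ht.mul] at h1
  have h2 := congrArg ht.fst h1
  rw [ht.fst_mul, ht.aut_apply h, ht.fst_t] at h2
  exact h2

theorem szAutC_add (ht : SzTw s t) (h : SzData F s) (φ : MulAut S) (b d : F) :
    szAutC ht φ (b + d) = szAutC ht φ b + szAutC ht φ d := by
  have h1 : φ (t 0 b * t 0 d) = φ (t 0 b) * φ (t 0 d) := map_mul _ _ _
  rw [ht.mul_central h, ht.aut_central h, ht.aut_central h, ht.aut_central h, ht.mul_central h] at h1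
  exact (ht.inj _ _ _ _ h1).2

theorem szAut_norm (ht : SzTw s t) (h : SzData F s) (φ : MulAut S) (a : F) :
    szAutC ht φ (a ^ (s + 1)) = szAutA ht φ a ^ (s + 1) := by
  have h1 : φ (t a 0 ^ 2) = φ (t a 0) ^ 2 := map_pow _ _ _
  rw [ht.sq h, ht.aut_central h, ht.aut_apply h, ht.sq h] at h1
  exact (ht.inj _ _ _ _ h1).2

theorem szAut_pair (ht : SzTw s t) (h : SzData F s) (φ : MulAut S) :
    SzPair s (szAutA ht φ) (szAutC ht φ) where
  addA := szAutA_add ht h φ
  addC := szAutC_add ht h φ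
  injA x y hxy := by
    rw [← szAutA_inv_apply ht h φ x, ← szAutA_inv_apply ht h φ y, hxy]
  injC x y hxy := by
    rw [← szAutC_inv_apply ht h φ x, ← szAutC_inv_apply ht h φ y, hxy]
  norm := szAut_norm ht h φ

/-- every automorphism is semilinear modulo the centre -/
theorem szAut_semilinear [Finite F] (ht : SzTw s t) (h : SzData F s) (φ : MulAut S) :
    ∃ (l : F) (σ : F ≃+* F), l ≠ 0 ∧ ∀ a, szAutA ht φ a = l * σ a :=
  (szAut_pair ht h φ).semilinear h

/-- construction of an automorphism from coordinate maps -/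
theorem SzTw.exists_aut [Finite S] (ht : SzTw s t) (P Q : F → F → F)
    (hP : ∀ a b c d : F, P (a + c) (b + d + a ^ s * c) = P a b + P c d)
    (hQ : ∀ a b c d : F, Q (a + c) (b + d + a ^ s * c) = Q a b + Q c d + P a b ^ s * P c d)
    (hsurj : ∀ a' b' : F, ∃ a b : F, P a b = a' ∧ Q a b = b') :
    ∃ φ : MulAut S, ∀ a b : F, φ (t a b) = t (P a b) (Q a b) := by
  let g : S → S := fun x => t (P (ht.fst x) (ht.snd x)) (Q (ht.fst x) (ht.snd x))
  have hg : ∀ a b : F, g (t a b) = t (P a b) (Q a b) := by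
    intro a b
    show t (P (ht.fst (t a b)) (ht.snd (t a b))) (Q (ht.fst (t a b)) (ht.snd (t a b))) = _
    rw [ht.fst_t, ht.snd_t]
  have hmul : ∀ x y : S, g (x * y) = g x * g y := by
    intro x y
    obtain ⟨a, b, rfl⟩ := ht.surj x
    obtain ⟨c, d, rfl⟩ := ht.surj y
    rw [ht.mul, hg, hg, hg, ht.mul, hP, hQ]
  have hs : Function.Surjective g := by
    intro y
    obtain ⟨a', b', rfl⟩ := ht.surj y
    obtain ⟨a, b, h1, h2⟩ := hsurj a' b'
    exact ⟨t a b, by rw [hg, h1, h2]⟩
  have hb : Function.Bijective (MonoidHom.mk' g hmul) :=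
    ⟨Finite.injective_iff_surjective.mpr hs, hs⟩
  exact ⟨MulEquiv.ofBijective (MonoidHom.mk' g hmul) hb, hg⟩

end AutCoord

end Cfsg.Agent.Lib.Helper37
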