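-- helper37: automorphisms of the Suzuki 2-group, part 3: the homomorphism to permutations of
-- the field, its kernel (central automorphisms) and range (semilinear maps), and the structure
-- of the automorphism group in terms of two counts.
import Mathlib
import Cfsg.Prelude.Def_Solvable
import Cfsg.Prelude.Def_Transfer
import Cfsg.Agent.Lib.Helper37.SzAutB

set_option autoImplicit false

namespace Cfsg.Agent.Lib.Helper37

section AutHom

variable {F : Type*} [Field F] {s : ℕ} {S : Type*} [Group S] {t : F → F → S}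

/-- the action of automorphisms on the quotient by the centre, as a homomorphism -/
noncomputable def szRho (ht : SzTw s t) (h : SzData F s) : MulAut S →* Equiv.Perm F where
  toFun φ :=
    { toFun := szAutA ht φ
      invFun := szAutA ht φ⁻¹
      left_inv := szAutA_inv_apply ht h φ
      right_inv := szAutA_apply_inv ht h φ }
  map_one' := by
    ext a
    exact szAutA_one ht a
  map_mul' φ ψ := by
    ext a
    exact szAutA_mul ht h φ ψ a

theorem szRho_apply (ht : SzTw s t) (h : SzData F s) (φ : MulAut S) (a : F) :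
    szRho ht h φ a = szAutA ht φ a := rfl

theorem mem_szRho_ker (ht : SzTw s t) (h : SzData F s) (φ : MulAut S) :
    φ ∈ (szRho ht h).ker ↔ ∀ a, szAutA ht φ a = a := by
  rw [MonoidHom.mem_ker, Equiv.ext_iff]
  rfl

/-- kernel elements: explicit form -/
theorem szRho_ker_apply (ht : SzTw s t) (h : SzData F s) {φ : MulAut S}
    (hφ : φ ∈ (szRho ht h).ker) (a b : F) : φ (t a b) = t a (szAutf ht φ a + b) := by
  rw [mem_szRho_ker] at hφ
  have hC : ∀ b, szAutC ht φ b = b := by
    intro b
    obtain ⟨l, rfl⟩ := h.exists_pow_succ b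
    rw [szAut_norm ht h, hφ]
  rw [ht.aut_apply h, hφ, hC]

theorem szRho_ker_add (ht : SzTw s t) (h : SzData F s) {φ : MulAut S}
    (hφ : φ ∈ (szRho ht h).ker) (a c : F) :
    szAutf ht φ (a + c) = szAutf ht φ a + szAutf ht φ c := by
  have h1 : φ (t a 0 * t c 0) = φ (t a 0) * φ (t c 0) := map_mul _ _ _
  rw [ht.mul, szRho_ker_apply ht h hφ, szRho_ker_apply ht h hφ, szRho_ker_apply ht h hφ, ht.mul] at h1
  have h2 := (ht.inj _ _ _ _ h1).2
  linear_combination h2

theorem szRho_ker_comm (ht : SzTw s t) (h : SzData F s) {φ ψ : MulAut S}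
    (hφ : φ ∈ (szRho ht h).ker) (hψ : ψ ∈ (szRho ht h).ker) : φ * ψ = ψ * φ := by
  apply MulEquiv.ext
  intro x
  obtain ⟨a, b, rfl⟩ := ht.surj x
  rw [MulAut.mul_apply, MulAut.mul_apply, szRho_ker_apply ht h hψ, szRho_ker_apply ht h hφ,
    szRho_ker_apply ht h hφ, szRho_ker_apply ht h hψ]
  congr 1
  ring

theorem szRho_ker_sq (ht : SzTw s t) (h : SzData F s) {φ : MulAut S}
    (hφ : φ ∈ (szRho ht h).ker) : φ ^ 2 = 1 := by
  apply MulEquiv.ext
  intro x
  obtain ⟨a, b, rfl⟩ := ht.surj x
  rw [pow_two, MulAut.mul_apply, MulAut.one_apply, szRho_ker_apply ht h hφ, szRho_ker_apply ht h hφ]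
  congr 1
  linear_combination szAutf ht φ a * h.two

theorem szRho_card_ker [Finite S] (ht : SzTw s t) (h : SzData F s) :
    Nat.card (szRho ht h).ker = Nat.card (F →+ F) := by
  apply Nat.card_eq_of_bijective (fun φ : (szRho ht h).ker =>
    AddMonoidHom.mk' (szAutf ht φ.1) (szRho_ker_add ht h φ.2))
  constructor
  · rintro ⟨φ, hφ⟩ ⟨ψ, hψ⟩ hfg
    apply Subtype.ext
    apply MulEquiv.ext
    intro x
    obtain ⟨a, b, rfl⟩ := ht.surj x
    have h1 : szAutf ht φ a = szAutf ht ψ a := DFunLike.congr_fun hfg a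
    show φ (t a b) = ψ (t a b)
    rw [szRho_ker_apply ht h hφ, szRho_ker_apply ht h hψ, h1]
  · intro f
    obtain ⟨φ, hφ⟩ := ht.exists_aut (fun a _ => a) (fun a b => b + f a) (by intros; rfl)
      (by intro a b c d; simp only [map_add]; ring)
      (by intro a' b'; exact ⟨a', b' + f a', rfl, by linear_combination f a' * h.two⟩)
    have hker : φ ∈ (szRho ht h).ker := by
      rw [mem_szRho_ker]
      intro a
      unfold szAutA
      rw [hφ, ht.fst_t]
    refine ⟨⟨φ, hker⟩, ?_⟩
    ext a
    show szAutf ht φ a = f a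
    unfold szAutf
    rw [hφ, ht.snd_t, zero_add]

theorem szRho_card_range [Finite F] [Finite S] (ht : SzTw s t) (h : SzData F s) :
    Nat.card (szRho ht h).range = Nat.card (Fˣ × (F ≃+* F)) := by
  symm
  have hex : ∀ p : Fˣ × (F ≃+* F), ∃ φ : MulAut S, ∀ a, szAutA ht φ a = (p.1 : F) * p.2 a := by
    rintro ⟨l, σ⟩
    obtain ⟨φ, hφ⟩ := ht.exists_aut (fun a _ => (l : F) * σ a)
      (fun _ b => (l : F) ^ (s + 1) * σ b)
      (by intro a b c d; simp only [map_add]; ring)
      (by intro a b c d; simp only [map_add, map_mul, map_pow]; ring)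
      (by
        intro a' b'
        refine ⟨σ.symm (a' / l), σ.symm (b' / (l : F) ^ (s + 1)), ?_, ?_⟩
        · rw [RingEquiv.apply_symm_apply, mul_div_cancel₀ _ l.ne_zero]
        · rw [RingEquiv.apply_symm_apply, mul_div_cancel₀ _ (pow_ne_zero _ l.ne_zero)])
    refine ⟨φ, fun a => ?_⟩
    unfold szAutA
    rw [hφ, ht.fst_t]
  choose Φ hΦ using hex
  apply Nat.card_eq_of_bijective (fun p : Fˣ × (F ≃+* F) =>
    (⟨szRho ht h (Φ p), MonoidHom.mem_range.mpr ⟨_, rfl⟩⟩ : (szRho ht h).range))
  constructor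
  · rintro ⟨l, σ⟩ ⟨l', σ'⟩ hp
    have h1 : ∀ a, (l : F) * σ a = (l' : F) * σ' a := by
      intro a
      have h2 : szRho ht h (Φ (l, σ)) a = szRho ht h (Φ (l', σ')) a := by
        rw [show szRho ht h (Φ (l, σ)) = szRho ht h (Φ (l', σ')) from congrArg Subtype.val hp]
      rw [szRho_apply, szRho_apply, hΦ, hΦ] at h2
      exact h2
    have h3 : l = l' := by
      apply Units.ext
      have h4 := h1 1
      rw [map_one, map_one, mul_one, mul_one] at h4
      exact h4
    subst h3
    have h5 : σ = σ' := by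
      ext a
      exact mul_left_cancel₀ l.ne_zero (h1 a)
    rw [h5]
  · rintro ⟨e, φ, rfl⟩
    obtain ⟨l, σ, hl, hls⟩ := szAut_semilinear ht h φ
    refine ⟨(Units.mk0 l hl, σ), ?_⟩
    apply Subtype.ext
    ext a
    show szAutA ht (Φ (Units.mk0 l hl, σ)) a = szAutA ht φ a
    rw [hΦ, hls]
    rfl

/-- the structure of the automorphism group, in terms of the two counts -/
theorem szAut_structure [Finite F] [Finite S] (ht : SzTw s t) (h : SzData F s) (k r : ℕ)
    (hk : Nat.card (F →+ F) = 2 ^ k) (hr : Nat.card (Fˣ × (F ≃+* F)) = r) (hodd : Odd r) :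
    Cfsg.IsElementaryAbelian 2 (Cfsg.pCore 2 (MulAut S)) ∧
      Nat.card (Cfsg.pCore 2 (MulAut S)) = 2 ^ k ∧ Nat.card (MulAut S) = 2 ^ k * r := by
  have hcore : Cfsg.pCore 2 (MulAut S) = (szRho ht h).ker := by
    apply le_antisymm
    · apply sSup_le
      rintro N ⟨hN, hpN⟩ x hx
      rw [MonoidHom.mem_ker]
      obtain ⟨j, hj⟩ := hpN ⟨x, hx⟩
      have h1 : (szRho ht h x) ^ (2 ^ j) = 1 := by
        have h0 : x ^ (2 ^ j) = 1 := by
          have := congrArg Subtype.val hj
          simpa using this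
        rw [← map_pow, h0, map_one]
      have h2 : (szRho ht h x) ^ r = 1 := by
        have h3 : (⟨szRho ht h x, MonoidHom.mem_range.mpr ⟨x, rfl⟩⟩ : (szRho ht h).range) ^
            Nat.card (szRho ht h).range = 1 := pow_card_eq_one'
        rw [szRho_card_range ht h, hr] at h3
        have h4 := congrArg Subtype.val h3
        simpa using h4
      have h4 := pow_gcd_eq_one.mpr ⟨h1, h2⟩
      have h5 : Nat.gcd (2 ^ j) r = 1 := Nat.Coprime.pow_left j (Nat.coprime_two_left.mpr hodd)
      rw [h5, pow_one] at h4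
      exact h4
    · apply le_sSup
      refine ⟨MonoidHom.normal_ker _, ?_⟩
      rintro ⟨φ, hφ⟩
      refine ⟨1, ?_⟩
      apply Subtype.ext
      simpa using szRho_ker_sq ht h hφ
  have hcard : Nat.card (szRho ht h).ker = 2 ^ k := by rw [szRho_card_ker ht h, hk]
  refine ⟨?_, ?_, ?_⟩
  · rw [hcore]
    refine ⟨?_, ?_⟩
    · rw [isMulCommutative_iff]
      rintro ⟨φ, hφ⟩ ⟨ψ, hψ⟩
      apply Subtype.ext
      exact szRho_ker_comm ht h hφ hψ
    · intro φ hφ
      exact szRho_ker_sq ht h hφ
  · rw [hcore, hcard]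
  · have h1 := Subgroup.card_mul_index (szRho ht h).ker
    rw [Subgroup.index_ker, hcard, szRho_card_range ht h, hr] at h1
    exact h1.symm

end AutHom

end Cfsg.Agent.Lib.Helper37
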