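-- helper37: automorphisms of the Suzuki 2-group, part 4: the counts (additive endomorphisms,
-- field automorphisms, units) and the final statement for a Sylow 2-subgroup of the Suzuki group.
import Mathlib
import Cfsg.Prelude.Def_Solvable
import Cfsg.Prelude.Def_Transfer
import Cfsg.Prelude.Def_LieExceptional
import Cfsg.Agent.Lib.Helper37.SzAutC
import Cfsg.Agent.Lib.Helper37.SzSylow
import Cfsg.Agent.Lib.Helper37.SzLieC

set_option autoImplicit false

namespace Cfsg.Agent.Lib.Helper37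

section AutCount

theorem card_addMonoidHom_self {F : Type*} [Field F] [Finite F] (h2 : (2 : F) = 0) (n : ℕ)
    (hF : Nat.card F = 2 ^ n) : Nat.card (F →+ F) = 2 ^ (n * n) := by
  haveI : CharP F 2 := CharTwo.of_one_ne_zero_of_two_eq_zero one_ne_zero h2
  haveI : Fact (Nat.Prime 2) := ⟨Nat.prime_two⟩
  letI : Algebra (ZMod 2) F := ZMod.algebra F 2
  have hd : Module.finrank (ZMod 2) F = n := by
    have h1 := FiniteField.pow_finrank_eq_natCard 2 F
    rw [hF] at h1
    exact Nat.pow_right_injective (le_refl 2) h1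
  rw [Nat.card_congr (AddMonoidHom.toZModLinearMapEquiv 2).toEquiv,
    ← Nat.card_congr ((Module.finBasis (ZMod 2) F).constr (ZMod 2)).toEquiv, Nat.card_fun,
    Nat.card_fin, hF, hd, ← pow_mul]

theorem card_ringAut_self {F : Type*} [Field F] [Finite F] (h2 : (2 : F) = 0) (n : ℕ)
    (hF : Nat.card F = 2 ^ n) : Nat.card (F ≃+* F) = n := by
  haveI : CharP F 2 := CharTwo.of_one_ne_zero_of_two_eq_zero one_ne_zero h2
  haveI : Fact (Nat.Prime 2) := ⟨Nat.prime_two⟩
  letI : Algebra (ZMod 2) F := ZMod.algebra F 2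
  have hd : Module.finrank (ZMod 2) F = n := by
    have h1 := FiniteField.pow_finrank_eq_natCard 2 F
    rw [hF] at h1
    exact Nat.pow_right_injective (le_refl 2) h1
  have h3 : Nat.card (F ≃ₐ[ZMod 2] F) = Nat.card (F ≃+* F) := by
    apply Nat.card_eq_of_bijective (fun e : F ≃ₐ[ZMod 2] F => (e : F ≃+* F))
    constructor
    · exact AlgEquiv.coe_ringEquiv_injective
    · intro σ
      have hσ : ∀ x : ZMod 2, σ (algebraMap (ZMod 2) F x) = algebraMap (ZMod 2) F x := by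
        intro x
        have h4 : (σ : F →+* F).comp (algebraMap (ZMod 2) F) = algebraMap (ZMod 2) F :=
          Subsingleton.elim _ _
        exact RingHom.congr_fun h4 x
      refine ⟨AlgEquiv.ofRingEquiv hσ, ?_⟩
      ext a
      rfl
  rw [← h3, IsGalois.card_aut_eq_finrank, hd]

end AutCount

section AutFinal

variable {F : Type*} [Field F] [Fintype F] {m : ℕ}

/-- the automorphism group of an abstract Suzuki 2-group -/
theorem szAut_final {S : Type*} [Group S] [Finite S] (hm : 1 ≤ m)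
    (hF : Fintype.card F = 2 ^ (2 * m + 1)) (t : F → F → S) (ht : SzTw (2 ^ (m + 1)) t) :
    Cfsg.IsElementaryAbelian 2 (Cfsg.pCore 2 (MulAut S)) ∧
      Nat.card ↥(Cfsg.pCore 2 (MulAut S)) = 2 ^ ((2 * m + 1) ^ 2) ∧
      Nat.card (MulAut S) = 2 ^ ((2 * m + 1) ^ 2) * ((2 * m + 1) * (2 ^ (2 * m + 1) - 1)) := by
  have h := szData_of_card hm hF
  have hF' : Nat.card F = 2 ^ (2 * m + 1) := by rw [Nat.card_eq_fintype_card, hF]
  have hk : Nat.card (F →+ F) = 2 ^ ((2 * m + 1) ^ 2) := by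
    rw [card_addMonoidHom_self h.two (2 * m + 1) hF', pow_two]
  have hr : Nat.card (Fˣ × (F ≃+* F)) = (2 * m + 1) * (2 ^ (2 * m + 1) - 1) := by
    rw [Nat.card_prod, Nat.card_units, hF', card_ringAut_self h.two (2 * m + 1) hF', mul_comm]
  have hodd : Odd ((2 * m + 1) * (2 ^ (2 * m + 1) - 1)) := by
    apply Odd.mul
    · exact odd_two_mul_add_one m
    · apply Nat.Even.sub_odd (Nat.one_le_two_pow) _ odd_one
      exact (Nat.even_pow' (by omega)).mpr even_two
  exact szAut_structure ht h _ _ hk hr hodd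

/-- the frozen statement S2556 for the matrix Suzuki group -/
theorem sz_aut_sylow {S : Type*} [Group S] [Finite S] (hm : 1 ≤ m)
    (hF : Fintype.card F = 2 ^ (2 * m + 1))
    (P : Sylow 2 ↥(Cfsg.Lie.Sz F (2 ^ (m + 1))))
    (hS : Nonempty (S ≃* ↥(P : Subgroup ↥(Cfsg.Lie.Sz F (2 ^ (m + 1)))))) :
    Cfsg.IsElementaryAbelian 2 (Cfsg.pCore 2 (MulAut S)) ∧
      Nat.card ↥(Cfsg.pCore 2 (MulAut S)) = 2 ^ ((2 * m + 1) ^ 2) ∧
      Nat.card (MulAut S) = 2 ^ ((2 * m + 1) ^ 2) * ((2 * m + 1) * (2 ^ (2 * m + 1) - 1)) := by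
  have h := szData_of_card hm hF
  haveI : Fact (Nat.Prime 2) := ⟨Nat.prime_two⟩
  obtain ⟨e⟩ := hS
  let e' : ↥(Cfsg.Lie.Sz F (2 ^ (m + 1))) ≃* ↥(Cfsg.Sz F m) := (szLieEquiv h).symm
  let P' : Sylow 2 ↥(Cfsg.Sz F m) := P.mapSurjective (f := e'.toMonoidHom) e'.surjective
  obtain ⟨t, ht⟩ := sz_sylow_tw hm hF P'
  let e2 : ↥(P : Subgroup ↥(Cfsg.Lie.Sz F (2 ^ (m + 1)))) ≃* ↥(P' : Subgroup ↥(Cfsg.Sz F m)) :=
    e'.subgroupMap (P : Subgroup ↥(Cfsg.Lie.Sz F (2 ^ (m + 1))))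
  have ht' := ht.map (e.trans e2).symm
  exact szAut_final hm hF _ ht'

end AutFinal

end Cfsg.Agent.Lib.Helper37
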