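-- helper37: Suzuki groups, characters, part 7: the character degree graph.
import Mathlib
import Cfsg.Prelude.Def_LieExceptional
import Cfsg.Prelude.Def_DegreeGraph
import Cfsg.Agent.Lib.Helper37.SzChD
import Cfsg.Agent.Lib.Helper37.SzLieC
import Cfsg.Agent.Lib.Helper25.IrrComp

set_option autoImplicit false

namespace Cfsg.Agent.Lib.Helper37

section ChE

/-- isomorphic groups have the same character degrees -/
theorem charDegrees_congr {G H : Type*} [Group G] [Group H] (e : G ≃* H) :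
    Cfsg.charDegrees G = Cfsg.charDegrees H := by
  ext n
  constructor
  · rintro ⟨χ, rfl⟩
    refine ⟨⟨fun h => (χ : G → ℂ) (e.symm h),
      Cfsg.Agent.Lib.Helper25.isIrrCharacter_comp_mulEquiv e.symm χ.2⟩, ?_⟩
    show ⌊((χ : G → ℂ) (e.symm 1)).re⌋₊ = ⌊((χ : G → ℂ) 1).re⌋₊
    rw [map_one]
  · rintro ⟨χ, rfl⟩
    refine ⟨⟨fun h => (χ : H → ℂ) (e h),
      Cfsg.Agent.Lib.Helper25.isIrrCharacter_comp_mulEquiv e χ.2⟩, ?_⟩
    show ⌊((χ : H → ℂ) (e 1)).re⌋₊ = ⌊((χ : H → ℂ) 1).re⌋₊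
    rw [map_one]

/-- the arithmetic of the degree graph -/
theorem sz_degree_graph_arith (m : ℕ) (hm : 1 ≤ m) (q : ℕ) (hqm : q = 2 ^ (2 * m + 1))
    (CD : Set ℕ)
    (hCD : CD = {1, q ^ 2, q ^ 2 + 1, (q - 1) * (q + 1 - 2 ^ (m + 1)),
      (q - 1) * (q + 2 ^ (m + 1) + 1), 2 ^ m * (q - 1)}) :
    {p : ℕ | p.Prime ∧ ∃ d ∈ CD, p ∣ d} =
        {r : ℕ | r.Prime ∧ (r = 2 ∨ r ∣ (q - 1) * (q ^ 2 + 1))} ∧
      ∀ r s : ℕ, (r ≠ s ∧ r.Prime ∧ s.Prime ∧ ∃ d ∈ CD, r * s ∣ d) ↔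
        (r ≠ s ∧ r.Prime ∧ s.Prime ∧ ((r ∣ (q - 1) * (q ^ 2 + 1) ∧ s ∣ (q - 1) * (q ^ 2 + 1)) ∨
          (r = 2 ∧ s ∣ q - 1) ∨ (s = 2 ∧ r ∣ q - 1))) := by
  have hF1 : (q + 2 ^ (m + 1) + 1) * (q + 1 - 2 ^ (m + 1)) = q ^ 2 + 1 := by
    obtain ⟨t, ht⟩ : ∃ t, 2 ^ m = t + 1 :=
      ⟨2 ^ m - 1, by have := Nat.one_le_two_pow (n := m); omega⟩
    have hQ : q = 2 * t ^ 2 + 4 * t + 2 := by
      have e : 2 ^ (2 * m + 1) = 2 * (2 ^ m) ^ 2 := by ring
      rw [hqm, e, ht]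
      ring
    have hR : 2 ^ (m + 1) = 2 * t + 2 := by
      rw [pow_succ, ht]
      ring
    have e2 : 2 * t ^ 2 + 4 * t + 2 + 1 - (2 * t + 2) = 2 * t ^ 2 + 2 * t + 1 := by omega
    rw [hQ, hR, e2]
    ring
  have h2q : (2 : ℕ) ∣ q := by
    rw [hqm]
    exact dvd_pow_self 2 (by omega)
  have hd1 : (q - 1) * (q + 1 - 2 ^ (m + 1)) ∣ (q - 1) * (q ^ 2 + 1) :=
    Nat.mul_dvd_mul_left _ (Dvd.intro_left _ hF1)
  have hd2 : (q - 1) * (q + 2 ^ (m + 1) + 1) ∣ (q - 1) * (q ^ 2 + 1) :=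
    Nat.mul_dvd_mul_left _ (Dvd.intro _ hF1)
  have hp2 : ∀ p : ℕ, p.Prime → p ∣ q ^ 2 → p = 2 := by
    intro p hp hpq
    have h1 : p ∣ q := hp.dvd_of_dvd_pow hpq
    rw [hqm] at h1
    exact (Nat.prime_dvd_prime_iff_eq hp Nat.prime_two).mp (hp.dvd_of_dvd_pow h1)
  have hp2' : ∀ p : ℕ, p.Prime → p ∣ 2 ^ m → p = 2 := by
    intro p hp hpq
    exact (Nat.prime_dvd_prime_iff_eq hp Nat.prime_two).mp (hp.dvd_of_dvd_pow hpq)
  subst hCD
  constructor
  · ext p
    simp only [Set.mem_ofPred_eq, Set.mem_insert_iff, Set.mem_singleton_iff, exists_eq_or_imp,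
      exists_eq_left]
    constructor
    · rintro ⟨hp, h | h | h | h | h | h⟩
      · exact absurd (Nat.dvd_one.mp h) hp.one_lt.ne'
      · exact ⟨hp, Or.inl (hp2 p hp h)⟩
      · exact ⟨hp, Or.inr (Dvd.dvd.mul_left h _)⟩
      · exact ⟨hp, Or.inr (dvd_trans h hd1)⟩
      · exact ⟨hp, Or.inr (dvd_trans h hd2)⟩
      · rcases (hp.dvd_mul).mp h with h1 | h1
        · exact ⟨hp, Or.inl (hp2' p hp h1)⟩
        · exact ⟨hp, Or.inr (Dvd.dvd.mul_right h1 _)⟩
    · rintro ⟨hp, rfl | h⟩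
      · exact ⟨hp, Or.inr (Or.inl (Dvd.dvd.pow h2q (by norm_num)))⟩
      · rcases (hp.dvd_mul).mp h with h1 | h1
        · exact ⟨hp, Or.inr (Or.inr (Or.inr (Or.inr (Or.inl (Dvd.dvd.mul_right h1 _)))))⟩
        · exact ⟨hp, Or.inr (Or.inr (Or.inl h1))⟩
  · intro r s
    simp only [Set.mem_insert_iff, Set.mem_singleton_iff, exists_eq_or_imp, exists_eq_left]
    constructor
    · rintro ⟨hrs, hr, hs, h | h | h | h | h | h⟩
      · exfalso
        have h1 : r ∣ 1 := dvd_trans (Dvd.intro _ rfl) h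
        exact absurd (Nat.dvd_one.mp h1) hr.one_lt.ne'
      · exfalso
        have h1 : r = 2 := hp2 r hr (dvd_trans (Dvd.intro _ rfl) h)
        have h2 : s = 2 := hp2 s hs (dvd_trans (Dvd.intro_left _ rfl) h)
        exact hrs (h1.trans h2.symm)
      · exact ⟨hrs, hr, hs, Or.inl ⟨Dvd.dvd.mul_left (dvd_trans (Dvd.intro _ rfl) h) _,
          Dvd.dvd.mul_left (dvd_trans (Dvd.intro_left _ rfl) h) _⟩⟩
      · exact ⟨hrs, hr, hs, Or.inl ⟨dvd_trans (dvd_trans (Dvd.intro _ rfl) h) hd1,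
          dvd_trans (dvd_trans (Dvd.intro_left _ rfl) h) hd1⟩⟩
      · exact ⟨hrs, hr, hs, Or.inl ⟨dvd_trans (dvd_trans (Dvd.intro _ rfl) h) hd2,
          dvd_trans (dvd_trans (Dvd.intro_left _ rfl) h) hd2⟩⟩
      · have hr' : r ∣ 2 ^ m * (q - 1) := dvd_trans (Dvd.intro _ rfl) h
        have hs' : s ∣ 2 ^ m * (q - 1) := dvd_trans (Dvd.intro_left _ rfl) h
        by_cases hr2 : r = 2
        · have hs2 : s ≠ 2 := fun hc => hrs (hr2.trans hc.symm)
          rcases (hs.dvd_mul).mp hs' with h1 | h1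
          · exact absurd (hp2' s hs h1) hs2
          · exact ⟨hrs, hr, hs, Or.inr (Or.inl ⟨hr2, h1⟩)⟩
        · have hrA : r ∣ q - 1 := by
            rcases (hr.dvd_mul).mp hr' with h1 | h1
            · exact absurd (hp2' r hr h1) hr2
            · exact h1
          by_cases hs2 : s = 2
          · exact ⟨hrs, hr, hs, Or.inr (Or.inr ⟨hs2, hrA⟩)⟩
          · have hsA : s ∣ q - 1 := by
              rcases (hs.dvd_mul).mp hs' with h1 | h1
              · exact absurd (hp2' s hs h1) hs2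
              · exact h1
            exact ⟨hrs, hr, hs, Or.inl ⟨Dvd.dvd.mul_right hrA _, Dvd.dvd.mul_right hsA _⟩⟩
    · rintro ⟨hrs, hr, hs, ⟨h1, h2⟩ | ⟨rfl, h2⟩ | ⟨rfl, h2⟩⟩
      · refine ⟨hrs, hr, hs, ?_⟩
        have hcop : Nat.Coprime r s := (Nat.coprime_primes hr hs).mpr hrs
        rw [← hF1] at h1 h2
        have hr3 : r ∣ q - 1 ∨ r ∣ q + 2 ^ (m + 1) + 1 ∨ r ∣ q + 1 - 2 ^ (m + 1) := by
          rcases (hr.dvd_mul).mp h1 with h | h
          · exact Or.inl h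
          · rcases (hr.dvd_mul).mp h with h | h
            · exact Or.inr (Or.inl h)
            · exact Or.inr (Or.inr h)
        have hs3 : s ∣ q - 1 ∨ s ∣ q + 2 ^ (m + 1) + 1 ∨ s ∣ q + 1 - 2 ^ (m + 1) := by
          rcases (hs.dvd_mul).mp h2 with h | h
          · exact Or.inl h
          · rcases (hs.dvd_mul).mp h with h | h
            · exact Or.inr (Or.inl h)
            · exact Or.inr (Or.inr h)
        rcases hr3 with hr3 | hr3 | hr3
        · rcases hs3 with hs3 | hs3 | hs3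
          · right; right; right; right; left
            exact Dvd.dvd.mul_right (hcop.mul_dvd_of_dvd_of_dvd hr3 hs3) _
          · right; right; right; right; left
            exact Nat.mul_dvd_mul hr3 hs3
          · right; right; right; left
            exact Nat.mul_dvd_mul hr3 hs3
        · rcases hs3 with hs3 | hs3 | hs3
          · right; right; right; right; left
            rw [mul_comm r s]
            exact Nat.mul_dvd_mul hs3 hr3
          · right; right; right; right; left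
            exact Dvd.dvd.mul_left (hcop.mul_dvd_of_dvd_of_dvd hr3 hs3) _
          · right; right; left
            rw [← hF1]
            exact Nat.mul_dvd_mul hr3 hs3
        · rcases hs3 with hs3 | hs3 | hs3
          · right; right; right; left
            rw [mul_comm r s]
            exact Nat.mul_dvd_mul hs3 hr3
          · right; right; left
            rw [← hF1, mul_comm r s]
            exact Nat.mul_dvd_mul hs3 hr3
          · right; right; right; left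
            exact Dvd.dvd.mul_left (hcop.mul_dvd_of_dvd_of_dvd hr3 hs3) _
      · refine ⟨hrs, hr, hs, ?_⟩
        right; right; right; right; right
        exact Nat.mul_dvd_mul (dvd_pow_self 2 (by omega)) h2
      · refine ⟨hrs, hr, hs, ?_⟩
        right; right; right; right; right
        rw [mul_comm r 2]
        exact Nat.mul_dvd_mul (dvd_pow_self 2 (by omega)) h2

/-- the character degree graph of the Suzuki groups -/
theorem sz_degree_graph (F : Type*) [Field F] [Fintype F] (m : ℕ) (hm : 1 ≤ m) (q : ℕ)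
    (hq : Fintype.card F = q) (hqm : q = 2 ^ (2 * m + 1)) {S : Type*} [Group S]
    (hS : Nonempty (S ≃* ↥(Cfsg.Lie.Sz F (2 ^ (m + 1))))) :
    Cfsg.degreePrimes S = {r : ℕ | r.Prime ∧ (r = 2 ∨ r ∣ (q - 1) * (q ^ 2 + 1))} ∧
      ∀ r s : ℕ, (Cfsg.degreeGraph S).Adj r s ↔ (r ≠ s ∧ r.Prime ∧ s.Prime ∧
        ((r ∣ (q - 1) * (q ^ 2 + 1) ∧ s ∣ (q - 1) * (q ^ 2 + 1)) ∨ (r = 2 ∧ s ∣ q - 1) ∨
          (s = 2 ∧ r ∣ q - 1))) := by
  have hF : Fintype.card F = 2 ^ (2 * m + 1) := hq.trans hqm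
  have h := szData_of_card hm hF
  obtain ⟨e⟩ := hS
  have hCD : Cfsg.charDegrees S = {1, q ^ 2, q ^ 2 + 1, (q - 1) * (q + 1 - 2 ^ (m + 1)),
      (q - 1) * (q + 2 ^ (m + 1) + 1), 2 ^ m * (q - 1)} := by
    rw [charDegrees_congr (e.trans (szLieEquiv h).symm), sz_charDegrees hm hF, hqm]
  exact sz_degree_graph_arith m hm q hqm (Cfsg.charDegrees S) hCD

end ChE

end Cfsg.Agent.Lib.Helper37
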