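-- helper37: Suzuki groups, part 28: groups of arbitrarily large order with the same prime graph
-- as the Suzuki group (split extensions by sums of the natural module).
import Mathlib
import Cfsg.Prelude.Def_LieExceptional
import Cfsg.Agent.Lib.Helper37.SzPlane
import Cfsg.Agent.Lib.Helper37.SzLieC
import Cfsg.Agent.Lib.Helper37.SzCount

set_option autoImplicit false

universe u v

namespace Cfsg.Agent.Lib.Helper37

open Matrix
open scoped Pointwise

section Copy0

/-- a carrier in the lowest universe for a copy of a finite group -/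
def Copy0 (k : ℕ) : Type := {i : ℕ // i < k}

/-- every finite group has an isomorphic copy in the lowest universe -/
theorem exists_type0_copy (H : Type u) [Group H] [Finite H] :
    ∃ (C : Type) (_ : Group C) (_ : Fintype C), Nonempty (C ≃* H) := by
  let e : Copy0 (Nat.card H) ≃ H := (Fin.equivSubtype.symm).trans (Finite.equivFin H).symm
  exact ⟨Copy0 (Nat.card H), e.group, @Fintype.ofFinite _ (Finite.of_equiv _ e.symm),
    ⟨e.mulEquiv⟩⟩

end Copy0

section AbstractSemi

variable {G : Type u} {V : Type v} [Group G] [AddCommGroup V] [DistribMulAction G V]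

/-- the action, as automorphisms of the multiplicative copy of the module -/
def affHom (G : Type u) (V : Type v) [Group G] [AddCommGroup V] [DistribMulAction G V] :
    G →* MulAut (Multiplicative V) where
  toFun g :=
    { toFun := fun w => Multiplicative.ofAdd (g • Multiplicative.toAdd w)
      invFun := fun w => Multiplicative.ofAdd (g⁻¹ • Multiplicative.toAdd w)
      left_inv := fun w => by
        show Multiplicative.ofAdd (g⁻¹ • (g • Multiplicative.toAdd w)) = w
        rw [inv_smul_smul]
        rfl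
      right_inv := fun w => by
        show Multiplicative.ofAdd (g • (g⁻¹ • Multiplicative.toAdd w)) = w
        rw [smul_inv_smul]
        rfl
      map_mul' := fun w w' => by
        show Multiplicative.ofAdd (g • (Multiplicative.toAdd w + Multiplicative.toAdd w')) =
          Multiplicative.ofAdd (g • Multiplicative.toAdd w + g • Multiplicative.toAdd w')
        rw [smul_add] }
  map_one' := by
    apply MulEquiv.ext
    intro w
    show Multiplicative.ofAdd ((1 : G) • Multiplicative.toAdd w) = w
    rw [one_smul]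
    rfl
  map_mul' g g' := by
    apply MulEquiv.ext
    intro w
    show Multiplicative.ofAdd ((g * g') • Multiplicative.toAdd w) =
      Multiplicative.ofAdd (g • (g' • Multiplicative.toAdd w))
    rw [mul_smul]

theorem aff_sq_of_right_one (hV2 : ∀ v : V, v + v = 0)
    (y : Multiplicative V ⋊[affHom G V] G) (hy : y.right = 1) : y * y = 1 := by
  apply SemidirectProduct.ext
  · rw [SemidirectProduct.mul_left, hy, map_one, SemidirectProduct.one_left]
    exact congrArg Multiplicative.ofAdd (hV2 (Multiplicative.toAdd y.left))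
  · rw [SemidirectProduct.mul_right, hy, mul_one, SemidirectProduct.one_right]

theorem aff_pow_prime (hV2 : ∀ v : V, v + v = 0)
    (hfpf : ∀ (g : G) (p : ℕ), p.Prime → p ≠ 2 → orderOf g = p → ∀ v : V, g • v = v → v = 0)
    (y : Multiplicative V ⋊[affHom G V] G) (t : ℕ) (ht : t.Prime) (hg : orderOf y.right = t) :
    y ^ t = 1 ∨ (t = 2 ∧ y ^ 4 = 1) := by
  have hr : (y ^ t).right = 1 := by
    have h1 : SemidirectProduct.rightHom (y ^ t) = 1 := by
      rw [map_pow]
      show y.right ^ t = 1
      rw [← hg]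
      exact pow_orderOf_eq_one _
    exact h1
  have hcomm : y * y ^ t = y ^ t * y := by rw [← pow_succ', ← pow_succ]
  have hfixw : y.right • Multiplicative.toAdd (y ^ t).left = Multiplicative.toAdd (y ^ t).left := by
    have h1 := congrArg SemidirectProduct.left hcomm
    rw [SemidirectProduct.mul_left, SemidirectProduct.mul_left, hr, map_one] at h1
    have h2 : y.left * (affHom G V y.right) (y ^ t).left = y.left * (y ^ t).left := by
      rw [h1]
      exact mul_comm _ _
    exact congrArg Multiplicative.toAdd (mul_left_cancel h2)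
  by_cases h2 : t = 2
  · right
    refine ⟨h2, ?_⟩
    have h3 := aff_sq_of_right_one hV2 (y ^ t) hr
    rw [h2] at h3
    rw [show (4 : ℕ) = 2 + 2 from rfl, pow_add]
    exact h3
  · left
    have hw := hfpf y.right t ht h2 hg _ hfixw
    apply SemidirectProduct.ext
    · exact congrArg Multiplicative.ofAdd hw
    · exact hr

theorem aff_order_two_primes (hV2 : ∀ v : V, v + v = 0)
    (hfpf : ∀ (g : G) (p : ℕ), p.Prime → p ≠ 2 → orderOf g = p → ∀ v : V, g • v = v → v = 0)
    (r s : ℕ) (hr : r.Prime) (hs : s.Prime) (hrs : r ≠ s)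
    (y : Multiplicative V ⋊[affHom G V] G) (hy : orderOf y = r * s) :
    ∃ x : G, orderOf x = r * s := by
  have hdvd : orderOf y.right ∣ r * s := by
    rw [← hy]
    exact orderOf_map_dvd SemidirectProduct.rightHom y
  obtain ⟨d₁, d₂, hd₁, hd₂, hd⟩ := (Nat.dvd_mul).mp hdvd
  have h6 : 6 ≤ r * s := by
    rcases Nat.lt_or_gt_of_ne hrs with h | h
    · exact Nat.mul_le_mul hr.two_le (by have := hr.two_le; omega : 3 ≤ s)
    · exact Nat.mul_le_mul (by have := hs.two_le; omega : 3 ≤ r) hs.two_le
  rcases (Nat.dvd_prime hr).mp hd₁ with e1 | e1 <;>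
    rcases (Nat.dvd_prime hs).mp hd₂ with e2 | e2
  · exfalso
    rw [e1, e2, one_mul] at hd
    have hy1 : y.right = 1 := orderOf_eq_one_iff.mp hd.symm
    have hsq := aff_sq_of_right_one hV2 y hy1
    have h1 : orderOf y ∣ 2 := orderOf_dvd_of_pow_eq_one (by rw [pow_two]; exact hsq)
    rw [hy] at h1
    have h2 := Nat.le_of_dvd (by norm_num) h1
    omega
  · exfalso
    rw [e1, e2, one_mul] at hd
    rcases aff_pow_prime hV2 hfpf y s hs hd.symm with h1 | ⟨_, h1⟩
    · have h2 : orderOf y ∣ s := orderOf_dvd_of_pow_eq_one h1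
      rw [hy] at h2
      have h3 := Nat.le_of_dvd hs.pos h2
      have h4 := hr.two_le
      nlinarith [hs.pos]
    · have h2 : orderOf y ∣ 4 := orderOf_dvd_of_pow_eq_one h1
      rw [hy] at h2
      have h3 := Nat.le_of_dvd (by norm_num) h2
      omega
  · exfalso
    rw [e1, e2, mul_one] at hd
    rcases aff_pow_prime hV2 hfpf y r hr hd.symm with h1 | ⟨_, h1⟩
    · have h2 : orderOf y ∣ r := orderOf_dvd_of_pow_eq_one h1
      rw [hy] at h2
      have h3 := Nat.le_of_dvd hr.pos h2
      have h4 := hs.two_le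
      nlinarith [hr.pos]
    · have h2 : orderOf y ∣ 4 := orderOf_dvd_of_pow_eq_one h1
      rw [hy] at h2
      have h3 := Nat.le_of_dvd (by norm_num) h2
      omega
  · rw [e1, e2] at hd
    exact ⟨y.right, hd.symm⟩

/-- a split extension by an elementary abelian 2-group on which the elements of odd prime
order act without fixed points has the same prime graph -/
theorem prime_graph_copy {G : Type u} [Group G] [Finite G] {V : Type v} [AddCommGroup V]
    [Finite V] [DistribMulAction G V] (hV2 : ∀ v : V, v + v = 0)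
    (hfpf : ∀ (g : G) (p : ℕ), p.Prime → p ≠ 2 → orderOf g = p → ∀ v : V, g • v = v → v = 0)
    (h2 : 2 ∣ Nat.card G) (k : ℕ) (hVcard : Nat.card V = 2 ^ k) :
    ∃ (H : Type) (_ : Group H) (_ : Fintype H), Fintype.card H = 2 ^ k * Nat.card G ∧
      (∀ r : ℕ, r.Prime → (r ∣ Nat.card G ↔ r ∣ Nat.card H)) ∧
      (∀ r s : ℕ, r.Prime → s.Prime → r ≠ s →
        ((∃ x : G, orderOf x = r * s) ↔ ∃ y : H, orderOf y = r * s)) := by
  have hfin : Finite (Multiplicative V ⋊[affHom G V] G) :=
    Finite.of_equiv _ SemidirectProduct.equivProd.symm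
  have hcard : Nat.card (Multiplicative V ⋊[affHom G V] G) = 2 ^ k * Nat.card G := by
    rw [SemidirectProduct.card, ← hVcard]
    rfl
  obtain ⟨C, hC, hFt, ⟨E⟩⟩ := exists_type0_copy (Multiplicative V ⋊[affHom G V] G)
  have hcardC : Nat.card C = 2 ^ k * Nat.card G := by
    rw [Nat.card_congr E.toEquiv, hcard]
  refine ⟨C, hC, hFt, ?_, ?_, ?_⟩
  · rw [← Nat.card_eq_fintype_card, hcardC]
  · intro r hr
    rw [hcardC]
    constructor
    · intro h
      exact Dvd.dvd.mul_left h _
    · intro h
      rcases (Nat.Prime.dvd_mul hr).mp h with h1 | h1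
      · have h3 := (Nat.prime_dvd_prime_iff_eq hr Nat.prime_two).mp (hr.dvd_of_dvd_pow h1)
        rw [h3]
        exact h2
      · exact h1
  · intro r s hr hs hrs
    constructor
    · rintro ⟨x, hx⟩
      refine ⟨E.symm (SemidirectProduct.inr x), ?_⟩
      rw [MulEquiv.orderOf_eq, orderOf_injective _ SemidirectProduct.inr_injective, hx]
    · rintro ⟨y, hy⟩
      exact aff_order_two_primes hV2 hfpf r s hr hs hrs (E y) (by rw [MulEquiv.orderOf_eq, hy])

end AbstractSemi

section SzPG

variable {F : Type*} [Field F] [Fintype F] {m : ℕ}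

/-- groups of arbitrarily large order with the same prime graph as the Suzuki group -/
theorem sz_prime_graph (hm : 1 ≤ m) (hF : Fintype.card F = 2 ^ (2 * m + 1)) (N : ℕ) :
    ∃ (H : Type) (_ : Group H) (_ : Fintype H), N < Fintype.card H ∧
      ((∀ r : ℕ, r.Prime → (r ∣ Nat.card ↥(Cfsg.Lie.Sz F (2 ^ (m + 1))) ↔ r ∣ Nat.card H)) ∧
      (∀ r s : ℕ, r.Prime → s.Prime → r ≠ s →
        ((∃ x : ↥(Cfsg.Lie.Sz F (2 ^ (m + 1))), orderOf x = r * s) ↔
          (∃ y : H, orderOf y = r * s)))) := by
  have h := szData_of_card hm hF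
  have hV2 : ∀ v : Fin N → Fin 4 → F, v + v = 0 := by
    intro v
    funext i j
    show v i j + v i j = 0
    exact h.add_self _
  have hfpf : ∀ (g : ↥(Cfsg.Sz F m)) (p : ℕ), p.Prime → p ≠ 2 → orderOf g = p →
      ∀ v : Fin N → Fin 4 → F, g • v = v → v = 0 := by
    intro g p hp hp2 hg v hv
    have : Fact p.Prime := ⟨hp⟩
    have hgp : g ^ p = 1 := by
      rw [← hg]
      exact pow_orderOf_eq_one g
    have hg1 : g ≠ 1 := by
      rintro rfl
      rw [orderOf_one] at hg
      exact hp.one_lt.ne hg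
    funext i
    by_contra hvi
    have hfix : ((g : Matrix.SpecialLinearGroup (Fin 4) F) : Matrix (Fin 4) (Fin 4) F) *ᵥ v i =
        v i := congrFun hv i
    exact sz_no_fixed_vector hm hF g p hp2 hgp hg1 (v i) hvi hfix
  have h2 : 2 ∣ Nat.card ↥(Cfsg.Sz F m) := by
    rw [card_sz hm hF]
    exact Dvd.dvd.mul_right (Dvd.dvd.mul_right
      (dvd_pow (dvd_pow_self 2 (by omega)) (by norm_num)) _) _
  have hVcard : Nat.card (Fin N → Fin 4 → F) = 2 ^ ((2 * m + 1) * 4 * N) := by
    rw [Nat.card_eq_fintype_card, Fintype.card_fun, Fintype.card_fun, Fintype.card_fin,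
      Fintype.card_fin, hF, ← pow_mul, ← pow_mul, mul_assoc]
  obtain ⟨H, hG, hFt, hcard, hpr, hord⟩ := prime_graph_copy hV2 hfpf h2 _ hVcard
  refine ⟨H, hG, hFt, ?_, ?_, ?_⟩
  · rw [hcard]
    have h1 : N < 2 ^ N := Nat.lt_two_pow_self
    have h2' : 2 ^ N ≤ 2 ^ ((2 * m + 1) * 4 * N) :=
      Nat.pow_le_pow_right (by norm_num) (by nlinarith)
    have h3 : 1 ≤ Nat.card ↥(Cfsg.Sz F m) := Nat.one_le_iff_ne_zero.mpr Nat.card_pos.ne'
    calc N < 2 ^ N := h1
      _ ≤ 2 ^ ((2 * m + 1) * 4 * N) := h2'
      _ = 2 ^ ((2 * m + 1) * 4 * N) * 1 := (mul_one _).symm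
      _ ≤ 2 ^ ((2 * m + 1) * 4 * N) * Nat.card ↥(Cfsg.Sz F m) := Nat.mul_le_mul_left _ h3
  · intro r hr
    rw [← Nat.card_congr (szLieEquiv h).toEquiv]
    exact hpr r hr
  · intro r s hr hs hrs
    rw [← hord r s hr hs hrs]
    constructor
    · rintro ⟨x, hx⟩
      exact ⟨(szLieEquiv h).symm x, by rw [MulEquiv.orderOf_eq, hx]⟩
    · rintro ⟨x, hx⟩
      exact ⟨szLieEquiv h x, by rw [MulEquiv.orderOf_eq, hx]⟩

end SzPG

end Cfsg.Agent.Lib.Helper37
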