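-- helper37: Suzuki groups, part 24: rigidity of embeddings of a Suzuki group over a subfield.
-- Part B: the field homomorphism, full normalisation, the standard subfield subgroup.
import Mathlib
import Cfsg.Prelude.Def_LieExceptional
import Cfsg.Agent.Lib.Helper37.SzRigid

set_option autoImplicit false

namespace Cfsg.Agent.Lib.Helper37

open Matrix
open scoped Pointwise

section Norm2

variable {F K : Type*} [Field F] [Finite F] [Field K] [Finite K] {m k : ℕ}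

/-- third normalisation: the central translations go through a field homomorphism -/
theorem sz_norm_center (h₀ : SzData K (2 ^ (k + 1))) (h : SzData F (2 ^ (m + 1)))
    (φ : ↥(Cfsg.Sz K k) →* ↥(Cfsg.Sz F m)) (hφ : Function.Injective φ) (hT : SzTT h₀ h φ)
    (hH : SzHH h₀ h φ) :
    ∃ (g : ↥(Cfsg.Sz F m)) (ψ : K →+* F), SzTT h₀ h (conjHom g φ) ∧ SzHH h₀ h (conjHom g φ) ∧
      ∀ b : K, conjHom g φ (szTm h₀ 0 b) = szTm h 0 (ψ b) := by
  have hT' : ∀ a b : K, ∃ a' b' : F, φ (szTm h₀ a b) = szTm h a' b' := hT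
  have hH' : ∀ μ : Kˣ, ∃ ν : Fˣ, φ (szHsub h₀ μ) = szHsub h ν := hH
  choose α β hαβ using hT'
  choose η hη using hH'
  have hα0 : ∀ b : K, α 0 b = 0 := by
    intro b
    have h1 := congrArg φ (szTm_central_sq h₀ b)
    rw [map_mul, map_one, hαβ, szTm_sq, szTm_eq_one_iff] at h1
    have h2 : α 0 b ^ (2 ^ (m + 1) + 1) = 0 := by
      rw [pow_succ]
      exact h1.2
    exact (pow_eq_zero_iff (Nat.succ_ne_zero _)).mp h2
  have hc : ∀ b : K, φ (szTm h₀ 0 b) = szTm h 0 (β 0 b) := by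
    intro b
    rw [hαβ, hα0]
  have hadd : ∀ b d : K, β 0 (b + d) = β 0 b + β 0 d := by
    intro b d
    have h1 := congrArg φ (szTm_central_mul h₀ d 0 b)
    rw [map_mul, hc, hc, hc, szTm_central_mul] at h1
    exact ((szTm_inj h h1).2).symm
  have hz : β 0 0 = 0 := by
    have h1 := hadd 0 0
    rw [add_zero] at h1
    linear_combination (-1 : F) * h1
  have hinj : ∀ b : K, β 0 b = 0 → b = 0 := by
    intro b hb
    have h1 : φ (szTm h₀ 0 b) = φ 1 := by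
      rw [hc, hb, szTm_zero, map_one]
    exact ((szTm_eq_one_iff h₀ 0 b).mp (hφ h1)).2
  have hβ1 : β 0 1 ≠ 0 := fun hc' => one_ne_zero (hinj 1 hc')
  have hequiv : ∀ (μ : Kˣ) (b : K), β 0 (((μ : K) ^ 2) ^ (2 ^ (k + 1) + 1) * b) =
      (((η μ : Fˣ) : F) ^ 2) ^ (2 ^ (m + 1) + 1) * β 0 b := by
    intro μ b
    have h1 := congrArg φ (szHsub_conj_szTm h₀ μ 0 b)
    rw [mul_zero, hc, map_mul, map_mul, map_inv, hη, hc, szHsub_conj_szTm, mul_zero] at h1
    exact ((szTm_inj h h1).2).symm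
  have hmul : ∀ c b : K, β 0 (c * b) * β 0 1 = β 0 c * β 0 b := by
    intro c b
    by_cases hc0 : c = 0
    · rw [hc0, zero_mul, hz, zero_mul, zero_mul]
    · obtain ⟨μ, hμ⟩ := h₀.exists_unit_scale c hc0
      have e1 := hequiv μ b
      have e2 := hequiv μ 1
      rw [hμ] at e1 e2
      rw [mul_one] at e2
      rw [e1, e2]
      ring
  let ψ : K →+* F :=
    { toFun := fun c => β 0 c / β 0 1
      map_one' := div_self hβ1
      map_mul' := fun c b => by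
        show β 0 (c * b) / β 0 1 = β 0 c / β 0 1 * (β 0 b / β 0 1)
        rw [div_mul_div_comm, ← hmul c b, mul_div_mul_right _ _ hβ1]
      map_zero' := by
        show β 0 0 / β 0 1 = 0
        rw [hz, zero_div]
      map_add' := fun c b => by
        show β 0 (c + b) / β 0 1 = β 0 c / β 0 1 + β 0 b / β 0 1
        rw [hadd, add_div] }
  have hψ : ∀ b : K, ψ b = β 0 b / β 0 1 := fun b => rfl
  obtain ⟨ν₃, hν₃⟩ := h.exists_unit_scale (β 0 1)⁻¹ (inv_ne_zero hβ1)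
  refine ⟨szHsub h ν₃, ψ, ?_, ?_, ?_⟩
  · intro a b
    exact ⟨_, _, by rw [conjHom_apply, hαβ, szHsub_conj_szTm]⟩
  · intro μ
    refine ⟨η μ, ?_⟩
    rw [conjHom_apply, hη, szHsub_inv, szHsub_mul, szHsub_mul, mul_comm ν₃, mul_inv_cancel_right]
  · intro b
    rw [conjHom_apply, hc, szHsub_conj_szTm, mul_zero, hν₃, hψ]
    congr 1
    rw [inv_mul_eq_div]

/-- fourth step: all translations go through the field homomorphism -/
theorem sz_norm_trans (h₀ : SzData K (2 ^ (k + 1))) (h : SzData F (2 ^ (m + 1)))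
    (φ : ↥(Cfsg.Sz K k) →* ↥(Cfsg.Sz F m)) (hT : SzTT h₀ h φ)
    (hH : SzHH h₀ h φ) (ψ : K →+* F)
    (hψ : ∀ x : K, ψ x ^ 2 ^ (m + 1) = ψ (x ^ 2 ^ (k + 1)))
    (hc : ∀ b : K, φ (szTm h₀ 0 b) = szTm h 0 (ψ b)) :
    ∀ a b : K, φ (szTm h₀ a b) = szTm h (ψ a) (ψ b) := by
  have hT' : ∀ a b : K, ∃ a' b' : F, φ (szTm h₀ a b) = szTm h a' b' := hT
  have hH' : ∀ μ : Kˣ, ∃ ν : Fˣ, φ (szHsub h₀ μ) = szHsub h ν := hH
  choose α β hαβ using hT'
  choose η hη using hH'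
  have hα : ∀ a b : K, α a b = ψ a := by
    intro a b
    have h1 := congrArg φ (szTm_sq h₀ a b)
    rw [map_mul, hαβ, szTm_sq, hc] at h1
    have h2 := (szTm_inj h h1).2
    apply h.pow_succ_inj
    rw [pow_succ (α a b), h2, map_mul, ← hψ, pow_succ (ψ a)]
  have hγ : ∀ a : K, φ (szTm h₀ a 0) = szTm h (ψ a) (β a 0) := by
    intro a
    rw [hαβ, hα]
  have hsplit : ∀ a b : K, φ (szTm h₀ a b) = szTm h (ψ a) (β a 0 + ψ b) := by
    intro a b
    have e : szTm h₀ a b = szTm h₀ 0 b * szTm h₀ a 0 := by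
      rw [szTm_central_mul, zero_add]
    rw [e, map_mul, hc, hγ, szTm_central_mul]
  have hγadd : ∀ a c : K, β (a + c) 0 = β a 0 + β c 0 := by
    intro a c
    have e : szTm h₀ a 0 * szTm h₀ c 0 =
        szTm h₀ 0 (a ^ 2 ^ (k + 1) * c) * szTm h₀ (a + c) 0 := by
      rw [szTm_mul, szTm_central_mul]
      congr 1
      ring
    have h1 := congrArg φ e
    rw [map_mul, map_mul, hγ, hγ, hγ, hc, szTm_mul, szTm_central_mul] at h1
    have h2 := (szTm_inj h h1).2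
    rw [map_mul, ← hψ] at h2
    linear_combination (-1 : F) * h2
  have hγ0 : β 0 0 = 0 := by
    have h1 := hγadd 0 0
    rw [add_zero] at h1
    linear_combination (-1 : F) * h1
  have htor : ∀ (μ : Kˣ) (a : K), (((η μ : Fˣ) : F) ^ 2) * ψ a = ψ ((μ : K) ^ 2 * a) ∧
      (((η μ : Fˣ) : F) ^ 2) ^ (2 ^ (m + 1) + 1) * β a 0 = β ((μ : K) ^ 2 * a) 0 := by
    intro μ a
    have h1 := congrArg φ (szHsub_conj_szTm h₀ μ a 0)
    rw [mul_zero, hγ, map_mul, map_mul, map_inv, hη, hγ, szHsub_conj_szTm] at h1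
    exact szTm_inj h h1
  have hηψ : ∀ μ : Kˣ, ((η μ : Fˣ) : F) ^ 2 = ψ ((μ : K) ^ 2) := by
    intro μ
    have h1 := (htor μ 1).1
    rw [map_one, mul_one, mul_one] at h1
    exact h1
  have hγscale : ∀ κ a : K, κ ≠ 0 → β (κ * a) 0 = ψ κ ^ (2 ^ (m + 1) + 1) * β a 0 := by
    intro κ a hκ
    obtain ⟨μ, hμ⟩ := h₀.exists_unit_sq κ hκ
    have h1 := (htor μ a).2
    rw [hηψ, hμ] at h1
    exact h1.symm
  obtain ⟨κ, hκ⟩ := h₀.exists_th_ne
  have hκ0 : κ ≠ 0 := by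
    rintro rfl
    exact hκ h₀.th_zero
  have hκ1 : κ + 1 ≠ 0 := by
    intro hc'
    have h1 : κ = 1 := by linear_combination hc' - h₀.two
    rw [h1, one_pow] at hκ
    exact hκ rfl
  have hψne : ψ κ ^ 2 ^ (m + 1) + ψ κ ≠ 0 := by
    rw [hψ, ← map_add]
    intro hc'
    have h3 : κ ^ 2 ^ (k + 1) + κ = 0 := ψ.injective (by rw [hc', map_zero])
    apply hκ
    linear_combination h3 - κ * h₀.two
  have hγ1 : β 1 0 = 0 := by
    have e1 := hγscale κ 1 hκ0
    have e2 := hγscale (κ + 1) 1 hκ1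
    have e3 := hγadd κ 1
    rw [mul_one] at e1 e2
    rw [e1, e2, map_add, map_one, pow_succ (ψ κ + 1), h.add, one_pow, pow_succ (ψ κ)] at e3
    have e4 : (ψ κ ^ 2 ^ (m + 1) + ψ κ) * β 1 0 = 0 := by linear_combination e3
    rcases mul_eq_zero.mp e4 with e5 | e5
    · exact absurd e5 hψne
    · exact e5
  have hγall : ∀ a : K, β a 0 = 0 := by
    intro a
    by_cases ha : a = 0
    · rw [ha, hγ0]
    · have h1 := hγscale a 1 ha
      rw [mul_one, hγ1, mul_zero] at h1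
      exact h1
  intro a b
  rw [hsplit, hγall, zero_add]

/-- fifth step: the inversion goes to the inversion -/
theorem sz_norm_inversion (h₀ : SzData K (2 ^ (k + 1))) (h : SzData F (2 ^ (m + 1)))
    (φ : ↥(Cfsg.Sz K k) →* ↥(Cfsg.Sz F m)) (hφ : Function.Injective φ)
    (hH : SzHH h₀ h φ) (ψ : K →+* F)
    (hT : ∀ a b : K, φ (szTm h₀ a b) = szTm h (ψ a) (ψ b)) : φ (szWm h₀) = szWm h := by
  have hw2 : φ (szWm h₀) * φ (szWm h₀) = 1 := by rw [← map_mul, szWm_mul_self, map_one]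
  obtain ⟨μ₁, hμ₁⟩ := h₀.exists_unit_ne_one
  obtain ⟨ν₁, e₁⟩ := hH μ₁
  have hν₁ : ν₁ ≠ 1 := by
    rintro rfl
    apply hμ₁
    apply szHsub_inj h₀
    apply hφ
    rw [e₁, szHsub_one, szHsub_one, map_one]
  have hν₁' : ν₁⁻¹ ≠ 1 := fun hc => hν₁ (inv_eq_one.mp hc)
  have hrel : φ (szWm h₀) * szHsub h ν₁ * φ (szWm h₀) = szHsub h ν₁⁻¹ := by
    rw [← e₁, ← map_mul, ← map_mul, szWm_conj_szHsub, ← szHsub_inv, map_inv, e₁, szHsub_inv]
  have hfix : ∀ p : ↥(Cfsg.suzukiOvoid F m), szHsub h ν₁ • p = p →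
      φ (szWm h₀) • p = oInf F m ∨ φ (szWm h₀) • p = oPt m (0 : F) 0 := by
    intro p hp
    apply h.szHsub_fix hν₁'
    rw [← hrel, mul_smul, mul_smul, ← mul_smul (φ (szWm h₀)) (φ (szWm h₀)), hw2, one_smul, hp]
  have hne : φ (szWm h₀) ≠ 1 := by
    intro hc
    rw [← map_one φ] at hc
    have h1 := hφ hc
    have h2 := szWm_smul_inf h₀
    rw [h1, one_smul] at h2
    exact oPt_ne_oInf (0 : K) 0 h2.symm
  rcases hfix _ (h.szHsub_smul_inf ν₁) with h1 | h1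
  · exfalso
    rcases hfix _ (h.szHsub_smul_zero ν₁) with h2 | h2
    · rw [← h1] at h2
      exact oPt_ne_oInf (0 : F) 0 (MulAction.injective _ h2)
    · obtain ⟨ν, e⟩ := sz_two_point' h _ h1 h2
      rw [e, szHsub_mul, ← szHsub_one h] at hw2
      have h3 : ν * ν = 1 := szHsub_inj h hw2
      have h4 : ν = 1 := h.unit_sq_eq_one (by rw [pow_two, ← Units.val_mul, h3, Units.val_one])
      apply hne
      rw [e, h4, szHsub_one]
  · have h2 : φ (szWm h₀) • oPt m (0 : F) 0 = oInf F m := by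
      rw [← h1, ← mul_smul, hw2, one_smul]
    obtain ⟨ν, e⟩ := sz_swap h _ h1 h2
    have hr := congrArg φ (sz_W_relation h₀)
    rw [map_mul, map_mul, map_mul, map_mul, map_inv, hT, hT, map_one, map_zero] at hr
    have hr2 := congrArg (fun g : ↥(Cfsg.Sz F m) => g • oInf F m) hr
    simp only [mul_smul] at hr2
    rw [szTm_smul_inf, h1, szTm_smul_zero, e, mul_smul, szWm_smul_pt_one h 0 1 h.szf_zero_one,
      szHsub_smul_pt, inv_smul_eq_iff, szTm_smul_zero] at hr2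
    obtain ⟨e3, _⟩ := szPt_inj (congrArg Subtype.val hr2)
    rw [mul_one] at e3
    have h4 : ν = 1 := h.unit_sq_eq_one e3
    rw [e, h4, szHsub_one, one_mul]

end Norm2

section Std

variable {F K : Type*} [Field F] [Fintype F] [Field K] [Fintype K] {m k : ℕ}

/-- the standard copy of the Suzuki group over the subfield with `q` elements -/
def szStd (h : SzData F (2 ^ (m + 1))) (q : ℕ) : Subgroup ↥(Cfsg.Sz F m) :=
  Subgroup.closure ({g | ∃ x y : F, x ^ q = x ∧ y ^ q = y ∧ g = szTm h x y} ∪ {szWm h})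

theorem sz_range_std (h₀ : SzData K (2 ^ (k + 1))) (h : SzData F (2 ^ (m + 1)))
    (φ : ↥(Cfsg.Sz K k) →* ↥(Cfsg.Sz F m)) (ψ : K →+* F)
    (hT : ∀ a b : K, φ (szTm h₀ a b) = szTm h (ψ a) (ψ b)) (hW : φ (szWm h₀) = szWm h) :
    φ.range = szStd h (Fintype.card K) := by
  apply le_antisymm
  · rintro _ ⟨y, rfl⟩
    have hT' : ∀ a b : K, szTm h₀ a b ∈ (szStd h (Fintype.card K)).comap φ := by
      intro a b
      rw [Subgroup.mem_comap, hT]
      exact Subgroup.subset_closure (Or.inl ⟨ψ a, ψ b, (ringHom_range_iff ψ _).mp ⟨a, rfl⟩,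
        (ringHom_range_iff ψ _).mp ⟨b, rfl⟩, rfl⟩)
    have hW' : szWm h₀ ∈ (szStd h (Fintype.card K)).comap φ := by
      rw [Subgroup.mem_comap, hW]
      exact Subgroup.subset_closure (Or.inr rfl)
    have htop := sz_eq_top_of_T_Tw h₀ _ hT'
      (fun a b => Subgroup.mul_mem _ (Subgroup.mul_mem _ hW' (hT' a b)) hW')
    have hy : y ∈ (szStd h (Fintype.card K)).comap φ := by
      rw [htop]
      exact Subgroup.mem_top y
    exact hy
  · unfold szStd
    rw [Subgroup.closure_le]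
    rintro g (⟨x, y, hx, hy, rfl⟩ | hg)
    · obtain ⟨a, rfl⟩ := (ringHom_range_iff ψ x).mpr hx
      obtain ⟨b, rfl⟩ := (ringHom_range_iff ψ y).mpr hy
      exact ⟨szTm h₀ a b, hT a b⟩
    · rw [Set.mem_singleton_iff] at hg
      rw [hg]
      exact ⟨szWm h₀, hW⟩

/-- every subgroup isomorphic to the Suzuki group over the subfield is conjugate to the
standard one -/
theorem sz_subfield_std (hm : 1 ≤ m) (hF : Fintype.card F = 2 ^ (2 * m + 1))
    (hk : 1 ≤ k) (hK : Fintype.card K = 2 ^ (2 * k + 1)) (hdiv : 2 * k + 1 ∣ 2 * m + 1)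
    (S : Subgroup ↥(Cfsg.Sz F m)) (e : ↥S ≃* ↥(Cfsg.Sz K k)) :
    ∃ g : ↥(Cfsg.Sz F m), S.map (MulAut.conj g).toMonoidHom =
      szStd (szData_of_card hm hF) (Fintype.card K) := by
  have h := szData_of_card hm hF
  have h₀ := szData_of_card hk hK
  let φ : ↥(Cfsg.Sz K k) →* ↥(Cfsg.Sz F m) := S.subtype.comp e.symm.toMonoidHom
  have hφ : Function.Injective φ := fun x y hxy => e.symm.injective (Subtype.ext hxy)
  have hrange : φ.range = S := by
    ext x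
    constructor
    · rintro ⟨y, rfl⟩
      exact (e.symm y).2
    · intro hx
      refine ⟨e ⟨x, hx⟩, ?_⟩
      show ((e.symm (e ⟨x, hx⟩) : ↥S) : ↥(Cfsg.Sz F m)) = x
      rw [e.symm_apply_apply]
  obtain ⟨g₁, h1⟩ := sz_norm_sylow hm hF hk hK φ
  have hinj1 := conjHom_injective g₁ φ hφ
  obtain ⟨g₂, h2T, h2H⟩ := sz_norm_torus h₀ h _ hinj1 h1
  have hinj2 := conjHom_injective g₂ _ hinj1
  obtain ⟨g₃, ψ, h3T, h3H, h3c⟩ := sz_norm_center h₀ h _ hinj2 h2T h2H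
  have hinj3 := conjHom_injective g₃ _ hinj2
  have h5 := sz_norm_trans h₀ h _ h3T h3H ψ (th_compat hK hdiv ψ) h3c
  have h6 := sz_norm_inversion h₀ h _ hinj3 h3H ψ h5
  have h7 := sz_range_std h₀ h _ ψ h5 h6
  have e1 : conjHom g₃ (conjHom g₂ (conjHom g₁ φ)) = conjHom (g₃ * (g₂ * g₁)) φ := by
    rw [conjHom_conjHom g₁ g₂ φ, conjHom_conjHom]
  refine ⟨g₃ * (g₂ * g₁), ?_⟩
  rw [← h7, e1, conjHom_range, hrange]

/-- any two subgroups isomorphic to the Suzuki group over the subfield are conjugate -/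
theorem sz_subfield_conj (hm : 1 ≤ m) (hF : Fintype.card F = 2 ^ (2 * m + 1))
    (hk : 1 ≤ k) (hK : Fintype.card K = 2 ^ (2 * k + 1)) (hdiv : 2 * k + 1 ∣ 2 * m + 1)
    (S₁ S₂ : Subgroup ↥(Cfsg.Sz F m)) (e₁ : ↥S₁ ≃* ↥(Cfsg.Sz K k))
    (e₂ : ↥S₂ ≃* ↥(Cfsg.Sz K k)) :
    ∃ g : ↥(Cfsg.Sz F m), S₂ = S₁.map (MulAut.conj g).toMonoidHom := by
  obtain ⟨g₁, hg₁⟩ := sz_subfield_std hm hF hk hK hdiv S₁ e₁
  obtain ⟨g₂, hg₂⟩ := sz_subfield_std hm hF hk hK hdiv S₂ e₂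
  refine ⟨g₂⁻¹ * g₁, ?_⟩
  rw [← map_conj_map_conj, hg₁, ← hg₂, map_conj_map_conj, inv_mul_cancel, map_conj_one]

end Std

end Cfsg.Agent.Lib.Helper37
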