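-- helper37: Suzuki groups, part 17: elementary abelian TI-subgroups of the Suzuki group.
import Mathlib
import Cfsg.Prelude.Def_LieExceptional
import Cfsg.Prelude.Def_Transfer
import Cfsg.Agent.Lib.Helper37.SzSimple
import Cfsg.Agent.Lib.Helper37.SzMax
import Cfsg.Agent.Lib.Helper37.SzSubfield

set_option autoImplicit false

namespace Cfsg.Agent.Lib.Helper37

open Matrix
open scoped Pointwise

section TI

variable {F : Type*} [Field F] [Fintype F] {m : ℕ}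

/-- the subgroup of central translations with parameter in a subfield -/
def szE (h : SzData F (2 ^ (m + 1))) (K : Subfield F) : Subgroup ↥(Cfsg.Sz F m) where
  carrier := {g | ∃ c ∈ K, g = szTm h 0 c}
  mul_mem' := by
    rintro _ _ ⟨c, hc, rfl⟩ ⟨c', hc', rfl⟩
    exact ⟨c' + c, K.add_mem hc' hc, szTm_central_mul h c 0 c'⟩
  one_mem' := ⟨0, K.zero_mem, (szTm_zero h).symm⟩
  inv_mem' := by
    rintro _ ⟨c, hc, rfl⟩
    exact ⟨c, hc, szTm_central_inv h c⟩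

theorem mem_szE (h : SzData F (2 ^ (m + 1))) (K : Subfield F) (g : ↥(Cfsg.Sz F m)) :
    g ∈ szE h K ↔ ∃ c ∈ K, g = szTm h 0 c := Iff.rfl

theorem szE_elementary (h : SzData F (2 ^ (m + 1))) (K : Subfield F) :
    Cfsg.IsElementaryAbelian 2 (szE h K) := by
  constructor
  · refine ⟨⟨?_⟩⟩
    rintro ⟨_, c, hc, rfl⟩ ⟨_, c', hc', rfl⟩
    apply Subtype.ext
    show szTm h 0 c * szTm h 0 c' = szTm h 0 c' * szTm h 0 c
    rw [szTm_central_mul, szTm_central_mul, add_comm]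
  · rintro _ ⟨c, hc, rfl⟩
    rw [pow_two, szTm_central_mul, h.add_self, szTm_zero]

theorem card_szE (h : SzData F (2 ^ (m + 1))) (K : Subfield F) :
    Nat.card ↥(szE (m := m) h K) = Nat.card K := by
  symm
  refine Nat.card_eq_of_bijective
    (fun c : K => (⟨szTm h 0 (c : F), ⟨c, c.2, rfl⟩⟩ : ↥(szE (m := m) h K))) ⟨?_, ?_⟩
  · intro c c' hcc
    exact Subtype.ext (szTm_inj h (congrArg Subtype.val hcc)).2
  · rintro ⟨_, c, hc, rfl⟩
    exact ⟨⟨c, hc⟩, rfl⟩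

theorem szE_ti (h : SzData F (2 ^ (m + 1))) (K : Subfield F) (x : ↥(Cfsg.Sz F m))
    (hx : szE h K ⊓ (szE h K).map (MulAut.conj x).toMonoidHom ≠ ⊥) :
    x ∈ Subgroup.normalizer ((szE h K : Subgroup ↥(Cfsg.Sz F m)) : Set ↥(Cfsg.Sz F m)) := by
  obtain ⟨⟨g, hg⟩, hg1⟩ := (Subgroup.ne_bot_iff_exists_ne_one).mp hx
  have hg1' : g ≠ 1 := fun hc => hg1 (Subtype.ext hc)
  obtain ⟨hgE, hgM⟩ := Subgroup.mem_inf.mp hg
  obtain ⟨b, hb, rfl⟩ := hgE
  obtain ⟨y, hy, hyx⟩ := Subgroup.mem_map.mp hgM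
  obtain ⟨b', hb', rfl⟩ := hy
  have hyx' : x * szTm h 0 b' * x⁻¹ = szTm h 0 b := hyx
  have hb0 : b ≠ 0 := by
    rintro rfl
    exact hg1' (szTm_zero h)
  have hfix : szTm h 0 b • (x • oInf F m) = x • oInf F m := by
    rw [← hyx', ← mul_smul, inv_mul_cancel_right, mul_smul, szTm_smul_inf]
  have hxinf : x • oInf F m = oInf F m := szTm_fix h (fun hab => hb0 hab.2) _ hfix
  obtain ⟨u, v, μ, rfl⟩ := sz_stab_inf' h x hxinf
  rw [sz_conj_central] at hyx'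
  have hl := (szTm_inj h hyx').2
  have hb'0 : b' ≠ 0 := by
    rintro rfl
    rw [mul_zero] at hl
    exact hb0 hl.symm
  have hlK : ((μ : F) ^ 2) ^ (2 ^ (m + 1) + 1) ∈ K := by
    have e : ((μ : F) ^ 2) ^ (2 ^ (m + 1) + 1) = b / b' := by
      rw [← hl, mul_div_cancel_right₀ _ hb'0]
    rw [e]
    exact K.div_mem hb hb'
  have hl0 : ((μ : F) ^ 2) ^ (2 ^ (m + 1) + 1) ≠ 0 := pow_ne_zero _ (pow_ne_zero _ μ.ne_zero)
  rw [Subgroup.mem_normalizer_iff]
  intro t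
  constructor
  · rintro ⟨c, hc, rfl⟩
    rw [sz_conj_central]
    exact ⟨_, K.mul_mem hlK hc, rfl⟩
  · rintro ⟨c, hc, hct⟩
    refine ⟨(((μ : F) ^ 2) ^ (2 ^ (m + 1) + 1))⁻¹ * c, K.mul_mem (K.inv_mem hlK) hc, ?_⟩
    have e1 : (szTm h u v * szHsub h μ) * szTm h 0 ((((μ : F) ^ 2) ^ (2 ^ (m + 1) + 1))⁻¹ * c) *
        (szTm h u v * szHsub h μ)⁻¹ = szTm h 0 c := by
      rw [sz_conj_central, mul_inv_cancel_left₀ hl0]
    rw [← hct] at e1
    exact (mul_left_cancel (mul_right_cancel e1)).symm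

/-- existence of elementary abelian TI-subgroups of order `2^n` for `n ∣ 2m+1` -/
theorem sz_ti_exists (hm : 1 ≤ m) (hF : Fintype.card F = 2 ^ (2 * m + 1)) (n : ℕ)
    (hn : n ∣ 2 * m + 1) :
    ∃ E : Subgroup ↥(Cfsg.Sz F m), Cfsg.IsElementaryAbelian 2 E ∧ Nat.card ↥E = 2 ^ n ∧
      ∀ x : ↥(Cfsg.Sz F m), E ⊓ E.map (MulAut.conj x).toMonoidHom ≠ ⊥ →
        x ∈ Subgroup.normalizer (E : Set ↥(Cfsg.Sz F m)) := by
  have h := szData_of_card hm hF
  obtain ⟨K, hK⟩ := exists_subfield_card hF hn (by omega)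
  exact ⟨szE h K, szE_elementary h K, by rw [card_szE, hK], fun x hx => szE_ti h K x hx⟩

/-- an elementary abelian TI-subgroup of order `2^n`, `n ≥ 1`, forces `n ∣ 2m+1` -/
theorem sz_ti_dvd (hm : 1 ≤ m) (hF : Fintype.card F = 2 ^ (2 * m + 1)) (n : ℕ) (hn : 1 ≤ n)
    (E : Subgroup ↥(Cfsg.Sz F m)) (hE : Cfsg.IsElementaryAbelian 2 E) (hcard : Nat.card ↥E = 2 ^ n)
    (hTI : ∀ x : ↥(Cfsg.Sz F m), E ⊓ E.map (MulAut.conj x).toMonoidHom ≠ ⊥ →
        x ∈ Subgroup.normalizer (E : Set ↥(Cfsg.Sz F m))) : n ∣ 2 * m + 1 := by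
  have h := szData_of_card hm hF
  have : Fact (Nat.Prime 2) := ⟨Nat.prime_two⟩
  have hEp : IsPGroup 2 ↥E := IsPGroup.of_card hcard
  obtain ⟨P, hEP⟩ := hEp.exists_le_sylow
  obtain ⟨k, rfl⟩ := sz_sylow_conj hm hF P
  rw [szSyl_smul_coe] at hEP
  -- every element of `E` is a conjugate of a central translation
  have hform : ∀ e ∈ E, ∃ b : F, e = k * szTm h 0 b * k⁻¹ := by
    intro e he
    obtain ⟨t, ht, hte⟩ := Subgroup.mem_map.mp (hEP he)
    obtain ⟨a, b, rfl⟩ := ht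
    have hte' : k * szTm (szData_of_card hm hF) a b * k⁻¹ = e := hte
    have hsq : e ^ 2 = 1 := hE.2 e he
    rw [← hte'] at hsq
    have e1 : (k * szTm (szData_of_card hm hF) a b * k⁻¹) ^ 2 =
        k * (szTm (szData_of_card hm hF) a b * szTm (szData_of_card hm hF) a b) * k⁻¹ := by
      rw [pow_two]
      group
    rw [e1, szTm_mul] at hsq
    have e2 : szTm (szData_of_card hm hF) (a + a) (b + b + a ^ 2 ^ (m + 1) * a) = 1 := by
      have e3 : szTm (szData_of_card hm hF) (a + a) (b + b + a ^ 2 ^ (m + 1) * a) =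
          k⁻¹ * (k * szTm (szData_of_card hm hF) (a + a) (b + b + a ^ 2 ^ (m + 1) * a) * k⁻¹) * k := by
        group
      rw [e3, hsq]
      group
    have e4 := ((szTm_eq_one_iff _ _ _).mp e2).2
    have ha : a ^ (2 ^ (m + 1) + 1) = 0 := by
      rw [pow_succ]
      linear_combination e4 - b * h.two
    have ha0 : a = 0 := (pow_eq_zero_iff (Nat.succ_ne_zero _)).mp ha
    exact ⟨b, by rw [← hte', ha0]⟩
  -- the additive group of parameters
  let B : AddSubgroup F :=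
    { carrier := {b | k * szTm h 0 b * k⁻¹ ∈ E}
      add_mem' := by
        intro b b' hb hb'
        show k * szTm h 0 (b + b') * k⁻¹ ∈ E
        have e : k * szTm h 0 (b + b') * k⁻¹ = (k * szTm h 0 b' * k⁻¹) * (k * szTm h 0 b * k⁻¹) := by
          rw [← szTm_central_mul h b' 0 b]
          group
        rw [e]
        exact E.mul_mem hb' hb
      zero_mem' := by
        show k * szTm h 0 0 * k⁻¹ ∈ E
        rw [szTm_zero, mul_one, mul_inv_cancel]
        exact E.one_mem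
      neg_mem' := by
        intro b hb
        show k * szTm h 0 (-b) * k⁻¹ ∈ E
        rw [h.neg_eq]
        exact hb }
  have hB : ∀ b : F, b ∈ B ↔ k * szTm h 0 b * k⁻¹ ∈ E := fun b => Iff.rfl
  have hBcard : Nat.card B = 2 ^ n := by
    rw [← hcard]
    refine Nat.card_eq_of_bijective
      (fun b : B => (⟨k * szTm h 0 (b : F) * k⁻¹, (hB _).mp b.2⟩ : ↥E)) ⟨?_, ?_⟩
    · intro b b' hbb
      have h1 : k * szTm h 0 (b : F) * k⁻¹ = k * szTm h 0 (b' : F) * k⁻¹ := congrArg Subtype.val hbb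
      exact Subtype.ext (szTm_inj h (mul_left_cancel (mul_right_cancel h1))).2
    · rintro ⟨e, he⟩
      obtain ⟨b, rfl⟩ := hform e he
      exact ⟨⟨b, (hB b).mpr he⟩, rfl⟩
  -- a nonzero element of `B`
  have hex : ∃ b₀ ∈ B, b₀ ≠ 0 := by
    by_contra hcon
    push Not at hcon
    have hsub : Subsingleton B := ⟨fun x y => Subtype.ext ((hcon x x.2).trans (hcon y y.2).symm)⟩
    have h1 : Nat.card B = 1 := Nat.card_unique
    rw [hBcard] at h1
    have h2 : 2 ^ 1 ≤ 2 ^ n := Nat.pow_le_pow_right (by norm_num) hn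
    omega
  obtain ⟨b₀, hb₀, hb₀0⟩ := hex
  have hstab : ∀ l : F, l ≠ 0 → (∃ b ∈ B, b ≠ 0 ∧ l * b ∈ B) → ∀ b ∈ B, l * b ∈ B := by
    intro l hl ⟨b, hb, hb0, hlb⟩ b' hb'
    obtain ⟨μ, hμ⟩ := h.exists_unit_scale l hl
    have hconj : ∀ c : F, (k * szHsub h μ * k⁻¹) * (k * szTm h 0 c * k⁻¹) * (k * szHsub h μ * k⁻¹)⁻¹ =
        k * szTm h 0 (l * c) * k⁻¹ := by
      intro c
      have e : (k * szHsub h μ * k⁻¹) * (k * szTm h 0 c * k⁻¹) * (k * szHsub h μ * k⁻¹)⁻¹ =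
          k * (szHsub h μ * szTm h 0 c * (szHsub h μ)⁻¹) * k⁻¹ := by group
      rw [e, szHsub_conj_szTm, mul_zero, hμ]
    have hx := hTI (k * szHsub h μ * k⁻¹) (by
      intro hbot
      have hmem : k * szTm h 0 (l * b) * k⁻¹ ∈
          E ⊓ E.map (MulAut.conj (k * szHsub h μ * k⁻¹)).toMonoidHom := by
        refine Subgroup.mem_inf.mpr ⟨(hB _).mp hlb, ?_⟩
        exact Subgroup.mem_map.mpr ⟨k * szTm h 0 b * k⁻¹, (hB _).mp hb, hconj b⟩
      rw [hbot, Subgroup.mem_bot] at hmem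
      have e2 : szTm h 0 (l * b) = 1 := by
        have e3 : szTm h 0 (l * b) = k⁻¹ * (k * szTm h 0 (l * b) * k⁻¹) * k := by group
        rw [e3, hmem]
        group
      exact mul_ne_zero hl hb0 ((szTm_eq_one_iff _ _ _).mp e2).2)
    have h3 := (Subgroup.mem_normalizer_iff.mp hx (k * szTm h 0 b' * k⁻¹)).mp ((hB _).mp hb')
    rw [hconj] at h3
    exact (hB _).mpr h3
  obtain ⟨d, hd⟩ := card_pow_of_ratio_stable B b₀ hb₀ hb₀0 hstab
  rw [Nat.card_eq_fintype_card, hF, hBcard, ← pow_mul] at hd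
  have h4 : 2 * m + 1 = n * d := Nat.pow_right_injective (le_refl 2) hd
  exact ⟨d, h4⟩

/-- elementary abelian TI-subgroups of the Suzuki group -/
theorem sz_ti_iff (hm : 1 ≤ m) (hF : Fintype.card F = 2 ^ (2 * m + 1)) (n : ℕ) (hn : 2 ≤ n) :
    (∃ E : Subgroup ↥(Cfsg.Sz F m), Cfsg.IsElementaryAbelian 2 E ∧ Nat.card ↥E = 2 ^ n ∧
      ∀ x : ↥(Cfsg.Sz F m), E ⊓ E.map (MulAut.conj x).toMonoidHom ≠ ⊥ →
        x ∈ Subgroup.normalizer (E : Set ↥(Cfsg.Sz F m))) ↔ n ∣ 2 * m + 1 := by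
  constructor
  · rintro ⟨E, hE, hcard, hTI⟩
    exact sz_ti_dvd hm hF n (by omega) E hE hcard hTI
  · intro hdvd
    exact sz_ti_exists hm hF n hdvd

end TI

end Cfsg.Agent.Lib.Helper37
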