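-- helper37: Suzuki groups, character table, part 1: a counting lemma for complete lists of
-- irreducible characters.
import Mathlib

set_option autoImplicit false

namespace Cfsg.Agent.Lib.Helper37

section TbA

/-- the image of a map with constant fibre size -/
theorem card_image_fibre {α ι : Type*} [DecidableEq ι] (P : Finset α) (f : α → ι) (e n : ℕ)
    (hf : ∀ a ∈ P, (P.filter (fun a' => f a' = f a)).card = e) (he : 0 < e)
    (hn : P.card = e * n) : (P.image f).card = n := by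
  have h1 := Finset.card_eq_sum_card_image f P
  have h2 : ∑ b ∈ P.image f, (P.filter (fun a' => f a' = b)).card = ∑ _b ∈ P.image f, e := by
    apply Finset.sum_congr rfl
    intro b hb
    obtain ⟨a, ha, rfl⟩ := Finset.mem_image.mp hb
    exact hf a ha
  rw [h2, Finset.sum_const, smul_eq_mul, hn] at h1
  have h3 : e * n = e * (P.image f).card := by rw [h1]; ring
  exact (Nat.eq_of_mul_eq_mul_left he h3).symm

/-- sums over the image of a map with constant fibre size -/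
theorem sum_image_fibre {α ι : Type*} [DecidableEq ι] (P : Finset α) (f : α → ι) (e : ℕ)
    (hf : ∀ a ∈ P, (P.filter (fun a' => f a' = f a)).card = e) (he : 0 < e) (F : ι → ℂ) :
    ∑ b ∈ P.image f, F b = (e : ℂ)⁻¹ * ∑ a ∈ P, F (f a) := by
  have h1 := Finset.sum_comp F f (s := P)
  have h2 : ∑ b ∈ P.image f, (P.filter (fun a' => f a' = b)).card • F b =
      ∑ b ∈ P.image f, (e : ℂ) * F b := by
    apply Finset.sum_congr rfl
    intro b hb
    obtain ⟨a, ha, rfl⟩ := Finset.mem_image.mp hb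
    rw [hf a ha, nsmul_eq_mul]
  rw [h1, h2, ← Finset.mul_sum, ← mul_assoc, inv_mul_cancel₀ (Nat.cast_ne_zero.mpr he.ne'), one_mul]

theorem sq_ne_two_mul_sq' (d w : ℕ) (hw : 0 < w) : d ^ 2 ≠ 2 * w ^ 2 := by
  intro hc
  have h1 : Irrational (Real.sqrt 2) := irrational_sqrt_two
  apply h1
  refine ⟨(d : ℚ) / (w : ℚ), ?_⟩
  have hw' : (0 : ℝ) < (w : ℝ) := by exact_mod_cast hw
  have h2 : ((d : ℝ) / (w : ℝ)) ^ 2 = 2 := by
    have h3 : ((d : ℝ)) ^ 2 = 2 * (w : ℝ) ^ 2 := by exact_mod_cast hc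
    field_simp
    linarith
  have h4 : (0 : ℝ) ≤ (d : ℝ) / (w : ℝ) := by positivity
  push_cast
  rw [← h2, Real.sqrt_sq h4]

theorem two_sq_eq (a b w : ℕ) (ha : w ≤ a) (hb : w ≤ b) (h : a ^ 2 + b ^ 2 = 2 * w ^ 2) :
    a = w ∧ b = w := by
  have h1 : w ^ 2 ≤ a ^ 2 := Nat.pow_le_pow_left ha 2
  have h2 : w ^ 2 ≤ b ^ 2 := Nat.pow_le_pow_left hb 2
  have h3 : a ^ 2 = w ^ 2 := by omega
  have h4 : b ^ 2 = w ^ 2 := by omega
  exact ⟨Nat.pow_left_injective (by norm_num : 2 ≠ 0) h3,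
    Nat.pow_left_injective (by norm_num : 2 ≠ 0) h4⟩

/-- a complete list of the elements of a finite type from a partial list and a count -/
theorem master_abstract {ι αX αY αZ : Type*} [Fintype ι] [DecidableEq ι]
    (d : ι → ℕ) (i₁ iSt : ι) (PX : Finset αX) (PY : Finset αY) (PZ : Finset αZ)
    (fX : αX → ι) (fY : αY → ι) (fZ : αZ → ι)
    (DSt DX DY DZ w total eX eY eZ nX nY nZ : ℕ)
    (hdist : 1 < DY ∧ DY < DSt ∧ DSt < DX ∧ DX < DZ)
    (h1 : d i₁ = 1) (hSt : d iSt = DSt)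
    (hX : ∀ a ∈ PX, d (fX a) = DX) (hY : ∀ a ∈ PY, d (fY a) = DY)
    (hZ : ∀ a ∈ PZ, d (fZ a) = DZ)
    (hfX : ∀ a ∈ PX, (PX.filter (fun a' => fX a' = fX a)).card = eX)
    (hfY : ∀ a ∈ PY, (PY.filter (fun a' => fY a' = fY a)).card = eY)
    (hfZ : ∀ a ∈ PZ, (PZ.filter (fun a' => fZ a' = fZ a)).card = eZ)
    (heX : 0 < eX) (heY : 0 < eY) (heZ : 0 < eZ)
    (hnX : PX.card = eX * nX) (hnY : PY.card = eY * nY) (hnZ : PZ.card = eZ * nZ)
    (hsum : ∑ i : ι, d i ^ 2 = total)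
    (hid : total = 1 + DSt ^ 2 + nX * DX ^ 2 + nY * DY ^ 2 + nZ * DZ ^ 2 + 2 * w ^ 2)
    (hw0 : 0 < w) (hbig : ∀ i, i = i₁ ∨ w ≤ d i) :
    ∃ j₁ j₂ : ι, j₁ ≠ j₂ ∧ d j₁ = w ∧ d j₂ = w ∧
      ∀ F : ι → ℂ, ∑ i : ι, F i = F i₁ + F iSt + (eX : ℂ)⁻¹ * ∑ a ∈ PX, F (fX a) +
        (eY : ℂ)⁻¹ * ∑ a ∈ PY, F (fY a) + (eZ : ℂ)⁻¹ * ∑ a ∈ PZ, F (fZ a) + F j₁ + F j₂ := by
  classical
  obtain ⟨hd1, hd2, hd3, hd4⟩ := hdist
  set IX := PX.image fX with hIX
  set IY := PY.image fY with hIY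
  set IZ := PZ.image fZ with hIZ
  have hdX : ∀ b ∈ IX, d b = DX := by
    intro b hb
    obtain ⟨a, ha, rfl⟩ := Finset.mem_image.mp hb
    exact hX a ha
  have hdY : ∀ b ∈ IY, d b = DY := by
    intro b hb
    obtain ⟨a, ha, rfl⟩ := Finset.mem_image.mp hb
    exact hY a ha
  have hdZ : ∀ b ∈ IZ, d b = DZ := by
    intro b hb
    obtain ⟨a, ha, rfl⟩ := Finset.mem_image.mp hb
    exact hZ a ha
  have hcX : IX.card = nX := card_image_fibre PX fX eX nX hfX heX hnX
  have hcY : IY.card = nY := card_image_fibre PY fY eY nY hfY heY hnY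
  have hcZ : IZ.card = nZ := card_image_fibre PZ fZ eZ nZ hfZ heZ hnZ
  have hYZ : Disjoint IY IZ := by
    rw [Finset.disjoint_left]
    intro b hb hb'
    have := hdY b hb
    have := hdZ b hb'
    omega
  have hXYZ : Disjoint IX (IY ∪ IZ) := by
    rw [Finset.disjoint_left]
    intro b hb hb'
    have := hdX b hb
    rcases Finset.mem_union.mp hb' with hb' | hb'
    · have := hdY b hb'
      omega
    · have := hdZ b hb'
      omega
  have hSt' : iSt ∉ IX ∪ (IY ∪ IZ) := by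
    intro hb
    rcases Finset.mem_union.mp hb with hb | hb
    · have := hdX _ hb
      omega
    · rcases Finset.mem_union.mp hb with hb | hb
      · have := hdY _ hb
        omega
      · have := hdZ _ hb
        omega
  have h1' : i₁ ∉ insert iSt (IX ∪ (IY ∪ IZ)) := by
    intro hb
    rcases Finset.mem_insert.mp hb with hb | hb
    · rw [hb] at h1
      omega
    · rcases Finset.mem_union.mp hb with hb | hb
      · have := hdX _ hb
        omega
      · rcases Finset.mem_union.mp hb with hb | hb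
        · have := hdY _ hb
          omega
        · have := hdZ _ hb
          omega
  set K := insert i₁ (insert iSt (IX ∪ (IY ∪ IZ))) with hK
  have hKsum : ∀ {M : Type} [AddCommMonoid M] (G : ι → M), ∑ i ∈ K, G i =
      G i₁ + (G iSt + (∑ i ∈ IX, G i + (∑ i ∈ IY, G i + ∑ i ∈ IZ, G i))) := by
    intro M _ G
    rw [hK, Finset.sum_insert h1', Finset.sum_insert hSt', Finset.sum_union hXYZ,
      Finset.sum_union hYZ]
  have hsplit : ∀ {M : Type} [AddCommMonoid M] (G : ι → M), ∑ i : ι, G i =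
      ∑ i ∈ K, G i + ∑ i ∈ Kᶜ, G i := by
    intro M _ G
    exact (Finset.sum_add_sum_compl K G).symm
  have hR : ∑ i ∈ Kᶜ, d i ^ 2 = 2 * w ^ 2 := by
    have e1 := hsplit (fun i => d i ^ 2)
    have sX : ∑ i ∈ IX, d i ^ 2 = nX * DX ^ 2 := by
      rw [Finset.sum_congr rfl (fun b hb => by rw [hdX b hb]), Finset.sum_const, hcX, smul_eq_mul]
    have sY : ∑ i ∈ IY, d i ^ 2 = nY * DY ^ 2 := by
      rw [Finset.sum_congr rfl (fun b hb => by rw [hdY b hb]), Finset.sum_const, hcY, smul_eq_mul]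
    have sZ : ∑ i ∈ IZ, d i ^ 2 = nZ * DZ ^ 2 := by
      rw [Finset.sum_congr rfl (fun b hb => by rw [hdZ b hb]), Finset.sum_const, hcZ, smul_eq_mul]
    rw [hKsum (fun i => d i ^ 2), hsum, hid, h1, hSt, sX, sY, sZ] at e1
    omega
  have hRbig : ∀ i ∈ Kᶜ, w ≤ d i := by
    intro i hi
    rcases hbig i with rfl | hi'
    · exfalso
      rw [Finset.mem_compl] at hi
      exact hi (Finset.mem_insert_self _ _)
    · exact hi'
  have hRle : Kᶜ.card * w ^ 2 ≤ 2 * w ^ 2 := by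
    rw [← hR, ← smul_eq_mul, ← Finset.sum_const]
    apply Finset.sum_le_sum
    intro i hi
    exact Nat.pow_le_pow_left (hRbig i hi) 2
  have hw2 : 0 < w ^ 2 := by positivity
  have hc2 : Kᶜ.card ≤ 2 := Nat.le_of_mul_le_mul_right hRle hw2
  have hc0 : Kᶜ.card ≠ 0 := by
    intro hcc
    rw [Finset.card_eq_zero] at hcc
    rw [hcc, Finset.sum_empty] at hR
    omega
  have hc1 : Kᶜ.card ≠ 1 := by
    intro hcc
    obtain ⟨j, hj⟩ := Finset.card_eq_one.mp hcc
    rw [hj, Finset.sum_singleton] at hR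
    exact absurd hR (sq_ne_two_mul_sq' _ _ hw0)
  have hc : Kᶜ.card = 2 := by omega
  obtain ⟨j₁, j₂, hne, hj⟩ := Finset.card_eq_two.mp hc
  have hj1 : j₁ ∈ Kᶜ := by rw [hj]; exact Finset.mem_insert_self _ _
  have hj2 : j₂ ∈ Kᶜ := by rw [hj]; exact Finset.mem_insert_of_mem (Finset.mem_singleton_self _)
  have hb1 := hRbig j₁ hj1
  have hb2 := hRbig j₂ hj2
  rw [hj, Finset.sum_pair hne] at hR
  have hdj : d j₁ = w ∧ d j₂ = w := two_sq_eq _ _ _ hb1 hb2 hR
  refine ⟨j₁, j₂, hne, hdj.1, hdj.2, ?_⟩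
  intro F
  rw [hsplit F, hKsum F, hj, Finset.sum_pair hne, hIX, hIY, hIZ,
    sum_image_fibre PX fX eX hfX heX F, sum_image_fibre PY fY eY hfY heY F,
    sum_image_fibre PZ fZ eZ hfZ heZ F]
  ring

end TbA

end Cfsg.Agent.Lib.Helper37
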