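-- helper37: Suzuki groups, character table, part 2: sums over the linear characters of an
-- abelian group, and induced functions.
import Mathlib
import Cfsg.Agent.Lib.Helper37.SzChA

set_option autoImplicit false

namespace Cfsg.Agent.Lib.Helper37

open scoped ComplexConjugate

open Classical

section TbB

/-- the sum of the values of all linear characters of a finite abelian group at a point -/
theorem sum_hom_apply_comm {A : Type*} [CommGroup A] [Fintype A] [Fintype (A →* ℂˣ)] (y : A) :
    ∑ l : A →* ℂˣ, ((l y : ℂˣ) : ℂ) = if y = 1 then (Fintype.card A : ℂ) else 0 := by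
  classical
  by_cases hy : y = 1
  · subst hy
    rw [if_pos rfl]
    simp only [map_one, Units.val_one, Finset.sum_const, Finset.card_univ, nsmul_eq_mul, mul_one]
    have h1 : commutator A = ⊥ := by
      rw [commutator_eq_bot_iff_center_eq_top]
      ext a
      simp only [Subgroup.mem_top, iff_true]
      rw [Subgroup.mem_center_iff]
      intro b
      exact mul_comm b a
    rw [← Nat.card_eq_fintype_card, Cfsg.Agent.Lib.Helper79.card_monoidHom_units, h1,
      Subgroup.index_bot, Nat.card_eq_fintype_card]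
  · rw [if_neg hy]
    haveI : NeZero (Monoid.exponent A) := ⟨Monoid.exponent_ne_zero_of_finite⟩
    obtain ⟨φ, hφ⟩ := CommGroup.exists_apply_ne_one_of_hasEnoughRootsOfUnity A ℂ hy
    have h1 : ∑ l : A →* ℂˣ, ((l y : ℂˣ) : ℂ) =
        ((φ y : ℂˣ) : ℂ) * ∑ l : A →* ℂˣ, ((l y : ℂˣ) : ℂ) := by
      rw [Finset.mul_sum]
      refine (Fintype.sum_bijective (fun l => φ * l) (Group.mulLeft_bijective φ) _ _ ?_).symm
      intro l
      rw [MonoidHom.mul_apply, Units.val_mul]
    have h2 : ((φ y : ℂˣ) : ℂ) ≠ 1 := by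
      intro hc
      apply hφ
      exact Units.ext hc
    have h3 : (1 - ((φ y : ℂˣ) : ℂ)) * ∑ l : A →* ℂˣ, ((l y : ℂˣ) : ℂ) = 0 := by
      linear_combination h1
    rcases mul_eq_zero.mp h3 with h4 | h4
    · exact absurd (sub_eq_zero.mp h4).symm h2
    · exact h4

/-- the same for a finite group in which all elements commute -/
theorem sum_hom_apply {A : Type*} [Group A] [Fintype A] [Fintype (A →* ℂˣ)]
    (hcomm : ∀ a b : A, a * b = b * a) (y : A) :
    ∑ l : A →* ℂˣ, ((l y : ℂˣ) : ℂ) = if y = 1 then (Fintype.card A : ℂ) else 0 := by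
  letI : CommGroup A := { (inferInstance : Group A) with mul_comm := hcomm }
  exact sum_hom_apply_comm y

/-- the sum over the nontrivial linear characters -/
theorem sum_hom_apply_ne {A : Type*} [Group A] [Fintype A] [Fintype (A →* ℂˣ)]
    (hcomm : ∀ a b : A, a * b = b * a) (y : A) :
    ∑ l ∈ Finset.univ.filter (fun l : A →* ℂˣ => l ≠ 1), ((l y : ℂˣ) : ℂ) =
      (if y = 1 then (Fintype.card A : ℂ) else 0) - 1 := by
  rw [← sum_hom_apply hcomm y, Finset.filter_ne' Finset.univ (1 : A →* ℂˣ),
    ← Finset.sum_erase_add _ _ (Finset.mem_univ (1 : A →* ℂˣ))]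
  simp

variable {G : Type*} [Group G] [Fintype G]

/-- an induced function at an element whose conjugates in the subgroup are parametrised by a
subgroup -/
theorem indFun_of_subgroup (H K : Subgroup G) [Fintype K] (φ : H → ℂ) (g : G)
    (hK : ∀ x : G, x ∉ K → x⁻¹ * g * x ∉ H) :
    Cfsg.indFun H φ g =
      (Nat.card H : ℂ)⁻¹ * ∑ x : K, Cfsg.extendByZero H φ ((x : G)⁻¹ * g * x) := by
  unfold Cfsg.indFun
  rw [sum_split_subgroup K _ 0 (fun x hx =>
    Cfsg.Agent.Lib.Helper80.extendByZero_apply_not_mem H φ (hK x hx)), mul_zero, add_zero]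

end TbB

end Cfsg.Agent.Lib.Helper37
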