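-- helper37: Suzuki groups, character table, part 3: the characters attached to a
-- self-centralising subgroup with trivial intersections, explicitly.
import Mathlib
import Cfsg.Agent.Lib.Helper37.SzTbB

set_option autoImplicit false

namespace Cfsg.Agent.Lib.Helper37

open scoped ComplexConjugate

open Classical

section TbC

variable {G : Type*} [Group G] [Fintype G]

/-- the induced function of a linear character at an element of the subgroup -/
theorem indA_apply (A N : Subgroup G) [Fintype A] [Fintype N]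
    (hN : ∀ x ∈ N, ∀ a ∈ A, x⁻¹ * a * x ∈ A)
    (hTI : ∀ x : G, x ∉ N → ∀ a : G, a ∈ A → a ≠ 1 → x⁻¹ * a * x ∉ A)
    (l : A →* ℂˣ) (a : A) (ha : a ≠ 1) :
    Cfsg.indFun A (fun a => ((l a : ℂˣ) : ℂ)) (a : G) =
      (Nat.card A : ℂ)⁻¹ * ∑ n : N, ((l (conjN A N hN n a) : ℂˣ) : ℂ) := by
  have ha' : (a : G) ≠ 1 := fun hc => ha (Subtype.ext hc)
  rw [indFun_of_subgroup A N _ (a : G) (fun x hx => hTI x hx a a.2 ha')]
  congr 1
  apply Finset.sum_congr rfl
  intro n _
  have e : (n : G)⁻¹ * (a : G) * n = ((conjN A N hN n a : A) : G) := rfl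
  rw [e, Cfsg.Agent.Lib.Helper80.extendByZero_apply_mem]

theorem conjN_ne_one (A N : Subgroup G) (hN : ∀ x ∈ N, ∀ a ∈ A, x⁻¹ * a * x ∈ A)
    (n : N) (a : A) (ha : a ≠ 1) : conjN A N hN n a ≠ 1 := by
  intro hc
  apply ha
  have h1 : ((conjN A N hN n a : A) : G) = 1 := by rw [hc]; rfl
  rw [conjN_coe] at h1
  apply Subtype.ext
  have h2 : (a : G) = (n : G) * ((n : G)⁻¹ * a * n) * (n : G)⁻¹ := by group
  rw [h2, h1]
  simp

/-- the basic sum over the nontrivial linear characters and a family of elements -/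
theorem sum_ne_family {A : Type*} [Group A] [Fintype A] [Fintype (A →* ℂˣ)]
    (hcomm : ∀ a b : A, a * b = b * a) {ι : Type*} [Fintype ι] (u : ι → A)
    [DecidablePred (fun i => u i = 1)] :
    ∑ l ∈ Finset.univ.filter (fun l : A →* ℂˣ => l ≠ 1), ∑ i : ι, ((l (u i) : ℂˣ) : ℂ) =
      (Fintype.card A : ℂ) * ((Finset.univ.filter (fun i => u i = 1)).card : ℂ) -
        (Fintype.card ι : ℂ) := by
  rw [Finset.sum_comm]
  simp_rw [sum_hom_apply_ne hcomm]
  rw [Finset.sum_sub_distrib]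
  have h1 : ∑ i : ι, (if u i = 1 then (Fintype.card A : ℂ) else 0) =
      (Fintype.card A : ℂ) * ((Finset.univ.filter (fun i => u i = 1)).card : ℂ) := by
    rw [Finset.card_filter]
    push_cast
    rw [Finset.mul_sum]
    apply Finset.sum_congr rfl
    intro i _
    split_ifs <;> simp
  rw [← h1, Finset.sum_const, Finset.card_univ, nsmul_eq_mul, mul_one]
  congr 1
  apply Finset.sum_congr rfl
  intro i _
  congr 1

/-- the fibres of the orbit map -/
theorem card_conjN_fibre (A N : Subgroup G) [Fintype A] [Fintype N] (hAN : A ≤ N)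
    (hN : ∀ x ∈ N, ∀ a ∈ A, x⁻¹ * a * x ∈ A)
    (hcomm : ∀ a ∈ A, ∀ b ∈ A, a * b = b * a)
    (hcent : ∀ a ∈ A, a ≠ 1 → ∀ x : G, x * a = a * x → x ∈ A)
    (a : A) (ha : a ≠ 1) (n : N) :
    (Finset.univ.filter (fun n' : N => conjN A N hN n' a = conjN A N hN n a)).card =
      Fintype.card A := by
  have ha' : (a : G) ≠ 1 := fun hc => ha (Subtype.ext hc)
  have h1 : Finset.univ.filter (fun n' : N => conjN A N hN n' a = conjN A N hN n a) =
      Finset.univ.image (fun c : A => (⟨c, hAN c.2⟩ : N) * n) := by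
    ext n'
    simp only [Finset.mem_filter, Finset.mem_univ, true_and, Finset.mem_image]
    constructor
    · intro h
      have h2 : (n' : G)⁻¹ * a * n' = (n : G)⁻¹ * a * n := congrArg Subtype.val h
      have h3 : ((n' : G) * (n : G)⁻¹) * a = a * ((n' : G) * (n : G)⁻¹) := by
        have h4 : (a : G) * n' = n' * ((n : G)⁻¹ * a * n) := by
          rw [← h2]
          group
        calc ((n' : G) * (n : G)⁻¹) * a = (n' : G) * ((n : G)⁻¹ * a * n) * (n : G)⁻¹ := by group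
          _ = (a : G) * n' * (n : G)⁻¹ := by rw [← h4]
          _ = a * ((n' : G) * (n : G)⁻¹) := by group
      have h5 := hcent a a.2 ha' _ h3
      refine ⟨⟨_, h5⟩, ?_⟩
      apply Subtype.ext
      show (n' : G) * (n : G)⁻¹ * n = n'
      group
    · rintro ⟨c, rfl⟩
      apply Subtype.ext
      show ((c : G) * n)⁻¹ * a * ((c : G) * n) = (n : G)⁻¹ * a * n
      have h2 := hcomm c c.2 a a.2
      calc ((c : G) * n)⁻¹ * a * ((c : G) * n) = (n : G)⁻¹ * ((c : G)⁻¹ * ((a : G) * c)) * n := by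
            group
        _ = (n : G)⁻¹ * ((c : G)⁻¹ * ((c : G) * a)) * n := by rw [h2]
        _ = (n : G)⁻¹ * a * n := by group
  have hinj : Function.Injective (fun c : A => (⟨c, hAN c.2⟩ : N) * n) := by
    intro c c' h
    have h2 := mul_right_cancel h
    exact Subtype.ext (congrArg (fun y : N => (y : G)) h2)
  rw [h1, Finset.card_image_of_injective _ hinj, Finset.card_univ]

theorem card_conjN_fibre_le (A N : Subgroup G) [Fintype A] [Fintype N] (hAN : A ≤ N)
    (hN : ∀ x ∈ N, ∀ a ∈ A, x⁻¹ * a * x ∈ A)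
    (hcomm : ∀ a ∈ A, ∀ b ∈ A, a * b = b * a)
    (hcent : ∀ a ∈ A, a ≠ 1 → ∀ x : G, x * a = a * x → x ∈ A)
    (a : A) (ha : a ≠ 1) (y : A) :
    (Finset.univ.filter (fun n' : N => conjN A N hN n' a = y)).card ≤ Fintype.card A := by
  by_cases hy : ∃ n : N, conjN A N hN n a = y
  · obtain ⟨n, rfl⟩ := hy
    exact (card_conjN_fibre A N hAN hN hcomm hcent a ha n).le
  · have h1 : Finset.univ.filter (fun n' : N => conjN A N hN n' a = y) = ∅ := by
      ext n'
      simp only [Finset.mem_filter, Finset.mem_univ, true_and, Finset.notMem_empty, iff_false]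
      intro hc
      exact hy ⟨n', hc⟩
    rw [h1, Finset.card_empty]
    exact Nat.zero_le _

/-- the sum of the induced functions over the nontrivial linear characters -/
theorem indA_sum (A N : Subgroup G) [Fintype A] [Fintype N] [Fintype (A →* ℂˣ)]
    (hN : ∀ x ∈ N, ∀ a ∈ A, x⁻¹ * a * x ∈ A)
    (hTI : ∀ x : G, x ∉ N → ∀ a : G, a ∈ A → a ≠ 1 → x⁻¹ * a * x ∉ A)
    (hcomm : ∀ a ∈ A, ∀ b ∈ A, a * b = b * a) (a : A) (ha : a ≠ 1) :
    ∑ l ∈ Finset.univ.filter (fun l : A →* ℂˣ => l ≠ 1),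
        Cfsg.indFun A (fun a => ((l a : ℂˣ) : ℂ)) (a : G) =
      - ((Nat.card N : ℂ) / (Nat.card A : ℂ)) := by
  have hcomm' : ∀ a b : A, a * b = b * a := fun a b => Subtype.ext (hcomm a a.2 b b.2)
  simp_rw [indA_apply A N hN hTI _ a ha]
  rw [← Finset.mul_sum, sum_ne_family hcomm' (fun n : N => conjN A N hN n a)]
  have h1 : Finset.univ.filter (fun n : N => conjN A N hN n a = 1) = ∅ := by
    ext n
    simp only [Finset.mem_filter, Finset.mem_univ, true_and, Finset.notMem_empty, iff_false]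
    exact conjN_ne_one A N hN n a ha
  rw [h1, Finset.card_empty, Nat.cast_zero, mul_zero, zero_sub, Nat.card_eq_fintype_card,
    Nat.card_eq_fintype_card]
  ring

/-- the sum of the squared absolute values -/
theorem indA_sum_norm (A N : Subgroup G) [Fintype A] [Fintype N] [Fintype (A →* ℂˣ)]
    (hAN : A ≤ N) (hN : ∀ x ∈ N, ∀ a ∈ A, x⁻¹ * a * x ∈ A)
    (hTI : ∀ x : G, x ∉ N → ∀ a : G, a ∈ A → a ≠ 1 → x⁻¹ * a * x ∉ A)
    (hcomm : ∀ a ∈ A, ∀ b ∈ A, a * b = b * a)
    (hcent : ∀ a ∈ A, a ≠ 1 → ∀ x : G, x * a = a * x → x ∈ A) (a : A) (ha : a ≠ 1) :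
    ∑ l ∈ Finset.univ.filter (fun l : A →* ℂˣ => l ≠ 1),
        Cfsg.indFun A (fun a => ((l a : ℂˣ) : ℂ)) (a : G) *
          conj (Cfsg.indFun A (fun a => ((l a : ℂˣ) : ℂ)) (a : G)) =
      (Nat.card N : ℂ) - ((Nat.card N : ℂ) / (Nat.card A : ℂ)) ^ 2 := by
  have hcomm' : ∀ a b : A, a * b = b * a := fun a b => Subtype.ext (hcomm a a.2 b b.2)
  have key : ∀ l : A →* ℂˣ, Cfsg.indFun A (fun a => ((l a : ℂˣ) : ℂ)) (a : G) *
      conj (Cfsg.indFun A (fun a => ((l a : ℂˣ) : ℂ)) (a : G)) =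
      ((Nat.card A : ℂ)⁻¹) ^ 2 * ∑ p : N × N,
        ((l (conjN A N hN p.1 a * (conjN A N hN p.2 a)⁻¹) : ℂˣ) : ℂ) := by
    intro l
    rw [indA_apply A N hN hTI _ a ha, map_mul, map_inv₀, Complex.conj_natCast, map_sum,
      mul_mul_mul_comm, Finset.sum_mul_sum, ← pow_two, Fintype.sum_prod_type]
    congr 1
    apply Finset.sum_congr rfl
    intro n _
    apply Finset.sum_congr rfl
    intro n' _
    rw [Cfsg.Agent.Lib.Helper25.conj_linChar, map_mul, map_inv, Units.val_mul]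
  simp_rw [key]
  rw [← Finset.mul_sum, sum_ne_family hcomm'
    (fun p : N × N => conjN A N hN p.1 a * (conjN A N hN p.2 a)⁻¹)]
  have hcount : (Finset.univ.filter (fun p : N × N =>
      conjN A N hN p.1 a * (conjN A N hN p.2 a)⁻¹ = 1)).card =
      Fintype.card N * Fintype.card A := by
    rw [Finset.card_filter, Fintype.sum_prod_type]
    have h1 : ∀ x : N, ∑ y : N,
        (if conjN A N hN x a * (conjN A N hN y a)⁻¹ = 1 then 1 else 0) = Fintype.card A := by
      intro x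
      rw [← Finset.card_filter, ← card_conjN_fibre A N hAN hN hcomm hcent a ha x]
      congr 1
      ext y
      simp only [Finset.mem_filter, Finset.mem_univ, true_and]
      rw [mul_inv_eq_one]
      exact eq_comm
    simp_rw [h1]
    rw [Finset.sum_const, Finset.card_univ, smul_eq_mul]
  rw [hcount, Fintype.card_prod, Nat.card_eq_fintype_card, Nat.card_eq_fintype_card]
  have hA0 : (Fintype.card A : ℂ) ≠ 0 := Nat.cast_ne_zero.mpr Fintype.card_ne_zero
  push_cast
  field_simp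

/-- the sum of the squares -/
theorem indA_sum_sq (A N : Subgroup G) [Fintype A] [Fintype N] [Fintype (A →* ℂˣ)]
    (hAN : A ≤ N) (hN : ∀ x ∈ N, ∀ a ∈ A, x⁻¹ * a * x ∈ A)
    (hTI : ∀ x : G, x ∉ N → ∀ a : G, a ∈ A → a ≠ 1 → x⁻¹ * a * x ∉ A)
    (hcomm : ∀ a ∈ A, ∀ b ∈ A, a * b = b * a)
    (hcent : ∀ a ∈ A, a ≠ 1 → ∀ x : G, x * a = a * x → x ∈ A) (a : A) (ha : a ≠ 1) :
    ∃ k : ℕ, k ≤ Nat.card N * Nat.card A ∧
      ∑ l ∈ Finset.univ.filter (fun l : A →* ℂˣ => l ≠ 1),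
        Cfsg.indFun A (fun a => ((l a : ℂˣ) : ℂ)) (a : G) ^ 2 =
      (k : ℂ) / (Nat.card A : ℂ) - ((Nat.card N : ℂ) / (Nat.card A : ℂ)) ^ 2 := by
  have hcomm' : ∀ a b : A, a * b = b * a := fun a b => Subtype.ext (hcomm a a.2 b b.2)
  have key : ∀ l : A →* ℂˣ, Cfsg.indFun A (fun a => ((l a : ℂˣ) : ℂ)) (a : G) ^ 2 =
      ((Nat.card A : ℂ)⁻¹) ^ 2 * ∑ p : N × N,
        ((l (conjN A N hN p.1 a * conjN A N hN p.2 a) : ℂˣ) : ℂ) := by
    intro l
    rw [indA_apply A N hN hTI _ a ha, mul_pow, pow_two (∑ n : N, _), Finset.sum_mul_sum,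
      Fintype.sum_prod_type]
    congr 1
    apply Finset.sum_congr rfl
    intro n _
    apply Finset.sum_congr rfl
    intro n' _
    rw [map_mul, Units.val_mul]
  simp_rw [key]
  rw [← Finset.mul_sum, sum_ne_family hcomm'
    (fun p : N × N => conjN A N hN p.1 a * conjN A N hN p.2 a)]
  refine ⟨(Finset.univ.filter (fun p : N × N =>
      conjN A N hN p.1 a * conjN A N hN p.2 a = 1)).card, ?_, ?_⟩
  · rw [Finset.card_filter, Fintype.sum_prod_type, Nat.card_eq_fintype_card,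
      Nat.card_eq_fintype_card]
    have h1 : ∀ x : N, ∑ y : N,
        (if conjN A N hN x a * conjN A N hN y a = 1 then 1 else 0) ≤ Fintype.card A := by
      intro x
      rw [← Finset.card_filter]
      refine le_trans (le_of_eq ?_) (card_conjN_fibre_le A N hAN hN hcomm hcent a ha
        (conjN A N hN x a)⁻¹)
      congr 1
      ext y
      simp only [Finset.mem_filter, Finset.mem_univ, true_and]
      rw [mul_eq_one_iff_eq_inv']
    refine le_trans (Finset.sum_le_sum (fun x _ => h1 x)) ?_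
    rw [Finset.sum_const, Finset.card_univ, smul_eq_mul]
  · rw [Fintype.card_prod, Nat.card_eq_fintype_card, Nat.card_eq_fintype_card]
    have hA0 : (Fintype.card A : ℂ) ≠ 0 := Nat.cast_ne_zero.mpr Fintype.card_ne_zero
    push_cast
    field_simp

/-- the cubic sum -/
theorem indA_sum_cube (A N : Subgroup G) [Fintype A] [Fintype N] [Fintype (A →* ℂˣ)]
    (hAN : A ≤ N) (hN : ∀ x ∈ N, ∀ a ∈ A, x⁻¹ * a * x ∈ A)
    (hTI : ∀ x : G, x ∉ N → ∀ a : G, a ∈ A → a ≠ 1 → x⁻¹ * a * x ∉ A)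
    (hcomm : ∀ a ∈ A, ∀ b ∈ A, a * b = b * a)
    (hcent : ∀ a ∈ A, a ≠ 1 → ∀ x : G, x * a = a * x → x ∈ A) (a b : A) (ha : a ≠ 1)
    (hb : b ≠ 1) :
    ∃ k : ℕ, k ≤ Nat.card N * Nat.card N * Nat.card A ∧
      ∑ l ∈ Finset.univ.filter (fun l : A →* ℂˣ => l ≠ 1),
        Cfsg.indFun A (fun a => ((l a : ℂˣ) : ℂ)) (a : G) ^ 2 *
          Cfsg.indFun A (fun a => ((l a : ℂˣ) : ℂ)) (b : G) =
      (k : ℂ) / (Nat.card A : ℂ) ^ 2 - ((Nat.card N : ℂ) / (Nat.card A : ℂ)) ^ 3 := by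
  have hcomm' : ∀ a b : A, a * b = b * a := fun a b => Subtype.ext (hcomm a a.2 b b.2)
  have key : ∀ l : A →* ℂˣ, Cfsg.indFun A (fun a => ((l a : ℂˣ) : ℂ)) (a : G) ^ 2 *
        Cfsg.indFun A (fun a => ((l a : ℂˣ) : ℂ)) (b : G) =
      ((Nat.card A : ℂ)⁻¹) ^ 3 * ∑ p : (N × N) × N,
        ((l (conjN A N hN p.1.1 a * conjN A N hN p.1.2 a * conjN A N hN p.2 b) : ℂˣ) : ℂ) := by
    intro l
    rw [indA_apply A N hN hTI _ a ha, indA_apply A N hN hTI _ b hb, mul_pow,
      pow_two (∑ n : N, _), Finset.sum_mul_sum, mul_mul_mul_comm, ← pow_succ,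
      ← Fintype.sum_prod_type' (fun x y : N => ((l (conjN A N hN x a) : ℂˣ) : ℂ) *
        ((l (conjN A N hN y a) : ℂˣ) : ℂ)), Finset.sum_mul_sum,
      ← Fintype.sum_prod_type' (fun (x : N × N) (y : N) =>
        ((l (conjN A N hN x.1 a) : ℂˣ) : ℂ) * ((l (conjN A N hN x.2 a) : ℂˣ) : ℂ) *
          ((l (conjN A N hN y b) : ℂˣ) : ℂ))]
    congr 1
    apply Finset.sum_congr rfl
    intro p _
    rw [map_mul, map_mul, Units.val_mul, Units.val_mul]
  simp_rw [key]
  rw [← Finset.mul_sum, sum_ne_family hcomm'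
    (fun p : (N × N) × N => conjN A N hN p.1.1 a * conjN A N hN p.1.2 a * conjN A N hN p.2 b)]
  refine ⟨(Finset.univ.filter (fun p : (N × N) × N =>
      conjN A N hN p.1.1 a * conjN A N hN p.1.2 a * conjN A N hN p.2 b = 1)).card, ?_, ?_⟩
  · rw [Finset.card_filter, Fintype.sum_prod_type, Nat.card_eq_fintype_card,
      Nat.card_eq_fintype_card]
    have h1 : ∀ x : N × N, ∑ y : N,
        (if conjN A N hN x.1 a * conjN A N hN x.2 a * conjN A N hN y b = 1 then 1 else 0) ≤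
          Fintype.card A := by
      intro x
      rw [← Finset.card_filter]
      refine le_trans (le_of_eq ?_) (card_conjN_fibre_le A N hAN hN hcomm hcent b hb
        (conjN A N hN x.1 a * conjN A N hN x.2 a)⁻¹)
      congr 1
      ext y
      simp only [Finset.mem_filter, Finset.mem_univ, true_and]
      rw [mul_eq_one_iff_eq_inv']
    refine le_trans (Finset.sum_le_sum (fun x _ => h1 x)) ?_
    rw [Finset.sum_const, Finset.card_univ, smul_eq_mul, Fintype.card_prod]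
  · rw [Fintype.card_prod, Fintype.card_prod, Nat.card_eq_fintype_card, Nat.card_eq_fintype_card]
    have hA0 : (Fintype.card A : ℂ) ≠ 0 := Nat.cast_ne_zero.mpr Fintype.card_ne_zero
    push_cast
    field_simp

theorem conjN_inv_left (A N : Subgroup G) (hN : ∀ x ∈ N, ∀ a ∈ A, x⁻¹ * a * x ∈ A)
    (x : N) (a : A) : conjN A N hN x (conjN A N hN x⁻¹ a) = a := by
  apply Subtype.ext
  rw [conjN_coe, conjN_coe, Subgroup.coe_inv]
  group

theorem conjN_inv_right (A N : Subgroup G) (hN : ∀ x ∈ N, ∀ a ∈ A, x⁻¹ * a * x ∈ A)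
    (x : N) (a : A) : conjN A N hN x⁻¹ (conjN A N hN x a) = a := by
  apply Subtype.ext
  rw [conjN_coe, conjN_coe, Subgroup.coe_inv]
  group

/-- the family of irreducible characters attached to a self-centralising abelian subgroup with
trivial intersections, explicitly: irreducibility, degrees and the fibres of the
parametrisation -/
theorem torus_family_explicit (A N : Subgroup G) [Fintype A] [Fintype N] [Fintype (A →* ℂˣ)]
    (hAN : A ≤ N)
    (hN : ∀ x ∈ N, ∀ a ∈ A, x⁻¹ * a * x ∈ A)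
    (hTI : ∀ x : G, x ∉ N → ∀ a : G, a ∈ A → a ≠ 1 → x⁻¹ * a * x ∉ A)
    (hcomm : ∀ a ∈ A, ∀ b ∈ A, a * b = b * a)
    (hcent : ∀ a ∈ A, a ≠ 1 → ∀ x : G, x * a = a * x → x ∈ A)
    (Ψ : G → ℂ) (hΨ : Cfsg.IsCharacter G Ψ) (hv : ∀ a : G, a ∈ A → a ≠ 1 → Ψ a = 0)
    (P d e : ℕ) (hP : Ψ 1 = (P : ℂ)) (hd0 : 0 < d) (hPd : P = A.index + d)
    (he : Nat.card N = e * Nat.card A)
    (hnorm : Cfsg.classInner Ψ Ψ - 2 * ((Nat.card A : ℂ)⁻¹ * (P : ℂ)) +
      ((Nat.card A : ℂ)⁻¹) ^ 2 * ((Nat.card A : ℂ) * (Nat.card A : ℂ) +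
        ((Nat.card G : ℂ) - (Nat.card N : ℂ))) = 1) :
    (∀ l : A →* ℂˣ, l ≠ 1 →
      Cfsg.IsIrrCharacter G (Ψ - Cfsg.indFun A (fun a => ((l a : ℂˣ) : ℂ)))) ∧
    (∀ l : A →* ℂˣ, l ≠ 1 → (Ψ - Cfsg.indFun A (fun a => ((l a : ℂˣ) : ℂ))) 1 = (d : ℂ)) ∧
    (∀ l : A →* ℂˣ, l ≠ 1 → (Finset.univ.filter (fun l' : A →* ℂˣ => l' ≠ 1 ∧
      Cfsg.indFun A (fun a => ((l' a : ℂˣ) : ℂ)) =
        Cfsg.indFun A (fun a => ((l a : ℂˣ) : ℂ)))).card = e) := by
  haveI : Fintype (Cfsg.IrrCharacter G) := Fintype.ofFinite _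
  have hchar : ∀ l : A →* ℂˣ, Cfsg.IsCharacter G (Cfsg.indFun A (fun a => ((l a : ℂˣ) : ℂ))) :=
    fun l => Cfsg.Agent.Lib.Helper80.isCharacter_indFun A
      (Cfsg.Agent.Lib.Helper26.isCharacter_of_irr (Cfsg.Agent.Lib.Helper80.isIrrCharacter_of_hom l))
  have hcl : Cfsg.IsClassFunction G Ψ := Cfsg.Agent.Lib.Helper26.isClassFunction_of_isCharacter hΨ
  have hA0 : (Nat.card A : ℂ) ≠ 0 := by
    rw [Nat.card_eq_fintype_card]
    exact_mod_cast Fintype.card_ne_zero
  have hb : (Nat.card A : ℂ) * (Nat.card A : ℂ)⁻¹ = 1 := mul_inv_cancel₀ hA0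
  have h1 : ∀ l : A →* ℂˣ, Cfsg.classInner (Cfsg.indFun A (fun a => ((l a : ℂˣ) : ℂ))) Ψ =
      (Nat.card A : ℂ)⁻¹ * (P : ℂ) := by
    intro l
    have h1 := classInner_ind_vanish A (fun a => ((l a : ℂˣ) : ℂ)) Ψ hcl hv
    rw [hP, Complex.conj_natCast, map_one, Units.val_one, one_mul] at h1
    exact h1
  have h2 : ∀ l : A →* ℂˣ, Cfsg.classInner Ψ (Cfsg.indFun A (fun a => ((l a : ℂˣ) : ℂ))) =
      (Nat.card A : ℂ)⁻¹ * (P : ℂ) := by
    intro l
    have h2 := Cfsg.Agent.Lib.Helper26.classInner_conj_symm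
      (Cfsg.indFun A (fun a => ((l a : ℂˣ) : ℂ))) Ψ
    rw [h1 l, map_mul, map_inv₀, Complex.conj_natCast, Complex.conj_natCast] at h2
    exact h2.symm
  have hinner : ∀ l l' : A →* ℂˣ,
      Cfsg.classInner (Ψ - Cfsg.indFun A (fun a => ((l a : ℂˣ) : ℂ)))
        (Ψ - Cfsg.indFun A (fun a => ((l' a : ℂˣ) : ℂ))) =
      ((Finset.univ.filter (fun x : N => l = l'.comp (conjN A N hN x))).card : ℂ) *
        (Nat.card A : ℂ)⁻¹ := by
    intro l l'
    have h3 := classInner_ind_linChar A N hN hTI l l'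
    rw [Cfsg.Agent.Lib.Helper26.classInner_sub_left, Cfsg.Agent.Lib.Helper26.classInner_sub_right,
      Cfsg.Agent.Lib.Helper26.classInner_sub_right, h1 l, h2 l', h3]
    linear_combination hnorm +
      (((Finset.univ.filter (fun x : N => l = l'.comp (conjN A N hN x))).card : ℂ) *
        (Nat.card A : ℂ)⁻¹ - (Nat.card A : ℂ)⁻¹ * (Nat.card A : ℂ) - 1) * hb
  have hdeg : ∀ l : A →* ℂˣ,
      (Ψ - Cfsg.indFun A (fun a => ((l a : ℂˣ) : ℂ))) 1 = (d : ℂ) := by
    intro l
    rw [Pi.sub_apply, hP, Cfsg.Agent.Lib.Helper80.indFun_one, map_one, Units.val_one, hPd]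
    push_cast
    ring
  have hirr : ∀ l : A →* ℂˣ, l ≠ 1 →
      Cfsg.IsIrrCharacter G (Ψ - Cfsg.indFun A (fun a => ((l a : ℂˣ) : ℂ))) := by
    intro l hl
    apply irr_of_norm_one (Cfsg.Agent.Lib.Helper26.isGen_sub
      (Cfsg.Agent.Lib.Helper26.isGen_of_isCharacter hΨ)
      (Cfsg.Agent.Lib.Helper26.isGen_of_isCharacter (hchar l))) _ d (hdeg l) hd0
    rw [hinner l l, card_conjN_fix A N hAN hN hcomm hcent l hl]
    exact hb
  refine ⟨hirr, fun l _ => hdeg l, ?_⟩
  intro l hl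
  -- the counts
  have hc : ∀ l' : A →* ℂˣ, l' ≠ 1 →
      (Finset.univ.filter (fun x : N => l = l'.comp (conjN A N hN x))).card =
        if Cfsg.indFun A (fun a => ((l' a : ℂˣ) : ℂ)) = Cfsg.indFun A (fun a => ((l a : ℂˣ) : ℂ))
        then Nat.card A else 0 := by
    intro l' hl'
    have h4 := hinner l l'
    rw [Cfsg.Agent.Lib.Helper80.classInner_irr_fun (hirr l hl) (hirr l' hl')] at h4
    by_cases hcase : Cfsg.indFun A (fun a => ((l' a : ℂˣ) : ℂ)) =
        Cfsg.indFun A (fun a => ((l a : ℂˣ) : ℂ))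
    · rw [if_pos hcase]
      rw [if_pos (by rw [hcase])] at h4
      have h5 : ((Finset.univ.filter (fun x : N => l = l'.comp (conjN A N hN x))).card : ℂ) =
          (Nat.card A : ℂ) := by
        have h6 : ((Finset.univ.filter (fun x : N => l = l'.comp (conjN A N hN x))).card : ℂ) =
            ((Finset.univ.filter (fun x : N => l = l'.comp (conjN A N hN x))).card : ℂ) *
              ((Nat.card A : ℂ)⁻¹ * (Nat.card A : ℂ)) := by
          rw [inv_mul_cancel₀ hA0, mul_one]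
        rw [h6, ← mul_assoc, ← h4, one_mul]
      exact_mod_cast h5
    · rw [if_neg hcase]
      rw [if_neg (fun hc' => hcase (sub_right_injective hc').symm)] at h4
      have h5 : ((Finset.univ.filter (fun x : N => l = l'.comp (conjN A N hN x))).card : ℂ) = 0 := by
        rcases mul_eq_zero.mp h4.symm with h6 | h6
        · exact h6
        · exact absurd h6 (inv_ne_zero hA0)
      exact_mod_cast h5
  have hone : (Finset.univ.filter (fun x : N => l = (1 : A →* ℂˣ).comp (conjN A N hN x))).card =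
      0 := by
    rw [Finset.card_eq_zero]
    ext x
    simp only [Finset.mem_filter, Finset.mem_univ, true_and, Finset.notMem_empty, iff_false]
    intro hc'
    apply hl
    rw [hc']
    rfl
  have htot : ∑ l' : A →* ℂˣ,
      (Finset.univ.filter (fun x : N => l = l'.comp (conjN A N hN x))).card = Fintype.card N := by
    simp_rw [Finset.card_filter]
    rw [Finset.sum_comm]
    have h7 : ∀ x : N, ∑ l' : A →* ℂˣ, (if l = l'.comp (conjN A N hN x) then 1 else 0) = 1 := by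
      intro x
      rw [Finset.sum_eq_single (l.comp (conjN A N hN x⁻¹))]
      · rw [if_pos]
        apply MonoidHom.ext
        intro a
        rw [MonoidHom.comp_apply, MonoidHom.comp_apply, conjN_inv_right]
      · intro l' _ hne
        rw [if_neg]
        intro hc'
        apply hne
        apply MonoidHom.ext
        intro a
        rw [hc', MonoidHom.comp_apply, MonoidHom.comp_apply, conjN_inv_left]
      · intro hc'
        exact absurd (Finset.mem_univ _) hc'
    simp_rw [h7]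
    rw [Finset.sum_const, Finset.card_univ, smul_eq_mul, mul_one]
  rw [← Finset.sum_erase_add _ _ (Finset.mem_univ (1 : A →* ℂˣ)), hone, add_zero,
    ← Finset.filter_ne' Finset.univ (1 : A →* ℂˣ)] at htot
  rw [Finset.sum_congr rfl (fun l' hl' => hc l' (Finset.mem_filter.mp hl').2),
    ← Finset.sum_filter, Finset.sum_const, smul_eq_mul, Finset.filter_filter,
    ← Nat.card_eq_fintype_card, he] at htot
  have hA0' : 0 < Nat.card A := Nat.card_pos
  exact Nat.eq_of_mul_eq_mul_right hA0' htot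

end TbC

end Cfsg.Agent.Lib.Helper37
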