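-- helper37: Suzuki groups, character table, part 4: the values of the characters induced from
-- the point stabiliser.
import Mathlib
import Cfsg.Prelude.Def_LieExceptional
import Cfsg.Agent.Lib.Helper37.SzChD
import Cfsg.Agent.Lib.Helper37.SzTbC

set_option autoImplicit false

namespace Cfsg.Agent.Lib.Helper37

open scoped ComplexConjugate

open Classical

section TbD

variable {F : Type*} [Field F] [Fintype F] {m : ℕ}

/-- the characters induced from the linear characters of the point stabiliser -/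
noncomputable def chX (h : SzData F (2 ^ (m + 1))) [Fintype ↥(Cfsg.Sz F m)] (η : Fˣ →* ℂˣ) :
    ↥(Cfsg.Sz F m) → ℂ :=
  Cfsg.indFun (szB F m) (fun y => ((etaB h η y : ℂˣ) : ℂ))

theorem chX_one (hm : 1 ≤ m) (hF : Fintype.card F = 2 ^ (2 * m + 1))
    (h : SzData F (2 ^ (m + 1))) [Fintype ↥(Cfsg.Sz F m)] (η : Fˣ →* ℂˣ) :
    chX h η 1 = (((2 ^ (2 * m + 1)) ^ 2 + 1 : ℕ) : ℂ) := by
  unfold chX
  rw [Cfsg.Agent.Lib.Helper80.indFun_one, szB_index hm hF, map_one, Units.val_one, mul_one]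

theorem etaB_ext_T (h : SzData F (2 ^ (m + 1))) (η : Fˣ →* ℂˣ) (a b : F) :
    Cfsg.extendByZero (szB F m) (fun y => ((etaB h η y : ℂˣ) : ℂ)) (szTm h a b) = 1 := by
  have e : szTm h a b = ((szBp h a b 1 : ↥(szB F m)) : ↥(Cfsg.Sz F m)) := by
    show _ = szTm h a b * szHsub h 1
    rw [szHsub_one, mul_one]
  rw [e, Cfsg.Agent.Lib.Helper80.extendByZero_apply_mem, etaB_mk, map_one, Units.val_one]

theorem etaB_ext_H (h : SzData F (2 ^ (m + 1))) (η : Fˣ →* ℂˣ) (μ : Fˣ) :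
    Cfsg.extendByZero (szB F m) (fun y => ((etaB h η y : ℂˣ) : ℂ)) (szHsub h μ) =
      ((η μ : ℂˣ) : ℂ) := by
  have e : szHsub h μ = ((szBp h 0 0 μ : ↥(szB F m)) : ↥(Cfsg.Sz F m)) := by
    show _ = szTm h 0 0 * szHsub h μ
    rw [szTm_zero, one_mul]
  rw [e, Cfsg.Agent.Lib.Helper80.extendByZero_apply_mem, etaB_mk]

/-- the value at a nonidentity element of the Sylow 2-subgroup -/
theorem chX_T (h : SzData F (2 ^ (m + 1))) [Fintype ↥(Cfsg.Sz F m)] (η : Fˣ →* ℂˣ) (a b : F)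
    (hab : ¬ (a = 0 ∧ b = 0)) : chX h η (szTm h a b) = 1 := by
  haveI : Fintype ↥(szB F m) := Fintype.ofFinite _
  unfold chX
  rw [indFun_of_subgroup (szB F m) (szB F m) _ (szTm h a b)]
  · have h1 : ∀ x : ↥(szB F m), Cfsg.extendByZero (szB F m) (fun y => ((etaB h η y : ℂˣ) : ℂ))
        ((x : ↥(Cfsg.Sz F m))⁻¹ * szTm h a b * x) = 1 := by
      intro x
      rw [etaB_ext_conj h η _ _ x.2, etaB_ext_T]
    simp_rw [h1]
    rw [Finset.sum_const, Finset.card_univ, nsmul_eq_mul, mul_one, Nat.card_eq_fintype_card]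
    exact inv_mul_cancel₀ (Nat.cast_ne_zero.mpr Fintype.card_ne_zero)
  · intro x hx hc
    apply hx
    rw [mem_szB] at hc ⊢
    have h2 : (x⁻¹ * szTm h a b * x⁻¹⁻¹) • oInf F m = oInf F m := by
      rw [inv_inv]
      exact hc
    have h3 := sz_T_conj_fix h x⁻¹ a b hab _ h2
    conv_lhs => rw [h3]
    rw [smul_inv_smul]

/-- the value at an element without fixed points -/
theorem chX_fpf (h : SzData F (2 ^ (m + 1))) [Fintype ↥(Cfsg.Sz F m)] (η : Fˣ →* ℂˣ)
    (g : ↥(Cfsg.Sz F m)) (hg : szFpf g) : chX h η g = 0 := by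
  unfold chX
  apply indFun_eq_zero_of_not_conj
  intro x hc
  rw [mem_szB] at hc
  apply hg (x • oInf F m)
  have h1 : g • x • oInf F m = x • ((x⁻¹ * g * x) • oInf F m) := by
    rw [← mul_smul, ← mul_smul]
    congr 1
    group
  rw [h1, hc]

/-- the value at a nonidentity element of the torus of the point stabiliser -/
theorem chX_H (h : SzData F (2 ^ (m + 1))) [Fintype ↥(Cfsg.Sz F m)] (η : Fˣ →* ℂˣ) (μ : Fˣ)
    (hμ : μ ≠ 1) : chX h η (szHsub h μ) = ((η μ : ℂˣ) : ℂ) + ((η μ⁻¹ : ℂˣ) : ℂ) := by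
  haveI : Fintype ↥(szB F m) := Fintype.ofFinite _
  unfold chX Cfsg.indFun
  set f : ↥(Cfsg.Sz F m) → ℂ := fun x =>
    Cfsg.extendByZero (szB F m) (fun y => ((etaB h η y : ℂˣ) : ℂ)) (x⁻¹ * szHsub h μ * x) with hf
  have hsupp : ∀ x : ↥(Cfsg.Sz F m), x ∉ szB F m → (szWm h)⁻¹ * x ∉ szB F m → f x = 0 := by
    intro x hx hx'
    rw [hf]
    apply Cfsg.Agent.Lib.Helper80.extendByZero_apply_not_mem
    intro hc
    rw [mem_szB] at hc
    have h1 : szHsub h μ • x • oInf F m = x • oInf F m := by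
      have h2 : szHsub h μ • x • oInf F m = x • ((x⁻¹ * szHsub h μ * x) • oInf F m) := by
        rw [← mul_smul, ← mul_smul]
        congr 1
        group
      rw [h2, hc]
    rcases h.szHsub_fix hμ _ h1 with h3 | h3
    · exact hx ((mem_szB _).mpr h3)
    · apply hx'
      rw [mem_szB, mul_smul, h3, ← szWm_smul_inf h, inv_smul_smul]
  have hsplit : ∀ x : ↥(Cfsg.Sz F m), f x = (if x ∈ szB F m then f x else 0) +
      (if (szWm h)⁻¹ * x ∈ szB F m then f x else 0) := by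
    intro x
    by_cases hx : x ∈ szB F m
    · have hx' : (szWm h)⁻¹ * x ∉ szB F m := by
        intro hc
        apply szWm_not_mem_szB h
        have e : szWm h = x * ((szWm h)⁻¹ * x)⁻¹ := by group
        rw [e]
        exact mul_mem hx (inv_mem hc)
      rw [if_pos hx, if_neg hx', add_zero]
    · by_cases hx' : (szWm h)⁻¹ * x ∈ szB F m
      · rw [if_neg hx, if_pos hx', zero_add]
      · rw [if_neg hx, if_neg hx', add_zero]
        exact hsupp x hx hx'
  have hsum1 : ∑ x : ↥(Cfsg.Sz F m), (if x ∈ szB F m then f x else 0) =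
      (Nat.card ↥(szB F m) : ℂ) * ((η μ : ℂˣ) : ℂ) := by
    rw [sum_split_subgroup (szB F m) _ 0 (fun x hx => if_neg hx), mul_zero, add_zero]
    have h1 : ∀ x : ↥(szB F m), (if (x : ↥(Cfsg.Sz F m)) ∈ szB F m then f x else 0) =
        ((η μ : ℂˣ) : ℂ) := by
      intro x
      rw [if_pos x.2, hf]
      show Cfsg.extendByZero (szB F m) (fun y => ((etaB h η y : ℂˣ) : ℂ))
        ((x : ↥(Cfsg.Sz F m))⁻¹ * szHsub h μ * x) = _
      rw [etaB_ext_conj h η _ _ x.2, etaB_ext_H]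
    simp_rw [h1]
    rw [Finset.sum_const, Finset.card_univ, nsmul_eq_mul, Nat.card_eq_fintype_card]
  have hsum2 : ∑ x : ↥(Cfsg.Sz F m), (if (szWm h)⁻¹ * x ∈ szB F m then f x else 0) =
      (Nat.card ↥(szB F m) : ℂ) * ((η μ⁻¹ : ℂˣ) : ℂ) := by
    have h0 : ∑ x : ↥(Cfsg.Sz F m), (if (szWm h)⁻¹ * x ∈ szB F m then f x else 0) =
        ∑ y : ↥(Cfsg.Sz F m), (if y ∈ szB F m then f (szWm h * y) else 0) := by
      refine Fintype.sum_equiv (Equiv.mulLeft (szWm h)⁻¹) _ _ (fun x => ?_)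
      show _ = if (szWm h)⁻¹ * x ∈ szB F m then f (szWm h * ((szWm h)⁻¹ * x)) else 0
      rw [mul_inv_cancel_left]
    rw [h0, sum_split_subgroup (szB F m) _ 0 (fun x hx => if_neg hx), mul_zero, add_zero]
    have h1 : ∀ x : ↥(szB F m), (if (x : ↥(Cfsg.Sz F m)) ∈ szB F m then
        f (szWm h * x) else 0) = ((η μ⁻¹ : ℂˣ) : ℂ) := by
      intro x
      rw [if_pos x.2, hf]
      show Cfsg.extendByZero (szB F m) (fun y => ((etaB h η y : ℂˣ) : ℂ))
        ((szWm h * (x : ↥(Cfsg.Sz F m)))⁻¹ * szHsub h μ * (szWm h * x)) = _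
      have e : (szWm h * (x : ↥(Cfsg.Sz F m)))⁻¹ * szHsub h μ * (szWm h * x) =
          (x : ↥(Cfsg.Sz F m))⁻¹ * ((szWm h)⁻¹ * szHsub h μ * szWm h) * x := by group
      rw [e, etaB_ext_conj h η _ _ x.2, szWm_inv, szWm_conj_szHsub, etaB_ext_H]
    simp_rw [h1]
    rw [Finset.sum_const, Finset.card_univ, nsmul_eq_mul, Nat.card_eq_fintype_card]
  have hb : (Nat.card ↥(szB F m) : ℂ) ≠ 0 := by
    exact_mod_cast Nat.card_pos.ne'
  calc (Nat.card ↥(szB F m) : ℂ)⁻¹ * ∑ x : ↥(Cfsg.Sz F m), f x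
      = (Nat.card ↥(szB F m) : ℂ)⁻¹ * (∑ x : ↥(Cfsg.Sz F m), (if x ∈ szB F m then f x else 0) +
          ∑ x : ↥(Cfsg.Sz F m), (if (szWm h)⁻¹ * x ∈ szB F m then f x else 0)) := by
        rw [← Finset.sum_add_distrib]
        congr 1
        exact Finset.sum_congr rfl (fun x _ => hsplit x)
    _ = ((η μ : ℂˣ) : ℂ) + ((η μ⁻¹ : ℂˣ) : ℂ) := by
        rw [hsum1, hsum2]
        field_simp

end TbD

end Cfsg.Agent.Lib.Helper37
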