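-- helper37: Suzuki groups, character table, part 5: the Steinberg character, the fibres of the
-- principal series, and the values of the character induced from the Sylow 2-subgroup.
import Mathlib
import Cfsg.Prelude.Def_LieExceptional
import Cfsg.Agent.Lib.Helper37.SzTbD

set_option autoImplicit false

namespace Cfsg.Agent.Lib.Helper37

open scoped ComplexConjugate

open Classical

section TbE

variable {F : Type*} [Field F] [Fintype F] {m : ℕ}

theorem chX_inner (hm : 1 ≤ m) (hF : Fintype.card F = 2 ^ (2 * m + 1))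
    (h : SzData F (2 ^ (m + 1))) [Fintype ↥(Cfsg.Sz F m)] (η η' : Fˣ →* ℂˣ) :
    Cfsg.classInner (chX h η) (chX h η') =
      (if η = η' then 1 else 0) + (if η = η'⁻¹ then 1 else 0) := by
  haveI : Fintype ↥(szB F m) := Fintype.ofFinite _
  exact indB_inner hm hF h η η'

theorem chX_isCharacter (h : SzData F (2 ^ (m + 1))) [Fintype ↥(Cfsg.Sz F m)] (η : Fˣ →* ℂˣ) :
    Cfsg.IsCharacter ↥(Cfsg.Sz F m) (chX h η) := by
  haveI : Fintype ↥(szB F m) := Fintype.ofFinite _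
  exact Cfsg.Agent.Lib.Helper80.isCharacter_indFun _
    (Cfsg.Agent.Lib.Helper80.isCharacter_of_isIrrCharacter
      (Cfsg.Agent.Lib.Helper80.isIrrCharacter_of_hom (etaB h η)))

theorem chX_irr (hm : 1 ≤ m) (hF : Fintype.card F = 2 ^ (2 * m + 1))
    (h : SzData F (2 ^ (m + 1))) [Fintype ↥(Cfsg.Sz F m)] (η : Fˣ →* ℂˣ) (hη : η ≠ 1) :
    Cfsg.IsIrrCharacter ↥(Cfsg.Sz F m) (chX h η) := by
  haveI : Fintype (Cfsg.IrrCharacter ↥(Cfsg.Sz F m)) := Fintype.ofFinite _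
  apply Cfsg.Agent.Lib.Helper80.isIrrCharacter_of_classInner_eq_one (chX_isCharacter h η)
  rw [chX_inner hm hF h, if_pos rfl, if_neg (fun hc => hη (eta_sq_trivial hF η hc)), add_zero]

theorem eta_inv_ne_one (η : Fˣ →* ℂˣ) (hη : η ≠ 1) : η⁻¹ ≠ 1 := by
  intro hc
  apply hη
  apply MonoidHom.ext
  intro μ
  have h1 := DFunLike.congr_fun hc μ
  rw [MonoidHom.inv_apply, MonoidHom.one_apply] at h1
  rw [MonoidHom.one_apply]
  exact inv_eq_one.mp h1

theorem chX_inv (hm : 1 ≤ m) (hF : Fintype.card F = 2 ^ (2 * m + 1))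
    (h : SzData F (2 ^ (m + 1))) [Fintype ↥(Cfsg.Sz F m)] (η : Fˣ →* ℂˣ) (hη : η ≠ 1) :
    chX h η⁻¹ = chX h η := by
  haveI : Fintype (Cfsg.IrrCharacter ↥(Cfsg.Sz F m)) := Fintype.ofFinite _
  have h1 := chX_inner hm hF h η⁻¹ η
  rw [Cfsg.Agent.Lib.Helper80.classInner_irr_fun
    (chX_irr hm hF h η⁻¹ (eta_inv_ne_one η hη)) (chX_irr hm hF h η hη), if_pos rfl] at h1
  by_contra hc
  rw [if_neg hc] at h1
  split_ifs at h1 <;> norm_num at h1

/-- the fibres of the parametrisation of the principal series -/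
theorem chX_fibre (hm : 1 ≤ m) (hF : Fintype.card F = 2 ^ (2 * m + 1))
    (h : SzData F (2 ^ (m + 1))) [Fintype ↥(Cfsg.Sz F m)] [Fintype (Fˣ →* ℂˣ)]
    (η : Fˣ →* ℂˣ) (hη : η ≠ 1) :
    (Finset.univ.filter (fun η' : Fˣ →* ℂˣ => η' ≠ 1 ∧ chX h η' = chX h η)).card = 2 := by
  have hne : η ≠ η⁻¹ := fun hc => hη (eta_sq_trivial hF η hc)
  have h1 : Finset.univ.filter (fun η' : Fˣ →* ℂˣ => η' ≠ 1 ∧ chX h η' = chX h η) =
      {η, η⁻¹} := by
    ext η'
    simp only [Finset.mem_filter, Finset.mem_univ, true_and, Finset.mem_insert,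
      Finset.mem_singleton]
    constructor
    · rintro ⟨hη', heq⟩
      have h3 := chX_inner hm hF h η η'
      have h4 := chX_inner hm hF h η η
      rw [heq, h4] at h3
      by_contra hcon
      rw [not_or] at hcon
      have hc2 : ¬ (η = η'⁻¹) := by
        intro hc
        apply hcon.2
        rw [hc]
        exact (inv_inv η').symm
      rw [if_pos rfl, if_neg (Ne.symm hcon.1), if_neg hc2] at h3
      split_ifs at h3 <;> norm_num at h3
    · rintro (rfl | rfl)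
      · exact ⟨hη, rfl⟩
      · exact ⟨eta_inv_ne_one η hη, chX_inv hm hF h η hη⟩
  rw [h1, Finset.card_pair hne]

/-- the Steinberg character -/
noncomputable def chSt (h : SzData F (2 ^ (m + 1))) [Fintype ↥(Cfsg.Sz F m)] :
    ↥(Cfsg.Sz F m) → ℂ :=
  chX h 1 - fun _ => 1

theorem chSt_one (hm : 1 ≤ m) (hF : Fintype.card F = 2 ^ (2 * m + 1))
    (h : SzData F (2 ^ (m + 1))) [Fintype ↥(Cfsg.Sz F m)] :
    chSt h 1 = (((2 ^ (2 * m + 1)) ^ 2 : ℕ) : ℂ) := by
  unfold chSt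
  rw [Pi.sub_apply, chX_one hm hF]
  push_cast
  ring

theorem chSt_T (h : SzData F (2 ^ (m + 1))) [Fintype ↥(Cfsg.Sz F m)] (a b : F)
    (hab : ¬ (a = 0 ∧ b = 0)) : chSt h (szTm h a b) = 0 := by
  unfold chSt
  rw [Pi.sub_apply, chX_T h 1 a b hab, sub_self]

theorem chSt_H (h : SzData F (2 ^ (m + 1))) [Fintype ↥(Cfsg.Sz F m)] (μ : Fˣ) (hμ : μ ≠ 1) :
    chSt h (szHsub h μ) = 1 := by
  unfold chSt
  rw [Pi.sub_apply, chX_H h 1 μ hμ, MonoidHom.one_apply, MonoidHom.one_apply, Units.val_one]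
  ring

theorem chSt_fpf (h : SzData F (2 ^ (m + 1))) [Fintype ↥(Cfsg.Sz F m)]
    (g : ↥(Cfsg.Sz F m)) (hg : szFpf g) : chSt h g = -1 := by
  unfold chSt
  rw [Pi.sub_apply, chX_fpf h 1 g hg, zero_sub]

theorem chSt_irr (hm : 1 ≤ m) (hF : Fintype.card F = 2 ^ (2 * m + 1))
    (h : SzData F (2 ^ (m + 1))) [Fintype ↥(Cfsg.Sz F m)] :
    Cfsg.IsIrrCharacter ↥(Cfsg.Sz F m) (chSt h) := by
  haveI : Fintype ↥(szB F m) := Fintype.ofFinite _
  haveI : Fintype (Cfsg.IrrCharacter ↥(Cfsg.Sz F m)) := Fintype.ofFinite _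
  have hIchar : Cfsg.IsCharacter ↥(Cfsg.Sz F m) (chX h 1) := chX_isCharacter h 1
  have h11 : Cfsg.classInner (chX h 1) (chX h 1) = 2 := by
    rw [chX_inner hm hF h, if_pos rfl]
    have e : (1 : Fˣ →* ℂˣ) = 1⁻¹ := by
      apply MonoidHom.ext
      intro x
      rw [MonoidHom.inv_apply, MonoidHom.one_apply, inv_one]
    rw [if_pos e]
    norm_num
  have h1I : Cfsg.classInner (chX h 1) (fun _ : ↥(Cfsg.Sz F m) => (1 : ℂ)) = 1 := by
    unfold chX
    rw [Cfsg.Agent.Lib.Helper80.frobenius_reciprocity (szB F m) _ _ (fun _ _ => rfl)]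
    unfold Cfsg.classInner
    have h5 : ∀ y : ↥(szB F m), ((etaB h 1 y : ℂˣ) : ℂ) * conj (1 : ℂ) = 1 := by
      intro y
      unfold etaB
      simp
    simp only [h5]
    rw [Finset.sum_const, Finset.card_univ, nsmul_eq_mul, mul_one, ← Nat.card_eq_fintype_card]
    have hb : (Nat.card ↥(szB F m) : ℂ) ≠ 0 := by
      exact_mod_cast Nat.card_pos.ne'
    exact inv_mul_cancel₀ hb
  have hI1 : Cfsg.classInner (fun _ : ↥(Cfsg.Sz F m) => (1 : ℂ)) (chX h 1) = 1 := by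
    rw [← Cfsg.Agent.Lib.Helper26.classInner_conj_symm, h1I, map_one]
  have h00 : Cfsg.classInner (fun _ : ↥(Cfsg.Sz F m) => (1 : ℂ)) (fun _ => 1) = 1 :=
    Cfsg.Agent.Lib.Helper26.classInner_irr_self Cfsg.Agent.Lib.Helper80.isIrrCharacter_one
  unfold chSt
  apply irr_of_norm_one (Cfsg.Agent.Lib.Helper26.isGen_sub
    (Cfsg.Agent.Lib.Helper26.isGen_of_isCharacter hIchar)
    (Cfsg.Agent.Lib.Helper26.isGen_of_irr Cfsg.Agent.Lib.Helper80.isIrrCharacter_one)) _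
    ((2 ^ (2 * m + 1)) ^ 2) (chSt_one hm hF h) (by positivity)
  rw [Cfsg.Agent.Lib.Helper26.classInner_sub_left, Cfsg.Agent.Lib.Helper26.classInner_sub_right,
    Cfsg.Agent.Lib.Helper26.classInner_sub_right, h11, h1I, hI1, h00]
  norm_num

/-- sums of a nontrivial additive character over the units -/
theorem sum_units_addChar (χ : AddChar F ℂ) (hχ : χ ≠ 1) (g : Fˣ → F) (hg0 : ∀ μ, g μ ≠ 0)
    (hinj : Function.Injective g) : ∑ μ : Fˣ, χ (g μ) = -1 := by
  let e : Fˣ → Fˣ := fun μ => Units.mk0 (g μ) (hg0 μ)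
  have he : Function.Bijective e := by
    rw [← Finite.injective_iff_bijective]
    intro μ ν hμν
    apply hinj
    have := congrArg (fun u : Fˣ => (u : F)) hμν
    simpa [e] using this
  have h1 : ∑ μ : Fˣ, χ (g μ) = ∑ u : Fˣ, χ (u : F) :=
    Fintype.sum_bijective e he _ _ (fun μ => rfl)
  have h2 : ∑ u : Fˣ, χ (u : F) = ∑ y : F, χ y - χ 0 := by
    have h3 : ∑ u : Fˣ, χ (u : F) = ∑ y ∈ Finset.univ.filter (fun y : F => y ≠ 0), χ y := by
      rw [Finset.sum_subtype (Finset.univ.filter (fun y : F => y ≠ 0)) (p := fun y => y ≠ 0)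
        (by simp) (fun y => χ y)]
      exact Fintype.sum_equiv (unitsEquivNeZero (G₀ := F)) _ _ (fun u => rfl)
    rw [h3, Finset.filter_ne' Finset.univ (0 : F), ← Finset.sum_erase_add _ _ (Finset.mem_univ (0 : F))]
    ring
  rw [h1, h2, AddChar.sum_eq_zero_of_ne_one hχ, AddChar.map_zero_eq_one]
  ring

end TbE

end Cfsg.Agent.Lib.Helper37
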