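-- helper37: Suzuki groups, character table, part 6: the values of the character induced from
-- the Sylow 2-subgroup.
import Mathlib
import Cfsg.Prelude.Def_LieExceptional
import Cfsg.Agent.Lib.Helper37.SzTbE

set_option autoImplicit false

namespace Cfsg.Agent.Lib.Helper37

open scoped ComplexConjugate

open Classical

section TbF

variable {F : Type*} [Field F] [Fintype F] {m : ℕ}

/-- the character induced from the Sylow 2-subgroup -/
noncomputable def chPsi (h : SzData F (2 ^ (m + 1))) [Fintype ↥(Cfsg.Sz F m)]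
    (χ₀ : AddChar F ℂ) (c : ℕ) : ↥(Cfsg.Sz F m) → ℂ :=
  Cfsg.indFun (szTsub (m := m) h) (psiT h χ₀ χ₀ c)

theorem szTm_ne_one (h : SzData F (2 ^ (m + 1))) (a b : F) (hab : ¬ (a = 0 ∧ b = 0)) :
    szTm (m := m) h a b ≠ 1 := by
  intro hc
  apply hab
  have h1 : szTp (m := m) h a b = szTp h 0 0 :=
    Subtype.ext (by show szTm h a b = szTm h 0 0; rw [hc, szTm_zero])
  have h2 := congrArg (szTa h) h1
  have h3 := congrArg (szTb h) h1
  rw [szTa_mk, szTa_mk] at h2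
  rw [szTb_mk, szTb_mk] at h3
  exact ⟨h2, h3⟩

theorem chPsi_T_formula (h : SzData F (2 ^ (m + 1))) [Fintype ↥(Cfsg.Sz F m)]
    (χ₀ : AddChar F ℂ) (c : ℕ) (a b : F) (hab : ¬ (a = 0 ∧ b = 0)) :
    chPsi h χ₀ c (szTm h a b) = (Nat.card ↥(szTsub (m := m) h) : ℂ)⁻¹ *
      ∑ c' : F, ∑ _d : F, ∑ μ : Fˣ, psiT h χ₀ χ₀ c (szTp h (((μ⁻¹ : Fˣ) : F) ^ 2 * a)
        ((((μ⁻¹ : Fˣ) : F) ^ 2) ^ (2 ^ (m + 1) + 1) *
          (b + (c' ^ 2 ^ (m + 1) * a + a ^ 2 ^ (m + 1) * c')))) := by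
  haveI : Fintype ↥(szB F m) := Fintype.ofFinite _
  unfold chPsi
  rw [indFun_of_subgroup (szTsub h) (szB F m) _ (szTm h a b)
    (fun x hx => szT_TI h x hx _ (szTm_mem h a b) (szTm_ne_one h a b hab)), sum_szB h]
  congr 1
  apply Finset.sum_congr rfl
  intro c' _
  apply Finset.sum_congr rfl
  intro d _
  apply Finset.sum_congr rfl
  intro μ _
  rw [szBp_conj]
  exact Cfsg.Agent.Lib.Helper80.extendByZero_apply_mem _ _ (szTp h _ _)

/-- the value at an involution -/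
theorem chPsi_T0 (hF : Fintype.card F = 2 ^ (2 * m + 1)) (h : SzData F (2 ^ (m + 1)))
    [Fintype ↥(Cfsg.Sz F m)] (χ₀ : AddChar F ℂ) (hχ₀ : χ₀ ≠ 1) (c : ℕ) (b : F) (hb : b ≠ 0) :
    chPsi h χ₀ c (szTm h 0 b) = (2 : ℂ) ^ (2 * m + 1) - 1 - (c : ℂ) * (2 : ℂ) ^ (m + 1) := by
  rw [chPsi_T_formula h χ₀ c 0 b (fun hc => hb hc.2)]
  have hterm : ∀ (c' : F) (μ : Fˣ), psiT h χ₀ χ₀ c (szTp h (((μ⁻¹ : Fˣ) : F) ^ 2 * 0)
        ((((μ⁻¹ : Fˣ) : F) ^ 2) ^ (2 ^ (m + 1) + 1) *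
          (b + (c' ^ 2 ^ (m + 1) * 0 + (0 : F) ^ 2 ^ (m + 1) * c')))) =
      1 + (c : ℂ) * ((2 : ℂ) ^ (m + 1) *
        χ₀ ((((μ⁻¹ : Fˣ) : F) ^ 2) ^ (2 ^ (m + 1) + 1) * b)) := by
    intro c' μ
    rw [mul_zero, mul_zero, h.th_zero, zero_mul, add_zero, add_zero, psiT_mk, if_pos rfl,
      AddChar.map_zero_eq_one]
  simp_rw [hterm]
  have hsum : ∑ μ : Fˣ, χ₀ ((((μ⁻¹ : Fˣ) : F) ^ 2) ^ (2 ^ (m + 1) + 1) * b) = -1 := by
    apply sum_units_addChar χ₀ hχ₀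
    · intro μ
      exact mul_ne_zero (pow_ne_zero _ (pow_ne_zero _ (μ⁻¹).ne_zero)) hb
    · intro μ ν hμν
      have h1 := mul_right_cancel₀ hb hμν
      have h2 := h.pow_succ_inj h1
      exact inv_injective (h.unit_sq_inj h2)
  have hinner : ∑ μ : Fˣ, (1 + (c : ℂ) * ((2 : ℂ) ^ (m + 1) *
      χ₀ ((((μ⁻¹ : Fˣ) : F) ^ 2) ^ (2 ^ (m + 1) + 1) * b))) =
      (Fintype.card F : ℂ) - 1 - (c : ℂ) * (2 : ℂ) ^ (m + 1) := by
    rw [Finset.sum_add_distrib, ← Finset.mul_sum, ← Finset.mul_sum, hsum, Finset.sum_const,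
      Finset.card_univ, Fintype.card_units, nsmul_eq_mul, mul_one,
      Nat.cast_sub Fintype.card_pos]
    push_cast
    ring
  rw [hinner, Finset.sum_const, Finset.sum_const, Finset.card_univ, card_szTsub,
    Nat.card_eq_fintype_card, hF]
  have h2 : (2 : ℂ) ^ (2 * m + 1) ≠ 0 := pow_ne_zero _ two_ne_zero
  simp only [nsmul_eq_mul]
  push_cast
  field_simp

/-- the value at an element of order four -/
theorem chPsi_T1 (hF : Fintype.card F = 2 ^ (2 * m + 1)) (h : SzData F (2 ^ (m + 1)))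
    [Fintype ↥(Cfsg.Sz F m)] (χ₀ : AddChar F ℂ) (hχ₀ : χ₀ ≠ 1) (c : ℕ) (a b : F) (ha : a ≠ 0) :
    chPsi h χ₀ c (szTm h a b) = -1 := by
  rw [chPsi_T_formula h χ₀ c a b (fun hc => ha hc.1)]
  have hterm : ∀ (c' : F) (μ : Fˣ), psiT h χ₀ χ₀ c (szTp h (((μ⁻¹ : Fˣ) : F) ^ 2 * a)
        ((((μ⁻¹ : Fˣ) : F) ^ 2) ^ (2 ^ (m + 1) + 1) *
          (b + (c' ^ 2 ^ (m + 1) * a + a ^ 2 ^ (m + 1) * c')))) =
      χ₀ (((μ⁻¹ : Fˣ) : F) ^ 2 * a) := by
    intro c' μ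
    rw [psiT_mk, if_neg (mul_ne_zero (pow_ne_zero 2 (μ⁻¹).ne_zero) ha), mul_zero, add_zero]
  simp_rw [hterm]
  have hsum : ∑ μ : Fˣ, χ₀ (((μ⁻¹ : Fˣ) : F) ^ 2 * a) = -1 := by
    apply sum_units_addChar χ₀ hχ₀
    · intro μ
      exact mul_ne_zero (pow_ne_zero _ (μ⁻¹).ne_zero) ha
    · intro μ ν hμν
      have h1 := mul_right_cancel₀ ha hμν
      exact inv_injective (h.unit_sq_inj h1)
  rw [hsum, Finset.sum_const, Finset.sum_const, Finset.card_univ, card_szTsub,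
    Nat.card_eq_fintype_card, hF]
  have h2 : (2 : ℂ) ^ (2 * m + 1) ≠ 0 := pow_ne_zero _ two_ne_zero
  simp only [nsmul_eq_mul]
  push_cast
  field_simp

/-- it vanishes on the nonidentity elements of the torus of the point stabiliser -/
theorem chPsi_H (h : SzData F (2 ^ (m + 1))) [Fintype ↥(Cfsg.Sz F m)]
    (χ₀ : AddChar F ℂ) (c : ℕ) (μ : Fˣ) (hμ : μ ≠ 1) : chPsi h χ₀ c (szHsub h μ) = 0 := by
  unfold chPsi
  apply indFun_eq_zero_of_not_conj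
  rintro x ⟨a, b, hab⟩
  have hne : ¬ (a = 0 ∧ b = 0) := by
    rintro ⟨rfl, rfl⟩
    rw [szTm_zero] at hab
    apply h.szHsub_ne_one hμ
    have e : szHsub h μ = x * (x⁻¹ * szHsub h μ * x) * x⁻¹ := by group
    rw [e, hab]
    group
  have e : szHsub h μ = x * szTm h a b * x⁻¹ := by
    rw [← hab]
    group
  have h1 := sz_T_conj_fix h x a b hne (oInf F m) (by rw [← e]; exact h.szHsub_smul_inf μ)
  have h2 := sz_T_conj_fix h x a b hne (oPt m (0 : F) 0)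
    (by rw [← e]; exact h.szHsub_smul_zero μ)
  exact oPt_ne_oInf _ _ (h2.trans h1.symm)

/-- it vanishes on the elements without fixed points -/
theorem chPsi_fpf (h : SzData F (2 ^ (m + 1))) [Fintype ↥(Cfsg.Sz F m)]
    (χ₀ : AddChar F ℂ) (c : ℕ) (g : ↥(Cfsg.Sz F m)) (hg : szFpf g) : chPsi h χ₀ c g = 0 := by
  unfold chPsi
  apply indFun_eq_zero_of_not_conj
  rintro x ⟨a, b, hab⟩
  apply hg (x • oInf F m)
  have h1 : g • x • oInf F m = x • ((x⁻¹ * g * x) • oInf F m) := by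
    rw [← mul_smul, ← mul_smul]
    congr 1
    group
  rw [h1, hab, szTm_smul_inf]

end TbF

end Cfsg.Agent.Lib.Helper37
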