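-- helper37: Suzuki groups, character table, part 7: the characters attached to the tori
-- without fixed points, explicitly.
import Mathlib
import Cfsg.Prelude.Def_LieExceptional
import Cfsg.Agent.Lib.Helper37.SzTbF

set_option autoImplicit false

namespace Cfsg.Agent.Lib.Helper37

open scoped ComplexConjugate

open Classical

section TbG

variable {F : Type*} [Field F] [Fintype F] {m : ℕ}

/-- the characters attached to a torus -/
noncomputable def chTor (h : SzData F (2 ^ (m + 1))) [Fintype ↥(Cfsg.Sz F m)]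
    (χ₀ : AddChar F ℂ) (c : ℕ) (x : ↥(Cfsg.Sz F m))
    (l : ↥(Subgroup.centralizer ({x} : Set ↥(Cfsg.Sz F m))) →* ℂˣ) : ↥(Cfsg.Sz F m) → ℂ :=
  chPsi h χ₀ c - Cfsg.indFun (Subgroup.centralizer ({x} : Set ↥(Cfsg.Sz F m)))
    (fun a => ((l a : ℂˣ) : ℂ))

/-- a function induced from a torus without fixed points vanishes at the nonidentity
elements with a fixed point -/
theorem indC_fixed (hm : 1 ≤ m) (hF : Fintype.card F = 2 ^ (2 * m + 1))
    [Fintype ↥(Cfsg.Sz F m)] (x : ↥(Cfsg.Sz F m)) (hx : szFpf x)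
    (θ : ↥(Subgroup.centralizer ({x} : Set ↥(Cfsg.Sz F m))) → ℂ) (g : ↥(Cfsg.Sz F m))
    (hg1 : g ≠ 1) (p : ↥(Cfsg.suzukiOvoid F m)) (hp : g • p = p) :
    Cfsg.indFun (Subgroup.centralizer ({x} : Set ↥(Cfsg.Sz F m))) θ g = 0 := by
  apply indFun_eq_zero_of_not_conj
  intro y hc
  have h1 : y⁻¹ * g * y ≠ 1 := by
    intro h2
    apply hg1
    have e : g = y * (y⁻¹ * g * y) * y⁻¹ := by group
    rw [e, h2]
    group
  have h3 := szFpf_of_commute hm hF x _ hx h1 (Subgroup.mem_centralizer_singleton_iff.mp hc)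
  apply h3 (y⁻¹ • p)
  rw [← mul_smul]
  have e : y⁻¹ * g * y * y⁻¹ = y⁻¹ * g := by group
  rw [e, mul_smul, hp]

/-- a function induced from a torus without fixed points vanishes at the nonidentity
elements of a torus of another order -/
theorem indC_other (hm : 1 ≤ m) (hF : Fintype.card F = 2 ^ (2 * m + 1))
    [Fintype ↥(Cfsg.Sz F m)] (x x' : ↥(Cfsg.Sz F m)) (hx : szFpf x) (hx' : szFpf x')
    (hne : Nat.card ↥(Subgroup.centralizer ({x'} : Set ↥(Cfsg.Sz F m))) ≠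
      Nat.card ↥(Subgroup.centralizer ({x} : Set ↥(Cfsg.Sz F m))))
    (θ : ↥(Subgroup.centralizer ({x} : Set ↥(Cfsg.Sz F m))) → ℂ) (a : ↥(Cfsg.Sz F m))
    (ha : a ∈ Subgroup.centralizer ({x'} : Set ↥(Cfsg.Sz F m))) (ha1 : a ≠ 1) :
    Cfsg.indFun (Subgroup.centralizer ({x} : Set ↥(Cfsg.Sz F m))) θ a = 0 := by
  apply indFun_eq_zero_of_not_conj
  intro y hc
  apply hne
  have h1 : y⁻¹ * a * y ≠ 1 := by
    intro h2
    apply ha1
    have e : a = y * (y⁻¹ * a * y) * y⁻¹ := by group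
    rw [e, h2]
    group
  have h2 := szFpf_centralizer_eq hm hF x _ hx hc h1
  have h3 := szFpf_centralizer_eq hm hF x' a hx' ha ha1
  have h4 := card_cent_conj y⁻¹ a
  rw [inv_inv, h2, h3] at h4
  exact h4.symm

/-- the explicit family attached to a torus without fixed points -/
theorem sz_torus_explicit (hm : 1 ≤ m) (hF : Fintype.card F = 2 ^ (2 * m + 1))
    (h : SzData F (2 ^ (m + 1)))
    [Fintype ↥(Cfsg.Sz F m)] (x : ↥(Cfsg.Sz F m)) (hx : szFpf x)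
    [Fintype (↥(Subgroup.centralizer ({x} : Set ↥(Cfsg.Sz F m))) →* ℂˣ)]
    (hN : Nat.card ↥(Subgroup.normalizer ((Subgroup.centralizer ({x} : Set ↥(Cfsg.Sz F m)) :
        Subgroup ↥(Cfsg.Sz F m)) : Set ↥(Cfsg.Sz F m))) =
        4 * Nat.card ↥(Subgroup.centralizer ({x} : Set ↥(Cfsg.Sz F m))))
    (χ₀ : AddChar F ℂ) (hχ₀ : χ₀ ≠ 1)
    (c d : ℕ) (hd0 : 0 < d)
    (hPd : ((2 ^ (2 * m + 1)) ^ 2 + 1) * (2 ^ (2 * m + 1) - 1) * (1 + c * 2 ^ (m + 1)) =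
      (Subgroup.centralizer ({x} : Set ↥(Cfsg.Sz F m))).index + d)
    (hnorm : (1 + 2 * (c : ℂ) ^ 2 + ((2 : ℂ) ^ (2 * m + 1) - 1) * (1 + (c : ℂ) * 2 ^ (m + 1)) ^ 2) -
      2 * ((Nat.card ↥(Subgroup.centralizer ({x} : Set ↥(Cfsg.Sz F m))) : ℂ)⁻¹ *
        ((((2 ^ (2 * m + 1)) ^ 2 + 1) * (2 ^ (2 * m + 1) - 1) * (1 + c * 2 ^ (m + 1)) : ℕ) : ℂ)) +
      ((Nat.card ↥(Subgroup.centralizer ({x} : Set ↥(Cfsg.Sz F m))) : ℂ)⁻¹) ^ 2 *
        ((Nat.card ↥(Subgroup.centralizer ({x} : Set ↥(Cfsg.Sz F m))) : ℂ) *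
          (Nat.card ↥(Subgroup.centralizer ({x} : Set ↥(Cfsg.Sz F m))) : ℂ) +
          ((Nat.card ↥(Cfsg.Sz F m) : ℂ) -
            (Nat.card ↥(Subgroup.normalizer ((Subgroup.centralizer
              ({x} : Set ↥(Cfsg.Sz F m)) : Subgroup ↥(Cfsg.Sz F m)) :
                Set ↥(Cfsg.Sz F m))) : ℂ))) = 1) :
    (∀ l : ↥(Subgroup.centralizer ({x} : Set ↥(Cfsg.Sz F m))) →* ℂˣ, l ≠ 1 →
      Cfsg.IsIrrCharacter ↥(Cfsg.Sz F m) (chTor h χ₀ c x l)) ∧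
    (∀ l : ↥(Subgroup.centralizer ({x} : Set ↥(Cfsg.Sz F m))) →* ℂˣ, l ≠ 1 →
      chTor h χ₀ c x l 1 = (d : ℂ)) ∧
    (∀ l : ↥(Subgroup.centralizer ({x} : Set ↥(Cfsg.Sz F m))) →* ℂˣ, l ≠ 1 →
      (Finset.univ.filter (fun l' : ↥(Subgroup.centralizer ({x} : Set ↥(Cfsg.Sz F m))) →* ℂˣ =>
        l' ≠ 1 ∧ chTor h χ₀ c x l' = chTor h χ₀ c x l)).card = 4) := by
  haveI : Fintype ↥(szTsub (m := m) h) := Fintype.ofFinite _
  haveI : Fintype ↥(szB F m) := Fintype.ofFinite _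
  haveI : Fintype ↥(Subgroup.centralizer ({x} : Set ↥(Cfsg.Sz F m))) := Fintype.ofFinite _
  haveI : Fintype ↥(Subgroup.normalizer ((Subgroup.centralizer ({x} : Set ↥(Cfsg.Sz F m)) :
        Subgroup ↥(Cfsg.Sz F m)) : Set ↥(Cfsg.Sz F m))) := Fintype.ofFinite _
  have hcent := szTorus_cent hm hF x hx
  have hcomm := selfCent_comm _ hcent
  obtain ⟨h1, h2, h3⟩ := torus_family_explicit (Subgroup.centralizer ({x} : Set ↥(Cfsg.Sz F m)))
    (Subgroup.normalizer ((Subgroup.centralizer ({x} : Set ↥(Cfsg.Sz F m)) :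
        Subgroup ↥(Cfsg.Sz F m)) : Set ↥(Cfsg.Sz F m))) Subgroup.le_normalizer
    (normalizer_conj_mem _) (selfCent_TI _ hcent) hcomm
    (fun a ha ha1 y hy => (hcent a ha ha1 y).mp hy)
    (chPsi h χ₀ c)
    (indT_isCharacter hF h χ₀ χ₀ hχ₀ c)
    (fun a ha ha1 => chPsi_fpf h χ₀ c a (szFpf_of_commute hm hF x a hx ha1
      (Subgroup.mem_centralizer_singleton_iff.mp ha)))
    _ d 4 (indT_one hm hF h χ₀ χ₀ c) hd0 hPd hN
    (by
      unfold chPsi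
      rw [indT_norm hm hF h χ₀ χ₀ hχ₀ hχ₀ c]
      exact hnorm)
  refine ⟨h1, h2, ?_⟩
  intro l hl
  refine Eq.trans ?_ (h3 l hl)
  congr 1
  ext l'
  simp only [Finset.mem_filter, Finset.mem_univ, true_and]
  constructor
  · rintro ⟨h4, h5⟩
    exact ⟨h4, sub_right_injective h5⟩
  · rintro ⟨h4, h5⟩
    refine ⟨h4, ?_⟩
    unfold chTor
    rw [h5]

end TbG

end Cfsg.Agent.Lib.Helper37
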