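-- helper37: Suzuki groups, character table, part 8: the two families of characters attached
-- to the tori without fixed points, and their values.
import Mathlib
import Cfsg.Prelude.Def_LieExceptional
import Cfsg.Agent.Lib.Helper37.SzTbG

set_option autoImplicit false

namespace Cfsg.Agent.Lib.Helper37

open scoped ComplexConjugate

open Classical

section TbH

variable {F : Type*} [Field F] [Fintype F] {m : ℕ}

/-- the family of degree `(q - 1) (q - r + 1)` -/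
theorem sz_chY (hm : 1 ≤ m) (hF : Fintype.card F = 2 ^ (2 * m + 1))
    (h : SzData F (2 ^ (m + 1)))
    [Fintype ↥(Cfsg.Sz F m)] (x₁ : ↥(Cfsg.Sz F m)) (hx₁ : szFpf x₁)
    [Fintype (↥(Subgroup.centralizer ({x₁} : Set ↥(Cfsg.Sz F m))) →* ℂˣ)]
    (hc1 : Nat.card ↥(Subgroup.centralizer ({x₁} : Set ↥(Cfsg.Sz F m))) =
      2 ^ (2 * m + 1) + 2 ^ (m + 1) + 1)
    (hn1 : Nat.card ↥(Subgroup.normalizer ((Subgroup.centralizer ({x₁} : Set ↥(Cfsg.Sz F m)) :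
        Subgroup ↥(Cfsg.Sz F m)) : Set ↥(Cfsg.Sz F m))) =
        4 * Nat.card ↥(Subgroup.centralizer ({x₁} : Set ↥(Cfsg.Sz F m))))
    (χ₀ : AddChar F ℂ) (hχ₀ : χ₀ ≠ 1) :
    (∀ l : ↥(Subgroup.centralizer ({x₁} : Set ↥(Cfsg.Sz F m))) →* ℂˣ, l ≠ 1 →
      Cfsg.IsIrrCharacter ↥(Cfsg.Sz F m) (chTor h χ₀ (2 ^ m - 1) x₁ l)) ∧
    (∀ l : ↥(Subgroup.centralizer ({x₁} : Set ↥(Cfsg.Sz F m))) →* ℂˣ, l ≠ 1 →
      chTor h χ₀ (2 ^ m - 1) x₁ l 1 =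
        (((2 ^ (2 * m + 1) - 1) * (2 ^ (2 * m + 1) + 1 - 2 ^ (m + 1)) : ℕ) : ℂ)) ∧
    (∀ l : ↥(Subgroup.centralizer ({x₁} : Set ↥(Cfsg.Sz F m))) →* ℂˣ, l ≠ 1 →
      (Finset.univ.filter (fun l' : ↥(Subgroup.centralizer ({x₁} : Set ↥(Cfsg.Sz F m))) →* ℂˣ =>
        l' ≠ 1 ∧ chTor h χ₀ (2 ^ m - 1) x₁ l' = chTor h χ₀ (2 ^ m - 1) x₁ l)).card = 4) := by
  obtain ⟨t, ht⟩ : ∃ t, 2 ^ m = t + 1 := ⟨2 ^ m - 1, by have := Nat.one_le_two_pow (n := m); omega⟩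
  have hQ : 2 ^ (2 * m + 1) = 2 * t ^ 2 + 4 * t + 2 := by
    have e : 2 ^ (2 * m + 1) = 2 * (2 ^ m) ^ 2 := by ring
    rw [e, ht]
    ring
  have hR : 2 ^ (m + 1) = 2 * t + 2 := by
    rw [pow_succ, ht]
    ring
  have e1 : 2 * t ^ 2 + 4 * t + 2 - 1 = 2 * t ^ 2 + 4 * t + 1 := by omega
  have e2 : 2 * t ^ 2 + 4 * t + 2 + 1 - (2 * t + 2) = 2 * t ^ 2 + 2 * t + 1 := by omega
  have e3 : t + 1 - 1 = t := by omega
  have hidx : (Subgroup.centralizer ({x₁} : Set ↥(Cfsg.Sz F m))).index =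
      (2 * t ^ 2 + 4 * t + 2) ^ 2 * (2 * t ^ 2 + 4 * t + 1) * (2 * t ^ 2 + 2 * t + 1) := by
    have h1 := Subgroup.card_mul_index (Subgroup.centralizer ({x₁} : Set ↥(Cfsg.Sz F m)))
    rw [hc1, card_sz hm hF, hQ, hR, e1] at h1
    apply Nat.eq_of_mul_eq_mul_left (show 0 < 2 * t ^ 2 + 4 * t + 2 + (2 * t + 2) + 1 by omega)
    rw [h1]
    ring
  exact sz_torus_explicit hm hF h x₁ hx₁ hn1 χ₀ hχ₀
    (2 ^ m - 1) ((2 ^ (2 * m + 1) - 1) * (2 ^ (2 * m + 1) + 1 - 2 ^ (m + 1)))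
    (by
      rw [hQ, hR, e1, e2]
      positivity)
    (by
      rw [hidx, ht, hQ, hR, e1, e2, e3]
      ring)
    (by
      have hsub : ((2 ^ (2 * m + 1) - 1 : ℕ) : ℂ) = (2 : ℂ) ^ (2 * m + 1) - 1 := by
        rw [Nat.cast_sub Nat.one_le_two_pow]
        push_cast
        ring
      have hsub2 : ((2 ^ m - 1 : ℕ) : ℂ) = (2 : ℂ) ^ m - 1 := by
        rw [Nat.cast_sub Nat.one_le_two_pow]
        push_cast
        ring
      have hA0 : (Nat.card ↥(Subgroup.centralizer ({x₁} : Set ↥(Cfsg.Sz F m))) : ℂ) ≠ 0 := by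
        rw [hc1]
        exact Nat.cast_ne_zero.mpr (by positivity)
      refine torus_norm_arith ((2 : ℂ) ^ m) _ _ _ _ _ _ _ _ (by ring) (by ring) ?_ hsub2 ?_ ?_ ?_
        (mul_inv_cancel₀ hA0)
      · rw [hc1]
        push_cast
        ring
      · push_cast [hsub]
        ring
      · rw [card_sz hm hF]
        push_cast [hsub]
        ring
      · rw [hn1]
        push_cast
        ring)

/-- the family of degree `(q - 1) (q + r + 1)` -/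
theorem sz_chZ (hm : 1 ≤ m) (hF : Fintype.card F = 2 ^ (2 * m + 1))
    (h : SzData F (2 ^ (m + 1)))
    [Fintype ↥(Cfsg.Sz F m)] (x₂ : ↥(Cfsg.Sz F m)) (hx₂ : szFpf x₂)
    [Fintype (↥(Subgroup.centralizer ({x₂} : Set ↥(Cfsg.Sz F m))) →* ℂˣ)]
    (hc2 : Nat.card ↥(Subgroup.centralizer ({x₂} : Set ↥(Cfsg.Sz F m))) =
      2 ^ (2 * m + 1) + 1 - 2 ^ (m + 1))
    (hn2 : Nat.card ↥(Subgroup.normalizer ((Subgroup.centralizer ({x₂} : Set ↥(Cfsg.Sz F m)) :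
        Subgroup ↥(Cfsg.Sz F m)) : Set ↥(Cfsg.Sz F m))) =
        4 * Nat.card ↥(Subgroup.centralizer ({x₂} : Set ↥(Cfsg.Sz F m))))
    (χ₀ : AddChar F ℂ) (hχ₀ : χ₀ ≠ 1) :
    (∀ l : ↥(Subgroup.centralizer ({x₂} : Set ↥(Cfsg.Sz F m))) →* ℂˣ, l ≠ 1 →
      Cfsg.IsIrrCharacter ↥(Cfsg.Sz F m) (chTor h χ₀ (2 ^ m + 1) x₂ l)) ∧
    (∀ l : ↥(Subgroup.centralizer ({x₂} : Set ↥(Cfsg.Sz F m))) →* ℂˣ, l ≠ 1 →
      chTor h χ₀ (2 ^ m + 1) x₂ l 1 =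
        (((2 ^ (2 * m + 1) - 1) * (2 ^ (2 * m + 1) + 2 ^ (m + 1) + 1) : ℕ) : ℂ)) ∧
    (∀ l : ↥(Subgroup.centralizer ({x₂} : Set ↥(Cfsg.Sz F m))) →* ℂˣ, l ≠ 1 →
      (Finset.univ.filter (fun l' : ↥(Subgroup.centralizer ({x₂} : Set ↥(Cfsg.Sz F m))) →* ℂˣ =>
        l' ≠ 1 ∧ chTor h χ₀ (2 ^ m + 1) x₂ l' = chTor h χ₀ (2 ^ m + 1) x₂ l)).card = 4) := by
  obtain ⟨t, ht⟩ : ∃ t, 2 ^ m = t + 1 := ⟨2 ^ m - 1, by have := Nat.one_le_two_pow (n := m); omega⟩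
  have hQ : 2 ^ (2 * m + 1) = 2 * t ^ 2 + 4 * t + 2 := by
    have e : 2 ^ (2 * m + 1) = 2 * (2 ^ m) ^ 2 := by ring
    rw [e, ht]
    ring
  have hR : 2 ^ (m + 1) = 2 * t + 2 := by
    rw [pow_succ, ht]
    ring
  have e1 : 2 * t ^ 2 + 4 * t + 2 - 1 = 2 * t ^ 2 + 4 * t + 1 := by omega
  have e2 : 2 * t ^ 2 + 4 * t + 2 + 1 - (2 * t + 2) = 2 * t ^ 2 + 2 * t + 1 := by omega
  have hidx : (Subgroup.centralizer ({x₂} : Set ↥(Cfsg.Sz F m))).index =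
      (2 * t ^ 2 + 4 * t + 2) ^ 2 * (2 * t ^ 2 + 4 * t + 1) * (2 * t ^ 2 + 6 * t + 5) := by
    have h1 := Subgroup.card_mul_index (Subgroup.centralizer ({x₂} : Set ↥(Cfsg.Sz F m)))
    rw [hc2, card_sz hm hF, hQ, hR, e1, e2] at h1
    apply Nat.eq_of_mul_eq_mul_left (show 0 < 2 * t ^ 2 + 2 * t + 1 by omega)
    rw [h1]
    ring
  exact sz_torus_explicit hm hF h x₂ hx₂ hn2 χ₀ hχ₀
    (2 ^ m + 1) ((2 ^ (2 * m + 1) - 1) * (2 ^ (2 * m + 1) + 2 ^ (m + 1) + 1))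
    (by
      rw [hQ, hR, e1]
      positivity)
    (by
      rw [hidx, ht, hQ, hR, e1]
      ring)
    (by
      have hsub : ((2 ^ (2 * m + 1) - 1 : ℕ) : ℂ) = (2 : ℂ) ^ (2 * m + 1) - 1 := by
        rw [Nat.cast_sub Nat.one_le_two_pow]
        push_cast
        ring
      have hle : 2 ^ (m + 1) ≤ 2 ^ (2 * m + 1) + 1 := by
        rw [hQ, hR]
        nlinarith [sq_nonneg t]
      have hA0 : (Nat.card ↥(Subgroup.centralizer ({x₂} : Set ↥(Cfsg.Sz F m))) : ℂ) ≠ 0 := by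
        rw [hc2, hQ, hR, e2]
        exact Nat.cast_ne_zero.mpr (by positivity)
      refine torus_norm_arith' ((2 : ℂ) ^ m) _ _ _ _ _ _ _ _ (by ring) (by ring) ?_ ?_ ?_ ?_ ?_
        (mul_inv_cancel₀ hA0)
      · rw [hc2, Nat.cast_sub hle]
        push_cast
        ring
      · push_cast
        ring
      · push_cast [hsub]
        ring
      · rw [card_sz hm hF]
        push_cast [hsub]
        ring
      · rw [hn2]
        push_cast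
        ring)

theorem chTor_T0 (hm : 1 ≤ m) (hF : Fintype.card F = 2 ^ (2 * m + 1))
    (h : SzData F (2 ^ (m + 1))) [Fintype ↥(Cfsg.Sz F m)]
    (χ₀ : AddChar F ℂ) (hχ₀ : χ₀ ≠ 1) (c : ℕ) (x : ↥(Cfsg.Sz F m)) (hx : szFpf x)
    (l : ↥(Subgroup.centralizer ({x} : Set ↥(Cfsg.Sz F m))) →* ℂˣ) (b : F) (hb : b ≠ 0) :
    chTor h χ₀ c x l (szTm h 0 b) =
      (2 : ℂ) ^ (2 * m + 1) - 1 - (c : ℂ) * (2 : ℂ) ^ (m + 1) := by
  unfold chTor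
  rw [Pi.sub_apply, chPsi_T0 hF h χ₀ hχ₀ c b hb,
    indC_fixed hm hF x hx _ _ (szTm_ne_one h 0 b (fun hc => hb hc.2)) (oInf F m)
      (szTm_smul_inf h 0 b), sub_zero]

theorem chTor_T1 (hm : 1 ≤ m) (hF : Fintype.card F = 2 ^ (2 * m + 1))
    (h : SzData F (2 ^ (m + 1))) [Fintype ↥(Cfsg.Sz F m)]
    (χ₀ : AddChar F ℂ) (hχ₀ : χ₀ ≠ 1) (c : ℕ) (x : ↥(Cfsg.Sz F m)) (hx : szFpf x)
    (l : ↥(Subgroup.centralizer ({x} : Set ↥(Cfsg.Sz F m))) →* ℂˣ) (a b : F) (ha : a ≠ 0) :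
    chTor h χ₀ c x l (szTm h a b) = -1 := by
  unfold chTor
  rw [Pi.sub_apply, chPsi_T1 hF h χ₀ hχ₀ c a b ha,
    indC_fixed hm hF x hx _ _ (szTm_ne_one h a b (fun hc => ha hc.1)) (oInf F m)
      (szTm_smul_inf h a b), sub_zero]

theorem chTor_H (hm : 1 ≤ m) (hF : Fintype.card F = 2 ^ (2 * m + 1))
    (h : SzData F (2 ^ (m + 1))) [Fintype ↥(Cfsg.Sz F m)]
    (χ₀ : AddChar F ℂ) (c : ℕ) (x : ↥(Cfsg.Sz F m)) (hx : szFpf x)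
    (l : ↥(Subgroup.centralizer ({x} : Set ↥(Cfsg.Sz F m))) →* ℂˣ) (μ : Fˣ) (hμ : μ ≠ 1) :
    chTor h χ₀ c x l (szHsub h μ) = 0 := by
  unfold chTor
  rw [Pi.sub_apply, chPsi_H h χ₀ c μ hμ,
    indC_fixed hm hF x hx _ _ (h.szHsub_ne_one hμ) (oInf F m) (h.szHsub_smul_inf μ), sub_zero]

theorem chTor_self (hm : 1 ≤ m) (hF : Fintype.card F = 2 ^ (2 * m + 1))
    (h : SzData F (2 ^ (m + 1))) [Fintype ↥(Cfsg.Sz F m)]
    (χ₀ : AddChar F ℂ) (c : ℕ) (x : ↥(Cfsg.Sz F m)) (hx : szFpf x)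
    (l : ↥(Subgroup.centralizer ({x} : Set ↥(Cfsg.Sz F m))) →* ℂˣ) (a : ↥(Cfsg.Sz F m))
    (ha : a ∈ Subgroup.centralizer ({x} : Set ↥(Cfsg.Sz F m))) (ha1 : a ≠ 1) :
    chTor h χ₀ c x l a = - Cfsg.indFun (Subgroup.centralizer ({x} : Set ↥(Cfsg.Sz F m)))
      (fun a => ((l a : ℂˣ) : ℂ)) a := by
  unfold chTor
  rw [Pi.sub_apply, chPsi_fpf h χ₀ c a (szFpf_of_commute hm hF x a hx ha1
      (Subgroup.mem_centralizer_singleton_iff.mp ha)), zero_sub]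

theorem chTor_other (hm : 1 ≤ m) (hF : Fintype.card F = 2 ^ (2 * m + 1))
    (h : SzData F (2 ^ (m + 1))) [Fintype ↥(Cfsg.Sz F m)]
    (χ₀ : AddChar F ℂ) (c : ℕ) (x x' : ↥(Cfsg.Sz F m)) (hx : szFpf x) (hx' : szFpf x')
    (hne : Nat.card ↥(Subgroup.centralizer ({x'} : Set ↥(Cfsg.Sz F m))) ≠
      Nat.card ↥(Subgroup.centralizer ({x} : Set ↥(Cfsg.Sz F m))))
    (l : ↥(Subgroup.centralizer ({x} : Set ↥(Cfsg.Sz F m))) →* ℂˣ) (a : ↥(Cfsg.Sz F m))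
    (ha : a ∈ Subgroup.centralizer ({x'} : Set ↥(Cfsg.Sz F m))) (ha1 : a ≠ 1) :
    chTor h χ₀ c x l a = 0 := by
  unfold chTor
  rw [Pi.sub_apply, chPsi_fpf h χ₀ c a (szFpf_of_commute hm hF x' a hx' ha1
      (Subgroup.mem_centralizer_singleton_iff.mp ha)),
    indC_other hm hF x x' hx hx' hne _ a ha ha1, sub_zero]

end TbH

end Cfsg.Agent.Lib.Helper37
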