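-- helper37: Suzuki groups, character table, part 9: the complete list of irreducible
-- characters.
import Mathlib
import Cfsg.Prelude.Def_LieExceptional
import Cfsg.Agent.Lib.Helper37.SzTbA
import Cfsg.Agent.Lib.Helper37.SzTbH
import Cfsg.Agent.Lib.Helper79.ClassMult

set_option autoImplicit false

namespace Cfsg.Agent.Lib.Helper37

open scoped ComplexConjugate

open Classical

section TbI

variable {F : Type*} [Field F] [Fintype F] {m : ℕ}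

theorem charDegree_of_one {G : Type*} [Group G] (χ : G → ℂ) (D : ℕ) (hχ : χ 1 = (D : ℂ)) :
    Cfsg.charDegree χ = D := by
  unfold Cfsg.charDegree
  rw [hχ, Complex.natCast_re, Nat.floor_natCast]

/-- sums over all irreducible characters of a Suzuki group -/
theorem sz_master (hm : 1 ≤ m) (hF : Fintype.card F = 2 ^ (2 * m + 1))
    (h : SzData F (2 ^ (m + 1)))
    [Fintype ↥(Cfsg.Sz F m)] [Fintype (Cfsg.IrrCharacter ↥(Cfsg.Sz F m))] [Fintype (Fˣ →* ℂˣ)]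
    (x₁ x₂ : ↥(Cfsg.Sz F m)) (hx₁ : szFpf x₁) (hx₂ : szFpf x₂)
    [Fintype (↥(Subgroup.centralizer ({x₁} : Set ↥(Cfsg.Sz F m))) →* ℂˣ)]
    [Fintype (↥(Subgroup.centralizer ({x₂} : Set ↥(Cfsg.Sz F m))) →* ℂˣ)]
    (hc1 : Nat.card ↥(Subgroup.centralizer ({x₁} : Set ↥(Cfsg.Sz F m))) =
      2 ^ (2 * m + 1) + 2 ^ (m + 1) + 1)
    (hc2 : Nat.card ↥(Subgroup.centralizer ({x₂} : Set ↥(Cfsg.Sz F m))) =
      2 ^ (2 * m + 1) + 1 - 2 ^ (m + 1))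
    (hn1 : Nat.card ↥(Subgroup.normalizer ((Subgroup.centralizer ({x₁} : Set ↥(Cfsg.Sz F m)) :
        Subgroup ↥(Cfsg.Sz F m)) : Set ↥(Cfsg.Sz F m))) =
        4 * Nat.card ↥(Subgroup.centralizer ({x₁} : Set ↥(Cfsg.Sz F m))))
    (hn2 : Nat.card ↥(Subgroup.normalizer ((Subgroup.centralizer ({x₂} : Set ↥(Cfsg.Sz F m)) :
        Subgroup ↥(Cfsg.Sz F m)) : Set ↥(Cfsg.Sz F m))) =
        4 * Nat.card ↥(Subgroup.centralizer ({x₂} : Set ↥(Cfsg.Sz F m))))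
    (χ₀ : AddChar F ℂ) (hχ₀ : χ₀ ≠ 1) :
    ∃ W₁ W₂ : ↥(Cfsg.Sz F m) → ℂ, Cfsg.IsIrrCharacter ↥(Cfsg.Sz F m) W₁ ∧
      Cfsg.IsIrrCharacter ↥(Cfsg.Sz F m) W₂ ∧
      W₁ 1 = ((2 ^ m * (2 ^ (2 * m + 1) - 1) : ℕ) : ℂ) ∧
      W₂ 1 = ((2 ^ m * (2 ^ (2 * m + 1) - 1) : ℕ) : ℂ) ∧
      ∀ Φ : (↥(Cfsg.Sz F m) → ℂ) → ℂ,
        ∑ χ : Cfsg.IrrCharacter ↥(Cfsg.Sz F m), Φ (χ : ↥(Cfsg.Sz F m) → ℂ) =
          Φ (fun _ => 1) + Φ (chSt h) +
          (2 : ℂ)⁻¹ * ∑ η ∈ Finset.univ.filter (fun η : Fˣ →* ℂˣ => η ≠ 1), Φ (chX h η) +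
          (4 : ℂ)⁻¹ * ∑ l ∈ Finset.univ.filter
            (fun l : ↥(Subgroup.centralizer ({x₁} : Set ↥(Cfsg.Sz F m))) →* ℂˣ => l ≠ 1),
              Φ (chTor h χ₀ (2 ^ m - 1) x₁ l) +
          (4 : ℂ)⁻¹ * ∑ l ∈ Finset.univ.filter
            (fun l : ↥(Subgroup.centralizer ({x₂} : Set ↥(Cfsg.Sz F m))) →* ℂˣ => l ≠ 1),
              Φ (chTor h χ₀ (2 ^ m + 1) x₂ l) + Φ W₁ + Φ W₂ := by
  obtain ⟨hYirr, hYdeg, hYfib⟩ := sz_chY hm hF h x₁ hx₁ hc1 hn1 χ₀ hχ₀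
  obtain ⟨hZirr, hZdeg, hZfib⟩ := sz_chZ hm hF h x₂ hx₂ hc2 hn2 χ₀ hχ₀
  have htb := sz_irr_trivial_or_big hm hF
  have hsum := Cfsg.Agent.Lib.Helper80.sum_charDegree_sq (G := ↥(Cfsg.Sz F m))
  rw [card_sz hm hF] at hsum
  obtain ⟨v, hv⟩ : ∃ v, 2 ^ m = 2 * v + 2 := by
    obtain ⟨k, rfl⟩ : ∃ k, m = k + 1 := ⟨m - 1, by omega⟩
    refine ⟨2 ^ k - 1, ?_⟩
    have := Nat.one_le_two_pow (n := k)
    rw [pow_succ]
    omega
  have hQ : 2 ^ (2 * m + 1) = 8 * v ^ 2 + 16 * v + 8 := by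
    have e : 2 ^ (2 * m + 1) = 2 * (2 ^ m) ^ 2 := by ring
    rw [e, hv]
    ring
  have hR : 2 ^ (m + 1) = 4 * v + 4 := by
    rw [pow_succ, hv]
    ring
  have e1 : 8 * v ^ 2 + 16 * v + 8 - 1 = 8 * v ^ 2 + 16 * v + 7 := by omega
  have e2 : 8 * v ^ 2 + 16 * v + 8 + 1 - (4 * v + 4) = 8 * v ^ 2 + 12 * v + 5 := by omega
  have e3 : 8 * v ^ 2 + 16 * v + 8 + (4 * v + 4) + 1 = 8 * v ^ 2 + 20 * v + 13 := by omega
  rw [hQ, e1] at hsum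
  let i₁ : Cfsg.IrrCharacter ↥(Cfsg.Sz F m) :=
    ⟨fun _ => 1, Cfsg.Agent.Lib.Helper80.isIrrCharacter_one⟩
  let iSt : Cfsg.IrrCharacter ↥(Cfsg.Sz F m) := ⟨chSt h, chSt_irr hm hF h⟩
  let fX : (Fˣ →* ℂˣ) → Cfsg.IrrCharacter ↥(Cfsg.Sz F m) := fun η =>
    if hη : η ≠ 1 then ⟨chX h η, chX_irr hm hF h η hη⟩ else i₁
  let fY : (↥(Subgroup.centralizer ({x₁} : Set ↥(Cfsg.Sz F m))) →* ℂˣ) →
      Cfsg.IrrCharacter ↥(Cfsg.Sz F m) := fun l =>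
    if hl : l ≠ 1 then ⟨chTor h χ₀ (2 ^ m - 1) x₁ l, hYirr l hl⟩ else i₁
  let fZ : (↥(Subgroup.centralizer ({x₂} : Set ↥(Cfsg.Sz F m))) →* ℂˣ) →
      Cfsg.IrrCharacter ↥(Cfsg.Sz F m) := fun l =>
    if hl : l ≠ 1 then ⟨chTor h χ₀ (2 ^ m + 1) x₂ l, hZirr l hl⟩ else i₁
  have hfX : ∀ η : Fˣ →* ℂˣ, η ≠ 1 →
      ((fX η : Cfsg.IrrCharacter ↥(Cfsg.Sz F m)) : ↥(Cfsg.Sz F m) → ℂ) = chX h η := by
    intro η hη
    show ((if hη : η ≠ 1 then (⟨chX h η, chX_irr hm hF h η hη⟩ :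
      Cfsg.IrrCharacter ↥(Cfsg.Sz F m)) else i₁ : Cfsg.IrrCharacter ↥(Cfsg.Sz F m)) :
        ↥(Cfsg.Sz F m) → ℂ) = _
    rw [dif_pos hη]
  have hfY : ∀ l : ↥(Subgroup.centralizer ({x₁} : Set ↥(Cfsg.Sz F m))) →* ℂˣ, l ≠ 1 →
      ((fY l : Cfsg.IrrCharacter ↥(Cfsg.Sz F m)) : ↥(Cfsg.Sz F m) → ℂ) =
        chTor h χ₀ (2 ^ m - 1) x₁ l := by
    intro l hl
    show ((if hl : l ≠ 1 then (⟨chTor h χ₀ (2 ^ m - 1) x₁ l, hYirr l hl⟩ :
      Cfsg.IrrCharacter ↥(Cfsg.Sz F m)) else i₁ : Cfsg.IrrCharacter ↥(Cfsg.Sz F m)) :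
        ↥(Cfsg.Sz F m) → ℂ) = _
    rw [dif_pos hl]
  have hfZ : ∀ l : ↥(Subgroup.centralizer ({x₂} : Set ↥(Cfsg.Sz F m))) →* ℂˣ, l ≠ 1 →
      ((fZ l : Cfsg.IrrCharacter ↥(Cfsg.Sz F m)) : ↥(Cfsg.Sz F m) → ℂ) =
        chTor h χ₀ (2 ^ m + 1) x₂ l := by
    intro l hl
    show ((if hl : l ≠ 1 then (⟨chTor h χ₀ (2 ^ m + 1) x₂ l, hZirr l hl⟩ :
      Cfsg.IrrCharacter ↥(Cfsg.Sz F m)) else i₁ : Cfsg.IrrCharacter ↥(Cfsg.Sz F m)) :
        ↥(Cfsg.Sz F m) → ℂ) = _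
    rw [dif_pos hl]
  have hcardX : (Finset.univ.filter (fun η : Fˣ →* ℂˣ => η ≠ 1)).card =
      2 * (4 * v ^ 2 + 8 * v + 3) := by
    have hcomm : commutator Fˣ = ⊥ := by
      rw [commutator_eq_bot_iff_center_eq_top]
      ext a
      simp only [Subgroup.mem_top, iff_true]
      rw [Subgroup.mem_center_iff]
      intro b
      exact mul_comm b a
    rw [Finset.filter_ne' Finset.univ (1 : Fˣ →* ℂˣ), Finset.card_erase_of_mem (Finset.mem_univ _),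
      Finset.card_univ, ← Nat.card_eq_fintype_card, Cfsg.Agent.Lib.Helper79.card_monoidHom_units,
      hcomm, Subgroup.index_bot, Nat.card_eq_fintype_card, Fintype.card_units, hF, hQ]
    omega
  have hcardY : (Finset.univ.filter
      (fun l : ↥(Subgroup.centralizer ({x₁} : Set ↥(Cfsg.Sz F m))) →* ℂˣ => l ≠ 1)).card =
      4 * (2 * v ^ 2 + 5 * v + 3) := by
    have hcomm := selfCent_comm _ (szTorus_cent hm hF x₁ hx₁)
    rw [Finset.filter_ne' Finset.univ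
      (1 : ↥(Subgroup.centralizer ({x₁} : Set ↥(Cfsg.Sz F m))) →* ℂˣ),
      Finset.card_erase_of_mem (Finset.mem_univ _),
      Finset.card_univ, ← Nat.card_eq_fintype_card, card_hom_of_comm _ hcomm, hc1, hQ, hR]
    omega
  have hcardZ : (Finset.univ.filter
      (fun l : ↥(Subgroup.centralizer ({x₂} : Set ↥(Cfsg.Sz F m))) →* ℂˣ => l ≠ 1)).card =
      4 * (2 * v ^ 2 + 3 * v + 1) := by
    have hcomm := selfCent_comm _ (szTorus_cent hm hF x₂ hx₂)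
    rw [Finset.filter_ne' Finset.univ
      (1 : ↥(Subgroup.centralizer ({x₂} : Set ↥(Cfsg.Sz F m))) →* ℂˣ),
      Finset.card_erase_of_mem (Finset.mem_univ _),
      Finset.card_univ, ← Nat.card_eq_fintype_card, card_hom_of_comm _ hcomm, hc2, hQ, hR, e2]
    omega
  have hA4 : (8 * v ^ 2 + 16 * v + 7) * (8 * v ^ 2 + 20 * v + 13) =
      (8 * v ^ 2 + 16 * v + 8) ^ 2 + 1 + (32 * v ^ 3 + 96 * v ^ 2 + 92 * v + 26) := by ring
  have key := master_abstract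
    (fun χ : Cfsg.IrrCharacter ↥(Cfsg.Sz F m) => Cfsg.charDegree (χ : ↥(Cfsg.Sz F m) → ℂ))
    i₁ iSt (Finset.univ.filter (fun η : Fˣ →* ℂˣ => η ≠ 1))
    (Finset.univ.filter
      (fun l : ↥(Subgroup.centralizer ({x₁} : Set ↥(Cfsg.Sz F m))) →* ℂˣ => l ≠ 1))
    (Finset.univ.filter
      (fun l : ↥(Subgroup.centralizer ({x₂} : Set ↥(Cfsg.Sz F m))) →* ℂˣ => l ≠ 1))
    fX fY fZ
    ((8 * v ^ 2 + 16 * v + 8) ^ 2) ((8 * v ^ 2 + 16 * v + 8) ^ 2 + 1)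
    ((8 * v ^ 2 + 16 * v + 7) * (8 * v ^ 2 + 12 * v + 5))
    ((8 * v ^ 2 + 16 * v + 7) * (8 * v ^ 2 + 20 * v + 13))
    ((2 * v + 2) * (8 * v ^ 2 + 16 * v + 7))
    ((8 * v ^ 2 + 16 * v + 8) ^ 2 * ((8 * v ^ 2 + 16 * v + 8) ^ 2 + 1) * (8 * v ^ 2 + 16 * v + 7))
    2 4 4 (4 * v ^ 2 + 8 * v + 3) (2 * v ^ 2 + 5 * v + 3) (2 * v ^ 2 + 3 * v + 1)
    ⟨by
        have := Nat.mul_le_mul (show 7 ≤ 8 * v ^ 2 + 16 * v + 7 by omega)
          (show 5 ≤ 8 * v ^ 2 + 12 * v + 5 by omega)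
        omega,
      lt_of_lt_of_eq (Nat.mul_lt_mul'' (show 8 * v ^ 2 + 16 * v + 7 < 8 * v ^ 2 + 16 * v + 8 by omega)
        (show 8 * v ^ 2 + 12 * v + 5 < 8 * v ^ 2 + 16 * v + 8 by omega)) (pow_two _).symm,
      Nat.lt_succ_self _,
      by rw [hA4]; omega⟩
    (charDegree_of_one _ 1 (by show (1 : ℂ) = ((1 : ℕ) : ℂ); simp))
    (charDegree_of_one _ _ (by
      have := chSt_one hm hF h
      rw [hQ] at this
      exact this))
    (by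
      intro η hη
      have hη1 : η ≠ 1 := (Finset.mem_filter.mp hη).2
      apply charDegree_of_one
      rw [hfX η hη1, chX_one hm hF h η, hQ])
    (by
      intro l hl
      have hl1 : l ≠ 1 := (Finset.mem_filter.mp hl).2
      apply charDegree_of_one
      rw [hfY l hl1, hYdeg l hl1, hQ, hR, e1, e2])
    (by
      intro l hl
      have hl1 : l ≠ 1 := (Finset.mem_filter.mp hl).2
      apply charDegree_of_one
      rw [hfZ l hl1, hZdeg l hl1, hQ, hR, e1, e3])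
    (by
      intro η hη
      have hη1 : η ≠ 1 := (Finset.mem_filter.mp hη).2
      refine Eq.trans ?_ (chX_fibre hm hF h η hη1)
      congr 1
      ext η'
      simp only [Finset.mem_filter, Finset.mem_univ, true_and]
      constructor
      · rintro ⟨h1, h2⟩
        refine ⟨h1, ?_⟩
        have h3 := congrArg Subtype.val h2
        rw [hfX η' h1, hfX η hη1] at h3
        exact h3
      · rintro ⟨h1, h2⟩
        refine ⟨h1, Subtype.ext ?_⟩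
        rw [hfX η' h1, hfX η hη1]
        exact h2)
    (by
      intro l hl
      have hl1 : l ≠ 1 := (Finset.mem_filter.mp hl).2
      refine Eq.trans ?_ (hYfib l hl1)
      congr 1
      ext l'
      simp only [Finset.mem_filter, Finset.mem_univ, true_and]
      constructor
      · rintro ⟨h1, h2⟩
        refine ⟨h1, ?_⟩
        have h3 := congrArg Subtype.val h2
        rw [hfY l' h1, hfY l hl1] at h3
        exact h3
      · rintro ⟨h1, h2⟩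
        refine ⟨h1, Subtype.ext ?_⟩
        rw [hfY l' h1, hfY l hl1]
        exact h2)
    (by
      intro l hl
      have hl1 : l ≠ 1 := (Finset.mem_filter.mp hl).2
      refine Eq.trans ?_ (hZfib l hl1)
      congr 1
      ext l'
      simp only [Finset.mem_filter, Finset.mem_univ, true_and]
      constructor
      · rintro ⟨h1, h2⟩
        refine ⟨h1, ?_⟩
        have h3 := congrArg Subtype.val h2
        rw [hfZ l' h1, hfZ l hl1] at h3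
        exact h3
      · rintro ⟨h1, h2⟩
        refine ⟨h1, Subtype.ext ?_⟩
        rw [hfZ l' h1, hfZ l hl1]
        exact h2)
    (by norm_num) (by norm_num) (by norm_num) hcardX hcardY hcardZ hsum (by ring)
    (by positivity)
    (by
      intro χ
      rcases htb χ with h1 | h1
      · left
        exact Subtype.ext h1
      · right
        rw [hv, hQ, e1] at h1
        exact h1)
  obtain ⟨j₁, j₂, -, hj1, hj2, hF'⟩ := key
  have hw : ((2 ^ m * (2 ^ (2 * m + 1) - 1) : ℕ) : ℂ) =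
      (((2 * v + 2) * (8 * v ^ 2 + 16 * v + 7) : ℕ) : ℂ) := by
    rw [hv, hQ, e1]
  refine ⟨j₁.1, j₂.1, j₁.2, j₂.2, ?_, ?_, ?_⟩
  · rw [hw, ← hj1]
    exact (Cfsg.Agent.Lib.Helper79.irr_charDegree j₁.2).1
  · rw [hw, ← hj2]
    exact (Cfsg.Agent.Lib.Helper79.irr_charDegree j₂.2).1
  · intro Φ
    have h1 := hF' (fun χ => Φ (χ : ↥(Cfsg.Sz F m) → ℂ))
    rw [h1]
    have eX : ∑ η ∈ Finset.univ.filter (fun η : Fˣ →* ℂˣ => η ≠ 1),
        Φ ((fX η : Cfsg.IrrCharacter ↥(Cfsg.Sz F m)) : ↥(Cfsg.Sz F m) → ℂ) =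
        ∑ η ∈ Finset.univ.filter (fun η : Fˣ →* ℂˣ => η ≠ 1), Φ (chX h η) :=
      Finset.sum_congr rfl (fun η hη => by rw [hfX η (Finset.mem_filter.mp hη).2])
    have eY : ∑ l ∈ Finset.univ.filter
        (fun l : ↥(Subgroup.centralizer ({x₁} : Set ↥(Cfsg.Sz F m))) →* ℂˣ => l ≠ 1),
        Φ ((fY l : Cfsg.IrrCharacter ↥(Cfsg.Sz F m)) : ↥(Cfsg.Sz F m) → ℂ) =
        ∑ l ∈ Finset.univ.filter
        (fun l : ↥(Subgroup.centralizer ({x₁} : Set ↥(Cfsg.Sz F m))) →* ℂˣ => l ≠ 1),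
          Φ (chTor h χ₀ (2 ^ m - 1) x₁ l) :=
      Finset.sum_congr rfl (fun l hl => by rw [hfY l (Finset.mem_filter.mp hl).2])
    have eZ : ∑ l ∈ Finset.univ.filter
        (fun l : ↥(Subgroup.centralizer ({x₂} : Set ↥(Cfsg.Sz F m))) →* ℂˣ => l ≠ 1),
        Φ ((fZ l : Cfsg.IrrCharacter ↥(Cfsg.Sz F m)) : ↥(Cfsg.Sz F m) → ℂ) =
        ∑ l ∈ Finset.univ.filter
        (fun l : ↥(Subgroup.centralizer ({x₂} : Set ↥(Cfsg.Sz F m))) →* ℂˣ => l ≠ 1),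
          Φ (chTor h χ₀ (2 ^ m + 1) x₂ l) :=
      Finset.sum_congr rfl (fun l hl => by rw [hfZ l (Finset.mem_filter.mp hl).2])
    rw [eX, eY, eZ]
    have ei : ((i₁ : Cfsg.IrrCharacter ↥(Cfsg.Sz F m)) : ↥(Cfsg.Sz F m) → ℂ) = fun _ => 1 := rfl
    have eS : ((iSt : Cfsg.IrrCharacter ↥(Cfsg.Sz F m)) : ↥(Cfsg.Sz F m) → ℂ) = chSt h := rfl
    rw [ei, eS]
    norm_num

end TbI

end Cfsg.Agent.Lib.Helper37
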