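-- helper37: Suzuki groups, character table, part 10: sums of character values over the
-- principal series.
import Mathlib
import Cfsg.Prelude.Def_LieExceptional
import Cfsg.Agent.Lib.Helper37.SzTbI

set_option autoImplicit false

namespace Cfsg.Agent.Lib.Helper37

open scoped ComplexConjugate

open Classical

section TbJ

variable {F : Type*} [Field F] [Fintype F] {m : ℕ}

theorem unit_mul_self_ne_one (h : SzData F (2 ^ (m + 1))) (μ : Fˣ) (hμ : μ ≠ 1) : μ * μ ≠ 1 := by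
  intro hc
  apply hμ
  apply h.unit_sq_eq_one
  have h1 := congrArg (fun u : Fˣ => (u : F)) hc
  simp only [Units.val_mul, Units.val_one] at h1
  rw [pow_two]
  exact h1

theorem card_eta_ne (hF : Fintype.card F = 2 ^ (2 * m + 1)) [Fintype (Fˣ →* ℂˣ)] :
    (Finset.univ.filter (fun η : Fˣ →* ℂˣ => η ≠ 1)).card = 2 ^ (2 * m + 1) - 2 := by
  have hcomm : commutator Fˣ = ⊥ := by
    rw [commutator_eq_bot_iff_center_eq_top]
    ext a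
    simp only [Subgroup.mem_top, iff_true]
    rw [Subgroup.mem_center_iff]
    intro b
    exact mul_comm b a
  rw [Finset.filter_ne' Finset.univ (1 : Fˣ →* ℂˣ), Finset.card_erase_of_mem (Finset.mem_univ _),
    Finset.card_univ, ← Nat.card_eq_fintype_card, Cfsg.Agent.Lib.Helper79.card_monoidHom_units,
    hcomm, Subgroup.index_bot, Nat.card_eq_fintype_card, Fintype.card_units, hF]
  omega

theorem cast_two_pow_sub (m : ℕ) :
    ((2 ^ (2 * m + 1) - 2 : ℕ) : ℂ) = (2 : ℂ) ^ (2 * m + 1) - 2 := by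
  have h1 : 2 ≤ 2 ^ (2 * m + 1) := by
    have := Nat.one_le_two_pow (n := 2 * m)
    rw [pow_succ]
    omega
  rw [Nat.cast_sub h1]
  push_cast
  ring

/-- the sum of the values of the nontrivial linear characters of the multiplicative group -/
theorem sumEta (hF : Fintype.card F = 2 ^ (2 * m + 1)) [Fintype (Fˣ →* ℂˣ)] (ν : Fˣ) :
    ∑ η ∈ Finset.univ.filter (fun η : Fˣ →* ℂˣ => η ≠ 1), ((η ν : ℂˣ) : ℂ) =
      (if ν = 1 then (2 : ℂ) ^ (2 * m + 1) - 1 else 0) - 1 := by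
  rw [sum_hom_apply_ne (fun a b : Fˣ => mul_comm a b) ν, Fintype.card_units, hF,
    Nat.cast_sub Nat.one_le_two_pow]
  push_cast
  rfl

theorem sumX_T (hF : Fintype.card F = 2 ^ (2 * m + 1)) (h : SzData F (2 ^ (m + 1)))
    [Fintype ↥(Cfsg.Sz F m)] [Fintype (Fˣ →* ℂˣ)] (a b : F) (hab : ¬ (a = 0 ∧ b = 0)) :
    ∑ η ∈ Finset.univ.filter (fun η : Fˣ →* ℂˣ => η ≠ 1), chX h η (szTm h a b) =
      (2 : ℂ) ^ (2 * m + 1) - 2 := by
  rw [Finset.sum_congr rfl (fun η _ => chX_T h η a b hab), Finset.sum_const, card_eta_ne hF,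
    nsmul_eq_mul, mul_one, cast_two_pow_sub]

theorem sumX_fpf (h : SzData F (2 ^ (m + 1)))
    [Fintype ↥(Cfsg.Sz F m)] [Fintype (Fˣ →* ℂˣ)] (g : ↥(Cfsg.Sz F m)) (hg : szFpf g) :
    ∑ η ∈ Finset.univ.filter (fun η : Fˣ →* ℂˣ => η ≠ 1), chX h η g = 0 := by
  rw [Finset.sum_congr rfl (fun η _ => chX_fpf h η g hg), Finset.sum_const_zero]

theorem sumX_H (hF : Fintype.card F = 2 ^ (2 * m + 1)) (h : SzData F (2 ^ (m + 1)))
    [Fintype ↥(Cfsg.Sz F m)] [Fintype (Fˣ →* ℂˣ)] (μ : Fˣ) (hμ : μ ≠ 1) :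
    ∑ η ∈ Finset.univ.filter (fun η : Fˣ →* ℂˣ => η ≠ 1), chX h η (szHsub h μ) = -2 := by
  rw [Finset.sum_congr rfl (fun η _ => chX_H h η μ hμ), Finset.sum_add_distrib, sumEta hF,
    sumEta hF, if_neg hμ, if_neg (inv_ne_one.mpr hμ)]
  ring

theorem chX_H_sq (h : SzData F (2 ^ (m + 1))) [Fintype ↥(Cfsg.Sz F m)] (η : Fˣ →* ℂˣ) (μ : Fˣ)
    (hμ : μ ≠ 1) :
    chX h η (szHsub h μ) ^ 2 =
      ((η (μ * μ) : ℂˣ) : ℂ) + 2 + ((η (μ⁻¹ * μ⁻¹) : ℂˣ) : ℂ) := by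
  have h1 : ((η μ : ℂˣ) : ℂ) * ((η μ⁻¹ : ℂˣ) : ℂ) = 1 := by
    rw [← Units.val_mul, ← map_mul, mul_inv_cancel, map_one, Units.val_one]
  rw [chX_H h η μ hμ, map_mul, map_mul, Units.val_mul, Units.val_mul]
  linear_combination 2 * h1

theorem chX_H_conj (h : SzData F (2 ^ (m + 1))) [Fintype ↥(Cfsg.Sz F m)] (η : Fˣ →* ℂˣ) (μ : Fˣ)
    (hμ : μ ≠ 1) : conj (chX h η (szHsub h μ)) = chX h η (szHsub h μ) := by
  rw [chX_H h η μ hμ, map_add, Cfsg.Agent.Lib.Helper25.conj_linChar,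
    Cfsg.Agent.Lib.Helper25.conj_linChar, ← map_inv, ← map_inv, inv_inv, add_comm]

theorem sumX_H_sq (hF : Fintype.card F = 2 ^ (2 * m + 1)) (h : SzData F (2 ^ (m + 1)))
    [Fintype ↥(Cfsg.Sz F m)] [Fintype (Fˣ →* ℂˣ)] (μ : Fˣ) (hμ : μ ≠ 1) :
    ∑ η ∈ Finset.univ.filter (fun η : Fˣ →* ℂˣ => η ≠ 1), chX h η (szHsub h μ) ^ 2 =
      2 * (2 : ℂ) ^ (2 * m + 1) - 6 := by
  rw [Finset.sum_congr rfl (fun η _ => chX_H_sq h η μ hμ), Finset.sum_add_distrib,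
    Finset.sum_add_distrib, sumEta hF, sumEta hF, if_neg (unit_mul_self_ne_one h μ hμ),
    if_neg (unit_mul_self_ne_one h μ⁻¹ (inv_ne_one.mpr hμ)), Finset.sum_const, card_eta_ne hF,
    nsmul_eq_mul, cast_two_pow_sub]
  ring

theorem sumX_H_norm (hF : Fintype.card F = 2 ^ (2 * m + 1)) (h : SzData F (2 ^ (m + 1)))
    [Fintype ↥(Cfsg.Sz F m)] [Fintype (Fˣ →* ℂˣ)] (μ : Fˣ) (hμ : μ ≠ 1) :
    ∑ η ∈ Finset.univ.filter (fun η : Fˣ →* ℂˣ => η ≠ 1),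
        chX h η (szHsub h μ) * conj (chX h η (szHsub h μ)) =
      2 * (2 : ℂ) ^ (2 * m + 1) - 6 := by
  rw [← sumX_H_sq hF h μ hμ]
  apply Finset.sum_congr rfl
  intro η _
  rw [chX_H_conj h η μ hμ, pow_two]

theorem sumX_H_cube (hF : Fintype.card F = 2 ^ (2 * m + 1)) (h : SzData F (2 ^ (m + 1)))
    [Fintype ↥(Cfsg.Sz F m)] [Fintype (Fˣ →* ℂˣ)] (μ ν : Fˣ) (hμ : μ ≠ 1) (hν : ν ≠ 1) :
    ∃ k : ℕ, ∑ η ∈ Finset.univ.filter (fun η : Fˣ →* ℂˣ => η ≠ 1),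
        chX h η (szHsub h μ) ^ 2 * chX h η (szHsub h ν) =
      (k : ℂ) * ((2 : ℂ) ^ (2 * m + 1) - 1) - 8 := by
  have key : ∀ η : Fˣ →* ℂˣ, chX h η (szHsub h μ) ^ 2 * chX h η (szHsub h ν) =
      ((η (μ * μ * ν) : ℂˣ) : ℂ) + ((η (μ * μ * ν⁻¹) : ℂˣ) : ℂ) + 2 * ((η ν : ℂˣ) : ℂ) +
        2 * ((η ν⁻¹ : ℂˣ) : ℂ) + ((η (μ⁻¹ * μ⁻¹ * ν) : ℂˣ) : ℂ) +
        ((η (μ⁻¹ * μ⁻¹ * ν⁻¹) : ℂˣ) : ℂ) := by
    intro η
    rw [chX_H_sq h η μ hμ, chX_H h η ν hν]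
    simp only [map_mul, Units.val_mul]
    ring
  refine ⟨(if μ * μ * ν = 1 then 1 else 0) + (if μ * μ * ν⁻¹ = 1 then 1 else 0) +
    (if μ⁻¹ * μ⁻¹ * ν = 1 then 1 else 0) + (if μ⁻¹ * μ⁻¹ * ν⁻¹ = 1 then 1 else 0), ?_⟩
  rw [Finset.sum_congr rfl (fun η _ => key η)]
  simp only [Finset.sum_add_distrib, ← Finset.mul_sum]
  rw [sumEta hF, sumEta hF, sumEta hF, sumEta hF, sumEta hF, sumEta hF, if_neg hν,
    if_neg (inv_ne_one.mpr hν)]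
  push_cast
  split_ifs <;> ring

end TbJ

end Cfsg.Agent.Lib.Helper37
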