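-- helper37: Suzuki groups, character table, part 11: sums of character values over the
-- families attached to the tori without fixed points.
import Mathlib
import Cfsg.Prelude.Def_LieExceptional
import Cfsg.Agent.Lib.Helper37.SzTbJ

set_option autoImplicit false

namespace Cfsg.Agent.Lib.Helper37

open scoped ComplexConjugate

open Classical

theorem sum_filter_inst {ι : Type*} (s : Finset ι) (p : ι → Prop) (d1 d2 : DecidablePred p)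
    (f : ι → ℂ) :
    ∑ i ∈ @Finset.filter ι p d1 s, f i = ∑ i ∈ @Finset.filter ι p d2 s, f i := by
  rw [Subsingleton.elim d1 d2]

section TbK

variable {F : Type*} [Field F] [Fintype F] {m : ℕ}

theorem card_tor_ne (hm : 1 ≤ m) (hF : Fintype.card F = 2 ^ (2 * m + 1))
    [Fintype ↥(Cfsg.Sz F m)] (x : ↥(Cfsg.Sz F m)) (hx : szFpf x)
    [Fintype (↥(Subgroup.centralizer ({x} : Set ↥(Cfsg.Sz F m))) →* ℂˣ)] :
    (Finset.univ.filter
      (fun l : ↥(Subgroup.centralizer ({x} : Set ↥(Cfsg.Sz F m))) →* ℂˣ => l ≠ 1)).card =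
      Nat.card ↥(Subgroup.centralizer ({x} : Set ↥(Cfsg.Sz F m))) - 1 := by
  have hcomm := selfCent_comm _ (szTorus_cent hm hF x hx)
  rw [Finset.filter_ne' Finset.univ
    (1 : ↥(Subgroup.centralizer ({x} : Set ↥(Cfsg.Sz F m))) →* ℂˣ),
    Finset.card_erase_of_mem (Finset.mem_univ _),
    Finset.card_univ, ← Nat.card_eq_fintype_card, card_hom_of_comm _ hcomm]

theorem cast_card_tor_ne (hm : 1 ≤ m) (hF : Fintype.card F = 2 ^ (2 * m + 1))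
    [Fintype ↥(Cfsg.Sz F m)] (x : ↥(Cfsg.Sz F m)) (hx : szFpf x)
    [Fintype (↥(Subgroup.centralizer ({x} : Set ↥(Cfsg.Sz F m))) →* ℂˣ)] :
    (((Finset.univ.filter
      (fun l : ↥(Subgroup.centralizer ({x} : Set ↥(Cfsg.Sz F m))) →* ℂˣ => l ≠ 1)).card : ℕ) : ℂ) =
      (Nat.card ↥(Subgroup.centralizer ({x} : Set ↥(Cfsg.Sz F m))) : ℂ) - 1 := by
  rw [card_tor_ne hm hF x hx, Nat.cast_sub Nat.card_pos, Nat.cast_one]

theorem sumTor_T0 (hm : 1 ≤ m) (hF : Fintype.card F = 2 ^ (2 * m + 1))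
    (h : SzData F (2 ^ (m + 1))) [Fintype ↥(Cfsg.Sz F m)]
    (χ₀ : AddChar F ℂ) (hχ₀ : χ₀ ≠ 1) (c : ℕ) (x : ↥(Cfsg.Sz F m)) (hx : szFpf x)
    [Fintype (↥(Subgroup.centralizer ({x} : Set ↥(Cfsg.Sz F m))) →* ℂˣ)] (b : F) (hb : b ≠ 0) :
    ∑ l ∈ Finset.univ.filter
        (fun l : ↥(Subgroup.centralizer ({x} : Set ↥(Cfsg.Sz F m))) →* ℂˣ => l ≠ 1),
        chTor h χ₀ c x l (szTm h 0 b) =
      ((Nat.card ↥(Subgroup.centralizer ({x} : Set ↥(Cfsg.Sz F m))) : ℂ) - 1) *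
        ((2 : ℂ) ^ (2 * m + 1) - 1 - (c : ℂ) * (2 : ℂ) ^ (m + 1)) := by
  rw [Finset.sum_congr rfl (fun l _ => chTor_T0 hm hF h χ₀ hχ₀ c x hx l b hb), Finset.sum_const,
    nsmul_eq_mul, cast_card_tor_ne hm hF x hx]

theorem sumTor_T1 (hm : 1 ≤ m) (hF : Fintype.card F = 2 ^ (2 * m + 1))
    (h : SzData F (2 ^ (m + 1))) [Fintype ↥(Cfsg.Sz F m)]
    (χ₀ : AddChar F ℂ) (hχ₀ : χ₀ ≠ 1) (c : ℕ) (x : ↥(Cfsg.Sz F m)) (hx : szFpf x)
    [Fintype (↥(Subgroup.centralizer ({x} : Set ↥(Cfsg.Sz F m))) →* ℂˣ)] (a b : F)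
    (ha : a ≠ 0) :
    ∑ l ∈ Finset.univ.filter
        (fun l : ↥(Subgroup.centralizer ({x} : Set ↥(Cfsg.Sz F m))) →* ℂˣ => l ≠ 1),
        chTor h χ₀ c x l (szTm h a b) =
      -((Nat.card ↥(Subgroup.centralizer ({x} : Set ↥(Cfsg.Sz F m))) : ℂ) - 1) := by
  rw [Finset.sum_congr rfl (fun l _ => chTor_T1 hm hF h χ₀ hχ₀ c x hx l a b ha), Finset.sum_const,
    nsmul_eq_mul, cast_card_tor_ne hm hF x hx]
  ring

theorem sumTor_H (hm : 1 ≤ m) (hF : Fintype.card F = 2 ^ (2 * m + 1))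
    (h : SzData F (2 ^ (m + 1))) [Fintype ↥(Cfsg.Sz F m)]
    (χ₀ : AddChar F ℂ) (c : ℕ) (x : ↥(Cfsg.Sz F m)) (hx : szFpf x)
    [Fintype (↥(Subgroup.centralizer ({x} : Set ↥(Cfsg.Sz F m))) →* ℂˣ)] (μ : Fˣ)
    (hμ : μ ≠ 1) :
    ∑ l ∈ Finset.univ.filter
        (fun l : ↥(Subgroup.centralizer ({x} : Set ↥(Cfsg.Sz F m))) →* ℂˣ => l ≠ 1),
        chTor h χ₀ c x l (szHsub h μ) = 0 := by
  rw [Finset.sum_congr rfl (fun l _ => chTor_H hm hF h χ₀ c x hx l μ hμ), Finset.sum_const_zero]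

theorem sumTor_other (hm : 1 ≤ m) (hF : Fintype.card F = 2 ^ (2 * m + 1))
    (h : SzData F (2 ^ (m + 1))) [Fintype ↥(Cfsg.Sz F m)]
    (χ₀ : AddChar F ℂ) (c : ℕ) (x x' : ↥(Cfsg.Sz F m)) (hx : szFpf x) (hx' : szFpf x')
    (hne : Nat.card ↥(Subgroup.centralizer ({x'} : Set ↥(Cfsg.Sz F m))) ≠
      Nat.card ↥(Subgroup.centralizer ({x} : Set ↥(Cfsg.Sz F m))))
    [Fintype (↥(Subgroup.centralizer ({x} : Set ↥(Cfsg.Sz F m))) →* ℂˣ)]
    (a : ↥(Cfsg.Sz F m))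
    (ha : a ∈ Subgroup.centralizer ({x'} : Set ↥(Cfsg.Sz F m))) (ha1 : a ≠ 1) :
    ∑ l ∈ Finset.univ.filter
        (fun l : ↥(Subgroup.centralizer ({x} : Set ↥(Cfsg.Sz F m))) →* ℂˣ => l ≠ 1),
        chTor h χ₀ c x l a = 0 := by
  rw [Finset.sum_congr rfl (fun l _ => chTor_other hm hF h χ₀ c x x' hx hx' hne l a ha ha1),
    Finset.sum_const_zero]

theorem sumTor_self (hm : 1 ≤ m) (hF : Fintype.card F = 2 ^ (2 * m + 1))
    (h : SzData F (2 ^ (m + 1))) [Fintype ↥(Cfsg.Sz F m)]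
    (χ₀ : AddChar F ℂ) (c : ℕ) (x : ↥(Cfsg.Sz F m)) (hx : szFpf x)
    [Fintype (↥(Subgroup.centralizer ({x} : Set ↥(Cfsg.Sz F m))) →* ℂˣ)]
    (hn : Nat.card ↥(Subgroup.normalizer ((Subgroup.centralizer ({x} : Set ↥(Cfsg.Sz F m)) :
        Subgroup ↥(Cfsg.Sz F m)) : Set ↥(Cfsg.Sz F m))) =
        4 * Nat.card ↥(Subgroup.centralizer ({x} : Set ↥(Cfsg.Sz F m))))
    (a : ↥(Cfsg.Sz F m))
    (ha : a ∈ Subgroup.centralizer ({x} : Set ↥(Cfsg.Sz F m))) (ha1 : a ≠ 1) :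
    ∑ l ∈ Finset.univ.filter
        (fun l : ↥(Subgroup.centralizer ({x} : Set ↥(Cfsg.Sz F m))) →* ℂˣ => l ≠ 1),
        chTor h χ₀ c x l a = 4 := by
  haveI : Fintype ↥(Subgroup.centralizer ({x} : Set ↥(Cfsg.Sz F m))) := Fintype.ofFinite _
  haveI : Fintype ↥(Subgroup.normalizer ((Subgroup.centralizer ({x} : Set ↥(Cfsg.Sz F m)) :
        Subgroup ↥(Cfsg.Sz F m)) : Set ↥(Cfsg.Sz F m))) := Fintype.ofFinite _
  have hcent := szTorus_cent hm hF x hx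
  have hcomm := selfCent_comm _ hcent
  have h1 := indA_sum (Subgroup.centralizer ({x} : Set ↥(Cfsg.Sz F m)))
    (Subgroup.normalizer ((Subgroup.centralizer ({x} : Set ↥(Cfsg.Sz F m)) :
        Subgroup ↥(Cfsg.Sz F m)) : Set ↥(Cfsg.Sz F m)))
    (normalizer_conj_mem _) (selfCent_TI _ hcent) hcomm ⟨a, ha⟩
    (fun hc => ha1 (congrArg Subtype.val hc))
  simp only [] at h1
  have key := fun d => (sum_filter_inst _ _ d _ _).trans h1
  rw [Finset.sum_congr rfl (fun l _ => chTor_self hm hF h χ₀ c x hx l a ha ha1),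
    Finset.sum_neg_distrib, key, hn]
  have hA0 : (Nat.card ↥(Subgroup.centralizer ({x} : Set ↥(Cfsg.Sz F m))) : ℂ) ≠ 0 := by
    exact_mod_cast Nat.card_pos.ne'
  push_cast
  field_simp

theorem sumTor_self_norm (hm : 1 ≤ m) (hF : Fintype.card F = 2 ^ (2 * m + 1))
    (h : SzData F (2 ^ (m + 1))) [Fintype ↥(Cfsg.Sz F m)]
    (χ₀ : AddChar F ℂ) (c : ℕ) (x : ↥(Cfsg.Sz F m)) (hx : szFpf x)
    [Fintype (↥(Subgroup.centralizer ({x} : Set ↥(Cfsg.Sz F m))) →* ℂˣ)]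
    (hn : Nat.card ↥(Subgroup.normalizer ((Subgroup.centralizer ({x} : Set ↥(Cfsg.Sz F m)) :
        Subgroup ↥(Cfsg.Sz F m)) : Set ↥(Cfsg.Sz F m))) =
        4 * Nat.card ↥(Subgroup.centralizer ({x} : Set ↥(Cfsg.Sz F m))))
    (a : ↥(Cfsg.Sz F m))
    (ha : a ∈ Subgroup.centralizer ({x} : Set ↥(Cfsg.Sz F m))) (ha1 : a ≠ 1) :
    ∑ l ∈ Finset.univ.filter
        (fun l : ↥(Subgroup.centralizer ({x} : Set ↥(Cfsg.Sz F m))) →* ℂˣ => l ≠ 1),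
        chTor h χ₀ c x l a * conj (chTor h χ₀ c x l a) =
      4 * (Nat.card ↥(Subgroup.centralizer ({x} : Set ↥(Cfsg.Sz F m))) : ℂ) - 16 := by
  haveI : Fintype ↥(Subgroup.centralizer ({x} : Set ↥(Cfsg.Sz F m))) := Fintype.ofFinite _
  haveI : Fintype ↥(Subgroup.normalizer ((Subgroup.centralizer ({x} : Set ↥(Cfsg.Sz F m)) :
        Subgroup ↥(Cfsg.Sz F m)) : Set ↥(Cfsg.Sz F m))) := Fintype.ofFinite _
  have hcent := szTorus_cent hm hF x hx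
  have hcomm := selfCent_comm _ hcent
  have h1 := indA_sum_norm (Subgroup.centralizer ({x} : Set ↥(Cfsg.Sz F m)))
    (Subgroup.normalizer ((Subgroup.centralizer ({x} : Set ↥(Cfsg.Sz F m)) :
        Subgroup ↥(Cfsg.Sz F m)) : Set ↥(Cfsg.Sz F m))) Subgroup.le_normalizer
    (normalizer_conj_mem _) (selfCent_TI _ hcent) hcomm
    (fun a ha ha1 y hy => (hcent a ha ha1 y).mp hy) ⟨a, ha⟩
    (fun hc => ha1 (congrArg Subtype.val hc))
  simp only [] at h1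
  have key := fun d => (sum_filter_inst _ _ d _ _).trans h1
  rw [Finset.sum_congr rfl (fun l _ => by
    rw [chTor_self hm hF h χ₀ c x hx l a ha ha1, map_neg, neg_mul_neg]), key, hn]
  have hA0 : (Nat.card ↥(Subgroup.centralizer ({x} : Set ↥(Cfsg.Sz F m))) : ℂ) ≠ 0 := by
    exact_mod_cast Nat.card_pos.ne'
  push_cast
  field_simp
  ring

theorem sumTor_self_sq (hm : 1 ≤ m) (hF : Fintype.card F = 2 ^ (2 * m + 1))
    (h : SzData F (2 ^ (m + 1))) [Fintype ↥(Cfsg.Sz F m)]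
    (χ₀ : AddChar F ℂ) (c : ℕ) (x : ↥(Cfsg.Sz F m)) (hx : szFpf x)
    [Fintype (↥(Subgroup.centralizer ({x} : Set ↥(Cfsg.Sz F m))) →* ℂˣ)]
    (hn : Nat.card ↥(Subgroup.normalizer ((Subgroup.centralizer ({x} : Set ↥(Cfsg.Sz F m)) :
        Subgroup ↥(Cfsg.Sz F m)) : Set ↥(Cfsg.Sz F m))) =
        4 * Nat.card ↥(Subgroup.centralizer ({x} : Set ↥(Cfsg.Sz F m))))
    (a : ↥(Cfsg.Sz F m))
    (ha : a ∈ Subgroup.centralizer ({x} : Set ↥(Cfsg.Sz F m))) (ha1 : a ≠ 1) :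
    ∃ k : ℕ, k ≤ 4 * Nat.card ↥(Subgroup.centralizer ({x} : Set ↥(Cfsg.Sz F m))) ^ 2 ∧
      ∑ l ∈ Finset.univ.filter
        (fun l : ↥(Subgroup.centralizer ({x} : Set ↥(Cfsg.Sz F m))) →* ℂˣ => l ≠ 1),
        chTor h χ₀ c x l a ^ 2 =
      (k : ℂ) / (Nat.card ↥(Subgroup.centralizer ({x} : Set ↥(Cfsg.Sz F m))) : ℂ) - 16 := by
  haveI : Fintype ↥(Subgroup.centralizer ({x} : Set ↥(Cfsg.Sz F m))) := Fintype.ofFinite _
  haveI : Fintype ↥(Subgroup.normalizer ((Subgroup.centralizer ({x} : Set ↥(Cfsg.Sz F m)) :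
        Subgroup ↥(Cfsg.Sz F m)) : Set ↥(Cfsg.Sz F m))) := Fintype.ofFinite _
  have hcent := szTorus_cent hm hF x hx
  have hcomm := selfCent_comm _ hcent
  obtain ⟨k, hk, h1⟩ := indA_sum_sq (Subgroup.centralizer ({x} : Set ↥(Cfsg.Sz F m)))
    (Subgroup.normalizer ((Subgroup.centralizer ({x} : Set ↥(Cfsg.Sz F m)) :
        Subgroup ↥(Cfsg.Sz F m)) : Set ↥(Cfsg.Sz F m))) Subgroup.le_normalizer
    (normalizer_conj_mem _) (selfCent_TI _ hcent) hcomm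
    (fun a ha ha1 y hy => (hcent a ha ha1 y).mp hy) ⟨a, ha⟩
    (fun hc => ha1 (congrArg Subtype.val hc))
  simp only [] at h1
  have key := fun d => (sum_filter_inst _ _ d _ _).trans h1
  refine ⟨k, ?_, ?_⟩
  · rw [hn] at hk
    refine le_trans hk (le_of_eq ?_)
    ring
  · rw [Finset.sum_congr rfl (fun l _ => by
      rw [chTor_self hm hF h χ₀ c x hx l a ha ha1, neg_sq]), key, hn]
    have hA0 : (Nat.card ↥(Subgroup.centralizer ({x} : Set ↥(Cfsg.Sz F m))) : ℂ) ≠ 0 := by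
      exact_mod_cast Nat.card_pos.ne'
    push_cast
    field_simp
    ring

theorem sumTor_self_cube (hm : 1 ≤ m) (hF : Fintype.card F = 2 ^ (2 * m + 1))
    (h : SzData F (2 ^ (m + 1))) [Fintype ↥(Cfsg.Sz F m)]
    (χ₀ : AddChar F ℂ) (c : ℕ) (x : ↥(Cfsg.Sz F m)) (hx : szFpf x)
    [Fintype (↥(Subgroup.centralizer ({x} : Set ↥(Cfsg.Sz F m))) →* ℂˣ)]
    (hn : Nat.card ↥(Subgroup.normalizer ((Subgroup.centralizer ({x} : Set ↥(Cfsg.Sz F m)) :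
        Subgroup ↥(Cfsg.Sz F m)) : Set ↥(Cfsg.Sz F m))) =
        4 * Nat.card ↥(Subgroup.centralizer ({x} : Set ↥(Cfsg.Sz F m))))
    (a b : ↥(Cfsg.Sz F m))
    (ha : a ∈ Subgroup.centralizer ({x} : Set ↥(Cfsg.Sz F m))) (ha1 : a ≠ 1)
    (hb : b ∈ Subgroup.centralizer ({x} : Set ↥(Cfsg.Sz F m))) (hb1 : b ≠ 1) :
    ∃ k : ℕ, k ≤ 16 * Nat.card ↥(Subgroup.centralizer ({x} : Set ↥(Cfsg.Sz F m))) ^ 3 ∧
      ∑ l ∈ Finset.univ.filter
        (fun l : ↥(Subgroup.centralizer ({x} : Set ↥(Cfsg.Sz F m))) →* ℂˣ => l ≠ 1),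
        chTor h χ₀ c x l a ^ 2 * chTor h χ₀ c x l b =
      64 - (k : ℂ) / (Nat.card ↥(Subgroup.centralizer ({x} : Set ↥(Cfsg.Sz F m))) : ℂ) ^ 2 := by
  haveI : Fintype ↥(Subgroup.centralizer ({x} : Set ↥(Cfsg.Sz F m))) := Fintype.ofFinite _
  haveI : Fintype ↥(Subgroup.normalizer ((Subgroup.centralizer ({x} : Set ↥(Cfsg.Sz F m)) :
        Subgroup ↥(Cfsg.Sz F m)) : Set ↥(Cfsg.Sz F m))) := Fintype.ofFinite _
  have hcent := szTorus_cent hm hF x hx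
  have hcomm := selfCent_comm _ hcent
  obtain ⟨k, hk, h1⟩ := indA_sum_cube (Subgroup.centralizer ({x} : Set ↥(Cfsg.Sz F m)))
    (Subgroup.normalizer ((Subgroup.centralizer ({x} : Set ↥(Cfsg.Sz F m)) :
        Subgroup ↥(Cfsg.Sz F m)) : Set ↥(Cfsg.Sz F m))) Subgroup.le_normalizer
    (normalizer_conj_mem _) (selfCent_TI _ hcent) hcomm
    (fun a ha ha1 y hy => (hcent a ha ha1 y).mp hy) ⟨a, ha⟩ ⟨b, hb⟩
    (fun hc => ha1 (congrArg Subtype.val hc)) (fun hc => hb1 (congrArg Subtype.val hc))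
  simp only [] at h1
  have key := fun d => (sum_filter_inst _ _ d _ _).trans h1
  refine ⟨k, ?_, ?_⟩
  · rw [hn] at hk
    refine le_trans hk (le_of_eq ?_)
    ring
  · rw [Finset.sum_congr rfl (fun l _ => by
      rw [chTor_self hm hF h χ₀ c x hx l a ha ha1, chTor_self hm hF h χ₀ c x hx l b hb hb1,
        neg_sq, mul_neg]), Finset.sum_neg_distrib, key, hn]
    have hA0 : (Nat.card ↥(Subgroup.centralizer ({x} : Set ↥(Cfsg.Sz F m))) : ℂ) ≠ 0 := by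
      exact_mod_cast Nat.card_pos.ne'
    push_cast
    field_simp
    ring

end TbK

end Cfsg.Agent.Lib.Helper37
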