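-- helper37: Suzuki groups, character table, part 12: the table as a structure, and the
-- general relations between the values of the two remaining characters.
import Mathlib
import Cfsg.Prelude.Def_LieExceptional
import Cfsg.Agent.Lib.Helper37.SzTbI
import Cfsg.Agent.Lib.Helper37.SzTbK

set_option autoImplicit false

namespace Cfsg.Agent.Lib.Helper37

open scoped ComplexConjugate

open Classical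

theorem cast_two_pow_Q (m : ℕ) : (2 : ℂ) ^ (2 * m + 1) = 2 * ((2 : ℂ) ^ m) ^ 2 := by ring

theorem cast_two_pow_R (m : ℕ) : (2 : ℂ) ^ (m + 1) = 2 * (2 : ℂ) ^ m := by ring

theorem cast_dSt (m : ℕ) :
    (((2 ^ (2 * m + 1)) ^ 2 : ℕ) : ℂ) = (2 * ((2 : ℂ) ^ m) ^ 2) ^ 2 := by
  push_cast
  ring

theorem cast_dX (m : ℕ) :
    (((2 ^ (2 * m + 1)) ^ 2 + 1 : ℕ) : ℂ) = (2 * ((2 : ℂ) ^ m) ^ 2) ^ 2 + 1 := by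
  push_cast
  ring

theorem cast_dY (m : ℕ) :
    (((2 ^ (2 * m + 1) - 1) * (2 ^ (2 * m + 1) + 1 - 2 ^ (m + 1)) : ℕ) : ℂ) =
      (2 * ((2 : ℂ) ^ m) ^ 2 - 1) * (2 * ((2 : ℂ) ^ m) ^ 2 + 1 - 2 * (2 : ℂ) ^ m) := by
  have h1 : 1 ≤ 2 ^ (2 * m + 1) := Nat.one_le_two_pow
  have h2 : 2 ^ (m + 1) ≤ 2 ^ (2 * m + 1) + 1 := by
    have : 2 ^ (m + 1) ≤ 2 ^ (2 * m + 1) := Nat.pow_le_pow_right (by norm_num) (by omega)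
    omega
  rw [Nat.cast_mul, Nat.cast_sub h1, Nat.cast_sub h2]
  push_cast
  ring

theorem cast_dZ (m : ℕ) :
    (((2 ^ (2 * m + 1) - 1) * (2 ^ (2 * m + 1) + 2 ^ (m + 1) + 1) : ℕ) : ℂ) =
      (2 * ((2 : ℂ) ^ m) ^ 2 - 1) * (2 * ((2 : ℂ) ^ m) ^ 2 + 2 * (2 : ℂ) ^ m + 1) := by
  have h1 : 1 ≤ 2 ^ (2 * m + 1) := Nat.one_le_two_pow
  rw [Nat.cast_mul, Nat.cast_sub h1]
  push_cast
  ring

theorem cast_dW (m : ℕ) :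
    ((2 ^ m * (2 ^ (2 * m + 1) - 1) : ℕ) : ℂ) =
      (2 : ℂ) ^ m * (2 * ((2 : ℂ) ^ m) ^ 2 - 1) := by
  have h1 : 1 ≤ 2 ^ (2 * m + 1) := Nat.one_le_two_pow
  rw [Nat.cast_mul, Nat.cast_sub h1]
  push_cast
  ring

theorem dW_ne (m : ℕ) : (2 : ℂ) ^ m * (2 * ((2 : ℂ) ^ m) ^ 2 - 1) ≠ 0 := by
  rw [← cast_dW]
  have h1 : 2 ≤ 2 ^ (2 * m + 1) := by
    have : 2 ^ 1 ≤ 2 ^ (2 * m + 1) := Nat.pow_le_pow_right (by norm_num) (by omega)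
    omega
  have h2 : 0 < 2 ^ m * (2 ^ (2 * m + 1) - 1) :=
    Nat.mul_pos (Nat.two_pow_pos m) (by omega)
  exact_mod_cast h2.ne'

theorem cast_cY (m : ℕ) : ((2 ^ m - 1 : ℕ) : ℂ) = (2 : ℂ) ^ m - 1 := by
  rw [Nat.cast_sub Nat.one_le_two_pow]
  push_cast
  ring

theorem cast_cZ (m : ℕ) : ((2 ^ m + 1 : ℕ) : ℂ) = (2 : ℂ) ^ m + 1 := by
  push_cast
  ring

theorem cast_A1 (m : ℕ) :
    ((2 ^ (2 * m + 1) + 2 ^ (m + 1) + 1 : ℕ) : ℂ) =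
      2 * ((2 : ℂ) ^ m) ^ 2 + 2 * (2 : ℂ) ^ m + 1 := by
  push_cast
  ring

theorem cast_A2 (m : ℕ) :
    ((2 ^ (2 * m + 1) + 1 - 2 ^ (m + 1) : ℕ) : ℂ) =
      2 * ((2 : ℂ) ^ m) ^ 2 + 1 - 2 * (2 : ℂ) ^ m := by
  have h2 : 2 ^ (m + 1) ≤ 2 ^ (2 * m + 1) + 1 := by
    have : 2 ^ (m + 1) ≤ 2 ^ (2 * m + 1) := Nat.pow_le_pow_right (by norm_num) (by omega)
    omega
  rw [Nat.cast_sub h2]
  push_cast
  ring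

section Irr

variable {G : Type*} [Group G] [Fintype G] [Fintype (Cfsg.IrrCharacter G)]

theorem irrsum_one (u : G) (hu : u ≠ 1) :
    ∑ χ : Cfsg.IrrCharacter G, (χ : G → ℂ) u * (χ : G → ℂ) 1 = 0 := by
  have h0 := Cfsg.Agent.Lib.Helper80.second_orthogonality_of_not_isConj (g := u) (h := 1)
    (fun hc => hu (isConj_one_left.mp hc))
  rw [← h0]
  refine Finset.sum_congr rfl (fun χ _ => ?_)
  have h1 := Cfsg.Agent.Lib.Helper80.char_inv_eq_conj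
    (Cfsg.Agent.Lib.Helper80.isCharacter_of_isIrrCharacter χ.2) 1
  rw [inv_one] at h1
  rw [← h1]

theorem irrsum_norm (u : G) :
    ∑ χ : Cfsg.IrrCharacter G, (χ : G → ℂ) u * conj ((χ : G → ℂ) u) =
      (Nat.card (Subgroup.centralizer ({u} : Set G)) : ℂ) :=
  Cfsg.Agent.Lib.Helper80.second_orthogonality_of_isConj (IsConj.refl u)

theorem irrsum_sq (t : G) (ht : ¬ IsConj t t⁻¹) :
    ∑ χ : Cfsg.IrrCharacter G, (χ : G → ℂ) t * (χ : G → ℂ) t = 0 := by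
  have h0 := Cfsg.Agent.Lib.Helper80.second_orthogonality_of_not_isConj (g := t) (h := t⁻¹) ht
  rw [← h0]
  refine Finset.sum_congr rfl (fun χ _ => ?_)
  have h1 := Cfsg.Agent.Lib.Helper80.char_inv_eq_conj
    (Cfsg.Agent.Lib.Helper80.isCharacter_of_isIrrCharacter χ.2) t
  rw [h1, Complex.conj_conj]

end Irr

section TbL

variable {F : Type*} [Field F] [Fintype F] {m : ℕ}

/-- the character table data of a Suzuki group -/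
structure SzTab (h : SzData F (2 ^ (m + 1))) [Fintype ↥(Cfsg.Sz F m)]
    [Fintype (Cfsg.IrrCharacter ↥(Cfsg.Sz F m))] [Fintype (Fˣ →* ℂˣ)]
    (x₁ x₂ : ↥(Cfsg.Sz F m))
    [Fintype (↥(Subgroup.centralizer ({x₁} : Set ↥(Cfsg.Sz F m))) →* ℂˣ)]
    [Fintype (↥(Subgroup.centralizer ({x₂} : Set ↥(Cfsg.Sz F m))) →* ℂˣ)]
    (χ₀ : AddChar F ℂ) (W₁ W₂ : ↥(Cfsg.Sz F m) → ℂ) : Prop where
  hm : 1 ≤ m
  hF : Fintype.card F = 2 ^ (2 * m + 1)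
  hx₁ : szFpf x₁
  hx₂ : szFpf x₂
  hc1 : Nat.card ↥(Subgroup.centralizer ({x₁} : Set ↥(Cfsg.Sz F m))) =
      2 ^ (2 * m + 1) + 2 ^ (m + 1) + 1
  hc2 : Nat.card ↥(Subgroup.centralizer ({x₂} : Set ↥(Cfsg.Sz F m))) =
      2 ^ (2 * m + 1) + 1 - 2 ^ (m + 1)
  hn1 : Nat.card ↥(Subgroup.normalizer ((Subgroup.centralizer ({x₁} : Set ↥(Cfsg.Sz F m)) :
        Subgroup ↥(Cfsg.Sz F m)) : Set ↥(Cfsg.Sz F m))) =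
        4 * Nat.card ↥(Subgroup.centralizer ({x₁} : Set ↥(Cfsg.Sz F m)))
  hn2 : Nat.card ↥(Subgroup.normalizer ((Subgroup.centralizer ({x₂} : Set ↥(Cfsg.Sz F m)) :
        Subgroup ↥(Cfsg.Sz F m)) : Set ↥(Cfsg.Sz F m))) =
        4 * Nat.card ↥(Subgroup.centralizer ({x₂} : Set ↥(Cfsg.Sz F m)))
  hcov : ∀ x : ↥(Cfsg.Sz F m), szFpf x →
        x ∈ relConj ⊤ (Subgroup.centralizer ({x₁} : Set ↥(Cfsg.Sz F m))) ∨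
        x ∈ relConj ⊤ (Subgroup.centralizer ({x₂} : Set ↥(Cfsg.Sz F m)))
  hχ₀ : χ₀ ≠ 1
  hW₁ : Cfsg.IsIrrCharacter ↥(Cfsg.Sz F m) W₁
  hW₂ : Cfsg.IsIrrCharacter ↥(Cfsg.Sz F m) W₂
  dW₁ : W₁ 1 = ((2 ^ m * (2 ^ (2 * m + 1) - 1) : ℕ) : ℂ)
  dW₂ : W₂ 1 = ((2 ^ m * (2 ^ (2 * m + 1) - 1) : ℕ) : ℂ)
  master : ∀ Φ : (↥(Cfsg.Sz F m) → ℂ) → ℂ,
        ∑ χ : Cfsg.IrrCharacter ↥(Cfsg.Sz F m), Φ (χ : ↥(Cfsg.Sz F m) → ℂ) =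
          Φ (fun _ => 1) + Φ (chSt h) +
          (2 : ℂ)⁻¹ * ∑ η ∈ Finset.univ.filter (fun η : Fˣ →* ℂˣ => η ≠ 1), Φ (chX h η) +
          (4 : ℂ)⁻¹ * ∑ l ∈ Finset.univ.filter
            (fun l : ↥(Subgroup.centralizer ({x₁} : Set ↥(Cfsg.Sz F m))) →* ℂˣ => l ≠ 1),
              Φ (chTor h χ₀ (2 ^ m - 1) x₁ l) +
          (4 : ℂ)⁻¹ * ∑ l ∈ Finset.univ.filter
            (fun l : ↥(Subgroup.centralizer ({x₂} : Set ↥(Cfsg.Sz F m))) →* ℂˣ => l ≠ 1),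
              Φ (chTor h χ₀ (2 ^ m + 1) x₂ l) + Φ W₁ + Φ W₂

theorem szTab_exists (hm : 1 ≤ m) (hF : Fintype.card F = 2 ^ (2 * m + 1))
    (h : SzData F (2 ^ (m + 1)))
    [Fintype ↥(Cfsg.Sz F m)] [Fintype (Cfsg.IrrCharacter ↥(Cfsg.Sz F m))] [Fintype (Fˣ →* ℂˣ)]
    (x₁ x₂ : ↥(Cfsg.Sz F m)) (hx₁ : szFpf x₁) (hx₂ : szFpf x₂)
    [Fintype (↥(Subgroup.centralizer ({x₁} : Set ↥(Cfsg.Sz F m))) →* ℂˣ)]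
    [Fintype (↥(Subgroup.centralizer ({x₂} : Set ↥(Cfsg.Sz F m))) →* ℂˣ)]
    (hc1 : Nat.card ↥(Subgroup.centralizer ({x₁} : Set ↥(Cfsg.Sz F m))) =
      2 ^ (2 * m + 1) + 2 ^ (m + 1) + 1)
    (hc2 : Nat.card ↥(Subgroup.centralizer ({x₂} : Set ↥(Cfsg.Sz F m))) =
      2 ^ (2 * m + 1) + 1 - 2 ^ (m + 1))
    (hn1 : Nat.card ↥(Subgroup.normalizer ((Subgroup.centralizer ({x₁} : Set ↥(Cfsg.Sz F m)) :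
        Subgroup ↥(Cfsg.Sz F m)) : Set ↥(Cfsg.Sz F m))) =
        4 * Nat.card ↥(Subgroup.centralizer ({x₁} : Set ↥(Cfsg.Sz F m))))
    (hn2 : Nat.card ↥(Subgroup.normalizer ((Subgroup.centralizer ({x₂} : Set ↥(Cfsg.Sz F m)) :
        Subgroup ↥(Cfsg.Sz F m)) : Set ↥(Cfsg.Sz F m))) =
        4 * Nat.card ↥(Subgroup.centralizer ({x₂} : Set ↥(Cfsg.Sz F m))))
    (hcov : ∀ x : ↥(Cfsg.Sz F m), szFpf x →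
        x ∈ relConj ⊤ (Subgroup.centralizer ({x₁} : Set ↥(Cfsg.Sz F m))) ∨
        x ∈ relConj ⊤ (Subgroup.centralizer ({x₂} : Set ↥(Cfsg.Sz F m))))
    (χ₀ : AddChar F ℂ) (hχ₀ : χ₀ ≠ 1) :
    ∃ W₁ W₂ : ↥(Cfsg.Sz F m) → ℂ, SzTab h x₁ x₂ χ₀ W₁ W₂ := by
  obtain ⟨W₁, W₂, i1, i2, d1, d2, hmaster⟩ :=
    sz_master hm hF h x₁ x₂ hx₁ hx₂ hc1 hc2 hn1 hn2 χ₀ hχ₀
  exact ⟨W₁, W₂, ⟨hm, hF, hx₁, hx₂, hc1, hc2, hn1, hn2, hcov, hχ₀, i1, i2, d1, d2, hmaster⟩⟩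

section Rel

variable {h : SzData F (2 ^ (m + 1))} [Fintype ↥(Cfsg.Sz F m)]
    [Fintype (Cfsg.IrrCharacter ↥(Cfsg.Sz F m))] [Fintype (Fˣ →* ℂˣ)]
    {x₁ x₂ : ↥(Cfsg.Sz F m)}
    [Fintype (↥(Subgroup.centralizer ({x₁} : Set ↥(Cfsg.Sz F m))) →* ℂˣ)]
    [Fintype (↥(Subgroup.centralizer ({x₂} : Set ↥(Cfsg.Sz F m))) →* ℂˣ)]
    {χ₀ : AddChar F ℂ} {W₁ W₂ : ↥(Cfsg.Sz F m) → ℂ}

local notation "FX" => (Finset.univ.filter (fun η : Fˣ →* ℂˣ => η ≠ 1))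

local notation "FT(" x ")" => (Finset.univ.filter
  (fun l : ↥(Subgroup.centralizer ({x} : Set ↥(Cfsg.Sz F m))) →* ℂˣ => l ≠ 1))

local notation "SS" => ((2 : ℂ) ^ m)

theorem SzTab.degY (T : SzTab h x₁ x₂ χ₀ W₁ W₂)
    (l : ↥(Subgroup.centralizer ({x₁} : Set ↥(Cfsg.Sz F m))) →* ℂˣ) (hl : l ∈ FT(x₁)) :
    chTor h χ₀ (2 ^ m - 1) x₁ l 1 = (2 * SS ^ 2 - 1) * (2 * SS ^ 2 + 1 - 2 * SS) := by
  rw [(sz_chY T.hm T.hF h x₁ T.hx₁ T.hc1 T.hn1 χ₀ T.hχ₀).2.1 l (Finset.mem_filter.mp hl).2,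
    cast_dY]

theorem SzTab.degZ (T : SzTab h x₁ x₂ χ₀ W₁ W₂)
    (l : ↥(Subgroup.centralizer ({x₂} : Set ↥(Cfsg.Sz F m))) →* ℂˣ) (hl : l ∈ FT(x₂)) :
    chTor h χ₀ (2 ^ m + 1) x₂ l 1 = (2 * SS ^ 2 - 1) * (2 * SS ^ 2 + 2 * SS + 1) := by
  rw [(sz_chZ T.hm T.hF h x₂ T.hx₂ T.hc2 T.hn2 χ₀ T.hχ₀).2.1 l (Finset.mem_filter.mp hl).2,
    cast_dZ]

theorem SzTab.rel_one (T : SzTab h x₁ x₂ χ₀ W₁ W₂) (u : ↥(Cfsg.Sz F m)) (hu : u ≠ 1) :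
    1 + chSt h u * (2 * SS ^ 2) ^ 2 +
      (2 : ℂ)⁻¹ * ((∑ η ∈ FX, chX h η u) * ((2 * SS ^ 2) ^ 2 + 1)) +
      (4 : ℂ)⁻¹ * ((∑ l ∈ FT(x₁), chTor h χ₀ (2 ^ m - 1) x₁ l u) *
        ((2 * SS ^ 2 - 1) * (2 * SS ^ 2 + 1 - 2 * SS))) +
      (4 : ℂ)⁻¹ * ((∑ l ∈ FT(x₂), chTor h χ₀ (2 ^ m + 1) x₂ l u) *
        ((2 * SS ^ 2 - 1) * (2 * SS ^ 2 + 2 * SS + 1))) +
      (W₁ u + W₂ u) * (SS * (2 * SS ^ 2 - 1)) = 0 := by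
  have h0 := irrsum_one u hu
  rw [T.master (fun φ => φ u * φ 1)] at h0
  simp only [] at h0
  have hX : ∑ η ∈ FX, chX h η u * chX h η 1 =
      (∑ η ∈ FX, chX h η u) * ((2 * SS ^ 2) ^ 2 + 1) := by
    rw [Finset.sum_mul]
    refine Finset.sum_congr rfl (fun η _ => ?_)
    rw [chX_one T.hm T.hF, cast_dX]
  have hY : ∑ l ∈ FT(x₁), chTor h χ₀ (2 ^ m - 1) x₁ l u * chTor h χ₀ (2 ^ m - 1) x₁ l 1 =
      (∑ l ∈ FT(x₁), chTor h χ₀ (2 ^ m - 1) x₁ l u) *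
        ((2 * SS ^ 2 - 1) * (2 * SS ^ 2 + 1 - 2 * SS)) := by
    rw [Finset.sum_mul]
    refine Finset.sum_congr rfl (fun l hl => ?_)
    rw [T.degY l hl]
  have hZ : ∑ l ∈ FT(x₂), chTor h χ₀ (2 ^ m + 1) x₂ l u * chTor h χ₀ (2 ^ m + 1) x₂ l 1 =
      (∑ l ∈ FT(x₂), chTor h χ₀ (2 ^ m + 1) x₂ l u) *
        ((2 * SS ^ 2 - 1) * (2 * SS ^ 2 + 2 * SS + 1)) := by
    rw [Finset.sum_mul]
    refine Finset.sum_congr rfl (fun l hl => ?_)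
    rw [T.degZ l hl]
  rw [hX, hY, hZ, chSt_one T.hm T.hF, cast_dSt, T.dW₁, T.dW₂, cast_dW] at h0
  rw [← h0]
  ring

theorem SzTab.rel_norm (T : SzTab h x₁ x₂ χ₀ W₁ W₂) (u : ↥(Cfsg.Sz F m)) :
    1 + chSt h u * conj (chSt h u) +
      (2 : ℂ)⁻¹ * (∑ η ∈ FX, chX h η u * conj (chX h η u)) +
      (4 : ℂ)⁻¹ * (∑ l ∈ FT(x₁), chTor h χ₀ (2 ^ m - 1) x₁ l u *
        conj (chTor h χ₀ (2 ^ m - 1) x₁ l u)) +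
      (4 : ℂ)⁻¹ * (∑ l ∈ FT(x₂), chTor h χ₀ (2 ^ m + 1) x₂ l u *
        conj (chTor h χ₀ (2 ^ m + 1) x₂ l u)) +
      W₁ u * conj (W₁ u) + W₂ u * conj (W₂ u) =
      (Nat.card (Subgroup.centralizer ({u} : Set ↥(Cfsg.Sz F m))) : ℂ) := by
  have h0 := irrsum_norm u
  rw [T.master (fun φ => φ u * conj (φ u))] at h0
  simp only [] at h0
  rw [← h0, map_one, mul_one]

theorem SzTab.rel_sq (T : SzTab h x₁ x₂ χ₀ W₁ W₂) (t : ↥(Cfsg.Sz F m)) (ht : ¬ IsConj t t⁻¹) :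
    1 + chSt h t * chSt h t +
      (2 : ℂ)⁻¹ * (∑ η ∈ FX, chX h η t * chX h η t) +
      (4 : ℂ)⁻¹ * (∑ l ∈ FT(x₁), chTor h χ₀ (2 ^ m - 1) x₁ l t *
        chTor h χ₀ (2 ^ m - 1) x₁ l t) +
      (4 : ℂ)⁻¹ * (∑ l ∈ FT(x₂), chTor h χ₀ (2 ^ m + 1) x₂ l t *
        chTor h χ₀ (2 ^ m + 1) x₂ l t) +
      W₁ t * W₁ t + W₂ t * W₂ t = 0 := by
  have h0 := irrsum_sq t ht
  rw [T.master (fun φ => φ t * φ t)] at h0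
  simp only [] at h0
  rw [← h0, mul_one]

/-- the structure constant sum -/
noncomputable def szCs (x y : ↥(Cfsg.Sz F m)) : ℂ :=
  ∑ χ : Cfsg.IrrCharacter ↥(Cfsg.Sz F m),
    (χ : ↥(Cfsg.Sz F m) → ℂ) x * (χ : ↥(Cfsg.Sz F m) → ℂ) x / (χ : ↥(Cfsg.Sz F m) → ℂ) 1 *
      (χ : ↥(Cfsg.Sz F m) → ℂ) y

theorem szCs_conj (x y k k' : ↥(Cfsg.Sz F m)) :
    szCs (k * x * k⁻¹) (k' * y * k'⁻¹) = szCs x y := by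
  unfold szCs
  refine Finset.sum_congr rfl (fun χ _ => ?_)
  rw [Cfsg.Agent.Lib.Helper79.irr_conj_eq χ.2 x k, Cfsg.Agent.Lib.Helper79.irr_conj_eq χ.2 y k']

theorem SzTab.P_formula (T : SzTab h x₁ x₂ χ₀ W₁ W₂) (x y : ↥(Cfsg.Sz F m)) :
    szCs x y = 1 + chSt h x ^ 2 * chSt h y / (2 * SS ^ 2) ^ 2 +
      (2 : ℂ)⁻¹ * ((∑ η ∈ FX, chX h η x ^ 2 * chX h η y) / ((2 * SS ^ 2) ^ 2 + 1)) +
      (4 : ℂ)⁻¹ * ((∑ l ∈ FT(x₁),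
        chTor h χ₀ (2 ^ m - 1) x₁ l x ^ 2 * chTor h χ₀ (2 ^ m - 1) x₁ l y) /
        ((2 * SS ^ 2 - 1) * (2 * SS ^ 2 + 1 - 2 * SS))) +
      (4 : ℂ)⁻¹ * ((∑ l ∈ FT(x₂),
        chTor h χ₀ (2 ^ m + 1) x₂ l x ^ 2 * chTor h χ₀ (2 ^ m + 1) x₂ l y) /
        ((2 * SS ^ 2 - 1) * (2 * SS ^ 2 + 2 * SS + 1))) +
      (W₁ x ^ 2 * W₁ y + W₂ x ^ 2 * W₂ y) / (SS * (2 * SS ^ 2 - 1)) := by
  unfold szCs
  rw [T.master (fun φ => φ x * φ x / φ 1 * φ y)]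
  simp only []
  have hX : ∑ η ∈ FX, chX h η x * chX h η x / chX h η 1 * chX h η y =
      (∑ η ∈ FX, chX h η x ^ 2 * chX h η y) / ((2 * SS ^ 2) ^ 2 + 1) := by
    rw [Finset.sum_div]
    refine Finset.sum_congr rfl (fun η _ => ?_)
    rw [chX_one T.hm T.hF, cast_dX]
    ring
  have hY : ∑ l ∈ FT(x₁), chTor h χ₀ (2 ^ m - 1) x₁ l x * chTor h χ₀ (2 ^ m - 1) x₁ l x /
        chTor h χ₀ (2 ^ m - 1) x₁ l 1 * chTor h χ₀ (2 ^ m - 1) x₁ l y =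
      (∑ l ∈ FT(x₁), chTor h χ₀ (2 ^ m - 1) x₁ l x ^ 2 * chTor h χ₀ (2 ^ m - 1) x₁ l y) /
        ((2 * SS ^ 2 - 1) * (2 * SS ^ 2 + 1 - 2 * SS)) := by
    rw [Finset.sum_div]
    refine Finset.sum_congr rfl (fun l hl => ?_)
    rw [T.degY l hl]
    ring
  have hZ : ∑ l ∈ FT(x₂), chTor h χ₀ (2 ^ m + 1) x₂ l x * chTor h χ₀ (2 ^ m + 1) x₂ l x /
        chTor h χ₀ (2 ^ m + 1) x₂ l 1 * chTor h χ₀ (2 ^ m + 1) x₂ l y =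
      (∑ l ∈ FT(x₂), chTor h χ₀ (2 ^ m + 1) x₂ l x ^ 2 * chTor h χ₀ (2 ^ m + 1) x₂ l y) /
        ((2 * SS ^ 2 - 1) * (2 * SS ^ 2 + 2 * SS + 1)) := by
    rw [Finset.sum_div]
    refine Finset.sum_congr rfl (fun l hl => ?_)
    rw [T.degZ l hl]
    ring
  rw [hX, hY, hZ, chSt_one T.hm T.hF, cast_dSt, T.dW₁, T.dW₂, cast_dW]
  ring

end Rel

end TbL

end Cfsg.Agent.Lib.Helper37
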