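-- helper37: Suzuki groups, character table, part 13: class data and the values of the two
-- remaining characters.
import Mathlib
import Cfsg.Prelude.Def_LieExceptional
import Cfsg.Agent.Lib.Helper37.SzTbL
import Cfsg.Agent.Lib.Helper37.SzReal

set_option autoImplicit false

namespace Cfsg.Agent.Lib.Helper37

open scoped ComplexConjugate

open Classical

theorem norm_pair_zero (z w : ℂ) (h : z * conj z + w * conj w = 0) : z = 0 ∧ w = 0 := by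
  rw [Complex.mul_conj, Complex.mul_conj] at h
  have h' : Complex.normSq z + Complex.normSq w = 0 := by exact_mod_cast h
  have hz := Complex.normSq_nonneg z
  have hw := Complex.normSq_nonneg w
  exact ⟨Complex.normSq_eq_zero.mp (by linarith), Complex.normSq_eq_zero.mp (by linarith)⟩

theorem norm_pair_two (z w : ℂ) (hs : z + w = 2) (h : z * conj z + w * conj w = 2) :
    z = 1 ∧ w = 1 := by
  have h1 : (z - 1) * conj (z - 1) + (w - 1) * conj (w - 1) = 0 := by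
    have hc : conj z + conj w = 2 := by
      rw [← map_add, hs]
      exact Complex.conj_ofNat 2
    rw [map_sub, map_sub, map_one]
    linear_combination h - hs - hc
  obtain ⟨a, b⟩ := norm_pair_zero _ _ h1
  exact ⟨sub_eq_zero.mp a, sub_eq_zero.mp b⟩

theorem norm_pair_neg_two (z w : ℂ) (hs : z + w = -2) (h : z * conj z + w * conj w = 2) :
    z = -1 ∧ w = -1 := by
  have h1 := norm_pair_two (-z) (-w) (by linear_combination -hs)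
    (by rw [map_neg, map_neg, neg_mul_neg, neg_mul_neg]; exact h)
  exact ⟨neg_eq_iff_eq_neg.mp h1.1, neg_eq_iff_eq_neg.mp h1.2⟩

section Val

variable {F : Type*} [Field F] [Fintype F] {m : ℕ}

variable {h : SzData F (2 ^ (m + 1))} [Fintype ↥(Cfsg.Sz F m)]
    [Fintype (Cfsg.IrrCharacter ↥(Cfsg.Sz F m))] [Fintype (Fˣ →* ℂˣ)]
    {x₁ x₂ : ↥(Cfsg.Sz F m)}
    [Fintype (↥(Subgroup.centralizer ({x₁} : Set ↥(Cfsg.Sz F m))) →* ℂˣ)]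
    [Fintype (↥(Subgroup.centralizer ({x₂} : Set ↥(Cfsg.Sz F m))) →* ℂˣ)]
    {χ₀ : AddChar F ℂ} {W₁ W₂ : ↥(Cfsg.Sz F m) → ℂ}

local notation "FX" => (Finset.univ.filter (fun η : Fˣ →* ℂˣ => η ≠ 1))

local notation "FT(" x ")" => (Finset.univ.filter
  (fun l : ↥(Subgroup.centralizer ({x} : Set ↥(Cfsg.Sz F m))) →* ℂˣ => l ≠ 1))

local notation "SS" => ((2 : ℂ) ^ m)

theorem SzTab.card_ne (T : SzTab h x₁ x₂ χ₀ W₁ W₂) :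
    Nat.card ↥(Subgroup.centralizer ({x₂} : Set ↥(Cfsg.Sz F m))) ≠
      Nat.card ↥(Subgroup.centralizer ({x₁} : Set ↥(Cfsg.Sz F m))) := by
  rw [T.hc1, T.hc2]
  have h1 : 1 ≤ 2 ^ (m + 1) := Nat.one_le_two_pow
  generalize 2 ^ (2 * m + 1) = a
  generalize 2 ^ (m + 1) = b at h1
  omega

theorem SzTab.fpf1 (T : SzTab h x₁ x₂ χ₀ W₁ W₂) (a : ↥(Cfsg.Sz F m))
    (ha : a ∈ Subgroup.centralizer ({x₁} : Set ↥(Cfsg.Sz F m))) (ha1 : a ≠ 1) : szFpf a :=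
  szFpf_of_commute T.hm T.hF x₁ a T.hx₁ ha1
    ((Subgroup.mem_centralizer_iff.mp ha x₁ (Set.mem_singleton _)).symm)

theorem SzTab.fpf2 (T : SzTab h x₁ x₂ χ₀ W₁ W₂) (a : ↥(Cfsg.Sz F m))
    (ha : a ∈ Subgroup.centralizer ({x₂} : Set ↥(Cfsg.Sz F m))) (ha1 : a ≠ 1) : szFpf a :=
  szFpf_of_commute T.hm T.hF x₂ a T.hx₂ ha1
    ((Subgroup.mem_centralizer_iff.mp ha x₂ (Set.mem_singleton _)).symm)

theorem SzTab.sX_T (T : SzTab h x₁ x₂ χ₀ W₁ W₂) (a b : F) (hab : ¬ (a = 0 ∧ b = 0)) :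
    ∑ η ∈ FX, chX h η (szTm h a b) = 2 * SS ^ 2 - 2 := by
  rw [sumX_T T.hF h a b hab, cast_two_pow_Q]

theorem SzTab.sY_T0 (T : SzTab h x₁ x₂ χ₀ W₁ W₂) (b : F) (hb : b ≠ 0) :
    ∑ l ∈ FT(x₁), chTor h χ₀ (2 ^ m - 1) x₁ l (szTm h 0 b) =
      (2 * SS ^ 2 + 2 * SS) * (2 * SS - 1) := by
  rw [sumTor_T0 T.hm T.hF h χ₀ T.hχ₀ _ x₁ T.hx₁ b hb, T.hc1, cast_A1, cast_cY, cast_two_pow_Q,
    cast_two_pow_R]
  ring

theorem SzTab.sZ_T0 (T : SzTab h x₁ x₂ χ₀ W₁ W₂) (b : F) (hb : b ≠ 0) :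
    ∑ l ∈ FT(x₂), chTor h χ₀ (2 ^ m + 1) x₂ l (szTm h 0 b) =
      (2 * SS ^ 2 - 2 * SS) * (-(2 * SS) - 1) := by
  rw [sumTor_T0 T.hm T.hF h χ₀ T.hχ₀ _ x₂ T.hx₂ b hb, T.hc2, cast_A2, cast_cZ, cast_two_pow_Q,
    cast_two_pow_R]
  ring

theorem SzTab.sY_T1 (T : SzTab h x₁ x₂ χ₀ W₁ W₂) (a b : F) (ha : a ≠ 0) :
    ∑ l ∈ FT(x₁), chTor h χ₀ (2 ^ m - 1) x₁ l (szTm h a b) = -(2 * SS ^ 2 + 2 * SS) := by
  rw [sumTor_T1 T.hm T.hF h χ₀ T.hχ₀ _ x₁ T.hx₁ a b ha, T.hc1, cast_A1]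
  ring

theorem SzTab.sZ_T1 (T : SzTab h x₁ x₂ χ₀ W₁ W₂) (a b : F) (ha : a ≠ 0) :
    ∑ l ∈ FT(x₂), chTor h χ₀ (2 ^ m + 1) x₂ l (szTm h a b) = -(2 * SS ^ 2 - 2 * SS) := by
  rw [sumTor_T1 T.hm T.hF h χ₀ T.hχ₀ _ x₂ T.hx₂ a b ha, T.hc2, cast_A2]
  ring

theorem SzTab.sY_A1 (T : SzTab h x₁ x₂ χ₀ W₁ W₂) (a : ↥(Cfsg.Sz F m))
    (ha : a ∈ Subgroup.centralizer ({x₁} : Set ↥(Cfsg.Sz F m))) (ha1 : a ≠ 1) :
    ∑ l ∈ FT(x₁), chTor h χ₀ (2 ^ m - 1) x₁ l a = 4 :=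
  sumTor_self T.hm T.hF h χ₀ _ x₁ T.hx₁ T.hn1 a ha ha1

theorem SzTab.sZ_A2 (T : SzTab h x₁ x₂ χ₀ W₁ W₂) (a : ↥(Cfsg.Sz F m))
    (ha : a ∈ Subgroup.centralizer ({x₂} : Set ↥(Cfsg.Sz F m))) (ha1 : a ≠ 1) :
    ∑ l ∈ FT(x₂), chTor h χ₀ (2 ^ m + 1) x₂ l a = 4 :=
  sumTor_self T.hm T.hF h χ₀ _ x₂ T.hx₂ T.hn2 a ha ha1

theorem SzTab.Y_A2 (T : SzTab h x₁ x₂ χ₀ W₁ W₂) (a : ↥(Cfsg.Sz F m))
    (ha : a ∈ Subgroup.centralizer ({x₂} : Set ↥(Cfsg.Sz F m))) (ha1 : a ≠ 1)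
    (l : ↥(Subgroup.centralizer ({x₁} : Set ↥(Cfsg.Sz F m))) →* ℂˣ) :
    chTor h χ₀ (2 ^ m - 1) x₁ l a = 0 :=
  chTor_other T.hm T.hF h χ₀ _ x₁ x₂ T.hx₁ T.hx₂ T.card_ne l a ha ha1

theorem SzTab.Z_A1 (T : SzTab h x₁ x₂ χ₀ W₁ W₂) (a : ↥(Cfsg.Sz F m))
    (ha : a ∈ Subgroup.centralizer ({x₁} : Set ↥(Cfsg.Sz F m))) (ha1 : a ≠ 1)
    (l : ↥(Subgroup.centralizer ({x₂} : Set ↥(Cfsg.Sz F m))) →* ℂˣ) :
    chTor h χ₀ (2 ^ m + 1) x₂ l a = 0 :=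
  chTor_other T.hm T.hF h χ₀ _ x₂ x₁ T.hx₂ T.hx₁ T.card_ne.symm l a ha ha1

theorem SzTab.Ws_T0 (T : SzTab h x₁ x₂ χ₀ W₁ W₂) (b : F) (hb : b ≠ 0) :
    W₁ (szTm h 0 b) + W₂ (szTm h 0 b) = -(2 * SS) := by
  have hab : ¬ ((0 : F) = 0 ∧ b = 0) := fun hc => hb hc.2
  have h0 := T.rel_one (szTm h 0 b) (szTm_ne_one h 0 b hab)
  rw [chSt_T h 0 b hab, T.sX_T 0 b hab, T.sY_T0 b hb, T.sZ_T0 b hb] at h0
  refine mul_right_cancel₀ (dW_ne m) ?_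
  linear_combination h0

theorem SzTab.Ws_T1 (T : SzTab h x₁ x₂ χ₀ W₁ W₂) (a b : F) (ha : a ≠ 0) :
    W₁ (szTm h a b) + W₂ (szTm h a b) = 0 := by
  have hab : ¬ (a = 0 ∧ b = 0) := fun hc => ha hc.1
  have h0 := T.rel_one (szTm h a b) (szTm_ne_one h a b hab)
  rw [chSt_T h a b hab, T.sX_T a b hab, T.sY_T1 a b ha, T.sZ_T1 a b ha] at h0
  refine mul_right_cancel₀ (dW_ne m) ?_
  linear_combination h0

theorem SzTab.Wsq_T1 (T : SzTab h x₁ x₂ χ₀ W₁ W₂) (a b : F) (ha : a ≠ 0) :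
    W₁ (szTm h a b) ^ 2 = -SS ^ 2 ∧ W₂ (szTm h a b) ^ 2 = -SS ^ 2 := by
  have hab : ¬ (a = 0 ∧ b = 0) := fun hc => ha hc.1
  have hnr : ¬ IsConj (szTm h a b) (szTm h a b)⁻¹ := by
    intro hc
    obtain ⟨c, hc⟩ := isConj_iff.mp hc
    exact szTm_not_real h a b ha c hc
  have h0 := T.rel_sq (szTm h a b) hnr
  have hXs : ∑ η ∈ FX, chX h η (szTm h a b) * chX h η (szTm h a b) = 2 * SS ^ 2 - 2 := by
    rw [← T.sX_T a b hab]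
    refine Finset.sum_congr rfl (fun η _ => ?_)
    rw [chX_T h η a b hab, mul_one]
  have hYs : ∑ l ∈ FT(x₁), chTor h χ₀ (2 ^ m - 1) x₁ l (szTm h a b) *
      chTor h χ₀ (2 ^ m - 1) x₁ l (szTm h a b) = 2 * SS ^ 2 + 2 * SS := by
    have e : ∑ l ∈ FT(x₁), chTor h χ₀ (2 ^ m - 1) x₁ l (szTm h a b) *
        chTor h χ₀ (2 ^ m - 1) x₁ l (szTm h a b) =
        ∑ l ∈ FT(x₁), -(chTor h χ₀ (2 ^ m - 1) x₁ l (szTm h a b)) := by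
      refine Finset.sum_congr rfl (fun l _ => ?_)
      rw [chTor_T1 T.hm T.hF h χ₀ T.hχ₀ _ x₁ T.hx₁ l a b ha]
      ring
    rw [e, Finset.sum_neg_distrib, T.sY_T1 a b ha, neg_neg]
  have hZs : ∑ l ∈ FT(x₂), chTor h χ₀ (2 ^ m + 1) x₂ l (szTm h a b) *
      chTor h χ₀ (2 ^ m + 1) x₂ l (szTm h a b) = 2 * SS ^ 2 - 2 * SS := by
    have e : ∑ l ∈ FT(x₂), chTor h χ₀ (2 ^ m + 1) x₂ l (szTm h a b) *
        chTor h χ₀ (2 ^ m + 1) x₂ l (szTm h a b) =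
        ∑ l ∈ FT(x₂), -(chTor h χ₀ (2 ^ m + 1) x₂ l (szTm h a b)) := by
      refine Finset.sum_congr rfl (fun l _ => ?_)
      rw [chTor_T1 T.hm T.hF h χ₀ T.hχ₀ _ x₂ T.hx₂ l a b ha]
      ring
    rw [e, Finset.sum_neg_distrib, T.sZ_T1 a b ha, neg_neg]
  rw [chSt_T h a b hab, hXs, hYs, hZs] at h0
  have hs := T.Ws_T1 a b ha
  constructor
  · linear_combination (1 / 2) * h0 + (1 / 2) * (W₁ (szTm h a b) - W₂ (szTm h a b)) * hs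
  · linear_combination (1 / 2) * h0 - (1 / 2) * (W₁ (szTm h a b) - W₂ (szTm h a b)) * hs

theorem SzTab.W_H (T : SzTab h x₁ x₂ χ₀ W₁ W₂) (μ : Fˣ) (hμ : μ ≠ 1) :
    W₁ (szHsub h μ) = 0 ∧ W₂ (szHsub h μ) = 0 := by
  have h0 := T.rel_norm (szHsub h μ)
  have hYn : ∑ l ∈ FT(x₁), chTor h χ₀ (2 ^ m - 1) x₁ l (szHsub h μ) *
      conj (chTor h χ₀ (2 ^ m - 1) x₁ l (szHsub h μ)) = 0 :=
    Finset.sum_eq_zero (fun l _ => by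
      rw [chTor_H T.hm T.hF h χ₀ _ x₁ T.hx₁ l μ hμ, zero_mul])
  have hZn : ∑ l ∈ FT(x₂), chTor h χ₀ (2 ^ m + 1) x₂ l (szHsub h μ) *
      conj (chTor h χ₀ (2 ^ m + 1) x₂ l (szHsub h μ)) = 0 :=
    Finset.sum_eq_zero (fun l _ => by
      rw [chTor_H T.hm T.hF h χ₀ _ x₂ T.hx₂ l μ hμ, zero_mul])
  rw [chSt_H h μ hμ, sumX_H_norm T.hF h μ hμ, hYn, hZn, sz_cent_H h μ hμ, card_szHgrp h, T.hF,
    map_one, Nat.cast_sub Nat.one_le_two_pow] at h0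
  push_cast at h0
  refine norm_pair_zero _ _ ?_
  linear_combination h0

theorem SzTab.Ws_A1 (T : SzTab h x₁ x₂ χ₀ W₁ W₂) (a : ↥(Cfsg.Sz F m))
    (ha : a ∈ Subgroup.centralizer ({x₁} : Set ↥(Cfsg.Sz F m))) (ha1 : a ≠ 1) :
    W₁ a + W₂ a = 2 := by
  have hf := T.fpf1 a ha ha1
  have h0 := T.rel_one a ha1
  have hZ0 : ∑ l ∈ FT(x₂), chTor h χ₀ (2 ^ m + 1) x₂ l a = 0 :=
    Finset.sum_eq_zero (fun l _ => T.Z_A1 a ha ha1 l)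
  rw [chSt_fpf h a hf, sumX_fpf h a hf, T.sY_A1 a ha ha1, hZ0] at h0
  refine mul_right_cancel₀ (dW_ne m) ?_
  linear_combination h0

theorem SzTab.Ws_A2 (T : SzTab h x₁ x₂ χ₀ W₁ W₂) (a : ↥(Cfsg.Sz F m))
    (ha : a ∈ Subgroup.centralizer ({x₂} : Set ↥(Cfsg.Sz F m))) (ha1 : a ≠ 1) :
    W₁ a + W₂ a = -2 := by
  have hf := T.fpf2 a ha ha1
  have h0 := T.rel_one a ha1
  have hY0 : ∑ l ∈ FT(x₁), chTor h χ₀ (2 ^ m - 1) x₁ l a = 0 :=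
    Finset.sum_eq_zero (fun l _ => T.Y_A2 a ha ha1 l)
  rw [chSt_fpf h a hf, sumX_fpf h a hf, T.sZ_A2 a ha ha1, hY0] at h0
  refine mul_right_cancel₀ (dW_ne m) ?_
  linear_combination h0

theorem SzTab.W_A1 (T : SzTab h x₁ x₂ χ₀ W₁ W₂) (a : ↥(Cfsg.Sz F m))
    (ha : a ∈ Subgroup.centralizer ({x₁} : Set ↥(Cfsg.Sz F m))) (ha1 : a ≠ 1) :
    W₁ a = 1 ∧ W₂ a = 1 := by
  have hf := T.fpf1 a ha ha1
  have h0 := T.rel_norm a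
  have hXn : ∑ η ∈ FX, chX h η a * conj (chX h η a) = 0 :=
    Finset.sum_eq_zero (fun η _ => by rw [chX_fpf h η a hf, zero_mul])
  have hZn : ∑ l ∈ FT(x₂), chTor h χ₀ (2 ^ m + 1) x₂ l a *
      conj (chTor h χ₀ (2 ^ m + 1) x₂ l a) = 0 :=
    Finset.sum_eq_zero (fun l _ => by rw [T.Z_A1 a ha ha1 l, zero_mul])
  rw [chSt_fpf h a hf, hXn, sumTor_self_norm T.hm T.hF h χ₀ _ x₁ T.hx₁ T.hn1 a ha ha1, hZn,
    szFpf_centralizer_eq T.hm T.hF x₁ a T.hx₁ ha ha1, map_neg, map_one] at h0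
  refine norm_pair_two _ _ (T.Ws_A1 a ha ha1) ?_
  linear_combination h0

theorem SzTab.W_A2 (T : SzTab h x₁ x₂ χ₀ W₁ W₂) (a : ↥(Cfsg.Sz F m))
    (ha : a ∈ Subgroup.centralizer ({x₂} : Set ↥(Cfsg.Sz F m))) (ha1 : a ≠ 1) :
    W₁ a = -1 ∧ W₂ a = -1 := by
  have hf := T.fpf2 a ha ha1
  have h0 := T.rel_norm a
  have hXn : ∑ η ∈ FX, chX h η a * conj (chX h η a) = 0 :=
    Finset.sum_eq_zero (fun η _ => by rw [chX_fpf h η a hf, zero_mul])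
  have hYn : ∑ l ∈ FT(x₁), chTor h χ₀ (2 ^ m - 1) x₁ l a *
      conj (chTor h χ₀ (2 ^ m - 1) x₁ l a) = 0 :=
    Finset.sum_eq_zero (fun l _ => by rw [T.Y_A2 a ha ha1 l, zero_mul])
  rw [chSt_fpf h a hf, hXn, sumTor_self_norm T.hm T.hF h χ₀ _ x₂ T.hx₂ T.hn2 a ha ha1, hYn,
    szFpf_centralizer_eq T.hm T.hF x₂ a T.hx₂ ha ha1, map_neg, map_one] at h0
  refine norm_pair_neg_two _ _ (T.Ws_A2 a ha ha1) ?_
  linear_combination h0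

end Val

end Cfsg.Agent.Lib.Helper37
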