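-- helper37: Suzuki groups, character table, part 14: positivity of the structure constants
-- (real inequalities).
import Mathlib

set_option autoImplicit false

namespace Cfsg.Agent.Lib.Helper37

/-- the shape of the structure-constant sums -/
noncomputable def szE (S st sx sy sz w : ℝ) : ℝ :=
  1 + st / (2 * S ^ 2) ^ 2 + 2⁻¹ * (sx / ((2 * S ^ 2) ^ 2 + 1)) +
    4⁻¹ * (sy / ((2 * S ^ 2 - 1) * (2 * S ^ 2 + 1 - 2 * S))) +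
    4⁻¹ * (sz / ((2 * S ^ 2 - 1) * (2 * S ^ 2 + 2 * S + 1))) + w / (S * (2 * S ^ 2 - 1))

theorem szE_ne (m : ℕ) (st sx sy sz w : ℝ) (hpos : 0 < szE ((2 : ℝ) ^ m) st sx sy sz w) :
    (1 + (st : ℂ) / (2 * ((2 : ℂ) ^ m) ^ 2) ^ 2 +
      (2 : ℂ)⁻¹ * ((sx : ℂ) / ((2 * ((2 : ℂ) ^ m) ^ 2) ^ 2 + 1)) +
      (4 : ℂ)⁻¹ * ((sy : ℂ) /
        ((2 * ((2 : ℂ) ^ m) ^ 2 - 1) * (2 * ((2 : ℂ) ^ m) ^ 2 + 1 - 2 * (2 : ℂ) ^ m))) +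
      (4 : ℂ)⁻¹ * ((sz : ℂ) /
        ((2 * ((2 : ℂ) ^ m) ^ 2 - 1) * (2 * ((2 : ℂ) ^ m) ^ 2 + 2 * (2 : ℂ) ^ m + 1))) +
      (w : ℂ) / ((2 : ℂ) ^ m * (2 * ((2 : ℂ) ^ m) ^ 2 - 1))) ≠ 0 := by
  have e : (1 + (st : ℂ) / (2 * ((2 : ℂ) ^ m) ^ 2) ^ 2 +
      (2 : ℂ)⁻¹ * ((sx : ℂ) / ((2 * ((2 : ℂ) ^ m) ^ 2) ^ 2 + 1)) +
      (4 : ℂ)⁻¹ * ((sy : ℂ) /
        ((2 * ((2 : ℂ) ^ m) ^ 2 - 1) * (2 * ((2 : ℂ) ^ m) ^ 2 + 1 - 2 * (2 : ℂ) ^ m))) +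
      (4 : ℂ)⁻¹ * ((sz : ℂ) /
        ((2 * ((2 : ℂ) ^ m) ^ 2 - 1) * (2 * ((2 : ℂ) ^ m) ^ 2 + 2 * (2 : ℂ) ^ m + 1))) +
      (w : ℂ) / ((2 : ℂ) ^ m * (2 * ((2 : ℂ) ^ m) ^ 2 - 1))) =
      ((szE ((2 : ℝ) ^ m) st sx sy sz w : ℝ) : ℂ) := by
    unfold szE
    push_cast
    ring
  rw [e]
  exact Complex.ofReal_ne_zero.mpr hpos.ne'

theorem two_le_two_pow_real (m : ℕ) (hm : 1 ≤ m) : (2 : ℝ) ≤ (2 : ℝ) ^ m := by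
  calc (2 : ℝ) = 2 ^ 1 := by norm_num
    _ ≤ 2 ^ m := pow_le_pow_right₀ (by norm_num) hm

theorem szE_pos_T1T0 (S r : ℝ) (hS : 2 ≤ S) (hr : 0 ≤ r) :
    0 < szE S (0) (2 * (S ^ 2) - 2) ((2 * (S ^ 2) + 2 * S) * (2 * S - 1)) ((2 * (S ^ 2) - 2 * S) * ((-(2 * S)) - 1)) ((-(S ^ 2)) * (-(2 * S))) := by
  obtain ⟨t, ht, rfl⟩ : ∃ t : ℝ, 0 ≤ t ∧ S = t + 2 := ⟨S - 2, by linarith, by ring⟩
  have h1 : 2 * (t + 2) ^ 2 - 1 ≠ 0 := by nlinarith [sq_nonneg t]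
  have h2 : 2 * (t + 2) ^ 2 + 1 - 2 * (t + 2) ≠ 0 := by nlinarith [sq_nonneg t]
  have key : szE (t + 2) (0) (2 * ((t + 2) ^ 2) - 2) ((2 * ((t + 2) ^ 2) + 2 * (t + 2)) * (2 * (t + 2) - 1)) ((2 * ((t + 2) ^ 2) - 2 * (t + 2)) * ((-(2 * (t + 2))) - 1)) ((-((t + 2) ^ 2)) * (-(2 * (t + 2)))) =
      (221777920 + 1706829824 * t + 6117926912 * t ^ 2 + 13548917760 * t ^ 3 + 20734084352 * t ^ 4 + 23225204864 * t ^ 5 + 19672563712 * t ^ 6 + 12831080448 * t ^ 7 + 6497236992 * t ^ 8 + 2554223616 * t ^ 9 + 773206016 * t ^ 10 + 176998400 * t ^ 11 + 29659136 * t ^ 12 + 3434496 * t ^ 13 + 245760 * t ^ 14 + 8192 * t ^ 15) /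
      (92747200 + 729645280 * t + 2670566528 * t ^ 2 + 6032256192 * t ^ 3 + 9403567872 * t ^ 4 + 10715531648 * t ^ 5 + 9220039168 * t ^ 6 + 6099347200 * t ^ 7 + 3127452672 * t ^ 8 + 1242866176 * t ^ 9 + 379664384 * t ^ 10 + 87544832 * t ^ 11 + 14749696 * t ^ 12 + 1714176 * t ^ 13 + 122880 * t ^ 14 + 4096 * t ^ 15) := by
    unfold szE
    field_simp
    ring
  rw [key]
  positivity

theorem szE_pos_T1T1 (S r : ℝ) (hS : 2 ≤ S) (hr : 0 ≤ r) :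
    0 < szE S (0) (2 * (S ^ 2) - 2) (-(2 * (S ^ 2) + 2 * S)) (-(2 * (S ^ 2) - 2 * S)) (0) := by
  obtain ⟨t, ht, rfl⟩ : ∃ t : ℝ, 0 ≤ t ∧ S = t + 2 := ⟨S - 2, by linarith, by ring⟩
  have h1 : 2 * (t + 2) ^ 2 - 1 ≠ 0 := by nlinarith [sq_nonneg t]
  have h2 : 2 * (t + 2) ^ 2 + 1 - 2 * (t + 2) ≠ 0 := by nlinarith [sq_nonneg t]
  have key : szE (t + 2) (0) (2 * ((t + 2) ^ 2) - 2) (-(2 * ((t + 2) ^ 2) + 2 * (t + 2))) (-(2 * ((t + 2) ^ 2) - 2 * (t + 2))) (0) =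
      (6289920 + 39842304 * t + 114816128 * t ^ 2 + 199228416 * t ^ 3 + 231997312 * t ^ 4 + 191102976 * t ^ 5 + 114229248 * t ^ 6 + 49938432 * t ^ 7 + 15851520 * t ^ 8 + 3563520 * t ^ 9 + 538624 * t ^ 10 + 49152 * t ^ 11 + 2048 * t ^ 12) /
      (6624800 + 41233920 * t + 117334912 * t ^ 2 + 201821184 * t ^ 3 + 233656704 * t ^ 4 + 191778816 * t ^ 5 + 114400256 * t ^ 6 + 49963008 * t ^ 7 + 15853056 * t ^ 8 + 3563520 * t ^ 9 + 538624 * t ^ 10 + 49152 * t ^ 11 + 2048 * t ^ 12) := by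
    unfold szE
    field_simp
    ring
  rw [key]
  positivity

theorem szE_pos_T1H (S r : ℝ) (hS : 2 ≤ S) (hr : 0 ≤ r) :
    0 < szE S (0) (-2) (0) (0) (0) := by
  obtain ⟨t, ht, rfl⟩ : ∃ t : ℝ, 0 ≤ t ∧ S = t + 2 := ⟨S - 2, by linarith, by ring⟩
  have h1 : 2 * (t + 2) ^ 2 - 1 ≠ 0 := by nlinarith [sq_nonneg t]
  have h2 : 2 * (t + 2) ^ 2 + 1 - 2 * (t + 2) ≠ 0 := by nlinarith [sq_nonneg t]
  have key : szE (t + 2) (0) (-2) (0) (0) (0) =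
      (128 + 256 * t + 192 * t ^ 2 + 64 * t ^ 3 + 8 * t ^ 4) /
      (130 + 256 * t + 192 * t ^ 2 + 64 * t ^ 3 + 8 * t ^ 4) := by
    unfold szE
    field_simp
    ring
  rw [key]
  positivity

theorem szE_pos_T1A1 (S r : ℝ) (hS : 2 ≤ S) (hr : 0 ≤ r) :
    0 < szE S (0) (0) (4) (0) ((-(S ^ 2)) * 2) := by
  obtain ⟨t, ht, rfl⟩ : ∃ t : ℝ, 0 ≤ t ∧ S = t + 2 := ⟨S - 2, by linarith, by ring⟩
  have h1 : 2 * (t + 2) ^ 2 - 1 ≠ 0 := by nlinarith [sq_nonneg t]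
  have h2 : 2 * (t + 2) ^ 2 + 1 - 2 * (t + 2) ≠ 0 := by nlinarith [sq_nonneg t]
  have key : szE (t + 2) (0) (0) (4) (0) ((-((t + 2) ^ 2)) * 2) =
      (896 + 4160 * t + 8096 * t ^ 2 + 8560 * t ^ 3 + 5312 * t ^ 4 + 1936 * t ^ 5 + 384 * t ^ 6 + 32 * t ^ 7) /
      (1960 + 7812 * t + 13256 * t ^ 2 + 12408 * t ^ 3 + 6912 * t ^ 4 + 2288 * t ^ 5 + 416 * t ^ 6 + 32 * t ^ 7) := by
    unfold szE
    field_simp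
    ring
  rw [key]
  positivity

theorem szE_pos_T1A2 (S r : ℝ) (hS : 2 ≤ S) (hr : 0 ≤ r) :
    0 < szE S (0) (0) (0) (4) ((-(S ^ 2)) * -2) := by
  obtain ⟨t, ht, rfl⟩ : ∃ t : ℝ, 0 ≤ t ∧ S = t + 2 := ⟨S - 2, by linarith, by ring⟩
  have h1 : 2 * (t + 2) ^ 2 - 1 ≠ 0 := by nlinarith [sq_nonneg t]
  have h2 : 2 * (t + 2) ^ 2 + 1 - 2 * (t + 2) ≠ 0 := by nlinarith [sq_nonneg t]
  have key : szE (t + 2) (0) (0) (0) (4) ((-((t + 2) ^ 2)) * -2) =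
      (8064 + 26688 * t + 37280 * t ^ 2 + 28528 * t ^ 3 + 12928 * t ^ 4 + 3472 * t ^ 5 + 512 * t ^ 6 + 32 * t ^ 7) /
      (5096 + 18116 * t + 27096 * t ^ 2 + 22136 * t ^ 3 + 10688 * t ^ 4 + 3056 * t ^ 5 + 480 * t ^ 6 + 32 * t ^ 7) := by
    unfold szE
    field_simp
    ring
  rw [key]
  positivity

theorem szE_pos_HT (S r : ℝ) (hS : 2 ≤ S) (hr : 0 ≤ r) :
    0 < szE S (0) (4 * (S ^ 2) - 6) (0) (0) (0) := by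
  obtain ⟨t, ht, rfl⟩ : ∃ t : ℝ, 0 ≤ t ∧ S = t + 2 := ⟨S - 2, by linarith, by ring⟩
  have h1 : 2 * (t + 2) ^ 2 - 1 ≠ 0 := by nlinarith [sq_nonneg t]
  have h2 : 2 * (t + 2) ^ 2 + 1 - 2 * (t + 2) ≠ 0 := by nlinarith [sq_nonneg t]
  have key : szE (t + 2) (0) (4 * ((t + 2) ^ 2) - 6) (0) (0) (0) =
      (140 + 272 * t + 196 * t ^ 2 + 64 * t ^ 3 + 8 * t ^ 4) /
      (130 + 256 * t + 192 * t ^ 2 + 64 * t ^ 3 + 8 * t ^ 4) := by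
    unfold szE
    field_simp
    ring
  rw [key]
  positivity

theorem szE_pos_HH (S r : ℝ) (hS : 2 ≤ S) (hr : 0 ≤ r) :
    0 < szE S (1) (r * (2 * (S ^ 2) - 1) - 8) (0) (0) (0) := by
  obtain ⟨t, ht, rfl⟩ : ∃ t : ℝ, 0 ≤ t ∧ S = t + 2 := ⟨S - 2, by linarith, by ring⟩
  have h1 : 2 * (t + 2) ^ 2 - 1 ≠ 0 := by nlinarith [sq_nonneg t]
  have h2 : 2 * (t + 2) ^ 2 + 1 - 2 * (t + 2) ≠ 0 := by nlinarith [sq_nonneg t]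
  have key : szE (t + 2) (1) (r * (2 * ((t + 2) ^ 2) - 1) - 8) (0) (0) (0) =
      (7938 + 32256 * t + 56960 * t ^ 2 + 57216 * t ^ 3 + 35824 * t ^ 4 + 14336 * t ^ 5 + 3584 * t ^ 6 + 512 * t ^ 7 + 32 * t ^ 8 + 448 * r + 1408 * t * r + 1824 * t ^ 2 * r + 1248 * t ^ 3 * r + 476 * t ^ 4 * r + 96 * t ^ 5 * r + 8 * t ^ 6 * r) /
      (8320 + 33024 * t + 57536 * t ^ 2 + 57408 * t ^ 3 + 35848 * t ^ 4 + 14336 * t ^ 5 + 3584 * t ^ 6 + 512 * t ^ 7 + 32 * t ^ 8) := by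
    unfold szE
    field_simp
    ring
  rw [key]
  positivity

theorem szE_pos_HF (S r : ℝ) (hS : 2 ≤ S) (hr : 0 ≤ r) :
    0 < szE S (-1) (0) (0) (0) (0) := by
  obtain ⟨t, ht, rfl⟩ : ∃ t : ℝ, 0 ≤ t ∧ S = t + 2 := ⟨S - 2, by linarith, by ring⟩
  have h1 : 2 * (t + 2) ^ 2 - 1 ≠ 0 := by nlinarith [sq_nonneg t]
  have h2 : 2 * (t + 2) ^ 2 + 1 - 2 * (t + 2) ≠ 0 := by nlinarith [sq_nonneg t]
  have key : szE (t + 2) (-1) (0) (0) (0) (0) =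
      (63 + 128 * t + 96 * t ^ 2 + 32 * t ^ 3 + 4 * t ^ 4) /
      (64 + 128 * t + 96 * t ^ 2 + 32 * t ^ 3 + 4 * t ^ 4) := by
    unfold szE
    field_simp
    ring
  rw [key]
  positivity

theorem szE_pos_A1T0 (S r : ℝ) (hS : 2 ≤ S) (hr : 0 ≤ r) :
    0 < szE S (0) (0) ((r - 16) * (2 * S - 1)) (0) (-(2 * S)) := by
  obtain ⟨t, ht, rfl⟩ : ∃ t : ℝ, 0 ≤ t ∧ S = t + 2 := ⟨S - 2, by linarith, by ring⟩
  have h1 : 2 * (t + 2) ^ 2 - 1 ≠ 0 := by nlinarith [sq_nonneg t]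
  have h2 : 2 * (t + 2) ^ 2 + 1 - 2 * (t + 2) ≠ 0 := by nlinarith [sq_nonneg t]
  have key : szE (t + 2) (0) (0) ((r - 16) * (2 * (t + 2) - 1)) (0) (-(2 * (t + 2))) =
      (728 + 4668 * t + 10136 * t ^ 2 + 10904 * t ^ 3 + 6560 * t ^ 4 + 2256 * t ^ 5 + 416 * t ^ 6 + 32 * t ^ 7 + 42 * r + 97 * t * r + 82 * t ^ 2 * r + 30 * t ^ 3 * r + 4 * t ^ 4 * r) /
      (1960 + 7812 * t + 13256 * t ^ 2 + 12408 * t ^ 3 + 6912 * t ^ 4 + 2288 * t ^ 5 + 416 * t ^ 6 + 32 * t ^ 7) := by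
    unfold szE
    field_simp
    ring
  rw [key]
  positivity

theorem szE_pos_A1T1 (S r : ℝ) (hS : 2 ≤ S) (hr : 0 ≤ r) :
    0 < szE S (0) (0) (-(4 * (2 * (S ^ 2) + 2 * S + 1) - r - 16)) (0) (0) := by
  obtain ⟨t, ht, rfl⟩ : ∃ t : ℝ, 0 ≤ t ∧ S = t + 2 := ⟨S - 2, by linarith, by ring⟩
  have h1 : 2 * (t + 2) ^ 2 - 1 ≠ 0 := by nlinarith [sq_nonneg t]
  have h2 : 2 * (t + 2) ^ 2 + 1 - 2 * (t + 2) ≠ 0 := by nlinarith [sq_nonneg t]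
  have key : szE (t + 2) (0) (0) (-(4 * (2 * ((t + 2) ^ 2) + 2 * (t + 2) + 1) - r - 16)) (0) (0) =
      (104 + 288 * t + 280 * t ^ 2 + 112 * t ^ 3 + 16 * t ^ 4 + r) /
      (140 + 328 * t + 288 * t ^ 2 + 112 * t ^ 3 + 16 * t ^ 4) := by
    unfold szE
    field_simp
    ring
  rw [key]
  positivity

theorem szE_pos_AH (S r : ℝ) (hS : 2 ≤ S) (hr : 0 ≤ r) :
    0 < szE S (1) (0) (0) (0) (0) := by
  obtain ⟨t, ht, rfl⟩ : ∃ t : ℝ, 0 ≤ t ∧ S = t + 2 := ⟨S - 2, by linarith, by ring⟩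
  have h1 : 2 * (t + 2) ^ 2 - 1 ≠ 0 := by nlinarith [sq_nonneg t]
  have h2 : 2 * (t + 2) ^ 2 + 1 - 2 * (t + 2) ≠ 0 := by nlinarith [sq_nonneg t]
  have key : szE (t + 2) (1) (0) (0) (0) (0) =
      (65 + 128 * t + 96 * t ^ 2 + 32 * t ^ 3 + 4 * t ^ 4) /
      (64 + 128 * t + 96 * t ^ 2 + 32 * t ^ 3 + 4 * t ^ 4) := by
    unfold szE
    field_simp
    ring
  rw [key]
  positivity

theorem szE_pos_A1A1 (S r : ℝ) (hS : 2 ≤ S) (hr : 0 ≤ r) :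
    0 < szE S (-1) (0) (64 - (16 * (2 * (S ^ 2) + 2 * S + 1) - r)) (0) (2) := by
  obtain ⟨t, ht, rfl⟩ : ∃ t : ℝ, 0 ≤ t ∧ S = t + 2 := ⟨S - 2, by linarith, by ring⟩
  have h1 : 2 * (t + 2) ^ 2 - 1 ≠ 0 := by nlinarith [sq_nonneg t]
  have h2 : 2 * (t + 2) ^ 2 + 1 - 2 * (t + 2) ≠ 0 := by nlinarith [sq_nonneg t]
  have key : szE (t + 2) (-1) (0) (64 - (16 * (2 * ((t + 2) ^ 2) + 2 * (t + 2) + 1) - r)) (0) (2) =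
      (12376 + 207484 * t + 891960 * t ^ 2 + 1915656 * t ^ 3 + 2492416 * t ^ 4 + 2135712 * t ^ 5 + 1251840 * t ^ 6 + 507200 * t ^ 7 + 140160 * t ^ 8 + 25280 * t ^ 9 + 2688 * t ^ 10 + 128 * t ^ 11 + 896 * r + 3264 * t * r + 5056 * t ^ 2 * r + 4320 * t ^ 3 * r + 2200 * t ^ 4 * r + 668 * t ^ 5 * r + 112 * t ^ 6 * r + 8 * t ^ 7 * r) /
      (125440 + 750848 * t + 2036480 * t ^ 2 + 3303552 * t ^ 3 + 3560992 * t ^ 4 + 2677776 * t ^ 5 + 1433120 * t ^ 6 + 545760 * t ^ 7 + 144896 * t ^ 8 + 25536 * t ^ 9 + 2688 * t ^ 10 + 128 * t ^ 11) := by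
    unfold szE
    field_simp
    ring
  rw [key]
  positivity

theorem szE_pos_A1A2 (S r : ℝ) (hS : 2 ≤ S) (hr : 0 ≤ r) :
    0 < szE S (-1) (0) (0) (0) (-2) := by
  obtain ⟨t, ht, rfl⟩ : ∃ t : ℝ, 0 ≤ t ∧ S = t + 2 := ⟨S - 2, by linarith, by ring⟩
  have h1 : 2 * (t + 2) ^ 2 - 1 ≠ 0 := by nlinarith [sq_nonneg t]
  have h2 : 2 * (t + 2) ^ 2 + 1 - 2 * (t + 2) ≠ 0 := by nlinarith [sq_nonneg t]
  have key : szE (t + 2) (-1) (0) (0) (0) (-2) =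
      (754 + 2985 * t + 4852 * t ^ 2 + 4254 * t ^ 3 + 2192 * t ^ 4 + 668 * t ^ 5 + 112 * t ^ 6 + 8 * t ^ 7) /
      (896 + 3264 * t + 5056 * t ^ 2 + 4320 * t ^ 3 + 2200 * t ^ 4 + 668 * t ^ 5 + 112 * t ^ 6 + 8 * t ^ 7) := by
    unfold szE
    field_simp
    ring
  rw [key]
  positivity

theorem szE_pos_A2T0 (S r : ℝ) (hS : 2 ≤ S) (hr : 0 ≤ r) :
    0 < szE S (0) (0) (0) ((4 * (2 * (S ^ 2) + 1 - 2 * S) - r - 16) * ((-(2 * S)) - 1)) (-(2 * S)) := by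
  obtain ⟨t, ht, rfl⟩ : ∃ t : ℝ, 0 ≤ t ∧ S = t + 2 := ⟨S - 2, by linarith, by ring⟩
  have h1 : 2 * (t + 2) ^ 2 - 1 ≠ 0 := by nlinarith [sq_nonneg t]
  have h2 : 2 * (t + 2) ^ 2 + 1 - 2 * (t + 2) ≠ 0 := by nlinarith [sq_nonneg t]
  have key : szE (t + 2) (0) (0) (0) ((4 * (2 * ((t + 2) ^ 2) + 1 - 2 * (t + 2)) - r - 16) * ((-(2 * (t + 2))) - 1)) (-(2 * (t + 2))) =
      (3360 + 12352 * t + 19368 * t ^ 2 + 16776 * t ^ 3 + 8656 * t ^ 4 + 2656 * t ^ 5 + 448 * t ^ 6 + 32 * t ^ 7 + 70 * r + 143 * t * r + 106 * t ^ 2 * r + 34 * t ^ 3 * r + 4 * t ^ 4 * r) /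
      (5096 + 18116 * t + 27096 * t ^ 2 + 22136 * t ^ 3 + 10688 * t ^ 4 + 3056 * t ^ 5 + 480 * t ^ 6 + 32 * t ^ 7) := by
    unfold szE
    field_simp
    ring
  rw [key]
  positivity

theorem szE_pos_A2T1 (S r : ℝ) (hS : 2 ≤ S) (hr : 0 ≤ r) :
    0 < szE S (0) (0) (0) (-(4 * (2 * (S ^ 2) + 1 - 2 * S) - r - 16)) (0) := by
  obtain ⟨t, ht, rfl⟩ : ∃ t : ℝ, 0 ≤ t ∧ S = t + 2 := ⟨S - 2, by linarith, by ring⟩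
  have h1 : 2 * (t + 2) ^ 2 - 1 ≠ 0 := by nlinarith [sq_nonneg t]
  have h2 : 2 * (t + 2) ^ 2 + 1 - 2 * (t + 2) ≠ 0 := by nlinarith [sq_nonneg t]
  have key : szE (t + 2) (0) (0) (0) (-(4 * (2 * ((t + 2) ^ 2) + 1 - 2 * (t + 2)) - r - 16)) (0) =
      (360 + 672 * t + 472 * t ^ 2 + 144 * t ^ 3 + 16 * t ^ 4 + r) /
      (364 + 696 * t + 480 * t ^ 2 + 144 * t ^ 3 + 16 * t ^ 4) := by
    unfold szE
    field_simp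
    ring
  rw [key]
  positivity

theorem szE_pos_A2A1 (S r : ℝ) (hS : 2 ≤ S) (hr : 0 ≤ r) :
    0 < szE S (-1) (0) (0) (0) (2) := by
  obtain ⟨t, ht, rfl⟩ : ∃ t : ℝ, 0 ≤ t ∧ S = t + 2 := ⟨S - 2, by linarith, by ring⟩
  have h1 : 2 * (t + 2) ^ 2 - 1 ≠ 0 := by nlinarith [sq_nonneg t]
  have h2 : 2 * (t + 2) ^ 2 + 1 - 2 * (t + 2) ≠ 0 := by nlinarith [sq_nonneg t]
  have key : szE (t + 2) (-1) (0) (0) (0) (2) =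
      (1010 + 3497 * t + 5236 * t ^ 2 + 4382 * t ^ 3 + 2208 * t ^ 4 + 668 * t ^ 5 + 112 * t ^ 6 + 8 * t ^ 7) /
      (896 + 3264 * t + 5056 * t ^ 2 + 4320 * t ^ 3 + 2200 * t ^ 4 + 668 * t ^ 5 + 112 * t ^ 6 + 8 * t ^ 7) := by
    unfold szE
    field_simp
    ring
  rw [key]
  positivity

theorem szE_pos_A2A2 (S r : ℝ) (hS : 2 ≤ S) (hr : 0 ≤ r) :
    0 < szE S (-1) (0) (0) (64 - (16 * (2 * (S ^ 2) + 1 - 2 * S) - r)) (-2) := by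
  obtain ⟨t, ht, rfl⟩ : ∃ t : ℝ, 0 ≤ t ∧ S = t + 2 := ⟨S - 2, by linarith, by ring⟩
  have h1 : 2 * (t + 2) ^ 2 - 1 ≠ 0 := by nlinarith [sq_nonneg t]
  have h2 : 2 * (t + 2) ^ 2 + 1 - 2 * (t + 2) ≠ 0 := by nlinarith [sq_nonneg t]
  have key : szE (t + 2) (-1) (0) (0) (64 - (16 * (2 * ((t + 2) ^ 2) + 1 - 2 * (t + 2)) - r)) (-2) =
      (260120 + 1473084 * t + 3782696 * t ^ 2 + 5807880 * t ^ 3 + 5917824 * t ^ 4 + 4197024 * t ^ 5 + 2111744 * t ^ 6 + 752960 * t ^ 7 + 186240 * t ^ 8 + 30400 * t ^ 9 + 2944 * t ^ 10 + 128 * t ^ 11 + 896 * r + 3264 * t * r + 5056 * t ^ 2 * r + 4320 * t ^ 3 * r + 2200 * t ^ 4 * r + 668 * t ^ 5 * r + 112 * t ^ 6 * r + 8 * t ^ 7 * r) /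
      (326144 + 1811712 * t + 4542208 * t ^ 2 + 6787200 * t ^ 3 + 6718752 * t ^ 4 + 4628240 * t ^ 5 + 2264672 * t ^ 6 + 787424 * t ^ 7 + 190720 * t ^ 8 + 30656 * t ^ 9 + 2944 * t ^ 10 + 128 * t ^ 11) := by
    unfold szE
    field_simp
    ring
  rw [key]
  positivity

end Cfsg.Agent.Lib.Helper37
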