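-- helper37: Suzuki groups, character table, part 15: the structure-constant sums on each
-- pair of classes.
import Mathlib
import Cfsg.Prelude.Def_LieExceptional
import Cfsg.Agent.Lib.Helper37.SzTbM
import Cfsg.Agent.Lib.Helper37.SzTbN

set_option autoImplicit false

namespace Cfsg.Agent.Lib.Helper37

open scoped ComplexConjugate

open Classical

theorem slack_sq (k A : ℕ) (hA : 0 < A) (hk : k ≤ 4 * A ^ 2) (s : ℂ)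
    (hs : s = (k : ℂ) / (A : ℂ) - 16) :
    ∃ r : ℝ, 0 ≤ r ∧ r ≤ 4 * (A : ℝ) ∧ s = (r : ℂ) - 16 := by
  have hA' : (0 : ℝ) < (A : ℝ) := by exact_mod_cast hA
  refine ⟨(k : ℝ) / (A : ℝ), by positivity, ?_, ?_⟩
  · rw [div_le_iff₀ hA']
    have : (k : ℝ) ≤ 4 * (A : ℝ) ^ 2 := by exact_mod_cast hk
    nlinarith
  · rw [hs]
    push_cast
    ring

theorem slack_cube (k A : ℕ) (hA : 0 < A) (hk : k ≤ 16 * A ^ 3) (s : ℂ)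
    (hs : s = 64 - (k : ℂ) / (A : ℂ) ^ 2) :
    ∃ r : ℝ, 0 ≤ r ∧ r ≤ 16 * (A : ℝ) ∧ s = 64 - (r : ℂ) := by
  have hA' : (0 : ℝ) < (A : ℝ) := by exact_mod_cast hA
  refine ⟨(k : ℝ) / (A : ℝ) ^ 2, by positivity, ?_, ?_⟩
  · rw [div_le_iff₀ (by positivity)]
    have : (k : ℝ) ≤ 16 * (A : ℝ) ^ 3 := by exact_mod_cast hk
    nlinarith
  · rw [hs]
    push_cast
    ring

section Cases

variable {F : Type*} [Field F] [Fintype F] {m : ℕ}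

variable {h : SzData F (2 ^ (m + 1))} [Fintype ↥(Cfsg.Sz F m)]
    [Fintype (Cfsg.IrrCharacter ↥(Cfsg.Sz F m))] [Fintype (Fˣ →* ℂˣ)]
    {x₁ x₂ : ↥(Cfsg.Sz F m)}
    [Fintype (↥(Subgroup.centralizer ({x₁} : Set ↥(Cfsg.Sz F m))) →* ℂˣ)]
    [Fintype (↥(Subgroup.centralizer ({x₂} : Set ↥(Cfsg.Sz F m))) →* ℂˣ)]
    {χ₀ : AddChar F ℂ} {W₁ W₂ : ↥(Cfsg.Sz F m) → ℂ}

local notation "FX" => (Finset.univ.filter (fun η : Fˣ →* ℂˣ => η ≠ 1))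

local notation "FT(" x ")" => (Finset.univ.filter
  (fun l : ↥(Subgroup.centralizer ({x} : Set ↥(Cfsg.Sz F m))) →* ℂˣ => l ≠ 1))

local notation "SS" => ((2 : ℂ) ^ m)

local notation "SR" => ((2 : ℝ) ^ m)

theorem SzTab.cardR1 (T : SzTab h x₁ x₂ χ₀ W₁ W₂) :
    (Nat.card ↥(Subgroup.centralizer ({x₁} : Set ↥(Cfsg.Sz F m))) : ℝ) =
      2 * SR ^ 2 + 2 * SR + 1 := by
  rw [T.hc1]
  push_cast
  ring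

theorem SzTab.cardR2 (T : SzTab h x₁ x₂ χ₀ W₁ W₂) :
    (Nat.card ↥(Subgroup.centralizer ({x₂} : Set ↥(Cfsg.Sz F m))) : ℝ) =
      2 * SR ^ 2 + 1 - 2 * SR := by
  rw [T.hc2]
  have h2 : 2 ^ (m + 1) ≤ 2 ^ (2 * m + 1) + 1 := by
    have : 2 ^ (m + 1) ≤ 2 ^ (2 * m + 1) := Nat.pow_le_pow_right (by norm_num) (by omega)
    omega
  rw [Nat.cast_sub h2]
  push_cast
  ring

theorem SzTab.sYsq (T : SzTab h x₁ x₂ χ₀ W₁ W₂) (a : ↥(Cfsg.Sz F m))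
    (ha : a ∈ Subgroup.centralizer ({x₁} : Set ↥(Cfsg.Sz F m))) (ha1 : a ≠ 1) :
    ∃ r : ℝ, 0 ≤ r ∧ r ≤ 4 * (2 * SR ^ 2 + 2 * SR + 1) ∧
      ∑ l ∈ FT(x₁), chTor h χ₀ (2 ^ m - 1) x₁ l a ^ 2 = (r : ℂ) - 16 := by
  obtain ⟨k, hk, hs⟩ := sumTor_self_sq T.hm T.hF h χ₀ (2 ^ m - 1) x₁ T.hx₁ T.hn1 a ha ha1
  have := slack_sq k _ Nat.card_pos hk _ hs
  rwa [T.cardR1] at this

theorem SzTab.sZsq (T : SzTab h x₁ x₂ χ₀ W₁ W₂) (a : ↥(Cfsg.Sz F m))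
    (ha : a ∈ Subgroup.centralizer ({x₂} : Set ↥(Cfsg.Sz F m))) (ha1 : a ≠ 1) :
    ∃ r : ℝ, 0 ≤ r ∧ r ≤ 4 * (2 * SR ^ 2 + 1 - 2 * SR) ∧
      ∑ l ∈ FT(x₂), chTor h χ₀ (2 ^ m + 1) x₂ l a ^ 2 = (r : ℂ) - 16 := by
  obtain ⟨k, hk, hs⟩ := sumTor_self_sq T.hm T.hF h χ₀ (2 ^ m + 1) x₂ T.hx₂ T.hn2 a ha ha1
  have := slack_sq k _ Nat.card_pos hk _ hs
  rwa [T.cardR2] at this

theorem SzTab.sYcube (T : SzTab h x₁ x₂ χ₀ W₁ W₂) (a b : ↥(Cfsg.Sz F m))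
    (ha : a ∈ Subgroup.centralizer ({x₁} : Set ↥(Cfsg.Sz F m))) (ha1 : a ≠ 1)
    (hb : b ∈ Subgroup.centralizer ({x₁} : Set ↥(Cfsg.Sz F m))) (hb1 : b ≠ 1) :
    ∃ r : ℝ, 0 ≤ r ∧ r ≤ 16 * (2 * SR ^ 2 + 2 * SR + 1) ∧
      ∑ l ∈ FT(x₁), chTor h χ₀ (2 ^ m - 1) x₁ l a ^ 2 * chTor h χ₀ (2 ^ m - 1) x₁ l b =
        64 - (r : ℂ) := by
  obtain ⟨k, hk, hs⟩ :=
    sumTor_self_cube T.hm T.hF h χ₀ (2 ^ m - 1) x₁ T.hx₁ T.hn1 a b ha ha1 hb hb1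
  have := slack_cube k _ Nat.card_pos hk _ hs
  rwa [T.cardR1] at this

theorem SzTab.sZcube (T : SzTab h x₁ x₂ χ₀ W₁ W₂) (a b : ↥(Cfsg.Sz F m))
    (ha : a ∈ Subgroup.centralizer ({x₂} : Set ↥(Cfsg.Sz F m))) (ha1 : a ≠ 1)
    (hb : b ∈ Subgroup.centralizer ({x₂} : Set ↥(Cfsg.Sz F m))) (hb1 : b ≠ 1) :
    ∃ r : ℝ, 0 ≤ r ∧ r ≤ 16 * (2 * SR ^ 2 + 1 - 2 * SR) ∧
      ∑ l ∈ FT(x₂), chTor h χ₀ (2 ^ m + 1) x₂ l a ^ 2 * chTor h χ₀ (2 ^ m + 1) x₂ l b =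
        64 - (r : ℂ) := by
  obtain ⟨k, hk, hs⟩ :=
    sumTor_self_cube T.hm T.hF h χ₀ (2 ^ m + 1) x₂ T.hx₂ T.hn2 a b ha ha1 hb hb1
  have := slack_cube k _ Nat.card_pos hk _ hs
  rwa [T.cardR2] at this

theorem SzTab.sY_A2 (T : SzTab h x₁ x₂ χ₀ W₁ W₂) (a : ↥(Cfsg.Sz F m))
    (ha : a ∈ Subgroup.centralizer ({x₂} : Set ↥(Cfsg.Sz F m))) (ha1 : a ≠ 1) :
    ∑ l ∈ FT(x₁), chTor h χ₀ (2 ^ m - 1) x₁ l a = 0 :=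
  Finset.sum_eq_zero (fun l _ => T.Y_A2 a ha ha1 l)

theorem SzTab.sZ_A1 (T : SzTab h x₁ x₂ χ₀ W₁ W₂) (a : ↥(Cfsg.Sz F m))
    (ha : a ∈ Subgroup.centralizer ({x₁} : Set ↥(Cfsg.Sz F m))) (ha1 : a ≠ 1) :
    ∑ l ∈ FT(x₂), chTor h χ₀ (2 ^ m + 1) x₂ l a = 0 :=
  Finset.sum_eq_zero (fun l _ => T.Z_A1 a ha ha1 l)

/-- the sum when the first class consists of elements of order four -/
theorem SzTab.P_T1 (T : SzTab h x₁ x₂ χ₀ W₁ W₂) (a b : F) (ha : a ≠ 0) (y : ↥(Cfsg.Sz F m)) :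
    szCs (szTm h a b) y = 1 + 0 / (2 * SS ^ 2) ^ 2 +
      (2 : ℂ)⁻¹ * ((∑ η ∈ FX, chX h η y) / ((2 * SS ^ 2) ^ 2 + 1)) +
      (4 : ℂ)⁻¹ * ((∑ l ∈ FT(x₁), chTor h χ₀ (2 ^ m - 1) x₁ l y) /
        ((2 * SS ^ 2 - 1) * (2 * SS ^ 2 + 1 - 2 * SS))) +
      (4 : ℂ)⁻¹ * ((∑ l ∈ FT(x₂), chTor h χ₀ (2 ^ m + 1) x₂ l y) /
        ((2 * SS ^ 2 - 1) * (2 * SS ^ 2 + 2 * SS + 1))) +
      (-SS ^ 2 * (W₁ y + W₂ y)) / (SS * (2 * SS ^ 2 - 1)) := by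
  have hab : ¬ (a = 0 ∧ b = 0) := fun hc => ha hc.1
  rw [T.P_formula, chSt_T h a b hab, (T.Wsq_T1 a b ha).1, (T.Wsq_T1 a b ha).2]
  have hX : ∑ η ∈ FX, chX h η (szTm h a b) ^ 2 * chX h η y = ∑ η ∈ FX, chX h η y :=
    Finset.sum_congr rfl (fun η _ => by rw [chX_T h η a b hab, one_pow, one_mul])
  have hY : ∑ l ∈ FT(x₁), chTor h χ₀ (2 ^ m - 1) x₁ l (szTm h a b) ^ 2 *
      chTor h χ₀ (2 ^ m - 1) x₁ l y = ∑ l ∈ FT(x₁), chTor h χ₀ (2 ^ m - 1) x₁ l y :=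
    Finset.sum_congr rfl (fun l _ => by
      rw [chTor_T1 T.hm T.hF h χ₀ T.hχ₀ _ x₁ T.hx₁ l a b ha]
      ring)
  have hZ : ∑ l ∈ FT(x₂), chTor h χ₀ (2 ^ m + 1) x₂ l (szTm h a b) ^ 2 *
      chTor h χ₀ (2 ^ m + 1) x₂ l y = ∑ l ∈ FT(x₂), chTor h χ₀ (2 ^ m + 1) x₂ l y :=
    Finset.sum_congr rfl (fun l _ => by
      rw [chTor_T1 T.hm T.hF h χ₀ T.hχ₀ _ x₂ T.hx₂ l a b ha]
      ring)
  rw [hX, hY, hZ]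
  ring

/-- the sum when the first class meets the diagonal torus -/
theorem SzTab.P_H (T : SzTab h x₁ x₂ χ₀ W₁ W₂) (μ : Fˣ) (hμ : μ ≠ 1) (y : ↥(Cfsg.Sz F m)) :
    szCs (szHsub h μ) y = 1 + chSt h y / (2 * SS ^ 2) ^ 2 +
      (2 : ℂ)⁻¹ * ((∑ η ∈ FX, chX h η (szHsub h μ) ^ 2 * chX h η y) /
        ((2 * SS ^ 2) ^ 2 + 1)) +
      (4 : ℂ)⁻¹ * (0 / ((2 * SS ^ 2 - 1) * (2 * SS ^ 2 + 1 - 2 * SS))) +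
      (4 : ℂ)⁻¹ * (0 / ((2 * SS ^ 2 - 1) * (2 * SS ^ 2 + 2 * SS + 1))) +
      0 / (SS * (2 * SS ^ 2 - 1)) := by
  rw [T.P_formula, chSt_H h μ hμ, (T.W_H μ hμ).1, (T.W_H μ hμ).2]
  have hY : ∑ l ∈ FT(x₁), chTor h χ₀ (2 ^ m - 1) x₁ l (szHsub h μ) ^ 2 *
      chTor h χ₀ (2 ^ m - 1) x₁ l y = 0 :=
    Finset.sum_eq_zero (fun l _ => by
      rw [chTor_H T.hm T.hF h χ₀ _ x₁ T.hx₁ l μ hμ]
      ring)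
  have hZ : ∑ l ∈ FT(x₂), chTor h χ₀ (2 ^ m + 1) x₂ l (szHsub h μ) ^ 2 *
      chTor h χ₀ (2 ^ m + 1) x₂ l y = 0 :=
    Finset.sum_eq_zero (fun l _ => by
      rw [chTor_H T.hm T.hF h χ₀ _ x₂ T.hx₂ l μ hμ]
      ring)
  rw [hY, hZ]
  ring

/-- the sum when the first class meets the first torus without fixed points -/
theorem SzTab.P_A1 (T : SzTab h x₁ x₂ χ₀ W₁ W₂) (a : ↥(Cfsg.Sz F m))
    (ha : a ∈ Subgroup.centralizer ({x₁} : Set ↥(Cfsg.Sz F m))) (ha1 : a ≠ 1)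
    (y : ↥(Cfsg.Sz F m)) :
    szCs a y = 1 + chSt h y / (2 * SS ^ 2) ^ 2 +
      (2 : ℂ)⁻¹ * (0 / ((2 * SS ^ 2) ^ 2 + 1)) +
      (4 : ℂ)⁻¹ * ((∑ l ∈ FT(x₁),
        chTor h χ₀ (2 ^ m - 1) x₁ l a ^ 2 * chTor h χ₀ (2 ^ m - 1) x₁ l y) /
        ((2 * SS ^ 2 - 1) * (2 * SS ^ 2 + 1 - 2 * SS))) +
      (4 : ℂ)⁻¹ * (0 / ((2 * SS ^ 2 - 1) * (2 * SS ^ 2 + 2 * SS + 1))) +
      (W₁ y + W₂ y) / (SS * (2 * SS ^ 2 - 1)) := by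
  have hf := T.fpf1 a ha ha1
  rw [T.P_formula, chSt_fpf h a hf, (T.W_A1 a ha ha1).1, (T.W_A1 a ha ha1).2]
  have hX : ∑ η ∈ FX, chX h η a ^ 2 * chX h η y = 0 :=
    Finset.sum_eq_zero (fun η _ => by
      rw [chX_fpf h η a hf]
      ring)
  have hZ : ∑ l ∈ FT(x₂), chTor h χ₀ (2 ^ m + 1) x₂ l a ^ 2 *
      chTor h χ₀ (2 ^ m + 1) x₂ l y = 0 :=
    Finset.sum_eq_zero (fun l _ => by
      rw [T.Z_A1 a ha ha1 l]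
      ring)
  rw [hX, hZ]
  ring

/-- the sum when the first class meets the second torus without fixed points -/
theorem SzTab.P_A2 (T : SzTab h x₁ x₂ χ₀ W₁ W₂) (a : ↥(Cfsg.Sz F m))
    (ha : a ∈ Subgroup.centralizer ({x₂} : Set ↥(Cfsg.Sz F m))) (ha1 : a ≠ 1)
    (y : ↥(Cfsg.Sz F m)) :
    szCs a y = 1 + chSt h y / (2 * SS ^ 2) ^ 2 +
      (2 : ℂ)⁻¹ * (0 / ((2 * SS ^ 2) ^ 2 + 1)) +
      (4 : ℂ)⁻¹ * (0 / ((2 * SS ^ 2 - 1) * (2 * SS ^ 2 + 1 - 2 * SS))) +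
      (4 : ℂ)⁻¹ * ((∑ l ∈ FT(x₂),
        chTor h χ₀ (2 ^ m + 1) x₂ l a ^ 2 * chTor h χ₀ (2 ^ m + 1) x₂ l y) /
        ((2 * SS ^ 2 - 1) * (2 * SS ^ 2 + 2 * SS + 1))) +
      (W₁ y + W₂ y) / (SS * (2 * SS ^ 2 - 1)) := by
  have hf := T.fpf2 a ha ha1
  rw [T.P_formula, chSt_fpf h a hf, (T.W_A2 a ha ha1).1, (T.W_A2 a ha ha1).2]
  have hX : ∑ η ∈ FX, chX h η a ^ 2 * chX h η y = 0 :=
    Finset.sum_eq_zero (fun η _ => by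
      rw [chX_fpf h η a hf]
      ring)
  have hY : ∑ l ∈ FT(x₁), chTor h χ₀ (2 ^ m - 1) x₁ l a ^ 2 *
      chTor h χ₀ (2 ^ m - 1) x₁ l y = 0 :=
    Finset.sum_eq_zero (fun l _ => by
      rw [T.Y_A2 a ha ha1 l]
      ring)
  rw [hX, hY]
  ring

end Cases

end Cfsg.Agent.Lib.Helper37
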