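-- helper37: Suzuki groups, character table, part 16: every element of order greater than
-- two squares, up to conjugacy, onto everything (the structure constants never vanish).
import Mathlib
import Cfsg.Prelude.Def_LieExceptional
import Cfsg.Agent.Lib.Helper37.SzTbO
import Cfsg.Agent.Lib.Helper37.SzTori6
import Cfsg.Agent.Lib.Helper37.SzRigid

set_option autoImplicit false

namespace Cfsg.Agent.Lib.Helper37

open scoped ComplexConjugate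

open Classical

theorem card_filter_eq_zero_of {α : Type*} (s : Finset α) (p : α → Prop) (d : DecidablePred p)
    (hp : ∀ a, ¬ p a) : (@Finset.filter α p d s).card = 0 := by
  rw [Finset.card_eq_zero, Finset.filter_eq_empty_iff]
  exact fun a _ => hp a

section Fin

variable {F : Type*} [Field F] [Fintype F] {m : ℕ}

variable {h : SzData F (2 ^ (m + 1))} [Fintype ↥(Cfsg.Sz F m)]
    [Fintype (Cfsg.IrrCharacter ↥(Cfsg.Sz F m))] [Fintype (Fˣ →* ℂˣ)]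
    {x₁ x₂ : ↥(Cfsg.Sz F m)}
    [Fintype (↥(Subgroup.centralizer ({x₁} : Set ↥(Cfsg.Sz F m))) →* ℂˣ)]
    [Fintype (↥(Subgroup.centralizer ({x₂} : Set ↥(Cfsg.Sz F m))) →* ℂˣ)]
    {χ₀ : AddChar F ℂ} {W₁ W₂ : ↥(Cfsg.Sz F m) → ℂ}

local notation "FX" => (Finset.univ.filter (fun η : Fˣ →* ℂˣ => η ≠ 1))

local notation "FT(" x ")" => (Finset.univ.filter
  (fun l : ↥(Subgroup.centralizer ({x} : Set ↥(Cfsg.Sz F m))) →* ℂˣ => l ≠ 1))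

local notation "SS" => ((2 : ℂ) ^ m)

local notation "SR" => ((2 : ℝ) ^ m)

theorem szCs_conj_right (x y k : ↥(Cfsg.Sz F m)) : szCs x (k * y * k⁻¹) = szCs x y := by
  have := szCs_conj x y 1 k
  rwa [one_mul, inv_one, mul_one] at this

theorem szCs_conj_left (x y k : ↥(Cfsg.Sz F m)) : szCs (k * x * k⁻¹) y = szCs x y := by
  have := szCs_conj x y k 1
  rwa [one_mul, inv_one, mul_one] at this

theorem SzTab.classify (T : SzTab h x₁ x₂ χ₀ W₁ W₂) (g : ↥(Cfsg.Sz F m)) (hg : g ≠ 1) :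
    (∃ k : ↥(Cfsg.Sz F m), ∃ b : F, b ≠ 0 ∧ g = k * szTm h 0 b * k⁻¹) ∨
    (∃ k : ↥(Cfsg.Sz F m), ∃ a b : F, a ≠ 0 ∧ g = k * szTm h a b * k⁻¹) ∨
    (∃ k : ↥(Cfsg.Sz F m), ∃ μ : Fˣ, μ ≠ 1 ∧ g = k * szHsub h μ * k⁻¹) ∨
    (∃ k a : ↥(Cfsg.Sz F m), a ∈ Subgroup.centralizer ({x₁} : Set ↥(Cfsg.Sz F m)) ∧ a ≠ 1 ∧
      g = k * a * k⁻¹) ∨
    (∃ k a : ↥(Cfsg.Sz F m), a ∈ Subgroup.centralizer ({x₂} : Set ↥(Cfsg.Sz F m)) ∧ a ≠ 1 ∧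
      g = k * a * k⁻¹) := by
  by_cases hfix : ∃ p : ↥(Cfsg.suzukiOvoid F m), g • p = p
  · obtain ⟨p, hp⟩ := hfix
    obtain ⟨k, ⟨a, b, hab⟩ | ⟨μ, hμ⟩⟩ := sz_fixed_classify h g p hp
    · by_cases ha : a = 0
      · left
        refine ⟨k, b, ?_, ?_⟩
        · rintro rfl
          apply hg
          rw [hab, ha, szTm_zero, mul_one, mul_inv_cancel]
        · rw [hab, ha]
      · right; left
        exact ⟨k, a, b, ha, hab⟩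
    · right; right; left
      refine ⟨k, μ, ?_, hμ⟩
      rintro rfl
      apply hg
      rw [hμ, szHsub_one, mul_one, mul_inv_cancel]
  · have hf : szFpf g := fun p hp => hfix ⟨p, hp⟩
    rcases T.hcov g hf with hc | hc
    · obtain ⟨_, k, _, hk⟩ := hc
      right; right; right; left
      refine ⟨k, k⁻¹ * g * k, hk, ?_, by group⟩
      intro h1
      apply hg
      have e : g = k * (k⁻¹ * g * k) * k⁻¹ := by group
      rw [e, h1, mul_one, mul_inv_cancel]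
    · obtain ⟨_, k, _, hk⟩ := hc
      right; right; right; right
      refine ⟨k, k⁻¹ * g * k, hk, ?_, by group⟩
      intro h1
      apply hg
      have e : g = k * (k⁻¹ * g * k) * k⁻¹ := by group
      rw [e, h1, mul_one, mul_inv_cancel]

theorem SzTab.ne_T1 (T : SzTab h x₁ x₂ χ₀ W₁ W₂) (a b : F) (ha : a ≠ 0) (y : ↥(Cfsg.Sz F m))
    (hy : y ≠ 1) : szCs (szTm h a b) y ≠ 0 := by
  have hS := two_le_two_pow_real m T.hm
  rcases T.classify y hy with ⟨k, b', hb', rfl⟩ | ⟨k, a', b', ha', rfl⟩ | ⟨k, ν, hν, rfl⟩ | ⟨k, c, hc, hc1, rfl⟩ | ⟨k, c, hc, hc1, rfl⟩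
  · have hab' : ¬ ((0 : F) = 0 ∧ b' = 0) := fun hh => hb' hh.2
    rw [szCs_conj_right, T.P_T1 a b ha, T.sX_T 0 b' hab', T.sY_T0 b' hb', T.sZ_T0 b' hb',
      T.Ws_T0 b' hb']
    refine ne_of_eq_of_ne ?_ (szE_ne m _ _ _ _ _ (szE_pos_T1T0 SR 0 hS le_rfl))
    push_cast
    ring
  · have hab' : ¬ (a' = 0 ∧ b' = 0) := fun hh => ha' hh.1
    rw [szCs_conj_right, T.P_T1 a b ha, T.sX_T a' b' hab', T.sY_T1 a' b' ha', T.sZ_T1 a' b' ha',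
      T.Ws_T1 a' b' ha']
    refine ne_of_eq_of_ne ?_ (szE_ne m _ _ _ _ _ (szE_pos_T1T1 SR 0 hS le_rfl))
    push_cast
    ring
  · rw [szCs_conj_right, T.P_T1 a b ha, sumX_H T.hF h ν hν,
      sumTor_H T.hm T.hF h χ₀ _ x₁ T.hx₁ ν hν, sumTor_H T.hm T.hF h χ₀ _ x₂ T.hx₂ ν hν,
      (T.W_H ν hν).1, (T.W_H ν hν).2]
    refine ne_of_eq_of_ne ?_ (szE_ne m _ _ _ _ _ (szE_pos_T1H SR 0 hS le_rfl))
    push_cast
    ring
  · rw [szCs_conj_right, T.P_T1 a b ha, sumX_fpf h c (T.fpf1 c hc hc1), T.sY_A1 c hc hc1,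
      T.sZ_A1 c hc hc1, T.Ws_A1 c hc hc1]
    refine ne_of_eq_of_ne ?_ (szE_ne m _ _ _ _ _ (szE_pos_T1A1 SR 0 hS le_rfl))
    push_cast
    ring
  · rw [szCs_conj_right, T.P_T1 a b ha, sumX_fpf h c (T.fpf2 c hc hc1), T.sY_A2 c hc hc1,
      T.sZ_A2 c hc hc1, T.Ws_A2 c hc hc1]
    refine ne_of_eq_of_ne ?_ (szE_ne m _ _ _ _ _ (szE_pos_T1A2 SR 0 hS le_rfl))
    push_cast
    ring

theorem SzTab.ne_H (T : SzTab h x₁ x₂ χ₀ W₁ W₂) (μ : Fˣ) (hμ : μ ≠ 1) (y : ↥(Cfsg.Sz F m))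
    (hy : y ≠ 1) : szCs (szHsub h μ) y ≠ 0 := by
  have hS := two_le_two_pow_real m T.hm
  have key_T : ∀ a' b' : F, ¬ (a' = 0 ∧ b' = 0) → szCs (szHsub h μ) (szTm h a' b') ≠ 0 := by
    intro a' b' hab'
    have hX : ∑ η ∈ FX, chX h η (szHsub h μ) ^ 2 * chX h η (szTm h a' b') =
        2 * (2 : ℂ) ^ (2 * m + 1) - 6 := by
      rw [← sumX_H_sq T.hF h μ hμ]
      exact Finset.sum_congr rfl (fun η _ => by rw [chX_T h η a' b' hab', mul_one])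
    rw [T.P_H μ hμ, chSt_T h a' b' hab', hX]
    refine ne_of_eq_of_ne ?_ (szE_ne m _ _ _ _ _ (szE_pos_HT SR 0 hS le_rfl))
    push_cast
    ring
  have key_F : ∀ c : ↥(Cfsg.Sz F m), szFpf c → szCs (szHsub h μ) c ≠ 0 := by
    intro c hc
    have hX : ∑ η ∈ FX, chX h η (szHsub h μ) ^ 2 * chX h η c = 0 :=
      Finset.sum_eq_zero (fun η _ => by rw [chX_fpf h η c hc, mul_zero])
    rw [T.P_H μ hμ, chSt_fpf h c hc, hX]
    refine ne_of_eq_of_ne ?_ (szE_ne m _ _ _ _ _ (szE_pos_HF SR 0 hS le_rfl))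
    push_cast
    ring
  rcases T.classify y hy with ⟨k, b', hb', rfl⟩ | ⟨k, a', b', ha', rfl⟩ | ⟨k, ν, hν, rfl⟩ | ⟨k, c, hc, hc1, rfl⟩ | ⟨k, c, hc, hc1, rfl⟩
  · rw [szCs_conj_right]
    exact key_T 0 b' (fun hh => hb' hh.2)
  · rw [szCs_conj_right]
    exact key_T a' b' (fun hh => ha' hh.1)
  · obtain ⟨kk, hkk⟩ := sumX_H_cube T.hF h μ ν hμ hν
    rw [szCs_conj_right, T.P_H μ hμ, chSt_H h ν hν, hkk]
    refine ne_of_eq_of_ne ?_ (szE_ne m _ _ _ _ _ (szE_pos_HH SR (kk : ℝ) hS (Nat.cast_nonneg kk)))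
    push_cast
    ring
  · rw [szCs_conj_right]
    exact key_F c (T.fpf1 c hc hc1)
  · rw [szCs_conj_right]
    exact key_F c (T.fpf2 c hc hc1)

theorem SzTab.ne_A1 (T : SzTab h x₁ x₂ χ₀ W₁ W₂) (a : ↥(Cfsg.Sz F m))
    (ha : a ∈ Subgroup.centralizer ({x₁} : Set ↥(Cfsg.Sz F m))) (ha1 : a ≠ 1)
    (y : ↥(Cfsg.Sz F m)) (hy : y ≠ 1) : szCs a y ≠ 0 := by
  have hS := two_le_two_pow_real m T.hm
  rcases T.classify y hy with ⟨k, b', hb', rfl⟩ | ⟨k, a', b', ha', rfl⟩ | ⟨k, ν, hν, rfl⟩ | ⟨k, c, hc, hc1, rfl⟩ | ⟨k, c, hc, hc1, rfl⟩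
  · have hab' : ¬ ((0 : F) = 0 ∧ b' = 0) := fun hh => hb' hh.2
    obtain ⟨r, hr0, hr1, hr⟩ := T.sYsq a ha ha1
    have hY : ∑ l ∈ FT(x₁), chTor h χ₀ (2 ^ m - 1) x₁ l a ^ 2 * chTor h χ₀ (2 ^ m - 1) x₁ l (szTm h 0 b') =
        ((r : ℂ) - 16) * (2 * SS - 1) := by
      rw [← hr, Finset.sum_mul]
      refine Finset.sum_congr rfl (fun l _ => ?_)
      rw [chTor_T0 T.hm T.hF h χ₀ T.hχ₀ _ x₁ T.hx₁ l b' hb', cast_cY]
      ring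
    rw [szCs_conj_right, T.P_A1 a ha ha1, chSt_T h 0 b' hab', hY, T.Ws_T0 b' hb']
    refine ne_of_eq_of_ne ?_ (szE_ne m _ _ _ _ _ (szE_pos_A1T0 SR r hS hr0))
    push_cast
    ring
  · have hab' : ¬ (a' = 0 ∧ b' = 0) := fun hh => ha' hh.1
    obtain ⟨r, hr0, hr1, hr⟩ := T.sYsq a ha ha1
    have hY : ∑ l ∈ FT(x₁), chTor h χ₀ (2 ^ m - 1) x₁ l a ^ 2 * chTor h χ₀ (2 ^ m - 1) x₁ l (szTm h a' b') = -((r : ℂ) - 16) := by
      rw [← hr, ← Finset.sum_neg_distrib]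
      refine Finset.sum_congr rfl (fun l _ => ?_)
      rw [chTor_T1 T.hm T.hF h χ₀ T.hχ₀ _ x₁ T.hx₁ l a' b' ha']
      ring
    rw [szCs_conj_right, T.P_A1 a ha ha1, chSt_T h a' b' hab', hY, T.Ws_T1 a' b' ha']
    refine ne_of_eq_of_ne ?_ (szE_ne m _ _ _ _ _ (szE_pos_A1T1 SR (4 * (2 * SR ^ 2 + 2 * SR + 1) - r) hS (by linarith)))
    push_cast
    ring
  · have hY : ∑ l ∈ FT(x₁), chTor h χ₀ (2 ^ m - 1) x₁ l a ^ 2 * chTor h χ₀ (2 ^ m - 1) x₁ l (szHsub h ν) = 0 :=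
      Finset.sum_eq_zero (fun l _ => by
        rw [chTor_H T.hm T.hF h χ₀ _ x₁ T.hx₁ l ν hν, mul_zero])
    rw [szCs_conj_right, T.P_A1 a ha ha1, chSt_H h ν hν, hY, (T.W_H ν hν).1, (T.W_H ν hν).2]
    refine ne_of_eq_of_ne ?_ (szE_ne m _ _ _ _ _ (szE_pos_AH SR 0 hS le_rfl))
    push_cast
    ring
  · obtain ⟨r, hr0, hr1, hr⟩ := T.sYcube a c ha ha1 hc hc1
    rw [szCs_conj_right, T.P_A1 a ha ha1, chSt_fpf h c (T.fpf1 c hc hc1), hr, T.Ws_A1 c hc hc1]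
    refine ne_of_eq_of_ne ?_ (szE_ne m _ _ _ _ _ (szE_pos_A1A1 SR (16 * (2 * SR ^ 2 + 2 * SR + 1) - r) hS (by linarith)))
    push_cast
    ring
  · have hY : ∑ l ∈ FT(x₁), chTor h χ₀ (2 ^ m - 1) x₁ l a ^ 2 * chTor h χ₀ (2 ^ m - 1) x₁ l c = 0 :=
      Finset.sum_eq_zero (fun l _ => by rw [T.Y_A2 c hc hc1 l, mul_zero])
    rw [szCs_conj_right, T.P_A1 a ha ha1, chSt_fpf h c (T.fpf2 c hc hc1), hY,
      T.Ws_A2 c hc hc1]
    refine ne_of_eq_of_ne ?_ (szE_ne m _ _ _ _ _ (szE_pos_A1A2 SR 0 hS le_rfl))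
    push_cast
    ring

theorem SzTab.ne_A2 (T : SzTab h x₁ x₂ χ₀ W₁ W₂) (a : ↥(Cfsg.Sz F m))
    (ha : a ∈ Subgroup.centralizer ({x₂} : Set ↥(Cfsg.Sz F m))) (ha1 : a ≠ 1)
    (y : ↥(Cfsg.Sz F m)) (hy : y ≠ 1) : szCs a y ≠ 0 := by
  have hS := two_le_two_pow_real m T.hm
  rcases T.classify y hy with ⟨k, b', hb', rfl⟩ | ⟨k, a', b', ha', rfl⟩ | ⟨k, ν, hν, rfl⟩ | ⟨k, c, hc, hc1, rfl⟩ | ⟨k, c, hc, hc1, rfl⟩
  · have hab' : ¬ ((0 : F) = 0 ∧ b' = 0) := fun hh => hb' hh.2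
    obtain ⟨r, hr0, hr1, hr⟩ := T.sZsq a ha ha1
    have hY : ∑ l ∈ FT(x₂), chTor h χ₀ (2 ^ m + 1) x₂ l a ^ 2 * chTor h χ₀ (2 ^ m + 1) x₂ l (szTm h 0 b') =
        ((r : ℂ) - 16) * (-(2 * SS) - 1) := by
      rw [← hr, Finset.sum_mul]
      refine Finset.sum_congr rfl (fun l _ => ?_)
      rw [chTor_T0 T.hm T.hF h χ₀ T.hχ₀ _ x₂ T.hx₂ l b' hb', cast_cZ]
      ring
    rw [szCs_conj_right, T.P_A2 a ha ha1, chSt_T h 0 b' hab', hY, T.Ws_T0 b' hb']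
    refine ne_of_eq_of_ne ?_ (szE_ne m _ _ _ _ _ (szE_pos_A2T0 SR (4 * (2 * SR ^ 2 + 1 - 2 * SR) - r) hS (by linarith)))
    push_cast
    ring
  · have hab' : ¬ (a' = 0 ∧ b' = 0) := fun hh => ha' hh.1
    obtain ⟨r, hr0, hr1, hr⟩ := T.sZsq a ha ha1
    have hY : ∑ l ∈ FT(x₂), chTor h χ₀ (2 ^ m + 1) x₂ l a ^ 2 * chTor h χ₀ (2 ^ m + 1) x₂ l (szTm h a' b') = -((r : ℂ) - 16) := by
      rw [← hr, ← Finset.sum_neg_distrib]
      refine Finset.sum_congr rfl (fun l _ => ?_)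
      rw [chTor_T1 T.hm T.hF h χ₀ T.hχ₀ _ x₂ T.hx₂ l a' b' ha']
      ring
    rw [szCs_conj_right, T.P_A2 a ha ha1, chSt_T h a' b' hab', hY, T.Ws_T1 a' b' ha']
    refine ne_of_eq_of_ne ?_ (szE_ne m _ _ _ _ _ (szE_pos_A2T1 SR (4 * (2 * SR ^ 2 + 1 - 2 * SR) - r) hS (by linarith)))
    push_cast
    ring
  · have hY : ∑ l ∈ FT(x₂), chTor h χ₀ (2 ^ m + 1) x₂ l a ^ 2 * chTor h χ₀ (2 ^ m + 1) x₂ l (szHsub h ν) = 0 :=
      Finset.sum_eq_zero (fun l _ => by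
        rw [chTor_H T.hm T.hF h χ₀ _ x₂ T.hx₂ l ν hν, mul_zero])
    rw [szCs_conj_right, T.P_A2 a ha ha1, chSt_H h ν hν, hY, (T.W_H ν hν).1, (T.W_H ν hν).2]
    refine ne_of_eq_of_ne ?_ (szE_ne m _ _ _ _ _ (szE_pos_AH SR 0 hS le_rfl))
    push_cast
    ring
  · have hY : ∑ l ∈ FT(x₂), chTor h χ₀ (2 ^ m + 1) x₂ l a ^ 2 * chTor h χ₀ (2 ^ m + 1) x₂ l c = 0 :=
      Finset.sum_eq_zero (fun l _ => by rw [T.Z_A1 c hc hc1 l, mul_zero])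
    rw [szCs_conj_right, T.P_A2 a ha ha1, chSt_fpf h c (T.fpf1 c hc hc1), hY,
      T.Ws_A1 c hc hc1]
    refine ne_of_eq_of_ne ?_ (szE_ne m _ _ _ _ _ (szE_pos_A2A1 SR 0 hS le_rfl))
    push_cast
    ring
  · obtain ⟨r, hr0, hr1, hr⟩ := T.sZcube a c ha ha1 hc hc1
    rw [szCs_conj_right, T.P_A2 a ha ha1, chSt_fpf h c (T.fpf2 c hc hc1), hr, T.Ws_A2 c hc hc1]
    refine ne_of_eq_of_ne ?_ (szE_ne m _ _ _ _ _ (szE_pos_A2A2 SR (16 * (2 * SR ^ 2 + 1 - 2 * SR) - r) hS (by linarith)))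
    push_cast
    ring

theorem SzTab.ne_all (T : SzTab h x₁ x₂ χ₀ W₁ W₂) (x y : ↥(Cfsg.Sz F m)) (hx : 2 < orderOf x)
    (hy : y ≠ 1) : szCs x y ≠ 0 := by
  have hx1 : x ≠ 1 := by
    rintro rfl
    rw [orderOf_one] at hx
    omega
  rcases T.classify x hx1 with ⟨k, b, hb, rfl⟩ | ⟨k, a, b, ha, rfl⟩ | ⟨k, μ, hμ, rfl⟩ |
    ⟨k, c, hc, hc1, rfl⟩ | ⟨k, c, hc, hc1, rfl⟩
  · exfalso
    have h2 : (k * szTm h 0 b * k⁻¹) ^ 2 = 1 := by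
      have e := szTm_central_sq (m := m) h b
      rw [conj_pow, pow_two, e, mul_one, mul_inv_cancel]
    have := Nat.le_of_dvd (by norm_num) (orderOf_dvd_of_pow_eq_one h2)
    omega
  · rw [szCs_conj_left]
    exact T.ne_T1 a b ha y hy
  · rw [szCs_conj_left]
    exact T.ne_H μ hμ y hy
  · rw [szCs_conj_left]
    exact T.ne_A1 c hc hc1 y hy
  · rw [szCs_conj_left]
    exact T.ne_A2 c hc hc1 y hy

end Fin

section Main

variable {F : Type*} [Field F] [Fintype F] {m : ℕ}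

/-- In a Suzuki group, every non-identity element is a product of two conjugates of any
given element of order greater than two. -/
theorem sz_ore (hm : 1 ≤ m) (hF : Fintype.card F = 2 ^ (2 * m + 1)) (x : ↥(Cfsg.Sz F m))
    (hx : 2 < orderOf x) (g : ↥(Cfsg.Sz F m)) (hg : g ≠ 1) :
    ∃ u v : ↥(Cfsg.Sz F m), g = (u * x * u⁻¹) * (v * x * v⁻¹) := by
  have h := szData_of_card hm hF
  haveI : Fintype ↥(Cfsg.Sz F m) := Fintype.ofFinite _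
  haveI : Fintype (Cfsg.IrrCharacter ↥(Cfsg.Sz F m)) := Fintype.ofFinite _
  haveI : Finite (Fˣ →* ℂˣ) := Cfsg.Agent.Lib.Helper79.finite_monoidHom_units
  haveI : Fintype (Fˣ →* ℂˣ) := Fintype.ofFinite _
  obtain ⟨x₁, x₂, hx₁, hx₂, hc1, hc2, hn1, hn2, hcov⟩ := sz_tori hm hF
  haveI : Finite (↥(Subgroup.centralizer ({x₁} : Set ↥(Cfsg.Sz F m))) →* ℂˣ) :=
    Cfsg.Agent.Lib.Helper79.finite_monoidHom_units
  haveI : Fintype (↥(Subgroup.centralizer ({x₁} : Set ↥(Cfsg.Sz F m))) →* ℂˣ) :=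
    Fintype.ofFinite _
  haveI : Finite (↥(Subgroup.centralizer ({x₂} : Set ↥(Cfsg.Sz F m))) →* ℂˣ) :=
    Cfsg.Agent.Lib.Helper79.finite_monoidHom_units
  haveI : Fintype (↥(Subgroup.centralizer ({x₂} : Set ↥(Cfsg.Sz F m))) →* ℂˣ) :=
    Fintype.ofFinite _
  obtain ⟨χ₀, hχ₀⟩ : ∃ χ₀ : AddChar F ℂ, χ₀ ≠ 1 := by
    obtain ⟨ψ, hψ⟩ := (AddChar.exists_apply_ne_zero (a := (1 : F))).mpr one_ne_zero
    refine ⟨ψ, ?_⟩
    rintro rfl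
    exact hψ (AddChar.one_apply _)
  obtain ⟨W₁, W₂, T⟩ := szTab_exists hm hF h x₁ x₂ hx₁ hx₂ hc1 hc2 hn1 hn2 hcov χ₀ hχ₀
  have hne := T.ne_all x g⁻¹ hx (inv_ne_one.mpr hg)
  have hcm := Cfsg.Agent.Lib.Helper79.irr_class_mult x x g
  have hex : ∃ u : ↥(Cfsg.Sz F m), IsConj (u * x * u⁻¹ * x) g := by
    by_contra hno
    push Not at hno
    apply hne
    unfold szCs
    rw [hcm, card_filter_eq_zero_of _ _ _ hno, Nat.cast_zero, mul_zero]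
  obtain ⟨u, hu⟩ := hex
  obtain ⟨c, hc⟩ := isConj_iff.mp hu
  refine ⟨c * u, c, ?_⟩
  rw [← hc]
  group

end Main

end Cfsg.Agent.Lib.Helper37
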